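import Mathlib

set_option autoImplicit false
set_option maxHeartbeats 400000

namespace H77.SPH

open Subgroup

theorem exists_compl {C : Type*} [Group C] [Finite C] (hC : Nat.card C = 72) (z c : C)
    (hz : z ∈ Subgroup.center C) (oz : orderOf z = 3) (hc : c ^ 3 = 1)
    (hne : c ∉ Subgroup.zpowers z) : ∃ H : Subgroup C, Nat.card H = 24 ∧ z ∉ H := by
  classical
  haveI : Fact (Nat.Prime 3) := ⟨Nat.prime_three⟩
  have hzc : ∀ g : C, g * z = z * g := fun g => (mem_center_iff.1 hz) g
  have oc : orderOf c = 3 := by
    apply orderOf_eq_prime hc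
    rintro rfl; exact hne (one_mem _)
  set T : Subgroup C := zpowers z ⊔ zpowers c with hT
  have hzn : (zpowers z).Normal := by
    constructor
    intro x hx g
    obtain ⟨k, rfl⟩ := mem_zpowers_iff.1 hx
    have : g * z ^ k * g⁻¹ = z ^ k := by
      have h1 : Commute g (z ^ k) := (show Commute g z from hzc g).zpow_right k
      rw [h1.eq]; group
    rw [this]; exact zpow_mem (mem_zpowers z) k
  have hpz : IsPGroup 3 (zpowers z) := IsPGroup.of_card (n := 1) (by rw [Nat.card_zpowers, oz]; norm_num)
  have hpc : IsPGroup 3 (zpowers c) := IsPGroup.of_card (n := 1) (by rw [Nat.card_zpowers, oc]; norm_num)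
  have hpT : IsPGroup 3 T := IsPGroup.to_sup_of_normal_left hpz hpc
  have hcT : c ∈ T := mem_sup_right (mem_zpowers c)
  have hzT : z ∈ T := mem_sup_left (mem_zpowers z)
  have hcardT : Nat.card T = 9 := by
    obtain ⟨n, hn⟩ := IsPGroup.iff_card.1 hpT
    have h1 : Nat.card T ∣ 72 := by rw [← hC]; exact card_subgroup_dvd_card T
    have hlt : 3 < Nat.card T := by
      have h2 : Nat.card (zpowers z) < Nat.card T := by
        apply lt_of_le_of_ne (card_le_of_le le_sup_left)
        intro h3
        have : zpowers z = T := eq_of_le_of_card_ge le_sup_left h3.ge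
        exact hne (this ▸ hcT)
      rwa [Nat.card_zpowers, oz] at h2
    rw [hn] at h1 hlt ⊢
    have hn2 : n ≤ 2 := by
      by_contra h3
      push Not at h3
      have h4 : 3 ^ 3 ∣ 72 := (pow_dvd_pow 3 h3).trans h1
      revert h4; decide
    interval_cases n
    · simp at hlt
    · simp at hlt
    · norm_num
  have hcomm : ∀ a b : T, a * b = b * a := by
    have h1 : T ≤ centralizer ({z, c} : Set C) := by
      rw [hT, sup_le_iff, zpowers_le, zpowers_le]
      refine ⟨?_, ?_⟩
      · rw [mem_centralizer_iff]
        rintro y (rfl | rfl)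
        · rfl
        · exact hzc y
      · rw [mem_centralizer_iff]
        rintro y (rfl | rfl)
        · exact (hzc c).symm
        · rfl
    have h2 : T ≤ centralizer (T : Set C) := by
      have h3 : T ≤ centralizer ((centralizer (({z, c} : Set C)) : Subgroup C) : Set C) := by
        rw [hT, sup_le_iff, zpowers_le, zpowers_le]
        constructor
        · rw [mem_centralizer_iff]
          intro y hy
          exact hzc y
        · rw [mem_centralizer_iff]
          intro y hy
          exact ((mem_centralizer_iff.1 hy) c (by simp)).symm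
      exact h3.trans (centralizer_le h1)
    intro a b
    apply Subtype.ext
    exact (mem_centralizer_iff.1 (h2 b.2) a.1 a.2)
  letI : CommGroup T := { (inferInstance : Group T) with mul_comm := hcomm }
  let N : Subgroup T := (zpowers c).subgroupOf T
  have hNcard : Nat.card N = 3 := by
    have h1 : Nat.card N = Nat.card (zpowers c) :=
      Nat.card_congr (subgroupOfEquivOfLe (zpowers_le.2 hcT)).toEquiv
    rw [h1, Nat.card_zpowers, oc]
  have hA : Nat.card (T ⧸ N) = 3 := by
    have := card_eq_card_quotient_mul_card_subgroup N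
    rw [hcardT, hNcard] at this
    omega
  have hidx : T.index = 8 := by
    have := T.card_mul_index
    rw [hcardT, hC] at this
    omega
  haveI : T.FiniteIndex := ⟨by rw [hidx]; norm_num⟩
  let τ : C →* (T ⧸ N) := MonoidHom.transfer (QuotientGroup.mk' N)
  have hτz : τ z ≠ 1 := by
    have h1 := MonoidHom.transfer_eq_pow (QuotientGroup.mk' N) z (by
      intro k g0 _
      have h2 : Commute g0 (z ^ k) := (show Commute g0 z from hzc g0).pow_right k
      rw [mul_assoc, ← h2.eq]; group)
    intro h2
    have h3 : (QuotientGroup.mk' N) ⟨z ^ T.index, MonoidHom.transfer_eq_pow_aux z (by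
      intro k g0 _
      have h2 : Commute g0 (z ^ k) := (show Commute g0 z from hzc g0).pow_right k
      rw [mul_assoc, ← h2.eq]; group)⟩ = 1 := by
      rw [← h1]; exact h2
    rw [QuotientGroup.mk'_apply, QuotientGroup.eq_one_iff] at h3
    have h4 : z ^ T.index ∈ zpowers c := h3
    rw [hidx] at h4
    have hz3 : z ^ 3 = 1 := by rw [← oz]; exact pow_orderOf_eq_one z
    have h5 : z ∈ zpowers c := by
      have h6 := (zpowers c).pow_mem h4 2
      have h7 : (z ^ 8) ^ 2 = z := by
        calc (z ^ 8) ^ 2 = (z ^ 3) ^ 5 * z := by group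
          _ = z := by rw [hz3]; simp
      rwa [h7] at h6
    have h8 : zpowers z = zpowers c := by
      apply eq_of_le_of_card_ge (zpowers_le.2 h5)
      rw [Nat.card_zpowers, Nat.card_zpowers, oz, oc]
    exact hne (h8 ▸ mem_zpowers c)
  have hrange : Nat.card τ.range = 3 := by
    have h1 : Nat.card τ.range ∣ 3 := by rw [← hA]; exact card_subgroup_dvd_card _
    rcases (Nat.dvd_prime Nat.prime_three).1 h1 with h2 | h2
    · exfalso
      rw [Subgroup.card_eq_one] at h2
      apply hτz
      have : τ z ∈ τ.range := ⟨z, rfl⟩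
      rw [h2] at this
      exact mem_bot.1 this
    · exact h2
  refine ⟨τ.ker, ?_, fun h => hτz (MonoidHom.mem_ker.1 h)⟩
  have h1 := τ.ker.card_mul_index
  rw [Subgroup.index_ker, hrange, hC] at h1
  omega

end H77.SPH
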