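import Cfsg.Agent.Lib.H77.Canon
import Cfsg.Agent.Lib.H77.GlPerm
import Cfsg.Agent.Lib.H77.CopSub
import Cfsg.Agent.Lib.H19.CharExt

/-!
# Characters of degree prime to the index of a normal Hall subgroup (helper77)
-/

set_option autoImplicit false
set_option linter.unusedSectionVars false
set_option linter.unusedVariables false
set_option linter.style.haveILetI false
open Cfsg H18 H18.CharBasic H18.CharOrtho H18.CharInd H18.CharQuot H31.Clifford H77.PQuot H77.Canon
open H77.GlPerm
open scoped ComplexConjugate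

namespace H77.CopDeg

universe u
variable {G : Type u} [Group G] [Finite G] (K : Subgroup G) [hK : K.Normal]

/-- `G`-invariance -/
def GInv (θ : IrrCharacter K) : Prop :=
  ∀ (x : G) (n : K), θ.1 ⟨x * n * x⁻¹, hK.conj_mem (n : G) n.2 x⟩ = θ.1 n

theorem charDegree_eq_of_ext {χ : IrrCharacter G} {θ : IrrCharacter K}
    (h : ∀ n : K, χ.1 n = θ.1 n) : charDegree χ.1 = charDegree θ.1 := by
  have h1 : ((charDegree χ.1 : ℕ) : ℂ) = charDegree θ.1 := by
    rw [cast_irr, cast_irr, ← h 1]; rfl
  exact_mod_cast h1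

theorem permL_ext (l : G ⧸ K →* ℂˣ) (χ : IrrCharacter G) (n : K) :
    (permL K l χ).1 n = χ.1 n := by
  rw [permL_apply, (QuotientGroup.eq_one_iff (n : G)).2 n.2, map_one, Units.val_one, one_mul]

theorem count (hcop : (Nat.card K).Coprime K.index) :
    Nat.card {χ : IrrCharacter G // (charDegree χ.1).Coprime K.index} =
      Nat.card {θ : IrrCharacter K // GInv K θ} * Nat.card (G ⧸ K →* ℂˣ) := by
  classical
  letI := Fintype.ofFinite G
  letI := Fintype.ofFinite K
  rw [← Nat.card_prod]
  have hex := fun θ : {θ : IrrCharacter K // GInv K θ} => canon_exists K hcop θ.1 θ.2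
  choose E hE hEd using hex
  symm
  have hdeg : ∀ (θ : {θ : IrrCharacter K // GInv K θ}) (l : G ⧸ K →* ℂˣ),
      (charDegree (permL K l (E θ)).1).Coprime K.index := by
    intro θ l
    rw [charDegree_eq_of_ext K (χ := permL K l (E θ)) (θ := θ.1)
      (fun n => by rw [permL_ext]; exact hE θ n)]
    exact hcop.coprime_dvd_left (H77.Degree.degree_dvd_card θ.1.2 (cast_irr θ.1).symm)
  refine Nat.card_congr (Equiv.ofBijective (fun x => (⟨permL K x.2 (E x.1), hdeg x.1 x.2⟩ :
    {χ : IrrCharacter G // (charDegree χ.1).Coprime K.index})) ⟨?_, ?_⟩)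
  · rintro ⟨θ, l⟩ ⟨θ', l'⟩ h
    have h1 : permL K l (E θ) = permL K l' (E θ') := congrArg Subtype.val h
    have h2 : θ = θ' := by
      apply Subtype.ext
      apply Subtype.ext
      funext n
      have a := permL_ext K l (E θ) n
      have b := permL_ext K l' (E θ') n
      rw [← hE θ n, ← hE θ' n, ← a, ← b, h1]
    subst h2
    have e1 : (fun n : K => (E θ).1 n) = θ.1.1 := funext (hE θ)
    have h3 := H83.Gallagher.hom_mul_inj (E θ).2 K (by rw [e1]; exact θ.1.2)
      (f := l.comp (QuotientGroup.mk' K)) (f' := l'.comp (QuotientGroup.mk' K))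
      (fun n hn => by
        show l (n : G ⧸ K) = 1
        rw [(QuotientGroup.eq_one_iff n).2 hn, map_one])
      (fun n hn => by
        show l' (n : G ⧸ K) = 1
        rw [(QuotientGroup.eq_one_iff n).2 hn, map_one])
      (fun g => congrFun (congrArg Subtype.val h1) g)
    have h4 : l = l' := by
      apply MonoidHom.ext
      intro q
      obtain ⟨g, rfl⟩ := QuotientGroup.mk_surjective q
      exact DFunLike.congr_fun h3 g
    rw [h4]
  · rintro ⟨χ, hχ⟩
    have hcN : IsCharacter K (fun n : K => χ.1 n) :=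
      isCharacter_restrict K (isCharacter_of_isIrr χ.2)
    obtain ⟨θ, hθ, hne⟩ := exists_irr_inner_ne_zero (isClassFunction_of_isCharacter hcN)
      (fun h => irr_one_ne_zero χ.2 (congrFun h 1))
    obtain ⟨h1, h2⟩ := H19.CharExt.dvd_index χ.2 hθ hne _ _ (cast_irr χ).symm
      (cast_irr' hθ).symm
    obtain ⟨t, ht⟩ := h1
    have hd0 : charDegree θ ≠ 0 := by
      intro h0
      have := cast_irr' hθ
      rw [h0, Nat.cast_zero] at this
      exact irr_one_ne_zero hθ this.symm
    have ht' : charDegree χ.1 / charDegree θ = t := by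
      rw [ht, Nat.mul_div_cancel_left _ (Nat.pos_of_ne_zero hd0)]
    rw [ht'] at h2
    have ht1 : t = 1 := by
      have h3 : t ∣ charDegree χ.1 := ht ▸ Dvd.intro_left _ rfl
      have h4 := Nat.dvd_gcd h3 h2
      rw [hχ] at h4
      exact Nat.dvd_one.1 h4
    have hres : (fun n : K => χ.1 n) = θ := H77.SubChar.eq_of_degree hcN hθ hne (by
      show χ.1 ((1 : K) : G) = θ 1
      rw [Subgroup.coe_one, ← cast_irr χ, ← cast_irr' hθ, ht, ht1, mul_one])
    have hinv : GInv K ⟨θ, hθ⟩ := by
      intro x n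
      show θ _ = θ n
      rw [← hres]
      exact isClassFunction_of_isIrr χ.2 _ _
    obtain ⟨β, hβN, hβ⟩ := DetChar.exists_linear_mul K hθ (E ⟨⟨θ, hθ⟩, hinv⟩).2 χ.2
      (hE ⟨⟨θ, hθ⟩, hinv⟩) (fun n => congrFun hres n)
    refine ⟨(⟨⟨θ, hθ⟩, hinv⟩, QuotientGroup.lift K β hβN), ?_⟩
    apply Subtype.ext
    apply Subtype.ext
    rw [hβ]
    rfl

end H77.CopDeg
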