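import Cfsg.Agent.Lib.H20.NormQ
import Cfsg.Agent.Lib.H20.PC
import Cfsg.Agent.Lib.H20.PPart
import Cfsg.Agent.Lib.H19.BrMap

/-!
# Defect groups of blocks of quotients (helper77)
-/

set_option autoImplicit false
set_option linter.unusedSectionVars false
set_option linter.unusedVariables false
set_option linter.style.haveILetI false
open Cfsg H18 H20.Loc H20.GA H20.Blk H20.Defect H20.DefGrp H20.NormQ H20.Orth H20.Height
open scoped ComplexConjugate

namespace H77.DefQuot

universe u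
variable {G : Type u} [Group G] [Finite G] (N : Subgroup G) [hN : N.Normal]
variable {M : Ideal AlgInt} {p : ℕ}

/-- the preimage in `G` of the centralizer of `gN`. -/
def pre (g : G) : Subgroup G :=
  (Subgroup.centralizer ({(g : G ⧸ N)} : Set (G ⧸ N))).comap (QuotientGroup.mk' N)

theorem centralizer_le_pre (g : G) : Subgroup.centralizer ({g} : Set G) ≤ pre N g := by
  intro x hx
  rw [Subgroup.mem_centralizer_singleton_iff] at hx
  rw [pre, Subgroup.mem_comap, Subgroup.mem_centralizer_singleton_iff]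
  show (x : G ⧸ N) * (g : G ⧸ N) = (g : G ⧸ N) * (x : G ⧸ N)
  rw [← QuotientGroup.mk_mul, ← QuotientGroup.mk_mul, hx]

/-- the central character of an inflation. -/
theorem centralChar_infl (χ : IrrCharacter (G ⧸ N)) (g : G) :
    centralChar (infl N χ : G → ℂ) g =
      (((Subgroup.centralizer ({g} : Set G)).relIndex (pre N g) : ℕ) : ℂ) *
        centralChar (χ : G ⧸ N → ℂ) (g : G ⧸ N) := by
  have h1 : (pre N g).index = (Subgroup.centralizer ({(g : G ⧸ N)} : Set (G ⧸ N))).index :=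
    Subgroup.index_comap_of_surjective _ (QuotientGroup.mk'_surjective N)
  have h2 := Subgroup.relIndex_mul_index (centralizer_le_pre N g)
  rw [centralChar, centralChar, ← h2, h1, infl_apply, infl_apply]
  push_cast
  rw [QuotientGroup.mk_one]
  ring

/-- if the central character of the inflation is a unit at `g` then so is the one of `χ` at `gN`
and the relative index is prime to `p`. -/
theorem unit_split (hM : IsPModular p M) {χ : IrrCharacter (G ⧸ N)} {g : G}
    (h : ¬ MemLocalIdeal M (centralChar (infl N χ : G → ℂ) g)) :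
    ¬ p ∣ (Subgroup.centralizer ({g} : Set G)).relIndex (pre N g) ∧
      ¬ MemLocalIdeal M (centralChar (χ : G ⧸ N → ℂ) (g : G ⧸ N)) := by
  haveI := pm_isPrime hM
  rw [centralChar_infl] at h
  constructor
  · intro hd
    apply h
    obtain ⟨k, hk⟩ := hd
    rw [hk]
    push_cast
    refine locI_mul_right (locI_mul_right ?_ (locR_natCast k)) (centralChar_memR χ _)
    exact locI_p hM
  · intro h1
    exact h (locI_mul_left (locR_natCast _) h1)

/-- the image of a Sylow subgroup of `C(g)` is a Sylow subgroup of `C(gN)` if the relative index is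
prime to `p`. -/
theorem exists_sylow [Fact p.Prime] {g : G}
    (hc : ¬ p ∣ (Subgroup.centralizer ({g} : Set G)).relIndex (pre N g))
    (P : Sylow p (Subgroup.centralizer ({g} : Set G))) :
    ∃ T : Sylow p (Subgroup.centralizer ({(g : G ⧸ N)} : Set (G ⧸ N))),
      sylC (g : G ⧸ N) T = (sylC g P).map (QuotientGroup.mk' N) := by
  classical
  have hle := centralizer_le_pre N g
  have hSle : sylC g P ≤ pre N g := (sylC_le g P).trans hle
  have hcard : Nat.card ((sylC g P).subgroupOf (pre N g)) =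
      p ^ (Nat.card (pre N g)).factorization p := by
    rw [Nat.card_congr (Subgroup.subgroupOfEquivOfLe hSle).toEquiv, card_sylC,
      Sylow.card_eq_multiplicity]
    congr 1
    have h1 : Nat.card (pre N g) = Nat.card (Subgroup.centralizer ({g} : Set G)) *
        (Subgroup.centralizer ({g} : Set G)).relIndex (pre N g) := by
      rw [← Subgroup.relIndex_bot_left, ← Subgroup.relIndex_bot_left,
        Subgroup.relIndex_mul_relIndex _ _ _ bot_le hle]
    have h2 : (Subgroup.centralizer ({g} : Set G)).relIndex (pre N g) ≠ 0 := by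
      intro h0
      rw [h0] at hc
      exact hc (dvd_zero p)
    rw [h1, Nat.factorization_mul (Nat.card_pos).ne' h2,
      Finsupp.add_apply, Nat.factorization_eq_zero_of_not_dvd hc, add_zero]
  let S : Sylow p (pre N g) := Sylow.ofCard _ hcard
  let f : pre N g →* Subgroup.centralizer ({(g : G ⧸ N)} : Set (G ⧸ N)) :=
    (QuotientGroup.mk' N).subgroupComap _
  have hf : Function.Surjective f :=
    (QuotientGroup.mk' N).subgroupComap_surjective_of_surjective _ (QuotientGroup.mk'_surjective N)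
  refine ⟨S.mapSurjective hf, ?_⟩
  ext y
  constructor
  · rintro ⟨_, ⟨z, hz, rfl⟩, rfl⟩
    exact ⟨(z : G), hz, rfl⟩
  · rintro ⟨z, hz, rfl⟩
    exact ⟨f ⟨z, hSle hz⟩, ⟨⟨z, hSle hz⟩, hz, rfl⟩, rfl⟩

theorem map_mk_conj (P : Subgroup G) (y : G) :
    (P.map (MulAut.conj y).toMonoidHom).map (QuotientGroup.mk' N) =
      (P.map (QuotientGroup.mk' N)).map (MulAut.conj (y : G ⧸ N)).toMonoidHom := by
  ext z
  constructor
  · rintro ⟨_, ⟨x, hx, rfl⟩, rfl⟩
    exact ⟨(x : G ⧸ N), ⟨x, hx, rfl⟩, rfl⟩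
  · rintro ⟨_, ⟨x, hx, rfl⟩, rfl⟩
    exact ⟨y * x * y⁻¹, ⟨x, hx, rfl⟩, rfl⟩

theorem infl_eq {χ : IrrCharacter (G ⧸ N)} {ψ : IrrCharacter G}
    (h : (ψ : G → ℂ) = (χ : G ⧸ N → ℂ) ∘ QuotientGroup.mk) : ψ = infl N χ := Subtype.ext h

/-- S4433 -/
theorem defect_le (hM : IsPModular p M) {Bbar : Set (IrrCharacter (G ⧸ N))} (hBbar : IsPBlock M Bbar)
    {B : Set (IrrCharacter G)} (hB : IsPBlock M B) (hsub : ∀ χ ∈ Bbar, infl N χ ∈ B)
    {Dbar : Subgroup (G ⧸ N)} (hD : IsDefectGroup p M Bbar Dbar) :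
    ∃ P : Subgroup G, IsDefectGroup p M B P ∧ Dbar ≤ P.map (QuotientGroup.mk' N) := by
  haveI := pm_isPrime hM
  haveI : Fact p.Prime := ⟨pm_prime hM⟩
  obtain ⟨g, hg⟩ := exists_isDefectClass hB
  obtain ⟨χ, hχ⟩ := isPBlock_nonempty hBbar
  obtain ⟨hc, hu⟩ := unit_split N hM (hg.2.2 _ (hsub χ hχ))
  obtain ⟨h, hh, Q, rfl⟩ := hD
  obtain ⟨x, hx1, hx2⟩ := sylow_le_of_blockCoeff hM hBbar ⟨χ, hχ, hu⟩ hh.2.1
    (isPGroup_sylC h Q) (sylC_le h Q)
  obtain ⟨P⟩ : Nonempty (Sylow p (Subgroup.centralizer ({g} : Set G))) := inferInstance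
  obtain ⟨T, hT⟩ := exists_sylow N hc P
  obtain ⟨y, hy⟩ := exists_conj_le hx1 T (isPGroup_sylC h Q) hx2
  obtain ⟨y, rfl⟩ := QuotientGroup.mk_surjective y
  refine ⟨_, isDefectGroup_map_conj ⟨g, hg, P, rfl⟩ y, ?_⟩
  rw [map_mk_conj, ← hT]
  exact hy

/-- for a normal `p`-subgroup `N` centralized by the `p`-regular `g`: coefficients. -/
theorem zc_push (hp : Fact p.Prime) (hNp : IsPGroup p N) {z : ZG G}
    (hz : ∀ x, p ∣ orderOf x → zc z x = 0) {g : G} (hg : ¬ p ∣ orderOf g)
    (hgN : g ∈ Subgroup.centralizer (N : Set G)) :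
    zc (pushZ N z) (g : G ⧸ N) = zc z g := by
  classical
  letI := Fintype.ofFinite G
  rw [zc_pushZ, Finset.sum_eq_single g]
  · rw [if_pos rfl]
  · intro y _ hyg
    split_ifs with h
    · by_cases hy : p ∣ orderOf y
      · exact hz y hy
      · exfalso
        apply hyg
        have h1 : g⁻¹ * y ∈ N := QuotientGroup.eq.1 h.symm
        have h2 : Commute (g⁻¹ * y) g := Subgroup.mem_centralizer_iff.1 hgN _ h1
        have h3 : Commute g y := by
          have h4 : Commute (g * (g⁻¹ * y)) g := (Commute.refl g).mul_left h2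
          rw [mul_inv_cancel_left] at h4
          exact h4.symm
        have h5 : ¬ p ∣ orderOf (g⁻¹ * y) :=
          H20.PC.not_dvd_orderOf_mul hp.out h3.inv_left (by rwa [orderOf_inv]) hy
        have h6 : ∃ k : ℕ, orderOf (g⁻¹ * y) = p ^ k := by
          obtain ⟨k, hk⟩ := IsPGroup.iff_orderOf.1 hNp ⟨_, h1⟩
          exact ⟨k, by rw [← hk]; exact (Subgroup.orderOf_mk _ h1).symm⟩
        exact (inv_mul_eq_one.1 (H20.PC.eq_one_of_regular h5 h6)).symm
    · rfl
  · intro h; exact absurd (Finset.mem_univ _) h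

/-- `pushZ` of the idempotent of `B` is the idempotent of the set of `χ` with inflation in `B`. -/
theorem push_eB (B : Set (IrrCharacter G)) :
    pushZ N (eB B) = eB {χ : IrrCharacter (G ⧸ N) | infl N χ ∈ B} := by
  apply eq_of_omega
  intro χ
  rw [omega_pushZ]
  by_cases h : infl N χ ∈ B
  · rw [omega_eB_mem h, omega_eB_mem (show χ ∈ {χ | infl N χ ∈ B} from h)]
  · rw [omega_eB_notMem h, omega_eB_notMem (show χ ∉ {χ | infl N χ ∈ B} from h)]

/-- if a union of blocks has unit coefficient at `x`, so does one of its blocks. -/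
theorem exists_block_unit [M.IsPrime] {S : Set (IrrCharacter G)} (hS : IsUnion M S) {x : G}
    (h : ¬ MemLocalIdeal M (blockCoeff S x)) :
    ∃ χ ∈ S, ¬ MemLocalIdeal M (blockCoeff (blockOf M (χ : G → ℂ)) x) := by
  classical
  letI := Fintype.ofFinite G
  letI : Fintype (IrrCharacter G) := Fintype.ofFinite _
  by_contra! hno
  apply h
  -- sum over blocks
  let F : Finset (Set (IrrCharacter G)) :=
    (Finset.univ.filter (fun χ : IrrCharacter G => χ ∈ S)).image
      (fun χ : IrrCharacter G => blockOf M (χ : G → ℂ))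
  have h1 : eB S = ∑ b ∈ F, eB b := by
    apply eq_of_omega
    intro ψ
    rw [map_sum]
    by_cases hψ : ψ ∈ S
    · rw [omega_eB_mem hψ, Finset.sum_eq_single (blockOf M (ψ : G → ℂ))]
      · rw [omega_eB_mem (mem_blockOf_self ψ)]
      · intro b hb hne
        obtain ⟨χ, hχ, rfl⟩ := Finset.mem_image.1 hb
        rw [omega_eB_notMem]
        intro hc
        exact hne (blockOf_eq_of_sameBlock hc)
      · intro hc
        exact absurd (Finset.mem_image.2 ⟨ψ, Finset.mem_filter.2 ⟨Finset.mem_univ _, hψ⟩, rfl⟩ :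
          blockOf M (ψ : G → ℂ) ∈ F) hc
    · rw [omega_eB_notMem hψ]
      symm
      apply Finset.sum_eq_zero
      intro b hb
      obtain ⟨χ, hχ, rfl⟩ := Finset.mem_image.1 hb
      rw [omega_eB_notMem]
      intro hc
      exact hψ (hS χ (Finset.mem_filter.1 hχ).2 ψ hc)
  rw [← zc_eB, h1, zc_sum]
  refine locI_sum fun b hb => ?_
  obtain ⟨χ, hχ, rfl⟩ := Finset.mem_image.1 hb
  exact hno χ (Finset.mem_filter.1 hχ).2

/-- For a normal `p`-subgroup: a defect class of `B` gives a defect class of a block of `G/N`. -/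
theorem exists_defect_class (hM : IsPModular p M) (hNp : IsPGroup p N)
    {B : Set (IrrCharacter G)} (hB : IsPBlock M B) {g : G} (hg : IsDefectClass M B g) :
    ∃ Bbar : Set (IrrCharacter (G ⧸ N)), IsPBlock M Bbar ∧ (∀ χ ∈ Bbar, infl N χ ∈ B) ∧
      IsDefectClass M Bbar (g : G ⧸ N) := by
  haveI := pm_isPrime hM
  haveI : Fact p.Prime := ⟨pm_prime hM⟩
  obtain ⟨χ0, hχ0⟩ := isPBlock_nonempty hB
  have hgr := regular_of_isDefectClass hM hB hg
  have hgN : g ∈ Subgroup.centralizer (N : Set G) := by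
    by_contra hc
    apply hg.2.2 χ0 hχ0
    rw [← omega_cls]
    exact H19.BrMap.omega_cls_memI hM N hNp χ0 g hc
  have hz : ∀ x : G, p ∣ orderOf x → zc (eB B) x = 0 := fun x hx =>
    blockCoeff_eq_zero hM (isUnion_of_isPBlock hB) hx
  have h1 := zc_push N ⟨pm_prime hM⟩ hNp hz hgr hgN
  have hS : IsUnion M {χ : IrrCharacter (G ⧸ N) | infl N χ ∈ B} := by
    intro χ hχ ψ hχψ
    exact (isPBlock_mem_iff hB hχ _).2 (sameBlock_infl N hM hχψ)
  rw [push_eB] at h1
  have h2 : ¬ MemLocalIdeal M (blockCoeff {χ : IrrCharacter (G ⧸ N) | infl N χ ∈ B} (g : G ⧸ N)) := by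
    rw [← zc_eB, h1]
    exact hg.2.1
  obtain ⟨χ, hχ, h3⟩ := exists_block_unit hS h2
  have hsub : ∀ ψ ∈ blockOf M (χ : G ⧸ N → ℂ), infl N ψ ∈ B := fun ψ hψ => hS χ hχ ψ hψ
  refine ⟨_, isPBlock_blockOf χ, hsub, blockCoeff_memR (isPBlock_blockOf χ) _, h3, ?_⟩
  intro ψ hψ
  exact (unit_split N hM (hg.2.2 _ (hsub ψ hψ))).2

/-- S4434 -/
theorem exists_block (hM : IsPModular p M) (hNp : IsPGroup p N)
    {B : Set (IrrCharacter G)} (hB : IsPBlock M B) :
    ∃ Bbar : Set (IrrCharacter (G ⧸ N)), IsPBlock M Bbar ∧ (∀ χ ∈ Bbar, infl N χ ∈ B) ∧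
      ∀ Dbar : Subgroup (G ⧸ N), IsDefectGroup p M Bbar Dbar ↔
        ∃ P : Subgroup G, IsDefectGroup p M B P ∧ Dbar = P.map (QuotientGroup.mk' N) := by
  haveI := pm_isPrime hM
  haveI : Fact p.Prime := ⟨pm_prime hM⟩
  obtain ⟨g, hg⟩ := exists_isDefectClass hB
  obtain ⟨Bbar, hBb, hsub, hgb⟩ := exists_defect_class N hM hNp hB hg
  refine ⟨Bbar, hBb, hsub, ?_⟩
  obtain ⟨χ, hχ⟩ := isPBlock_nonempty hBb
  obtain ⟨hc, hu⟩ := unit_split N hM (hg.2.2 _ (hsub χ hχ))
  obtain ⟨P⟩ : Nonempty (Sylow p (Subgroup.centralizer ({g} : Set G))) := inferInstance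
  obtain ⟨T, hT⟩ := exists_sylow N hc P
  have hPd : IsDefectGroup p M B (sylC g P) := ⟨g, hg, P, rfl⟩
  have hTd : IsDefectGroup p M Bbar ((sylC g P).map (QuotientGroup.mk' N)) := ⟨_, hgb, T, hT.symm⟩
  intro Dbar
  constructor
  · intro hD
    obtain ⟨x, hx⟩ := isDefectGroup_conj hM hBb hTd hD
    obtain ⟨x, rfl⟩ := QuotientGroup.mk_surjective x
    exact ⟨_, isDefectGroup_map_conj hPd x, by rw [map_mk_conj]; exact hx⟩
  · rintro ⟨P', hP', rfl⟩
    obtain ⟨x, rfl⟩ := isDefectGroup_conj hM hB hPd hP'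
    rw [map_mk_conj]
    exact isDefectGroup_map_conj hTd _

end H77.DefQuot
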