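import Cfsg.Agent.Lib.H77.ThreeF
import Cfsg.Agent.Lib.H77.Canon
import Cfsg.Agent.Lib.H83.Gallagher

/-!
# No divisibility among degrees: tools and the nonabelian p-quotient case (H77.NDA1)
-/

set_option autoImplicit false
set_option linter.style.haveILetI false
set_option linter.unusedSectionVars false
set_option maxHeartbeats 400000
open Cfsg
open scoped ComplexConjugate

namespace H77.NDA

open H18.CharBasic H18.CharOrtho H18.CharInd H18.CharQuot H77.PQuot H31.Clifford H77.ThreeA H77.ThreeB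
open H77.ThreeC H77.ThreeE H77.ThreeF H77.TwoDeg

universe u

/-- no divisibility among degrees -/
def ND (G : Type u) [Group G] : Prop :=
  ∀ χ ψ : IrrCharacter G, charDegree χ.1 ≠ 1 → charDegree χ.1 ∣ charDegree ψ.1 →
    charDegree χ.1 = charDegree ψ.1

variable {G : Type u} [Group G] [Finite G]

theorem over_ne (N : Subgroup G) [Fintype N] {χ : IrrCharacter G} {θ : IrrCharacter N}
    (h : Over N χ θ) : classInner (fun x : N => χ.1 x) θ.1 ≠ 0 := (over_iff N χ θ).1 h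

/-- degrees over an extendible character -/
theorem ext_deg (N : Subgroup G) [hN : N.Normal] (θ : IrrCharacter N) (T : Subgroup G) (hNT : N ≤ T)
    (hT : ∀ g : G, g ∈ T ↔ conjFunN N g θ.1 = θ.1) (η : IrrCharacter T)
    (hη : ∀ n : N, η.1 ⟨n, hNT n.2⟩ = θ.1 n) (β : IrrCharacter T)
    (hβ : ∀ n : N, β.1 ⟨n, hNT n.2⟩ = β.1 1) :
    ∃ χ : IrrCharacter G, Over N χ θ ∧
      charDegree χ.1 = T.index * charDegree β.1 * charDegree θ.1 := by
  classical
  letI := Fintype.ofFinite G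
  letI := Fintype.ofFinite N
  letI := Fintype.ofFinite T
  have hres : IsIrrCharacter (N.subgroupOf T) (fun n : N.subgroupOf T => η.1 n) := by
    have h1 := irr_thT N T hNT θ.2
    have h2 : (fun n : N.subgroupOf T => η.1 n) = thT N T θ.1 := by
      funext n
      exact hη ⟨n, n.2⟩
    rw [h2]; exact h1
  have h1 := H83.Gallagher.isIrr_mul η.2 (N.subgroupOf T) hres β.2
    (fun n hn => hβ ⟨n, hn⟩)
  have hr : resH hNT (fun g => β.1 g * η.1 g) = β.1 1 • θ.1 := by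
    funext n
    rw [resH_apply, Pi.smul_apply, smul_eq_mul, hη n, hβ n]
  have hb : β.1 1 ≠ 0 := irr_one_ne_zero β.2
  have h2 : classInner (resH hNT (fun g => β.1 g * η.1 g)) θ.1 ≠ 0 := by
    rw [hr, H18.CharOrtho.inner_smul_left, inner_irr_self θ.2, mul_one]
    exact hb
  have h3 := corr_irr N T hNT θ.2 hT h1 h2
  refine ⟨⟨_, h3.1⟩, (over_iff N _ _).2 ?_, ?_⟩
  · change classInner (fun h : N => indFun T (fun g => β.1 g * η.1 g) h) θ.1 ≠ 0
    rw [h3.2]; exact h2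
  · apply charDegree_eq_of
    change indFun T (fun g => β.1 g * η.1 g) 1 = _
    have h4 : η.1 1 = θ.1 1 := hη 1
    rw [indFun_one, h4, ← cast_irr β, ← cast_irr θ]
    push_cast; ring

theorem index_dvd_deg (N : Subgroup G) [hN : N.Normal] {χ : IrrCharacter G} {θ : IrrCharacter N}
    (h : Over N χ θ) (T : Subgroup G) (hT : ∀ g : G, g ∈ T ↔ conjFunN N g θ.1 = θ.1) :
    T.index * charDegree θ.1 ∣ charDegree χ.1 := by
  classical
  letI := Fintype.ofFinite G
  letI := Fintype.ofFinite N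
  have h1 := degree_eq N χ.2 θ.2 (over_ne N h)
  have h2 : inertia N θ.1 = T := by
    ext g
    rw [mem_inertia, hT]
  obtain ⟨e, he⟩ := H18.CharOrtho.inner_char_natCast (isCharacter_restrict N (isCharacter_of_isIrr χ.2)) (isCharacter_of_isIrr θ.2)
  rw [h2, he, ← cast_irr χ, ← cast_irr θ] at h1
  refine ⟨e, ?_⟩
  have h3 : ((charDegree χ.1 : ℕ) : ℂ) = ((T.index * charDegree θ.1 * e : ℕ) : ℂ) := by
    rw [h1]; push_cast; ring
  exact_mod_cast h3

theorem deg_le_ind (T : Subgroup G) {χ : IrrCharacter G} {β : IrrCharacter T}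
    (h : Over T χ β) : charDegree χ.1 ≤ T.index * charDegree β.1 := by
  classical
  letI := Fintype.ofFinite G
  letI := Fintype.ofFinite T
  have h1 := over_ne T h
  have h2 : classInner (indFun T β.1) χ.1 ≠ 0 := by
    rw [frobenius T _ (isClassFunction_of_isIrr χ.2)]
    intro h3
    apply h1
    rw [← H18.CharOrtho.inner_conj_symm, h3, map_zero]
  exact H77.SubChar.degree_le (isCharacter_ind T (isCharacter_of_isIrr β.2)) χ.2 h2
    (a := T.index * charDegree β.1) (b := charDegree χ.1)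
    (by rw [indFun_one, ← cast_irr β]; push_cast; ring) (cast_irr χ).symm

/-- nonabelian `p`-quotient -/
theorem stepA (hnd : ND G) {p : ℕ} (hp : p.Prime) (K : Subgroup G) [hK : K.Normal]
    (hpG : IsPGroup p (G ⧸ K)) (hKc : ¬ commutator G ≤ K) :
    ∃ m : ℕ, ∀ χ : IrrCharacter G, charDegree χ.1 = 1 ∨ charDegree χ.1 = m := by
  classical
  haveI := Fact.mk hp
  letI := Fintype.ofFinite G
  obtain ⟨χ1, hχ1K, a, ha0, hχ1⟩ : ∃ χ : IrrCharacter G, InKer K χ.1 ∧ ∃ a : ℕ, a ≠ 0 ∧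
      charDegree χ.1 = p ^ a := by
    have h1 : ∃ χ : IrrCharacter (G ⧸ K), charDegree χ.1 ≠ 1 := by
      by_contra hcon
      push Not at hcon
      apply hKc
      have h2 := H77.TwoDeg.comm_of_linear' hcon
      rw [commutator_def, Subgroup.commutator_le]
      intro a _ b _
      rw [← QuotientGroup.eq_one_iff, commutatorElement_def, QuotientGroup.mk_mul, QuotientGroup.mk_mul,
        QuotientGroup.mk_mul, h2 (a : G ⧸ K) b, QuotientGroup.mk_inv, QuotientGroup.mk_inv]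
      group
    obtain ⟨χ, hχ⟩ := h1
    obtain ⟨j, hj⟩ := (IsPGroup.iff_card (p := p)).1 hpG
    have h2 := deg_dvd_card χ
    rw [hj, Nat.dvd_prime_pow hp] at h2
    obtain ⟨a, -, ha⟩ := h2
    obtain ⟨ψ, hψ1, hψ2⟩ := H77.TwoDeg.infl_degree K χ
    refine ⟨ψ, ?_, a, ?_, hψ1.trans ha⟩
    · intro x hx
      rw [hψ2, hψ2, (QuotientGroup.eq_one_iff x).2 hx, QuotientGroup.mk_one]
    · rintro rfl
      exact hχ (by rw [ha, pow_zero])
  have hres : pResidual p G ≤ K := H2.Residual.residual_le_of_isPGroup_quotient K hpG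
  have hp1 : 1 < p ^ a := Nat.one_lt_pow ha0 hp.one_lt
  have hdeg : ∀ ψ : IrrCharacter G, charDegree ψ.1 ≠ 1 → p ∣ charDegree ψ.1 := by
    intro ψ hψ
    by_contra hnd'
    have h1 := restrict_irr hres ψ hnd'
    have h2 := H83.Gallagher.isIrr_mul ψ.2 K h1 χ1.2 (fun n hn => hχ1K n hn)
    have h3 : charDegree (fun g => χ1.1 g * ψ.1 g) = p ^ a * charDegree ψ.1 := by
      apply charDegree_eq_of
      rw [← cast_irr χ1, ← cast_irr ψ, hχ1]; push_cast; ring
    have h4 := hnd χ1 ⟨_, h2⟩ (by rw [hχ1]; omega) (by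
      change charDegree χ1.1 ∣ charDegree (fun g => χ1.1 g * ψ.1 g)
      rw [h3, hχ1]; exact Dvd.intro _ rfl)
    have h5 : charDegree χ1.1 = p ^ a * charDegree ψ.1 := h4.trans h3
    rw [hχ1] at h5
    apply hψ
    have h6 : p ^ a * 1 = p ^ a * charDegree ψ.1 := by rw [mul_one]; exact h5
    exact (Nat.eq_of_mul_eq_mul_left (by omega) h6).symm
  obtain ⟨M, hMn, hMc, k, hk⟩ := Cfsg.Agent.S4456.result p hp hdeg
  have hMK : M ≤ K := by
    intro x hx
    rw [← QuotientGroup.eq_one_iff]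
    obtain ⟨j, hj⟩ := hpG (x : G ⧸ K)
    have h1 : orderOf (x : G ⧸ K) ∣ p ^ j := orderOf_dvd_of_pow_eq_one hj
    have h2 : orderOf (x : G ⧸ K) ∣ Nat.card M := by
      have h3 : orderOf (x : G ⧸ K) ∣ orderOf x := by
        apply orderOf_dvd_of_pow_eq_one
        rw [← QuotientGroup.mk_pow, pow_orderOf_eq_one, QuotientGroup.mk_one]
      have h4 : orderOf (⟨x, hx⟩ : M) ∣ Nat.card M := orderOf_dvd_natCard _
      rw [Subgroup.orderOf_mk] at h4
      exact h3.trans h4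
    exact orderOf_eq_one_iff.1 (Nat.eq_one_of_dvd_coprimes (Nat.Coprime.pow_right j hMc) h2 h1)
  refine ⟨p ^ a, fun χ => ?_⟩
  by_cases hχ : charDegree χ.1 = 1
  · exact Or.inl hχ
  right
  obtain ⟨θ, hθ⟩ := over_exists M χ
  letI := Fintype.ofFinite M
  obtain ⟨T, hTdef⟩ : ∃ T : Subgroup G, T = inertia M θ.1 := ⟨_, rfl⟩
  letI := Fintype.ofFinite T
  have hT : ∀ g : G, g ∈ T ↔ conjFunN M g θ.1 = θ.1 := by
    intro g; rw [hTdef, mem_inertia]
  have hMT : M ≤ T := by rw [hTdef]; exact le_inertia M (isClassFunction_of_isIrr θ.2)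
  have hdvd := index_dvd_deg M hθ T hT
  have hTk : T.index ∣ p ^ k := by rw [← hk]; exact Subgroup.index_dvd_of_le hMT
  by_cases h1 : T.index * charDegree θ.1 = 1
  · have h2 : charDegree θ.1 = 1 := Nat.eq_one_of_mul_eq_one_left h1
    have h3 := (over_dvd M hθ).2
    rw [h2, Nat.div_one, hk, Nat.dvd_prime_pow hp] at h3
    obtain ⟨j, -, hj⟩ := h3
    rcases Nat.le_total a j with h4 | h4
    · have h5 := hnd χ1 χ (by rw [hχ1]; omega) (by rw [hχ1, hj]; exact pow_dvd_pow p h4)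
      rw [← h5, hχ1]
    · have h5 := hnd χ χ1 hχ (by rw [hχ1, hj]; exact pow_dvd_pow p h4)
      rw [h5, hχ1]
  · -- the extension
    have hcop : (Nat.card (M.subgroupOf T)).Coprime (M.subgroupOf T).index := by
      have e1 : Nat.card (M.subgroupOf T) = Nat.card M :=
        Nat.card_congr (Subgroup.subgroupOfEquivOfLe hMT).toEquiv
      have e2 : (M.subgroupOf T).index ∣ p ^ k := by
        rw [← hk]
        exact Subgroup.relIndex_dvd_index_of_normal M T
      rw [e1]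
      exact Nat.Coprime.coprime_dvd_right e2 (Nat.Coprime.pow_right k hMc)
    obtain ⟨η, hη, -⟩ := H77.Canon.canon_exists (M.subgroupOf T) hcop ⟨_, irr_thT M T hMT θ.2⟩ (by
      intro x n
      have h2 := cj_thT M T x θ.1
      rw [(hT (x : G)).1 x.2] at h2
      exact congrFun h2 n)
    have hη' : ∀ n : M, η.1 ⟨n, hMT n.2⟩ = θ.1 n := fun n =>
      hη ⟨⟨n, hMT n.2⟩, n.2⟩
    obtain ⟨ζ, hζ1, hζ2⟩ := ext_deg M θ T hMT hT η hη' ⟨_, isIrrCharacter_one⟩ (fun _ => rfl)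
    have hd1 : charDegree (fun _ : T => (1 : ℂ)) = 1 := charDegree_eq_of (by simp)
    have hζ3 : charDegree ζ.1 = T.index * charDegree θ.1 := by
      rw [hζ2]
      change T.index * charDegree (fun _ : T => (1 : ℂ)) * _ = _
      rw [hd1, mul_one]
    have hβ1 : ∀ β : IrrCharacter T, (∀ n : M, β.1 ⟨n, hMT n.2⟩ = β.1 1) → charDegree β.1 = 1 := by
      intro β hβ
      obtain ⟨ζ', -, hζ'⟩ := ext_deg M θ T hMT hT η hη' β hβ
      have h2 := hnd ζ ζ' (by rw [hζ3]; exact h1) (by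
        rw [hζ3, hζ']
        exact ⟨charDegree β.1, by ring⟩)
      rw [hζ3, hζ'] at h2
      have h3 : 0 < T.index * charDegree θ.1 :=
        Nat.mul_pos (Nat.pos_of_ne_zero Subgroup.index_ne_zero_of_finite) (deg_pos θ)
      have h4 : T.index * charDegree θ.1 * 1 = T.index * charDegree θ.1 * charDegree β.1 := by
        rw [mul_one, mul_right_comm]; exact h2
      exact (Nat.eq_of_mul_eq_mul_left h3 h4).symm
    obtain ⟨β, hβ⟩ := over_exists T χ1
    have hβ2 : charDegree β.1 = 1 := by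
      apply hβ1
      intro n
      exact over_ker T hβ ⟨n, hMT n.2⟩ (hχ1K _ (hMK n.2))
    have h5 := deg_le_ind T hβ
    rw [hβ2, mul_one, hχ1] at h5
    obtain ⟨j, -, hj⟩ := (Nat.dvd_prime_pow hp).1 hTk
    rw [hj] at h5 hdvd
    have h6 : a ≤ j := (Nat.pow_le_pow_iff_right hp.one_lt).1 h5
    have h7 := hnd χ1 χ (by rw [hχ1]; omega) (by
      rw [hχ1]
      exact (pow_dvd_pow p h6).trans ((Dvd.intro _ rfl).trans hdvd))
    rw [← h7, hχ1]

/-- the Frobenius quotient `G/K` with kernel `P/K` -/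
structure FS (G : Type u) [Group G] (V K P : Subgroup G) (r : ℕ) : Prop where
  Kn : K.Normal
  Pn : P.Normal
  VK : V ≤ K
  KP : K ≤ P
  Pdef : P = K ⊔ commutator G
  cK : ¬ commutator G ≤ K
  max : ∀ M : Subgroup G, M.Normal → K ≤ M → M ≠ K → commutator G ≤ M
  rp : r.Prime
  ri : ¬ r ∣ P.index
  i1 : P.index ≠ 1
  pw : ∃ c : ℕ, ∀ x ∈ P, x ^ r ^ c ∈ K
  ab : ∀ x ∈ P, ∀ y ∈ P, x * y * x⁻¹ * y⁻¹ ∈ K
  free : ∀ g, g ∉ P → ∀ v ∈ P, g * v * g⁻¹ * v⁻¹ ∈ K → v ∈ K

theorem lfree_of (K P : Subgroup G) [hK : K.Normal] [hP : P.Normal] (g : G)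
    (free : ∀ v ∈ P, g * v * g⁻¹ * v⁻¹ ∈ K → v ∈ K) (ab : ∀ x ∈ P, ∀ y ∈ P, x * y * x⁻¹ * y⁻¹ ∈ K)
    (l : P →* ℂˣ) (hl : ∀ x : P, x.1 ∈ K → l x = 1) (hg : cjh P g l = l) : l = 1 := by
  obtain ⟨π, hπdef⟩ : ∃ π : G →* G ⧸ K, π = QuotientGroup.mk' K := ⟨_, rfl⟩
  have hπ1 : ∀ x, π x = 1 ↔ x ∈ K := by
    intro x; rw [hπdef]; exact QuotientGroup.eq_one_iff x
  have hcomm : ∀ x ∈ P, ∀ y ∈ P, π x * π y = π y * π x := by
    intro x hx y hy
    have h1 := (hπ1 _).2 (ab x hx y hy)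
    rw [map_mul, map_mul, map_mul, map_inv, map_inv, mul_inv_eq_one, mul_inv_eq_iff_eq_mul] at h1
    exact h1
  let T : P.map π → P.map π := fun w => ⟨w.1⁻¹ * (π g * w.1 * (π g)⁻¹), by
    obtain ⟨v, hv, hvw⟩ := w.2
    rw [← hvw]
    exact ⟨v⁻¹ * (g * v * g⁻¹), P.mul_mem (P.inv_mem hv) (hP.conj_mem v hv g), by
      simp only [map_mul, map_inv]⟩⟩
  have hT : Function.Injective T := by
    rintro ⟨_, a, ha, rfl⟩ ⟨_, b, hb, rfl⟩ h
    have h1 : (π a)⁻¹ * (π g * π a * (π g)⁻¹) = (π b)⁻¹ * (π g * π b * (π g)⁻¹) :=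
      congrArg Subtype.val h
    apply Subtype.ext
    change π a = π b
    have e0 : π g * π (a * b⁻¹) * (π g)⁻¹ = π (a * b⁻¹) := by
      have e1 : π g * π a * (π g)⁻¹ = π a * ((π b)⁻¹ * (π g * π b * (π g)⁻¹)) := by
        rw [← h1]; group
      rw [map_mul, map_inv]
      calc π g * (π a * (π b)⁻¹) * (π g)⁻¹ = (π g * π a * (π g)⁻¹) * (π g * π b * (π g)⁻¹)⁻¹ := by group
        _ = (π a * ((π b)⁻¹ * (π g * π b * (π g)⁻¹))) * (π g * π b * (π g)⁻¹)⁻¹ := by rw [e1]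
        _ = _ := by group
    have h2 := free (a * b⁻¹) (P.mul_mem ha (P.inv_mem hb)) (by
      rw [← hπ1]
      simp only [map_mul, map_inv] at e0 ⊢
      rw [e0]
      group)
    rw [← hπ1, map_mul, map_inv, mul_inv_eq_one] at h2
    exact h2
  have hTs := Finite.surjective_of_injective hT
  ext x
  obtain ⟨⟨_, v, hv, rfl⟩, hw⟩ := hTs ⟨π x, x, x.2, rfl⟩
  have h1 : (π v)⁻¹ * (π g * π v * (π g)⁻¹) = π x := congrArg Subtype.val hw
  have h2 : (v⁻¹ * (g * v * g⁻¹))⁻¹ * x ∈ K := by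
    rw [← hπ1, map_mul, map_inv, map_mul, map_mul, map_mul, map_inv, map_inv, h1, inv_mul_cancel]
  have hkP : (v⁻¹ * (g * v * g⁻¹))⁻¹ * x ∈ P := P.mul_mem (P.inv_mem (P.mul_mem (P.inv_mem hv)
        (hP.conj_mem v hv g))) x.2
  have hk1 : l ⟨(v⁻¹ * (g * v * g⁻¹))⁻¹ * x, hkP⟩ = 1 := hl ⟨_, hkP⟩ h2
  have h3 : x = (⟨v, hv⟩ : P)⁻¹ * ⟨g * v * g⁻¹, hP.conj_mem v hv g⟩ *
      ⟨(v⁻¹ * (g * v * g⁻¹))⁻¹ * x, hkP⟩ := by
    apply Subtype.ext
    change (x : G) = v⁻¹ * (g * v * g⁻¹) * ((v⁻¹ * (g * v * g⁻¹))⁻¹ * x)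
    group
  have h4 : l ⟨g * v * g⁻¹, hP.conj_mem v hv g⟩ = l ⟨v, hv⟩ := by
    have := DFunLike.congr_fun hg ⟨v, hv⟩
    rw [cjh_apply] at this
    exact this
  have h5 : l x = 1 := by
    rw [h3, map_mul, map_mul, map_inv, h4, hk1, mul_one, inv_mul_cancel]
  rw [h5]; rfl

theorem setup (hs : Group.IsSolvable G) (V : Subgroup G) [hVn : V.Normal]
    (hVc : ¬ commutator G ≤ V)
    (hnp : ∀ (K : Subgroup G) (p : ℕ), K.Normal → V ≤ K → ¬ commutator G ≤ K → p.Prime →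
      ¬ (∀ x : G, ∃ k : ℕ, x ^ p ^ k ∈ K)) :
    ∃ (K P : Subgroup G) (r : ℕ), FS G V K P r := by
  classical
  let S : Set (Subgroup G) := {K | K.Normal ∧ V ≤ K ∧ ¬ commutator G ≤ K}
  have hS : S.Nonempty := ⟨V, hVn, le_rfl, hVc⟩
  obtain ⟨K, hK⟩ := (Set.toFinite S).exists_maximal hS
  haveI hKn := hK.prop.1
  have hVK := hK.prop.2.1
  have hKc := hK.prop.2.2
  have hpq : ∀ p : ℕ, p.Prime → ¬ IsPGroup p (G ⧸ K) := by
    intro p hp hpG
    apply hnp K p hKn hVK hKc hp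
    intro x
    obtain ⟨k, hk⟩ := hpG (x : G ⧸ K)
    exact ⟨k, by rw [← QuotientGroup.eq_one_iff, QuotientGroup.mk_pow]; exact hk⟩
  obtain ⟨π, hπdef⟩ : ∃ π : G →* G ⧸ K, π = QuotientGroup.mk' K := ⟨_, rfl⟩
  have hπ : Function.Surjective π := by rw [hπdef]; exact QuotientGroup.mk'_surjective K
  have hπ1 : ∀ x, π x = 1 ↔ x ∈ K := by
    intro x; rw [hπdef]; exact QuotientGroup.eq_one_iff x
  obtain ⟨W, hWdef⟩ : ∃ W : Subgroup (G ⧸ K), W = commutator (G ⧸ K) := ⟨_, rfl⟩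
  haveI hWn : W.Normal := by rw [hWdef]; infer_instance
  have hmapc : (commutator G).map π = W := by
    rw [hWdef, commutator_def, commutator_def, Subgroup.map_commutator,
      Subgroup.map_top_of_surjective π hπ]
  have hWne : W ≠ ⊥ := by
    rw [← hmapc]
    intro h
    apply hKc
    intro x hx
    rw [← hπ1]
    have h1 : π x ∈ (commutator G).map π := ⟨x, hx, rfl⟩
    rw [h, Subgroup.mem_bot] at h1
    exact h1
  have hmax : ∀ M : Subgroup G, M.Normal → K ≤ M → M ≠ K → commutator G ≤ M := by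
    intro M hM hKM hne
    by_contra hcon
    exact hne (le_antisymm (hK.le_of_ge ⟨hM, hVK.trans hKM, hcon⟩ hKM) hKM)
  have hWmin : ∀ M : Subgroup (G ⧸ K), M.Normal → M ≠ ⊥ → W ≤ M := by
    intro M hM hMne
    rw [← hmapc, Subgroup.map_le_iff_le_comap]
    apply hmax _ (hM.comap π)
    · intro x hx
      rw [Subgroup.mem_comap, (hπ1 x).2 hx]
      exact M.one_mem
    · intro h
      apply hMne
      rw [eq_bot_iff]
      intro y hy
      obtain ⟨x, rfl⟩ := hπ y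
      rw [Subgroup.mem_bot]
      have h2 : x ∈ M.comap π := hy
      rw [h] at h2
      exact (hπ1 x).2 h2
  obtain ⟨hWab, r, hr, hWr, hri, hfree⟩ := structure_thm (G := G ⧸ K) inferInstance
    (by rw [← hWdef]; exact hWne) (by rw [← hWdef]; exact hWmin) hpq
  rw [← hWdef] at hWab hWr hri hfree
  haveI := Fact.mk hr
  obtain ⟨P, hPdef⟩ : ∃ P : Subgroup G, P = W.comap π := ⟨_, rfl⟩
  haveI hPn : P.Normal := by rw [hPdef]; exact hWn.comap π
  have hPidx : P.index = W.index := by rw [hPdef]; exact Subgroup.index_comap_of_surjective W hπ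
  have hPW : ∀ x : G, x ∈ P ↔ π x ∈ W := by intro x; rw [hPdef]; exact Iff.rfl
  have hKP : K ≤ P := fun x hx => by rw [hPW, (hπ1 x).2 hx]; exact W.one_mem
  refine ⟨K, P, r, hKn, hPn, hVK, hKP, ?_, hKc, hmax, hr, ?_, ?_, ?_, ?_, ?_⟩
  · apply le_antisymm
    · intro x hx
      rw [hPW, ← hmapc] at hx
      obtain ⟨y, hy, hyx⟩ := hx
      have h1 : x * y⁻¹ ∈ K := by rw [← hπ1, map_mul, map_inv, hyx, mul_inv_cancel]
      have h2 : x = (x * y⁻¹) * y := by group
      rw [h2]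
      exact Subgroup.mul_mem_sup h1 hy
    · refine sup_le hKP ?_
      rw [hPdef, ← Subgroup.map_le_iff_le_comap, hmapc]
  · rw [hPidx]; exact hri
  · rw [hPidx]
    intro h
    rw [Subgroup.index_eq_one] at h
    haveI : Nontrivial (G ⧸ K) := by
      rw [← not_subsingleton_iff_nontrivial]
      intro hs
      exact hWne (Subsingleton.elim _ _)
    have h1 := Group.IsSolvable.commutator_lt_top_of_nontrivial (G ⧸ K)
    rw [← hWdef, h] at h1
    exact lt_irrefl _ h1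
  · obtain ⟨c, hc⟩ := (IsPGroup.iff_card (p := r)).1 hWr
    refine ⟨c, fun x hx => ?_⟩
    rw [← hπ1, map_pow, ← hc]
    have h1 : (⟨π x, (hPW x).1 hx⟩ : W) ^ Nat.card W = 1 := pow_card_eq_one'
    exact congrArg Subtype.val h1
  · intro x hx y hy
    rw [← hπ1, map_mul, map_mul, map_mul, map_inv, map_inv,
      hWab _ ((hPW x).1 hx) _ ((hPW y).1 hy)]
    group
  · intro g hg v hv h
    rw [← hπ1] at h ⊢
    rw [map_mul, map_mul, map_mul, map_inv, map_inv, mul_inv_eq_one, mul_inv_eq_iff_eq_mul] at h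
    exact hfree (π g) (fun h' => hg ((hPW g).2 h')) (π v) ((hPW v).1 hv) h

end H77.NDA
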