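import Cfsg.Agent.Lib.H77.NDA9
import Cfsg.Agent.Lib.H77.InvOver
import Cfsg.Agent.Lib.H81.CentralVal

/-!
# No divisibility among degrees: `|V| < |P : Z(P)|` (H77.NDA10)
-/

set_option autoImplicit false
set_option linter.style.haveILetI false
set_option linter.unusedSectionVars false
set_option maxHeartbeats 400000
open Cfsg
open scoped ComplexConjugate

namespace H77.NDA

open H18.CharBasic H18.CharOrtho H18.CharInd H18.CharQuot H77.PQuot H31.Clifford H77.ThreeA H77.ThreeB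
open H77.ThreeC H77.ThreeE H77.ThreeF H77.TwoDeg

universe u

theorem lin_norm {N : Type u} [Group N] [Finite N] (l : N →* ℂˣ) (w : N) :
    (l w : ℂ) * conj (l w : ℂ) = 1 := by
  have h1 : ((l w⁻¹ : ℂˣ) : ℂ) = conj (l w : ℂ) :=
    char_inv (isCharacter_of_isIrr (isIrrCharacter_of_hom l)) w
  rw [← h1, map_inv, Units.mul_inv]

/-- functions with scalar values -/
theorem scal2 {N : Type u} [Group N] [Fintype N] (f g : N → ℂ) (w : N) (c : ℂ) (a : ℂ)
    (ha : a * conj a = 1) (hf : ∀ v, f (w * v) = c * f v) (hg : ∀ v, g (w * v) = a * g v)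
    (hne : classInner f g ≠ 0) : c = a := by
  have h1 : classInner f g = c * conj a * classInner f g := by
    unfold classInner
    have h2 : ∑ v, f v * conj (g v) = ∑ v, f (w * v) * conj (g (w * v)) :=
      (Fintype.sum_equiv (Equiv.mulLeft w) _ _ (fun v => rfl)).symm
    have h3 : ∑ v, f (w * v) * conj (g (w * v)) = c * conj a * ∑ v, f v * conj (g v) := by
      rw [Finset.mul_sum]
      refine Finset.sum_congr rfl (fun v _ => ?_)
      rw [hf, hg, map_mul]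
      ring
    rw [h3] at h2
    conv_lhs => rw [h2]
    ring
  have h2 : c * conj a = 1 := by
    have h3 : (c * conj a - 1) * classInner f g = 0 := by linear_combination -h1
    rcases mul_eq_zero.1 h3 with h4 | h4
    · linear_combination h4
    · exact absurd h4 hne
  linear_combination a * h2 - c * ha

theorem scal {N : Type u} [Group N] [Fintype N] (f : N → ℂ) (l : N →* ℂˣ)
    (hf : ∀ w, ∃ c : ℂ, ∀ v, f (w * v) = c * f v)
    (hne : classInner f (fun v => (l v : ℂ)) ≠ 0) (w : N) : f w = (l w : ℂ) * f 1 := by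
  obtain ⟨c, hc⟩ := hf w
  have h1 := scal2 f (fun v => (l v : ℂ)) w c (l w : ℂ) (lin_norm l w) hc (fun v => by
    rw [map_mul, Units.val_mul]) hne
  rw [← h1, ← hc 1, mul_one]

theorem t7J {J : Type u} [Group J] [Finite J] (P V : Subgroup J) [hP : P.Normal] [hV : V.Normal]
    (hVP : V ≤ P) (hcop : (Nat.card P).Coprime P.index)
    (hVZ : ∀ v ∈ V, ∀ g, v * g = g * v) (hPV : ∀ a ∈ P, ∀ b ∈ P, a * b * a⁻¹ * b⁻¹ ∈ V)
    (l : V →* ℂˣ) (hdiv : ∀ β1 β2 : IrrCharacter J,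
      (∀ v : V, β1.1 v = (l v : ℂ) * β1.1 1) → (∀ v : V, β2.1 v = (l v : ℂ) * β2.1 1) →
      charDegree β1.1 ∣ charDegree β2.1 → charDegree β1.1 = charDegree β2.1)
    {z : J} (hz : z ∈ P) (hzl : ∀ u (hu : u ∈ P), l ⟨z * u * z⁻¹ * u⁻¹, hPV z hz u hu⟩ = 1)
    (x : J) : x * z * x⁻¹ * z⁻¹ ∈ V := by
  classical
  letI := Fintype.ofFinite J
  letI := Fintype.ofFinite P
  letI := Fintype.ofFinite V
  have hsolv : Group.IsSolvable (P ⧸ V.subgroupOf P) := by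
    apply Group.isSolvable_of_comm
    intro a b
    obtain ⟨a, rfl⟩ := QuotientGroup.mk_surjective a
    obtain ⟨b, rfl⟩ := QuotientGroup.mk_surjective b
    rw [← QuotientGroup.mk_mul, ← QuotientGroup.mk_mul]
    symm
    rw [QuotientGroup.eq, Subgroup.mem_subgroupOf]
    have h1 := hPV _ (P.inv_mem a.2) _ (P.inv_mem b.2)
    have h2 : (((b * a)⁻¹ * (a * b) : P) : J) = (a : J)⁻¹ * (b : J)⁻¹ * (a : J)⁻¹⁻¹ * (b : J)⁻¹⁻¹ := by
      change ((b : J) * a)⁻¹ * ((a : J) * b) = _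
      group
    rw [h2]
    exact h1
  obtain ⟨ψ1, hψ1, hinv⟩ := H77.InvOver.partA P V hVP
    (Nat.Coprime.coprime_dvd_right (Subgroup.relIndex_dvd_card V P) hcop.symm) hsolv (lin l) (by
      intro x n
      have h1 : (⟨x * n * x⁻¹, hV.conj_mem n n.2 x⟩ : V) = n := by
        apply Subtype.ext
        change x * n * x⁻¹ = n
        rw [← hVZ n n.2 x, mul_inv_cancel_right]
      rw [h1])
  have hcent : ∀ v : V, (⟨v, hVP v.2⟩ : P) ∈ Subgroup.center P := by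
    intro v
    rw [Subgroup.mem_center_iff]
    intro g
    apply Subtype.ext
    exact (hVZ v v.2 g).symm
  have hscal : ∀ v : V, ψ1.1 ⟨v, hVP v.2⟩ = (l v : ℂ) * ψ1.1 1 := by
    intro v
    exact scal (fun n : V => ψ1.1 ⟨n, hVP n.2⟩) l (by
      intro w
      obtain ⟨c, -, hc, -⟩ := H81.CentralVal.exists_central ψ1.2 (hcent w)
      exact ⟨c, fun v => hc ⟨v, hVP v.2⟩⟩) hψ1 v
  have hψ11 : ψ1.1 1 ≠ 0 := irr_one_ne_zero ψ1.2
  have hscal2 : ∀ (v : V) (u : P), ψ1.1 (⟨v, hVP v.2⟩ * u) = (l v : ℂ) * ψ1.1 u := by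
    intro v u
    obtain ⟨c, -, hc, -⟩ := H81.CentralVal.exists_central ψ1.2 (hcent v)
    have h1 := hc 1
    rw [mul_one, hscal v] at h1
    rw [hc u, mul_right_cancel₀ hψ11 h1]
  obtain ⟨χ1, hχ1, -⟩ := H77.Canon.canon_exists P hcop ψ1 hinv
  have hd1 : charDegree χ1.1 = charDegree ψ1.1 := by
    apply charDegree_eq_of
    rw [cast_irr ψ1]
    exact hχ1 1
  have hχ1l : ∀ v : V, χ1.1 v = (l v : ℂ) * χ1.1 1 := by
    intro v
    have h1 := hχ1 ⟨v, hVP v.2⟩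
    have h2 := hχ1 1
    change χ1.1 (v : J) = _ at h1
    change χ1.1 (1 : J) = _ at h2
    rw [h1, h2, hscal]
  by_contra hd
  have hxz : x * z * x⁻¹ ∈ P := hP.conj_mem z hz x
  have hdP : x * z * x⁻¹ * z⁻¹ ∈ P := P.mul_mem hxz (P.inv_mem hz)
  have hc : commutator P ≤ V.subgroupOf P := by
    rw [commutator_def, Subgroup.commutator_le]
    intro a _ b _
    rw [Subgroup.mem_subgroupOf]
    exact hPV a a.2 b b.2
  obtain ⟨μ, hμ1, hμ2⟩ := sep (H := P) (V.subgroupOf P) hc (x := ⟨_, hdP⟩) hd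
  obtain ⟨ψ2, hψ2def⟩ : ∃ ψ2 : IrrCharacter P, ψ2 = H77.GlPerm.mulI μ ψ1 := ⟨_, rfl⟩
  have hψ2v : ∀ u, ψ2.1 u = (μ u : ℂ) * ψ1.1 u := by intro u; rw [hψ2def]; rfl
  have hd2 : charDegree ψ2.1 = charDegree ψ1.1 := by
    apply charDegree_eq_of
    rw [hψ2v, map_one, Units.val_one, one_mul, cast_irr]
  obtain ⟨χ2, hχ2⟩ := over_up P ψ2
  have hχ2ne := over_ne P hχ2
  have hχ2l : ∀ v : V, χ2.1 v = (l v : ℂ) * χ2.1 1 := by
    intro v
    obtain ⟨c, -, hc2, -⟩ := H81.CentralVal.exists_central χ2.2 (z := (v : J))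
      (Subgroup.mem_center_iff.2 (fun g => (hVZ v v.2 g).symm))
    have h1 := scal2 (fun u : P => χ2.1 u) ψ2.1 ⟨v, hVP v.2⟩ c (l v : ℂ) (lin_norm l v)
      (fun u => hc2 u) (fun u => by
        rw [hψ2v, hψ2v, map_mul, hμ2 ⟨v, hVP v.2⟩ v.2, one_mul, hscal2]
        ring) hχ2ne
    have h2 := hc2 1
    rw [mul_one] at h2
    rw [h2, h1]
  have hdeg := hdiv χ1 χ2 hχ1l hχ2l (by
    rw [hd1, ← hd2]
    exact (over_dvd P hχ2).1)
  have hdeg2 : charDegree χ2.1 = charDegree ψ2.1 := by rw [← hdeg, hd1, hd2]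
  -- `ψ2` is invariant
  have h1 := degree_eq P χ2.2 ψ2.2 hχ2ne
  obtain ⟨e, he⟩ := H18.CharOrtho.inner_char_natCast
    (isCharacter_restrict P (isCharacter_of_isIrr χ2.2)) (isCharacter_of_isIrr ψ2.2)
  rw [he, ← cast_irr χ2, ← cast_irr ψ2, hdeg2] at h1
  have h2 : charDegree ψ2.1 = e * (inertia P ψ2.1).index * charDegree ψ2.1 := by
    exact_mod_cast h1
  have h3 : e * (inertia P ψ2.1).index = 1 := by
    have h4 : 1 * charDegree ψ2.1 = e * (inertia P ψ2.1).index * charDegree ψ2.1 := by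
      rw [one_mul]; exact h2
    exact (Nat.eq_of_mul_eq_mul_right (deg_pos ψ2) h4).symm
  have h4 : (inertia P ψ2.1).index = 1 := Nat.eq_one_of_mul_eq_one_left h3
  rw [Subgroup.index_eq_one] at h4
  have h5 : x ∈ inertia P ψ2.1 := by rw [h4]; exact Subgroup.mem_top x
  rw [mem_inertia] at h5
  have h6 : ψ2.1 ⟨x * z * x⁻¹, hxz⟩ = ψ2.1 ⟨z, hz⟩ := congrFun h5 ⟨z, hz⟩
  rw [hψ2v, hψ2v, hinv x ⟨z, hz⟩] at h6
  -- `ψ1 z ≠ 0`
  have hne : ψ1.1 ⟨z, hz⟩ ≠ 0 := by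
    have hch := isCharacter_of_isIrr ψ1.2
    obtain ⟨N, hN⟩ : ∃ N : Subgroup P, N = kerSub ψ1.1 hch := ⟨_, rfl⟩
    haveI hNn : N.Normal := by rw [hN]; infer_instance
    have hNk : ∀ n ∈ N, ψ1.1 n = ψ1.1 1 := by
      intro n hn; rw [hN, mem_kerSub] at hn; exact hn
    have hzc : ((⟨z, hz⟩ : P) : P ⧸ N) ∈ Subgroup.center (P ⧸ N) := by
      rw [Subgroup.mem_center_iff]
      intro g
      obtain ⟨u, rfl⟩ := QuotientGroup.mk_surjective g
      rw [← QuotientGroup.mk_mul, ← QuotientGroup.mk_mul, QuotientGroup.eq, hN, mem_kerSub]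
      -- (u z)⁻¹ (z u) = z⁻¹ u⁻¹ z u = conj of [z,u]
      have e1 : (u * ⟨z, hz⟩)⁻¹ * (⟨z, hz⟩ * u) = (u * ⟨z, hz⟩)⁻¹ *
          (⟨z * u * z⁻¹ * (u : J)⁻¹, hVP (hPV z hz u u.2)⟩ : P) * (u * ⟨z, hz⟩)⁻¹⁻¹ := by
        apply Subtype.ext
        change ((u : J) * z)⁻¹ * (z * u) = ((u : J) * z)⁻¹ * (z * u * z⁻¹ * (u : J)⁻¹) *
          ((u : J) * z)⁻¹⁻¹
        group
      rw [e1, isClassFunction_of_isIrr ψ1.2]
      have e2 := hscal ⟨z * u * z⁻¹ * (u : J)⁻¹, hPV z hz u u.2⟩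
      rw [hzl u u.2, Units.val_one, one_mul] at e2
      exact e2
    obtain ⟨c, hc0, hc3, -⟩ := H81.CentralVal.exists_central
      (isIrrCharacter_deflate N ψ1.2 hNk) hzc
    have e3 := hc3 1
    rw [mul_one, deflate_mk N hch hNk] at e3
    have e4 : deflate N ψ1.1 1 = ψ1.1 1 := by
      have := deflate_mk N hch hNk 1
      rwa [QuotientGroup.mk_one] at this
    rw [e3, e4]
    exact mul_ne_zero hc0 hψ11
  apply hμ1
  have h7 := Units.ext (mul_right_cancel₀ hne h6)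
  have h8 : (⟨x * z * x⁻¹ * z⁻¹, hdP⟩ : P) = ⟨x * z * x⁻¹, hxz⟩ * ⟨z, hz⟩⁻¹ := rfl
  rw [h8, map_mul, map_inv, h7, mul_inv_cancel]

end H77.NDA
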