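import Cfsg.Agent.Lib.H77.NDA10

/-!
# No divisibility among degrees: `|V| < |P : Z(P)|`, end (H77.NDA11)
-/

set_option autoImplicit false
set_option linter.style.haveILetI false
set_option linter.unusedSectionVars false
set_option maxHeartbeats 400000
open Cfsg
open scoped ComplexConjugate

namespace H77.NDA

open H18.CharBasic H18.CharOrtho H18.CharInd H18.CharQuot H77.PQuot H31.Clifford H77.ThreeA H77.ThreeB
open H77.ThreeC H77.ThreeE H77.ThreeF H77.TwoDeg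

universe u

variable {G : Type u} [Group G] [Finite G]

/-- Clifford correspondence over a linear character -/
theorem cl_lin (V : Subgroup G) [hV : V.Normal] (l : V →* ℂˣ) (T : Subgroup G) (hVT : V ≤ T)
    (hT : ∀ g : G, g ∈ T ↔ cjh V g l = l) (β : IrrCharacter T)
    (hβ : ∀ v : V, β.1 ⟨v, hVT v.2⟩ = (l v : ℂ) * β.1 1) :
    ∃ χ : IrrCharacter G, Over V χ (lin l) ∧ charDegree χ.1 = T.index * charDegree β.1 := by
  classical
  letI := Fintype.ofFinite G
  letI := Fintype.ofFinite V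
  letI := Fintype.ofFinite T
  have h1 : resH hVT β.1 = β.1 1 • (lin l).1 := by
    funext v
    rw [resH_apply, hβ, Pi.smul_apply, smul_eq_mul, lin_apply, mul_comm]
  have h2 : classInner (resH hVT β.1) (lin l).1 ≠ 0 := by
    rw [h1, H18.CharOrtho.inner_smul_left, inner_irr_self (lin l).2, mul_one]
    exact irr_one_ne_zero β.2
  have h3 := corr_irr V T hVT (lin l).2 (fun g => by rw [hT, cj_lin_iff]) β.2 h2
  refine ⟨⟨_, h3.1⟩, (over_iff V _ _).2 ?_, ?_⟩
  · change classInner (fun h : V => indFun T β.1 h) (lin l).1 ≠ 0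
    rw [h3.2]; exact h2
  · apply charDegree_eq_of
    change indFun T β.1 1 = _
    rw [indFun_one, ← cast_irr β]
    push_cast; ring

section S2

variable {V K P : Subgroup G} {p : ℕ} {α : MulAut G}

/-- the homomorphism `u ↦ [y, u]` -/
theorem S2.exists_hom (h : S2 G V K P p α) {y : G} (hy : y ∈ P) :
    ∃ φ : P →* V, ∀ u : P, ((φ u : V) : G) = y * u * y⁻¹ * (u : G)⁻¹ := by
  refine ⟨MonoidHom.mk' (fun u : P => ⟨y * u * y⁻¹ * (u : G)⁻¹, h.comm hy u.2⟩) ?_, fun _ => rfl⟩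
  intro a b
  apply Subtype.ext
  change y * (a * b) * y⁻¹ * ((a : G) * b)⁻¹ = (y * a * y⁻¹ * (a : G)⁻¹) * (y * b * y⁻¹ * (b : G)⁻¹)
  have h2 : (y * b * y⁻¹ * (b : G)⁻¹) * a = a * (y * b * y⁻¹ * (b : G)⁻¹) :=
    h.Vc _ (h.comm hy b.2) a a.2
  calc y * (a * b) * y⁻¹ * ((a : G) * b)⁻¹
      = (y * a * y⁻¹ * (a : G)⁻¹) * (a * (y * b * y⁻¹ * (b : G)⁻¹)) * (a : G)⁻¹ := by group
    _ = _ := by rw [← h2]; group

theorem S2.t7 (h : S2 G V K P p α) {y : G} (hy : y ∈ P) (hyc : ¬ ∀ u ∈ P, y * u = u * y) {v : G}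
    (hv : v ∈ V) : ∃ u ∈ P, y * u * y⁻¹ * u⁻¹ = v := by
  classical
  haveI := h.fs.Pn
  haveI := h.Vn
  by_contra hcon
  push Not at hcon
  obtain ⟨φ, hφ⟩ := h.exists_hom hy
  haveI hRn : φ.range.Normal := by
    refine ⟨fun n hn g => ?_⟩
    have h1 : g * n * g⁻¹ = n := by
      apply Subtype.ext
      change (g : G) * n * (g : G)⁻¹ = n
      rw [h.Vab g g.2 n n.2, mul_inv_cancel_right]
    rw [h1]; exact hn
  obtain ⟨l, hl1, hl2⟩ := sep (H := V) φ.range ((comm_le_bot V h.Vab).trans bot_le)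
    (x := ⟨v, hv⟩) (by
      rintro ⟨u, hu⟩
      apply hcon u u.2
      rw [← hφ, hu])
  have hlne : l ≠ 1 := by
    rintro rfl
    exact hl1 rfl
  obtain ⟨I, hI⟩ : ∃ I : Subgroup G, I = Subgroup.centralizer (V : Set G) := ⟨_, rfl⟩
  have hPI : P ≤ I := by rw [hI]; exact h.P_le
  have hVI : V ≤ I := h.VP.trans hPI
  have hIm : ∀ g, g ∈ I ↔ ∀ v ∈ V, g * v = v * g := by intro g; rw [hI]; exact cent_mem V g
  obtain ⟨x, hxI, hxP, hxp, -⟩ := h.exists_x
  -- apply `t7J` in `I`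
  let e : V.subgroupOf I →* V :=
    { toFun := fun w => ⟨w, w.2⟩
      map_one' := rfl
      map_mul' := fun _ _ => rfl }
  have hxI' : x ∈ I := by rw [hI]; exact hxI
  haveI : (V.subgroupOf I).Normal := h.Vn.subgroupOf I
  haveI : (P.subgroupOf I).Normal := h.fs.Pn.subgroupOf I
  have hcopI : (Nat.card (P.subgroupOf I)).Coprime (P.subgroupOf I).index := by
    have e1 : Nat.card (P.subgroupOf I) = Nat.card P :=
      Nat.card_congr (Subgroup.subgroupOfEquivOfLe hPI).toEquiv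
    have e2 : (P.subgroupOf I).index ∣ P.index := Subgroup.relIndex_dvd_index_of_normal P I
    rw [e1]
    exact Nat.Coprime.coprime_dvd_right e2 h.hcop
  have hstab : ∀ g : G, g ∈ I ↔ cjh V g l = l := by
    intro g; rw [h.stabV l hlne, hI]
  have h1 := t7J (P.subgroupOf I) (V.subgroupOf I) (fun w hw => h.VP hw) hcopI
    (fun w hw g => Subtype.ext ((hIm g).1 g.2 w hw).symm)
    (fun a ha b hb => h.comm ha hb) (l.comp e) (by
      intro β1 β2 hβ1 hβ2 hd
      obtain ⟨χ1, ho1, hχ1⟩ := cl_lin V l I hVI hstab β1 (fun w => hβ1 ⟨⟨w, hVI w.2⟩, w.2⟩)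
      obtain ⟨χ2, ho2, hχ2⟩ := cl_lin V l I hVI hstab β2 (fun w => hβ2 ⟨⟨w, hVI w.2⟩, w.2⟩)
      have h2 := h.nd χ1 χ2 (by
        intro h3
        have h4 := h.over_dvd hlne ho1
        rw [h3] at h4
        exact h.fs.rp.one_lt.ne' (Nat.dvd_one.1 h4)) (by
        rw [hχ1, hχ2]; exact Nat.mul_dvd_mul_left _ hd)
      rw [hχ1, hχ2] at h2
      exact Nat.eq_of_mul_eq_mul_left (Nat.pos_of_ne_zero Subgroup.index_ne_zero_of_finite) h2)
    (z := ⟨y, hPI hy⟩) hy (by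
      intro u hu
      have h3 := hl2 (φ ⟨u, hu⟩) ⟨_, rfl⟩
      have h4 : φ ⟨u, hu⟩ = ⟨y * u * y⁻¹ * (u : G)⁻¹, h.comm hy hu⟩ := Subtype.ext (hφ _)
      rw [h4] at h3
      exact h3) ⟨x, hxI'⟩
  have h2 : x * y * x⁻¹ * y⁻¹ ∈ V := h1
  apply hyc
  intro u hu
  exact h.cent hxI hxP hxp hy (h.fixV hxI hxp h2) hu

theorem S2.card_lt (h : S2 G V K P p α) : Nat.card V < (Subgroup.center P).index := by
  obtain ⟨y, hy, hyc⟩ : ∃ y ∈ P, ¬ ∀ u ∈ P, y * u = u * y := by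
    by_contra hcon
    push Not at hcon
    apply h.Vne
    rw [← h.PV, eq_bot_iff, Subgroup.commutator_le]
    intro a ha b hb
    rw [Subgroup.mem_bot, commutatorElement_def, hcon a ha b hb]
    group
  obtain ⟨φ, hφ⟩ := h.exists_hom hy
  have hsurj : φ.range = ⊤ := by
    rw [eq_top_iff]
    intro v _
    obtain ⟨u, hu, huv⟩ := h.t7 hy hyc v.2
    exact ⟨⟨u, hu⟩, Subtype.ext ((hφ _).trans huv)⟩
  have h1 : φ.ker.index = Nat.card V := by
    rw [Subgroup.index_ker, hsurj]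
    exact Nat.card_congr Subgroup.topEquiv.toEquiv
  rw [← h1]
  apply Subgroup.index_strictAnti
  have hker : ∀ u : P, u ∈ φ.ker ↔ y * u = u * y := by
    intro u
    rw [MonoidHom.mem_ker]
    constructor
    · intro h2
      have h3 := hφ u
      rw [h2] at h3
      have h4 : y * u * y⁻¹ * (u : G)⁻¹ = 1 := h3.symm
      rw [mul_inv_eq_one, mul_inv_eq_iff_eq_mul] at h4
      exact h4
    · intro h2
      apply Subtype.ext
      rw [hφ, h2]
      change (u : G) * y * y⁻¹ * (u : G)⁻¹ = 1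
      group
  refine lt_of_le_of_ne ?_ ?_
  · intro u hu
    rw [hker]
    exact congrArg Subtype.val (Subgroup.mem_center_iff.1 hu ⟨y, hy⟩)
  · intro h2
    have h3 : (⟨y, hy⟩ : P) ∈ Subgroup.center P := by
      rw [h2, hker]
    apply hyc
    intro u hu
    exact (congrArg Subtype.val (Subgroup.mem_center_iff.1 h3 ⟨u, hu⟩)).symm

end S2

/-- free actions -/
theorem index_dvd_of_free {A : Type*} {X : Type*} [Group A] [Finite A] [Finite X] [MulAction A X]
    (N : Subgroup A) (h : ∀ x : X, MulAction.stabilizer A x = N) : N.index ∣ Nat.card X := by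
  classical
  haveI : Finite (Quotient (MulAction.orbitRel A X)) := inferInstance
  letI := Fintype.ofFinite (Quotient (MulAction.orbitRel A X))
  rw [Nat.card_congr (MulAction.selfEquivSigmaOrbitsQuotientStabilizer A X), Nat.card_sigma]
  apply Finset.dvd_sum
  intro ω _
  rw [h, Subgroup.index_eq_card]

theorem final_nt {p n a b v : ℕ} (hp : p.Prime) (ha : n ∣ p ^ a - 1) (hv : n ∣ p ^ v - 1)
    (hn : p ^ a - 1 ≤ n * (p ^ b - 1)) (hb : 2 * b ≤ a) (ha0 : a ≠ 0) (hv0 : v ≠ 0) :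
    p ^ a ≤ p ^ v := by
  have hg : n ∣ p ^ (a.gcd v) - 1 := by
    rw [← Nat.pow_sub_one_gcd_pow_sub_one]
    exact Nat.dvd_gcd ha hv
  obtain ⟨d, hd⟩ : ∃ d, d = a.gcd v := ⟨_, rfl⟩
  rw [← hd] at hg
  have hda : d ∣ a := by rw [hd]; exact Nat.gcd_dvd_left a v
  have hdv : d ∣ v := by rw [hd]; exact Nat.gcd_dvd_right a v
  have hd0 : d ≠ 0 := by
    rintro rfl
    exact ha0 (Nat.eq_zero_of_zero_dvd hda)
  have hpd : 1 < p ^ d := Nat.one_lt_pow hd0 hp.one_lt
  have hpa : 1 < p ^ a := Nat.one_lt_pow ha0 hp.one_lt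
  have hb1 : 1 ≤ p ^ b := Nat.one_le_pow _ _ hp.pos
  have hnle : n ≤ p ^ d - 1 := Nat.le_of_dvd (by omega) hg
  have h1 : p ^ a - 1 ≤ (p ^ d - 1) * (p ^ b - 1) := hn.trans (Nat.mul_le_mul_right _ hnle)
  have h2 : p ^ a < p ^ (d + b) := by
    rw [pow_add]
    obtain ⟨D, hD⟩ : ∃ D, p ^ d = D + 1 := ⟨p ^ d - 1, by omega⟩
    obtain ⟨B, hB⟩ : ∃ B, p ^ b = B + 1 := ⟨p ^ b - 1, by omega⟩
    rw [hD, hB, Nat.add_sub_cancel, Nat.add_sub_cancel] at h1
    rw [hD, hB]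
    have h3 : p ^ a ≤ D * B + 1 := by omega
    nlinarith
  have h3 : a < d + b := (Nat.pow_lt_pow_iff_right hp.one_lt).1 h2
  have h4 : d = a := by
    obtain ⟨k, hk⟩ := hda
    rcases Nat.lt_or_ge k 2 with h5 | h5
    · interval_cases k
      · omega
      · omega
    · exfalso
      have h6 : d * 2 ≤ a := by rw [hk]; exact Nat.mul_le_mul_left d h5
      omega
  rw [h4] at hdv
  exact Nat.pow_le_pow_right hp.pos (Nat.le_of_dvd (Nat.pos_of_ne_zero hv0) hdv)

end H77.NDA
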