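import Cfsg.Agent.Lib.H77.NDA11
import Cfsg.Agent.Lib.H31.CoprimeExt

/-!
# No divisibility among degrees: the final count (H77.NDA12)
-/

set_option autoImplicit false
set_option linter.style.haveILetI false
set_option linter.unusedSectionVars false
set_option maxHeartbeats 400000
open Cfsg
open scoped ComplexConjugate

namespace H77.NDA

open H18.CharBasic H18.CharOrtho H18.CharInd H18.CharQuot H77.PQuot H31.Clifford H77.ThreeA H77.ThreeB
open H77.ThreeC H77.ThreeE H77.ThreeF H77.TwoDeg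

universe u

theorem card_triv {H : Type u} [Group H] [Finite H] (R : Subgroup H) [R.Normal]
    (hc : commutator H ≤ R) : Nat.card {l : H →* ℂˣ // ∀ y ∈ R, l y = 1} = R.index := by
  have e : {l : H →* ℂˣ // ∀ y ∈ R, l y = 1} ≃ (H ⧸ R →* ℂˣ) :=
    { toFun := fun l => QuotientGroup.lift R l.1 (fun y hy => l.2 y hy)
      invFun := fun m => ⟨m.comp (QuotientGroup.mk' R), fun y hy => by
        change m (y : H ⧸ R) = 1
        rw [(QuotientGroup.eq_one_iff y).2 hy, map_one]⟩
      left_inv := fun l => by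
        apply Subtype.ext
        ext x
        rfl
      right_inv := fun m => by
        apply MonoidHom.ext
        intro q
        obtain ⟨x, rfl⟩ := QuotientGroup.mk_surjective q
        rfl }
  rw [Nat.card_congr e, H31.CoprimeExt.card_hom_of_comm, Subgroup.index_eq_card]
  intro a b
  obtain ⟨a, rfl⟩ := QuotientGroup.mk_surjective a
  obtain ⟨b, rfl⟩ := QuotientGroup.mk_surjective b
  rw [← QuotientGroup.mk_mul, ← QuotientGroup.mk_mul]
  symm
  rw [QuotientGroup.eq]
  apply hc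
  rw [commutator_def]
  have h2 := Subgroup.commutator_mem_commutator (Subgroup.mem_top a⁻¹) (Subgroup.mem_top b⁻¹)
  rw [commutatorElement_def, inv_inv, inv_inv] at h2
  have h3 : (b * a)⁻¹ * (a * b) = a⁻¹ * b⁻¹ * a * b := by group
  rw [h3]
  exact h2

theorem card_ne_one {M : Type u} [Group M] [Finite M] (W : Subgroup M) :
    Nat.card {l : M // l ∈ W ∧ l ≠ 1} = Nat.card W - 1 := by
  have h1 : {l : M | l ∈ W ∧ l ≠ 1} = (W : Set M) \ {1} := by
    ext l; rfl
  have h2 : Nat.card {l : M // l ∈ W ∧ l ≠ 1} = ({l : M | l ∈ W ∧ l ≠ 1}).ncard :=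
    Nat.card_coe_set_eq _
  rw [h2, h1, Set.ncard_sdiff_singleton_of_mem W.one_mem]
  rfl

theorem exists_pow_cop {A : Type u} [Group A] [Finite A] (m : ℕ) : ∀ (n : ℕ) (β : A),
    orderOf β = n → ∃ k, (orderOf (β ^ m ^ k)).Coprime m := by
  intro n
  induction n using Nat.strong_induction_on with
  | _ n ih =>
    intro β hβ
    by_cases hc : (orderOf β).Coprime m
    · exact ⟨0, by rw [pow_zero, pow_one]; exact hc⟩
    · have h1 : orderOf (β ^ m) < n := by
        rw [orderOf_pow, ← hβ]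
        apply Nat.div_lt_self (orderOf_pos β)
        have h2 : (orderOf β).gcd m ≠ 1 := hc
        have h3 : (orderOf β).gcd m ≠ 0 := Nat.gcd_ne_zero_left (orderOf_pos β).ne'
        omega
      obtain ⟨k, hk⟩ := ih _ h1 (β ^ m) rfl
      refine ⟨k + 1, ?_⟩
      rw [← pow_mul, ← pow_succ'] at hk
      exact hk

variable {G : Type u} [Group G] [Finite G]

theorem dvd_card_of_stab (N : Subgroup G) [N.Normal] (W : Subgroup (N →* ℂˣ))
    (hW : ∀ g, ∀ l ∈ W, cjh N g l ∈ W) (T : Subgroup G)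
    (hT : ∀ l ∈ W, l ≠ 1 → ∀ g, cjh N g l = l ↔ g ∈ T) : T.index ∣ Nat.card W - 1 := by
  haveI := finite_hom N
  rw [← card_ne_one]
  have hne : ∀ (g : G) (l : N →* ℂˣ), l ≠ 1 → cjh N g l ≠ 1 := by
    intro g l hl h
    apply hl
    have h1 : cjh N g⁻¹ (cjh N g l) = l := by rw [cjh_mul, mul_inv_cancel, cjh_one]
    rw [← h1, h]; rfl
  letI : MulAction G {l : N →* ℂˣ // l ∈ W ∧ l ≠ 1} :=
    { smul := fun g l => ⟨cjh N g⁻¹ l.1, hW _ _ l.2.1, hne _ _ l.2.2⟩
      one_smul := fun l => Subtype.ext (by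
        change cjh N (1 : G)⁻¹ l.1 = l.1
        rw [inv_one, cjh_one])
      mul_smul := fun a b l => Subtype.ext (by
        change cjh N (a * b)⁻¹ l.1 = cjh N a⁻¹ (cjh N b⁻¹ l.1)
        rw [cjh_mul, mul_inv_rev]) }
  apply index_dvd_of_free T
  intro l
  ext g
  rw [MulAction.mem_stabilizer_iff]
  constructor
  · intro h
    have h1 : cjh N g⁻¹ l.1 = l.1 := congrArg Subtype.val h
    have h2 := (hT l.1 l.2.1 l.2.2 g⁻¹).1 h1
    exact T.inv_mem_iff.1 h2
  · intro h
    apply Subtype.ext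
    exact (hT l.1 l.2.1 l.2.2 g⁻¹).2 (T.inv_mem h)

theorem AInv.inv {α : MulAut G} (h : AInv α) : AInv α⁻¹ := by
  intro ψ hψ y
  rw [← h ψ hψ (α⁻¹ y), MulAut.apply_inv_self]

theorem AInv.zpow {α : MulAut G} (h : AInv α) (n : ℤ) : AInv (α ^ n) := by
  cases n with
  | ofNat n => rw [Int.ofNat_eq_natCast, zpow_natCast]; exact h.pow n
  | negSucc n => rw [zpow_negSucc]; exact (h.pow (n + 1)).inv

end H77.NDA
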