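import Cfsg.Agent.Lib.H77.NDA12

/-!
# No divisibility among degrees: the second subcase is impossible (H77.NDA13)
-/

set_option autoImplicit false
set_option linter.style.haveILetI false
set_option linter.unusedSectionVars false
set_option maxHeartbeats 400000
open Cfsg
open scoped ComplexConjugate

namespace H77.NDA

open H18.CharBasic H18.CharOrtho H18.CharInd H18.CharQuot H77.PQuot H31.Clifford H77.ThreeA H77.ThreeB
open H77.ThreeC H77.ThreeE H77.ThreeF H77.TwoDeg

universe u

variable {G : Type u} [Group G] [Finite G]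

/-- the automorphism group acts on linear characters -/
def autPerm (P : Subgroup G) (A : Subgroup (MulAut G)) (hA : ∀ a ∈ A, ∀ u ∈ P, a u ∈ P) :
    A →* Equiv.Perm (P →* ℂˣ) where
  toFun s :=
    { toFun := fun l => l.comp (rs ((s⁻¹ : A) : MulAut G) P (hA _ (s⁻¹).2))
      invFun := fun l => l.comp (rs (s : MulAut G) P (hA _ s.2))
      left_inv := fun l => by
        apply MonoidHom.ext
        intro u
        change l ⟨((s⁻¹ : A) : MulAut G) ((s : MulAut G) u), _⟩ = l u
        congr 1
        apply Subtype.ext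
        change (s : MulAut G)⁻¹ ((s : MulAut G) (u : G)) = (u : G)
        rw [MulAut.inv_apply_self]
      right_inv := fun l => by
        apply MonoidHom.ext
        intro u
        change l ⟨(s : MulAut G) (((s⁻¹ : A) : MulAut G) u), _⟩ = l u
        congr 1
        apply Subtype.ext
        change (s : MulAut G) ((s : MulAut G)⁻¹ (u : G)) = (u : G)
        rw [MulAut.apply_inv_self] }
  map_one' := by
    apply Equiv.ext
    intro l
    apply MonoidHom.ext
    intro u
    rfl
  map_mul' a b := by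
    apply Equiv.ext
    intro l
    apply MonoidHom.ext
    intro u
    rfl

theorem autPerm_apply (P : Subgroup G) (A : Subgroup (MulAut G))
    (hA : ∀ a ∈ A, ∀ u ∈ P, a u ∈ P) (s : A) (l : P →* ℂˣ) (u : P) :
    autPerm P A hA s l u = l ⟨(s : MulAut G)⁻¹ u, hA _ (A.inv_mem s.2) _ u.2⟩ := rfl

/-- the group acts on linear characters -/
def cjPerm (P : Subgroup G) [P.Normal] : G →* Equiv.Perm (P →* ℂˣ) where
  toFun k :=
    { toFun := fun l => cjh P k⁻¹ l
      invFun := fun l => cjh P k l
      left_inv := fun l => by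
        change cjh P k (cjh P k⁻¹ l) = l
        rw [cjh_mul, inv_mul_cancel, cjh_one]
      right_inv := fun l => by
        change cjh P k⁻¹ (cjh P k l) = l
        rw [cjh_mul, mul_inv_cancel, cjh_one] }
  map_one' := by
    apply Equiv.ext
    intro l
    change cjh P (1 : G)⁻¹ l = l
    rw [inv_one, cjh_one]
  map_mul' a b := by
    apply Equiv.ext
    intro l
    change cjh P (a * b)⁻¹ l = cjh P a⁻¹ (cjh P b⁻¹ l)
    rw [cjh_mul, mul_inv_rev]

theorem cjPerm_apply (P : Subgroup G) [P.Normal] (k : G) (l : P →* ℂˣ) :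
    cjPerm P k l = cjh P k⁻¹ l := rfl

section S2

variable {V K P : Subgroup G} {p : ℕ} {α : MulAut G}

/-- every linear character of `P/Z(P)` is conjugate to an `α`-invariant one -/
theorem S2.t9 (h : S2 G V K P p α) [P.Normal] (hs : Group.IsSolvable G)
    (hcop : (orderOf α).Coprime P.index) (l : P →* ℂˣ)
    (hl : ∀ z ∈ Subgroup.center P, l z = 1) (hl1 : l ≠ 1) :
    ∃ b : G, (cjh P b l).comp (rs α P (fun _ hu => h.fs.P_inv h.hα hu)) = cjh P b l := by
  haveI := finite_hom P
  obtain ⟨A, hAdef⟩ : ∃ A : Subgroup (MulAut G), A = Subgroup.zpowers α := ⟨_, rfl⟩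
  have hAI : ∀ a ∈ A, AInv a := by
    intro a ha
    rw [hAdef] at ha
    obtain ⟨n, rfl⟩ := ha
    exact h.hα.zpow n
  have hA : ∀ a ∈ A, ∀ u ∈ P, a u ∈ P := fun a ha u hu => h.fs.P_inv (hAI a ha) hu
  have hst : ∀ g, cjh P g l = l ↔ g ∈ P := by
    intro g
    constructor
    · intro hg
      by_contra hgP
      exact hl1 (h.stabW l hl hgP hg)
    · exact fun hg => cjh_self P hg l
  have hx : ∀ s : A, ∃ k : G, cjPerm P k l = autPerm P A hA s l := by
    intro s
    obtain ⟨χ, hχ⟩ := over_up P (lin l)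
    have hd := index_dvd_deg P hχ P (fun g => by rw [cj_lin_iff, hst])
    have hd1 : charDegree χ.1 ≠ 1 := by
      intro h1
      rw [h1, Nat.dvd_one] at hd
      exact h.fs.i1 (Nat.eq_one_of_mul_eq_one_right hd)
    obtain ⟨g, hg⟩ := conj_of_aut ((s : MulAut G)⁻¹) P (hA _ (A.inv_mem s.2))
      (hAI _ (A.inv_mem s.2) χ hd1) l hχ
    refine ⟨g⁻¹, ?_⟩
    rw [cjPerm_apply, inv_inv, ← hg]
    rfl
  obtain ⟨k, hk⟩ := H77.GlPerm.glaub (autPerm P A hA) (cjPerm P) (by
      intro s k
      refine ⟨(s : MulAut G) k, ?_⟩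
      apply Equiv.ext
      intro m
      apply MonoidHom.ext
      intro u
      rw [← map_inv]
      change autPerm P A hA s (cjPerm P k (autPerm P A hA s⁻¹ m)) u = cjPerm P ((s : MulAut G) k) m u
      rw [autPerm_apply, cjPerm_apply, cjh_apply, autPerm_apply, cjPerm_apply, cjh_apply]
      congr 1
      apply Subtype.ext
      change ((s : MulAut G)⁻¹)⁻¹ (k⁻¹ * (s : MulAut G)⁻¹ (u : G) * k⁻¹⁻¹) =
        ((s : MulAut G) k)⁻¹ * (u : G) * ((s : MulAut G) k)⁻¹⁻¹
      rw [inv_inv, inv_inv, inv_inv, map_mul, map_mul, map_inv, MulAut.apply_inv_self]) (by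
      have e1 : Nat.card (autPerm P A hA).range ∣ orderOf α := by
        have := H77.GlPerm.card_range_dvd (autPerm P A hA) ⊥ bot_le
        rw [Subgroup.index_bot] at this
        rw [← Nat.card_zpowers, ← hAdef]
        exact this
      have e2 : Nat.card (cjPerm P).range ∣ P.index := by
        apply H77.GlPerm.card_range_dvd
        intro g hg
        rw [MonoidHom.mem_ker]
        apply Equiv.ext
        intro m
        rw [cjPerm_apply, cjh_self P (P.inv_mem hg)]
        rfl
      exact Nat.Coprime.coprime_dvd_left e1 (Nat.Coprime.coprime_dvd_right e2 hcop))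
    (Or.inr (solvable_of_surjective (cjPerm P).rangeRestrict_surjective)) l hx
  refine ⟨k⁻¹, ?_⟩
  have h1 := hk ⟨α⁻¹, by rw [hAdef]; exact Subgroup.inv_mem _ (Subgroup.mem_zpowers α)⟩
  rw [cjPerm_apply] at h1
  apply MonoidHom.ext
  intro u
  have h2 := DFunLike.congr_fun h1 u
  rw [autPerm_apply] at h2
  conv_rhs => rw [← h2]
  rw [MonoidHom.comp_apply]
  congr 1

end S2

end H77.NDA
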