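import Cfsg.Agent.Lib.H77.NDA13

/-!
# No divisibility among degrees: the second subcase is impossible, end (H77.NDA14)
-/

set_option autoImplicit false
set_option linter.style.haveILetI false
set_option linter.unusedSectionVars false
set_option maxHeartbeats 400000
open Cfsg
open scoped ComplexConjugate

namespace H77.NDA

open H18.CharBasic H18.CharOrtho H18.CharInd H18.CharQuot H77.PQuot H31.Clifford H77.ThreeA H77.ThreeB
open H77.ThreeC H77.ThreeE H77.ThreeF H77.TwoDeg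

universe u

variable {G : Type u} [Group G] [Finite G]

theorem aux_comm {M : Type u} [CommGroup M] {a b c d : M} (h : a * b = c * d) :
    d * b⁻¹ = a * c⁻¹ := by
  rw [mul_inv_eq_iff_eq_mul, mul_assoc, mul_comm c⁻¹ b, ← mul_assoc, h, mul_comm c d,
    mul_inv_cancel_right]

section S2

variable {V K P : Subgroup G} {p : ℕ} {α : MulAut G}

/-- `{b | [b, α] ∈ P}` -/
def S2.C (h : S2 G V K P p α) : Subgroup G where
  carrier := {b | b⁻¹ * α b ∈ P}
  mul_mem' := by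
    intro a b ha hb
    haveI := h.fs.Pn
    have ha' : a⁻¹ * α a ∈ P := ha
    have hb' : b⁻¹ * α b ∈ P := hb
    change (a * b)⁻¹ * α (a * b) ∈ P
    have h1 : (a * b)⁻¹ * α (a * b) = (b⁻¹ * (a⁻¹ * α a) * b⁻¹⁻¹) * (b⁻¹ * α b) := by
      rw [map_mul]; group
    rw [h1]
    exact P.mul_mem (h.fs.Pn.conj_mem _ ha' _) hb'
  one_mem' := by
    change (1 : G)⁻¹ * α 1 ∈ P
    rw [map_one, inv_one, mul_one]
    exact P.one_mem
  inv_mem' := by
    intro a ha
    haveI := h.fs.Pn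
    have ha' : a⁻¹ * α a ∈ P := ha
    change a⁻¹⁻¹ * α a⁻¹ ∈ P
    have h1 : a⁻¹⁻¹ * α a⁻¹ = a * (a⁻¹ * α a)⁻¹ * a⁻¹ := by
      rw [map_inv]; group
    rw [h1]
    exact h.fs.Pn.conj_mem _ (P.inv_mem ha') _

theorem S2.mem_C (h : S2 G V K P p α) (b : G) : b ∈ h.C ↔ b⁻¹ * α b ∈ P := Iff.rfl

theorem S2.P_le_C (h : S2 G V K P p α) : P ≤ h.C := fun u hu =>
  P.mul_mem (P.inv_mem hu) (h.fs.P_inv h.hα hu)

theorem S2.C_normal (h : S2 G V K P p α) : h.C.Normal := by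
  refine ⟨fun c hc g => ?_⟩
  have h1 : g * c * g⁻¹ * c⁻¹ ∈ h.C := by
    apply h.P_le_C
    apply h.fs.cP
    rw [commutator_def]
    exact Subgroup.commutator_mem_commutator (Subgroup.mem_top g) (Subgroup.mem_top c)
  have h2 : g * c * g⁻¹ = (g * c * g⁻¹ * c⁻¹) * c := by group
  rw [h2]
  exact h.C.mul_mem h1 hc

theorem S2.I_le_C (h : S2 G V K P p α) : Subgroup.centralizer (V : Set G) ≤ h.C :=
  fun _ hy => h.fs.cP (h.I_alpha hy)

/-- linear characters of `P/Z(P)` -/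
def Wc (P : Subgroup G) : Subgroup (P →* ℂˣ) where
  carrier := {l | ∀ z ∈ Subgroup.center P, l z = 1}
  mul_mem' := by
    intro a b ha hb z hz
    rw [MonoidHom.mul_apply, ha z hz, hb z hz, mul_one]
  one_mem' := fun _ _ => rfl
  inv_mem' := by
    intro a ha z hz
    rw [MonoidHom.inv_apply, ha z hz, inv_one]

theorem mem_Wc (P : Subgroup G) (l : P →* ℂˣ) :
    l ∈ Wc P ↔ ∀ z ∈ Subgroup.center P, l z = 1 := Iff.rfl

/-- the invariant ones -/
def W0c (P : Subgroup G) (α : MulAut G) (hα : ∀ u ∈ P, α u ∈ P) : Subgroup (P →* ℂˣ) where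
  carrier := {l | l ∈ Wc P ∧ l.comp (rs α P hα) = l}
  mul_mem' := by
    rintro a b ⟨ha, ha'⟩ ⟨hb, hb'⟩
    refine ⟨(Wc P).mul_mem ha hb, ?_⟩
    rw [MonoidHom.mul_comp, ha', hb']
  one_mem' := ⟨(Wc P).one_mem, rfl⟩
  inv_mem' := by
    rintro a ⟨ha, ha'⟩
    refine ⟨(Wc P).inv_mem ha, ?_⟩
    rw [MonoidHom.inv_comp, ha']

theorem mem_W0c (P : Subgroup G) (α : MulAut G) (hα : ∀ u ∈ P, α u ∈ P) (l : P →* ℂˣ) :
    l ∈ W0c P α hα ↔ l ∈ Wc P ∧ l.comp (rs α P hα) = l := Iff.rfl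

theorem Wc_cj (P : Subgroup G) [hP : P.Normal] (g : G) {l : P →* ℂˣ} (hl : l ∈ Wc P) :
    cjh P g l ∈ Wc P := by
  intro z hz
  rw [cjh_apply]
  apply hl
  rw [Subgroup.mem_center_iff] at hz ⊢
  intro w
  have h1 := congrArg Subtype.val (hz ⟨g⁻¹ * w * g⁻¹⁻¹, hP.conj_mem w w.2 g⁻¹⟩)
  have h2 : (g⁻¹ * (w : G) * g⁻¹⁻¹) * z = z * (g⁻¹ * (w : G) * g⁻¹⁻¹) := h1
  apply Subtype.ext
  change (w : G) * (g * z * g⁻¹) = (g * z * g⁻¹) * w
  calc (w : G) * (g * z * g⁻¹) = g * ((g⁻¹ * (w : G) * g⁻¹⁻¹) * z) * g⁻¹ := by group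
    _ = _ := by rw [h2]; group

theorem S2.L1 (h : S2 G V K P p α) [P.Normal] (hαP : ∀ u ∈ P, α u ∈ P) {l : P →* ℂˣ}
    (hl : l.comp (rs α P hαP) = l) (b : G) (u : P) :
    cjh P (α b) l (rs α P hαP u) = cjh P b l u := by
  rw [cjh_apply, cjh_apply]
  conv_rhs => rw [← hl]
  rw [MonoidHom.comp_apply]
  congr 1
  apply Subtype.ext
  change α b * α (u : G) * (α b)⁻¹ = α (b * u * b⁻¹)
  simp only [map_mul, map_inv]

theorem S2.C_stab (h : S2 G V K P p α) [P.Normal] (hαP : ∀ u ∈ P, α u ∈ P) {l : P →* ℂˣ}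
    (hl : l ∈ W0c P α hαP) {c : G} (hc : c ∈ h.C) : cjh P c l ∈ W0c P α hαP := by
  refine ⟨Wc_cj P c hl.1, ?_⟩
  apply MonoidHom.ext
  intro u
  rw [MonoidHom.comp_apply, ← h.L1 hαP hl.2 c u]
  have h1 : c = α c * (c⁻¹ * α c)⁻¹ := by group
  have h2 : cjh P c l = cjh P (α c) l := by
    conv_lhs => rw [h1]
    rw [← cjh_mul, cjh_self P (P.inv_mem hc)]
  rw [h2]

theorem S2.not_stab (h : S2 G V K P p α) [P.Normal] (hαP : ∀ u ∈ P, α u ∈ P) {l : P →* ℂˣ}
    (hl : l ∈ W0c P α hαP) {b : G} (hb : b ∉ h.C) (hbl : cjh P b l ∈ W0c P α hαP) : l = 1 := by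
  have h1 : cjh P (α b) l = cjh P b l := by
    apply MonoidHom.ext
    intro w
    obtain ⟨u, rfl⟩ := (rs_bij α P hαP).2 w
    rw [h.L1 hαP hl.2 b u]
    have h2 := DFunLike.congr_fun hbl.2 u
    rw [MonoidHom.comp_apply] at h2
    exact h2.symm
  have h2 : cjh P (α b * b⁻¹) l = l := by
    rw [← cjh_mul, h1, cjh_mul, mul_inv_cancel, cjh_one]
  by_contra hne
  apply hb
  rw [h.mem_C]
  have h3 : α b * b⁻¹ ∈ P := by
    by_contra hcon
    exact hne (h.stabW l hl.1 hcon h2)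
  have h4 : b⁻¹ * α b = b⁻¹ * (α b * b⁻¹) * b⁻¹⁻¹ := by group
  rw [h4]
  exact h.fs.Pn.conj_mem _ h3 _

theorem S2.false1 (h : S2 G V K P p α) (hs : Group.IsSolvable G)
    (hcop : (orderOf α).Coprime P.index) : False := by
  classical
  haveI := h.fs.Pn
  haveI := h.Vn
  haveI := h.C_normal
  haveI := Fact.mk h.fs.rp
  haveI := finite_hom P
  haveI := finite_hom V
  have hp := h.fs.rp
  have hαP : ∀ u ∈ P, α u ∈ P := fun _ hu => h.fs.P_inv h.hα hu
  obtain ⟨k, hk⟩ := (IsPGroup.iff_card (p := p)).1 h.pP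
  -- cardinals
  have hcZ : commutator P ≤ Subgroup.center P := by
    rw [commutator_def, Subgroup.commutator_le]
    intro a _ b _
    rw [Subgroup.mem_center_iff]
    intro w
    apply Subtype.ext
    exact (h.Vc _ (h.comm a.2 b.2) w w.2).symm
  have hW : Nat.card (Wc P) = (Subgroup.center P).index := card_triv (Subgroup.center P) hcZ
  obtain ⟨a, -, ha⟩ : ∃ a ≤ k, (Subgroup.center P).index = p ^ a := by
    rw [← Nat.dvd_prime_pow hp, ← hk]
    exact Subgroup.index_dvd_card _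
  obtain ⟨v, -, hv⟩ : ∃ v ≤ k, Nat.card V = p ^ v := by
    rw [← Nat.dvd_prime_pow hp, ← hk]
    exact Subgroup.card_dvd_of_le h.VP
  rw [ha] at hW
  have hW0W : W0c P α hαP ≤ Wc P := fun l hl => hl.1
  obtain ⟨b, -, hb⟩ : ∃ b ≤ a, Nat.card (W0c P α hαP) = p ^ b := by
    rw [← Nat.dvd_prime_pow hp, ← hW]
    exact Subgroup.card_dvd_of_le hW0W
  have hlt := h.card_lt
  rw [ha, hv] at hlt
  -- `n ∣ p^a - 1`
  have hCP : h.C.index ∣ P.index := Subgroup.index_dvd_of_le h.P_le_C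
  have h1 : h.C.index ∣ p ^ a - 1 := by
    rw [← hW]
    refine hCP.trans (dvd_card_of_stab P (Wc P) (fun g l hl => Wc_cj P g hl) P ?_)
    intro l hl hl1 g
    constructor
    · intro hg
      by_contra hgP
      exact hl1 (h.stabW l hl hgP hg)
    · exact fun hg => cjh_self P hg l
  have h2 : h.C.index ∣ p ^ v - 1 := by
    have h3 : Nat.card (⊤ : Subgroup (V →* ℂˣ)) = Nat.card V := by
      rw [Nat.card_congr Subgroup.topEquiv.toEquiv]
      exact H31.CoprimeExt.card_hom_of_comm (fun x y => Subtype.ext (h.Vab x x.2 y y.2))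
    rw [← hv, ← h3]
    refine (Subgroup.index_dvd_of_le h.I_le_C).trans (dvd_card_of_stab V ⊤
      (fun _ _ _ => Subgroup.mem_top _) _ ?_)
    intro l _ hl1 g
    exact h.stabV l hl1 g
  -- the number of characters
  have h3 : p ^ a - 1 ≤ h.C.index * (p ^ b - 1) := by
    rw [← hW, ← hb, ← card_ne_one, ← card_ne_one, Subgroup.index_eq_card, ← Nat.card_prod]
    have hne : ∀ (g : G) (l : P →* ℂˣ), l ≠ 1 → cjh P g l ≠ 1 := by
      intro g l hl h'
      apply hl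
      have h1 : cjh P g⁻¹ (cjh P g l) = l := by rw [cjh_mul, mul_inv_cancel, cjh_one]
      rw [← h1, h']; rfl
    apply Nat.card_le_card_of_surjective
      (fun x : (G ⧸ h.C) × {l : P →* ℂˣ // l ∈ W0c P α hαP ∧ l ≠ 1} =>
        (⟨cjh P x.1.out x.2.1, Wc_cj P _ x.2.2.1.1, hne _ _ x.2.2.2⟩ :
          {l : P →* ℂˣ // l ∈ Wc P ∧ l ≠ 1}))
    rintro ⟨l, hl, hl1⟩
    obtain ⟨c, hc⟩ := h.t9 hs hcop l hl hl1
    obtain ⟨t, ht⟩ : ∃ t : G, t = ((c⁻¹ : G) : G ⧸ h.C).out := ⟨_, rfl⟩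
    have h4 : t⁻¹ * c⁻¹ ∈ h.C := by
      rw [← QuotientGroup.eq, ht, QuotientGroup.out_eq']
    have h5 : c⁻¹ * t⁻¹ ∈ h.C := by
      have h6 : c⁻¹ * t⁻¹ = t * (t⁻¹ * c⁻¹) * t⁻¹ := by group
      rw [h6]
      exact h.C_normal.conj_mem _ h4 t
    have h6 : cjh P c l ∈ W0c P α hαP := ⟨Wc_cj P c hl, hc⟩
    refine ⟨(((c⁻¹ : G) : G ⧸ h.C), ⟨cjh P (c⁻¹ * t⁻¹) (cjh P c l), h.C_stab hαP h6 h5,
      hne _ _ (hne _ _ hl1)⟩), ?_⟩
    apply Subtype.ext
    change cjh P ((c⁻¹ : G) : G ⧸ h.C).out (cjh P (c⁻¹ * t⁻¹) (cjh P c l)) = l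
    rw [← ht, cjh_mul, cjh_mul]
    have h7 : c * (c⁻¹ * t⁻¹ * t) = 1 := by group
    rw [h7, cjh_one]
  have h4 : 2 * b ≤ a := by
    obtain ⟨x0, hx0⟩ := h.mv
    have hx0C : x0 ∉ h.C := hx0
    have h5 : Nat.card (W0c P α hαP) * Nat.card (W0c P α hαP) ≤ Nat.card (Wc P) := by
      rw [← Nat.card_prod]
      apply Nat.card_le_card_of_injective
        (fun x : (W0c P α hαP) × (W0c P α hαP) =>
          (⟨x.1.1 * cjh P x0 x.2.1, (Wc P).mul_mem x.1.2.1 (Wc_cj P _ x.2.2.1)⟩ : Wc P))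
      rintro ⟨⟨m1, hm1⟩, ⟨m2, hm2⟩⟩ ⟨⟨n1, hn1⟩, ⟨n2, hn2⟩⟩ he
      have h6 : m1 * cjh P x0 m2 = n1 * cjh P x0 n2 := congrArg Subtype.val he
      have h7 : cjh P x0 (n2 * m2⁻¹) = m1 * n1⁻¹ := by
        rw [cjh_hmul, cjh_inv]
        exact aux_comm (M := P →* ℂˣ) (a := m1) (b := cjh P x0 m2) (c := n1) (d := cjh P x0 n2) h6
      have h8 : n2 * m2⁻¹ = 1 := by
        apply h.not_stab hαP ((W0c P α hαP).mul_mem hn2 ((W0c P α hαP).inv_mem hm2)) hx0C
        rw [h7]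
        exact (W0c P α hαP).mul_mem hm1 ((W0c P α hαP).inv_mem hn1)
      have h9 : n2 = m2 := mul_inv_eq_one.1 h8
      subst h9
      have h10 : m1 = n1 := mul_right_cancel h6
      subst h10
      rfl
    rw [hb, hW, ← pow_add] at h5
    have h6 := (Nat.pow_le_pow_iff_right hp.one_lt).1 h5
    omega
  have ha0 : a ≠ 0 := by
    rintro rfl
    rw [pow_zero] at hlt
    have := Nat.one_le_pow v p hp.pos
    omega
  have hv0 : v ≠ 0 := by
    rintro rfl
    rw [pow_zero] at hv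
    exact h.Vne (Subgroup.card_eq_one.1 hv)
  have h5 := final_nt hp h1 h2 h3 h4 ha0 hv0
  omega

theorem S2.false (h : S2 G V K P p α) (hs : Group.IsSolvable G) {f : ℕ}
    (hfc : ∀ χ : IrrCharacter G, charDegree χ.1 ≠ 1 → f.Coprime (charDegree χ.1))
    (hfi : ∃ g0 : G, ∀ x, (α ^ f) x = g0 * x * g0⁻¹) : False := by
  classical
  haveI := h.fs.Pn
  haveI : Finite (MulAut G) := Finite.of_injective (fun a : MulAut G => (a : G → G))
    DFunLike.coe_injective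
  obtain ⟨k, hk⟩ := exists_pow_cop P.index (orderOf α) α rfl
  obtain ⟨χ1, -, hχ1⟩ := h.fs.exists_f
  have hcf : f.Coprime P.index := by
    have h1 := hfc χ1 (by rw [hχ1]; exact h.fs.i1)
    rwa [hχ1] at h1
  have hmv : ∃ x, x⁻¹ * (α ^ P.index ^ k) x ∉ P := by
    by_contra hcon
    push Not at hcon
    let S : AddSubgroup ℤ :=
      { carrier := {n | ∀ x, x⁻¹ * (α ^ n) x ∈ P}
        add_mem' := by
          intro m n hm hn x
          have h1 : x⁻¹ * (α ^ (m + n)) x = (x⁻¹ * (α ^ m) x) * (α ^ m) (x⁻¹ * (α ^ n) x) := by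
            rw [zpow_add, MulAut.mul_apply, map_mul, map_inv]
            group
          rw [h1]
          exact P.mul_mem (hm x) (h.fs.P_inv (h.hα.zpow m) (hn x))
        zero_mem' := by
          intro x
          rw [zpow_zero, MulAut.one_apply, inv_mul_cancel]
          exact P.one_mem
        neg_mem' := by
          intro n hn x
          have h1 := hn ((α ^ (-n)) x)
          have h2 : (α ^ n) ((α ^ (-n)) x) = x := by
            rw [zpow_neg, MulAut.apply_inv_self]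
          rw [h2] at h1
          have h3 := P.inv_mem h1
          rw [mul_inv_rev, inv_inv] at h3
          exact h3 }
    have h1 : ((P.index ^ k : ℕ) : ℤ) ∈ S := by
      intro x
      rw [zpow_natCast]
      exact hcon x
    have h2 : (f : ℤ) ∈ S := by
      intro x
      rw [zpow_natCast]
      obtain ⟨g0, hg0⟩ := hfi
      rw [hg0]
      apply h.fs.cP
      rw [commutator_def]
      have h3 := Subgroup.commutator_mem_commutator (Subgroup.mem_top x⁻¹) (Subgroup.mem_top g0)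
      rw [commutatorElement_def, inv_inv] at h3
      have h4 : x⁻¹ * (g0 * x * g0⁻¹) = x⁻¹ * g0 * x * g0⁻¹ := by group
      rw [h4]
      exact h3
    have h3 : IsCoprime ((P.index ^ k : ℕ) : ℤ) (f : ℤ) := by
      rw [Nat.isCoprime_iff_coprime]
      exact (Nat.Coprime.pow_right k hcf).symm
    obtain ⟨u, w, huw⟩ := h3
    have h4 : (1 : ℤ) ∈ S := by
      rw [← huw]
      exact S.add_mem (by rw [← smul_eq_mul]; exact S.zsmul_mem h1 u)
        (by rw [← smul_eq_mul]; exact S.zsmul_mem h2 w)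
    obtain ⟨x0, hx0⟩ := h.mv
    apply hx0
    have h5 := h4 x0
    rwa [zpow_one] at h5
  have h' : S2 G V K P p (α ^ P.index ^ k) :=
    { nd := h.nd, fs := h.fs, Vn := h.Vn, Vmin := h.Vmin, Vne := h.Vne, PV := h.PV, Vc := h.Vc,
      pP := h.pP, hα := h.hα.pow _, mv := hmv }
  exact h'.false1 hs hk

end S2

end H77.NDA
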