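import Cfsg.Agent.Lib.H77.NDA14

/-!
# No divisibility among degrees: groups with an automorphism fixing the nonlinear characters
(H77.NDA15)
-/

set_option autoImplicit false
set_option linter.style.haveILetI false
set_option linter.unusedSectionVars false
set_option maxHeartbeats 400000
open Cfsg
open scoped ComplexConjugate

namespace H77.NDA

open H18.CharBasic H18.CharOrtho H18.CharInd H18.CharQuot H77.PQuot H31.Clifford H77.ThreeA H77.ThreeB
open H77.ThreeC H77.ThreeE H77.ThreeF H77.TwoDeg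

universe u

/-- `x ↦ x⁻¹ α(x)` -/
def itf {G : Type u} [Group G] (α : MulAut G) (x : G) : G := x⁻¹ * α x

/-- the hypotheses of the main theorem on automorphisms -/
structure EH (G : Type u) [Group G] [Finite G] (α : MulAut G) (f : ℕ) : Prop where
  hs : Group.IsSolvable G
  hα : AInv α
  nd : ND G
  fc : ∀ χ : IrrCharacter G, charDegree χ.1 ≠ 1 → f.Coprime (charDegree χ.1)
  fi : ∃ g0 : G, ∀ x, (α ^ f) x = g0 * x * g0⁻¹
  mv : ∃ x, ∀ k : ℕ, (itf α)^[k] x ∉ commutator G

variable {G : Type u} [Group G] [Finite G]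

/-- the induced automorphism of a quotient -/
theorem exists_quot (α : MulAut G) (N : Subgroup G) [N.Normal] (hN : ∀ n ∈ N, α n ∈ N) :
    ∃ β : MulAut (G ⧸ N), ∀ x : G, β (x : G ⧸ N) = ((α x : G) : G ⧸ N) := by
  have h1 : N.map ((α : G ≃* G) : G →* G) = N := by
    apply Subgroup.eq_of_le_of_card_ge
    · rintro _ ⟨n, hn, rfl⟩
      exact hN n hn
    · rw [Nat.card_congr (N.equivMapOfInjective ((α : G ≃* G) : G →* G)
        (MulEquiv.injective α)).toEquiv]
  exact ⟨QuotientGroup.congr N N α h1, fun x => QuotientGroup.congr_mk N N α h1 x⟩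

theorem EH.quot {α : MulAut G} {f : ℕ} (h : EH G α f) (N : Subgroup G) [N.Normal]
    (hN : ∀ n ∈ N, α n ∈ N) (hd : ∃ x, ∀ k : ℕ, (itf α)^[k] x ∉ commutator G ⊔ N) :
    ∃ β : MulAut (G ⧸ N), EH (G ⧸ N) β f := by
  obtain ⟨β, hβ⟩ := exists_quot α N hN
  have hs := h.hs
  refine ⟨β, inferInstance, ?_, ?_, ?_, ?_, ?_⟩
  · intro χ hχ q
    obtain ⟨x, rfl⟩ := QuotientGroup.mk_surjective q
    obtain ⟨ψ, hψ1, hψ2⟩ := infl_degree N χ
    rw [hβ, ← hψ2, ← hψ2]
    exact h.hα ψ (by rw [hψ1]; exact hχ) x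
  · intro χ ψ hχ hd
    obtain ⟨χ', h1, -⟩ := infl_degree N χ
    obtain ⟨ψ', h2, -⟩ := infl_degree N ψ
    rw [← h1, ← h2] at hd ⊢
    exact h.nd χ' ψ' (by rw [h1]; exact hχ) hd
  · intro χ hχ
    obtain ⟨χ', h1, -⟩ := infl_degree N χ
    rw [← h1] at hχ ⊢
    exact h.fc χ' hχ
  · obtain ⟨g0, hg0⟩ := h.fi
    refine ⟨(g0 : G ⧸ N), fun q => ?_⟩
    obtain ⟨x, rfl⟩ := QuotientGroup.mk_surjective q
    have h1 : ∀ k : ℕ, ∀ y : G, (β ^ k) (y : G ⧸ N) = (((α ^ k) y : G) : G ⧸ N) := by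
      intro k
      induction k with
      | zero => intro y; rfl
      | succ k ih =>
        intro y
        rw [pow_succ, pow_succ, MulAut.mul_apply, MulAut.mul_apply, hβ, ih]
    rw [h1, hg0, QuotientGroup.mk_mul, QuotientGroup.mk_mul, QuotientGroup.mk_inv]
  · obtain ⟨x, hx⟩ := hd
    refine ⟨(x : G ⧸ N), fun k hk => ?_⟩
    have h1 : (itf β)^[k] (x : G ⧸ N) = (((itf α)^[k] x : G) : G ⧸ N) := by
      induction k with
      | zero => rfl
      | succ k ih =>
        have ih' : (itf β)^[k] (x : G ⧸ N) = (((itf α)^[k] x : G) : G ⧸ N) := by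
          clear ih hk
          induction k with
          | zero => rfl
          | succ k ih2 =>
            rw [Function.iterate_succ_apply', Function.iterate_succ_apply', ih2, itf, itf, hβ,
              QuotientGroup.mk_mul, QuotientGroup.mk_inv]
        rw [Function.iterate_succ_apply', Function.iterate_succ_apply', ih', itf, itf, hβ,
          QuotientGroup.mk_mul, QuotientGroup.mk_inv]
    rw [h1] at hk
    have h2 : (commutator G).map (QuotientGroup.mk' N) = commutator (G ⧸ N) := by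
      rw [commutator_def, commutator_def, Subgroup.map_commutator,
        Subgroup.map_top_of_surjective _ (QuotientGroup.mk'_surjective N)]
    rw [← h2] at hk
    obtain ⟨c, hc, hcx⟩ := hk
    apply hx k
    have h3 : c⁻¹ * (itf α)^[k] x ∈ N := (QuotientGroup.eq (s := N)).1 hcx
    have h4 : (itf α)^[k] x = c * (c⁻¹ * (itf α)^[k] x) := by group
    rw [h4]
    exact Subgroup.mul_mem_sup hc h3

theorem deflate_exists (N : Subgroup G) [N.Normal] {χ : IrrCharacter G} (h : InKer N χ.1) :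
    ∃ χ' : IrrCharacter (G ⧸ N), charDegree χ'.1 = charDegree χ.1 := by
  refine ⟨⟨deflate N χ.1, isIrrCharacter_deflate N χ.2 h⟩, ?_⟩
  apply charDegree_eq_of
  have h1 := deflate_mk N (isCharacter_of_isIrr χ.2) h 1
  rw [QuotientGroup.mk_one] at h1
  change deflate N χ.1 1 = _
  rw [h1, cast_irr]

theorem exists_min_normal (N : Subgroup G) (hN : N.Normal) (hb : N ≠ ⊥) :
    ∃ M : Subgroup G, M ≤ N ∧ M.Normal ∧ M ≠ ⊥ ∧
      ∀ K : Subgroup G, K.Normal → K ≤ M → K = ⊥ ∨ K = M := by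
  obtain ⟨M, hM⟩ := (Set.toFinite {K : Subgroup G | K ≤ N ∧ K.Normal ∧ K ≠ ⊥}).exists_minimal
    ⟨N, le_rfl, hN, hb⟩
  refine ⟨M, hM.prop.1, hM.prop.2.1, hM.prop.2.2, ?_⟩
  intro K hK hKM
  by_cases hKb : K = ⊥
  · exact Or.inl hKb
  · right
    exact le_antisymm hKM (hM.le_of_le ⟨hKM.trans hM.prop.1, hK, hKb⟩ hKM)

/-- `α` moves some coset of `P` -/
theorem EH.mvP {α : MulAut G} {f : ℕ} (h : EH G α f) {V K P : Subgroup G} {r : ℕ}
    (hf : FS G V K P r) {N : Subgroup G} (hN : N ≤ P) :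
    ∃ x, ∀ k : ℕ, (itf α)^[k] x ∉ commutator G ⊔ N := by
  haveI := hf.Kn
  obtain ⟨x, hx⟩ := h.mv
  refine ⟨x, fun k hk => ?_⟩
  apply hx (k + 1)
  rw [Function.iterate_succ_apply', itf]
  apply J2 h.hα hf.cK
  rw [← hf.Pdef]
  exact (sup_le hf.cP hN) hk

/-- normal Sylow subgroups of `P` for primes not equal to `p` -/
theorem exists_syl_normal (P : Subgroup G) [hP : P.Normal]
    (hZ : ∀ a ∈ P, ∀ b ∈ P, ∀ c ∈ P, (a * b * a⁻¹ * b⁻¹) * c = c * (a * b * a⁻¹ * b⁻¹)) {q : ℕ}
    (hq : q.Prime) (hqP : q ∣ Nat.card P) (α : MulAut G) (hα : ∀ u ∈ P, α u ∈ P) :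
    ∃ N : Subgroup G, N.Normal ∧ N ≤ P ∧ N ≠ ⊥ ∧ IsPGroup q N ∧ ∀ n ∈ N, α n ∈ N := by
  haveI := Fact.mk hq
  obtain ⟨Q⟩ : Nonempty (Sylow q P) := inferInstance
  haveI : Group.IsNilpotent P := by
    apply Group.of_quotient_center_nilpotent
    letI : CommGroup (P ⧸ Subgroup.center P) :=
      { (inferInstance : Group (P ⧸ Subgroup.center P)) with
        mul_comm := by
          intro a b
          obtain ⟨a, rfl⟩ := QuotientGroup.mk_surjective a
          obtain ⟨b, rfl⟩ := QuotientGroup.mk_surjective b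
          change ((a * b : P) : P ⧸ Subgroup.center P) = ((b * a : P) : P ⧸ Subgroup.center P)
          symm
          rw [QuotientGroup.eq, Subgroup.mem_center_iff]
          intro c
          apply Subtype.ext
          have h1 := hZ _ (P.inv_mem a.2) _ (P.inv_mem b.2) c c.2
          have h2 : (a : G)⁻¹ * (b : G)⁻¹ * (a : G)⁻¹⁻¹ * (b : G)⁻¹⁻¹ = ((b : G) * a)⁻¹ * (a * b) := by
            group
          rw [h2] at h1
          exact h1.symm }
    exact CommGroup.isNilpotent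
  haveI hQn : (Q : Subgroup P).Normal :=
    Sylow.normal_of_normalizerCondition Group.normalizerCondition_of_isNilpotent Q
  haveI hQc : (Q : Subgroup P).Characteristic := Sylow.characteristic_of_normal Q hQn
  refine ⟨(Q : Subgroup P).map P.subtype, inferInstance, Subgroup.map_subtype_le _, ?_, ?_, ?_⟩
  · intro h
    apply Sylow.ne_bot_of_dvd_card Q hqP
    exact (Subgroup.map_eq_bot_iff_of_injective _ P.subtype_injective).1 h
  · exact Q.2.map P.subtype
  · rintro _ ⟨u, hu, rfl⟩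
    let e : P ≃* P := MulEquiv.ofBijective (rs α P hα) (rs_bij α P hα)
    have h1 := (Subgroup.characteristic_iff_map_le.1 hQc) e
    exact ⟨e u, h1 ⟨u, hu, rfl⟩, rfl⟩

end H77.NDA
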