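import Cfsg.Agent.Lib.H77.NDA15

/-!
# No divisibility among degrees: the theorem on automorphisms (H77.NDA16)
-/

set_option autoImplicit false
set_option linter.style.haveILetI false
set_option linter.unusedSectionVars false
set_option maxHeartbeats 400000
open Cfsg
open scoped ComplexConjugate

namespace H77.NDA

open H18.CharBasic H18.CharOrtho H18.CharInd H18.CharQuot H77.PQuot H31.Clifford H77.ThreeA H77.ThreeB
open H77.ThreeC H77.ThreeE H77.ThreeF H77.TwoDeg

universe u

variable {G : Type u} [Group G] [Finite G]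

theorem comm_mem (a b : G) : a * b * a⁻¹ * b⁻¹ ∈ commutator G := by
  rw [commutator_def]
  exact Subgroup.commutator_mem_commutator (Subgroup.mem_top a) (Subgroup.mem_top b)

theorem ecore {α : MulAut G} {f : ℕ} (h : EH G α f)
    (ih : ∀ (H : Type u) [Group H] [Finite H], Nat.card H < Nat.card G →
      ∀ (β : MulAut H), EH H β f → ∃ m : ℕ, ∀ χ : IrrCharacter H, charDegree χ.1 = 1 ∨
        charDegree χ.1 = m) :
    ∃ m : ℕ, ∀ χ : IrrCharacter G, charDegree χ.1 = 1 ∨ charDegree χ.1 = m := by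
  classical
  by_contra hcon
  have hs := h.hs
  have hGb : commutator G ≠ ⊥ := by
    intro hb
    apply hcon
    refine ⟨1, fun χ => Or.inl (deg_eq_one_of_inKer ?_)⟩
    intro x hx
    rw [hb, Subgroup.mem_bot] at hx
    rw [hx]
  obtain ⟨V, hVc, hVn, hVne, hmin⟩ := exists_min_normal (commutator G) inferInstance hGb
  haveI := hVn
  obtain ⟨hVab', p, hp, hVp, hVpow⟩ := H11.MinNormal.minimal_normal_abelian hs V hVne hmin
  have hVab : ∀ a ∈ V, ∀ b ∈ V, a * b = b * a := by
    intro a ha b hb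
    exact congrArg Subtype.val (hVab'.is_comm.comm ⟨a, ha⟩ ⟨b, hb⟩)
  have hcV : ¬ commutator G ≤ V := fun hc => hcon (caseA h.nd V hVab hmin hp hVpow hc)
  have hquot : ∀ N : Subgroup G, N ≠ ⊥ → Nat.card (G ⧸ N) < Nat.card G := by
    intro N hN
    have h1 := Subgroup.card_mul_index N
    rw [← Subgroup.index_eq_card, ← h1]
    have h2 : 1 < Nat.card N := (Subgroup.one_lt_card_iff_ne_bot N).2 hN
    have h3 : 0 < N.index := Nat.pos_of_ne_zero Subgroup.index_ne_zero_of_finite
    nlinarith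
  have hihN : ∀ N : Subgroup G, N.Normal → N ≠ ⊥ → (∀ n ∈ N, α n ∈ N) →
      (∃ x, ∀ k : ℕ, (itf α)^[k] x ∉ commutator G ⊔ N) →
      ∃ m : ℕ, ∀ χ : IrrCharacter G, InKer N χ.1 → charDegree χ.1 = 1 ∨ charDegree χ.1 = m := by
    intro N hN hNb hNα hNd
    obtain ⟨β, hβ⟩ := h.quot N hNα hNd
    obtain ⟨m, hm⟩ := ih (G ⧸ N) (hquot N hNb) β hβ
    refine ⟨m, fun χ hχ => ?_⟩
    obtain ⟨χ', hχ'⟩ := deflate_exists N hχ
    rw [← hχ']
    exact hm χ'
  obtain ⟨m0, hm0⟩ := hihN V hVn hVne (fun n hn => inv_of_le h.hα V hVc hn) (by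
    obtain ⟨x, hx⟩ := h.mv
    exact ⟨x, fun k => by rw [sup_eq_left.2 hVc]; exact hx k⟩)
  obtain ⟨K, P, r, hf⟩ := setup hs V hcV (by
    intro K q hK hVK hKc hq hqK
    apply hcon
    haveI := hK
    refine stepA h.nd hq K ?_ hKc
    intro x
    obtain ⟨x, rfl⟩ := QuotientGroup.mk_surjective x
    obtain ⟨k, hk⟩ := hqK x
    exact ⟨k, by rw [← QuotientGroup.mk_pow, QuotientGroup.eq_one_iff]; exact hk⟩)
  haveI := hf.Kn
  haveI := hf.Pn
  have hVP : V ≤ P := hf.VK.trans hf.KP
  obtain ⟨χ1, hχ1K, hχ1⟩ := hf.exists_f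
  have hm0' : P.index = m0 := by
    rcases hm0 χ1 (fun n hn => hχ1K n (hf.VK hn)) with h1 | h1
    · exact absurd (hχ1.symm.trans h1) hf.i1
    · exact hχ1.symm.trans h1
  rw [← hm0'] at hm0
  have hrd : ∀ n : ℕ, r ∣ n → n = 1 ∨ n = P.index → False := by
    intro n hn h1
    rcases h1 with rfl | rfl
    · exact hf.rp.one_lt.ne' (Nat.dvd_one.1 hn)
    · exact hf.ri hn
  have hPVle : ⁅P, P⁆ ≤ V := by
    by_contra hcon2
    have h1 : ¬ commutator P ≤ V.subgroupOf P := by
      intro h2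
      apply hcon2
      rw [Subgroup.commutator_le]
      intro a ha b hb
      have h3 := h2 (comm_mem (⟨a, ha⟩ : P) ⟨b, hb⟩)
      exact h3
    haveI : (V.subgroupOf P).Normal := hVn.subgroupOf P
    obtain ⟨θ, hθ1, hθ2⟩ := infl_exists (V.subgroupOf P) h1
    obtain ⟨χ, hχ⟩ := over_up P θ
    have h2 := over_inKer P hχ V hVP (fun w hw => hθ2 _ hw)
    exact hrd _ ((hf.dvd_of_nonlinear h.nd θ hθ1).trans (over_dvd P hχ).1) (hm0 χ h2)
  have hPb : ⁅P, P⁆ ≠ ⊥ := by
    intro hb
    apply hcon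
    refine ⟨P.index, fun χ => hf.deg_of_inKer h.nd ?_⟩
    rw [hb]
    intro x hx
    rw [Subgroup.mem_bot] at hx
    rw [hx]
  have hPV : ⁅P, P⁆ = V := by
    rcases hmin ⁅P, P⁆ inferInstance hPVle with h1 | h1
    · exact absurd h1 hPb
    · exact h1
  -- `α` moves a coset of `P`
  have hmv : ∃ x, x⁻¹ * α x ∉ P := by
    by_contra hcon2
    push Not at hcon2
    obtain ⟨x, hx⟩ := h.mvP hf (N := P) le_rfl
    apply hx 1
    exact (le_sup_right : P ≤ commutator G ⊔ P) (hcon2 x)
  by_cases hVZ : ∀ v ∈ V, ∀ u ∈ P, v * u = u * v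
  swap
  · obtain ⟨x, hx⟩ := hmv
    apply hx
    push Not at hVZ
    exact sub1 h.nd hf hPV hVP hVab hmin hVne hp hVp hVZ h.hα x
  · have hcomm : ∀ a ∈ P, ∀ b ∈ P, a * b * a⁻¹ * b⁻¹ ∈ V := by
      intro a ha b hb
      rw [← hPV]
      exact Subgroup.commutator_mem_commutator ha hb
    -- `r = p`
    obtain ⟨b, hb⟩ := center_index (H := P) hp (by
      intro x y
      have h1 := hcomm x x.2 y y.2
      refine ⟨fun z => Subtype.ext (hVZ _ h1 z z.2), Subtype.ext (hVpow _ h1)⟩)
    have hrp : r = p := by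
      obtain ⟨θ, hθ⟩ : ∃ θ : IrrCharacter P, charDegree θ.1 ≠ 1 := by
        by_contra hcon2
        push Not at hcon2
        apply hPb
        have h2 := H77.TwoDeg.comm_of_linear' hcon2
        rw [eq_bot_iff, Subgroup.commutator_le]
        intro a ha b hb
        have h3 : a * b = b * a := congrArg Subtype.val (h2 ⟨a, ha⟩ ⟨b, hb⟩)
        rw [Subgroup.mem_bot, commutatorElement_def, h3]
        group
      have h1 := hf.dvd_of_nonlinear h.nd θ hθ
      have h2 : charDegree θ.1 ∣ p ^ b := by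
        rw [← hb]
        exact H4.CenterIndex.ito θ.2 (cast_irr θ).symm (Subgroup.center P) (fun a ha b _ =>
          ((Subgroup.mem_center_iff.1 ha b)).symm)
      exact (Nat.prime_dvd_prime_iff_eq hf.rp hp).1 (hf.rp.dvd_of_dvd_pow (h1.trans h2))
    subst hrp
    haveI := Fact.mk hp
    have hαP : ∀ u ∈ P, α u ∈ P := fun _ hu => hf.P_inv h.hα hu
    -- `P` is a `p`-group
    have hPp : IsPGroup r P := by
      by_contra hcon2
      obtain ⟨q, hq, hqr, hqP⟩ : ∃ q : ℕ, q.Prime ∧ q ≠ r ∧ q ∣ Nat.card P := by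
        by_contra hcon3
        push Not at hcon3
        apply hcon2
        have h1 : Nat.card P = r ^ (Nat.card P).primeFactorsList.length :=
          Nat.eq_prime_pow_of_unique_prime_dvd Nat.card_pos.ne' (by
            intro d hd hdP
            by_contra hne
            exact hcon3 d hd hne hdP)
        exact IsPGroup.of_card h1
      obtain ⟨N, hNn, hNP, hNb, hNq, hNα⟩ := exists_syl_normal P (by
        intro a ha b hb c hc
        exact hVZ _ (hcomm a ha b hb) c hc) hq hqP α hαP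
      haveI := hNn
      obtain ⟨m1, hm1⟩ := hihN N hNn hNb hNα (h.mvP hf hNP)
      have hNK : N ≤ K := by
        intro n hn
        obtain ⟨c, hc⟩ := hf.pw
        obtain ⟨j, hj⟩ := hNq ⟨n, hn⟩
        have hj' : n ^ q ^ j = 1 := congrArg Subtype.val hj
        rw [← QuotientGroup.eq_one_iff]
        apply orderOf_eq_one_iff.1
        apply Nat.eq_one_of_dvd_coprimes (Nat.Coprime.pow j c ((Nat.coprime_primes hq hp).2 hqr))
        · apply orderOf_dvd_of_pow_eq_one
          rw [← QuotientGroup.mk_pow, hj', QuotientGroup.mk_one]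
        · apply orderOf_dvd_of_pow_eq_one
          rw [← QuotientGroup.mk_pow, QuotientGroup.eq_one_iff]
          exact hc n (hNP hn)
      have hm1' : P.index = m1 := by
        rcases hm1 χ1 (fun n hn => hχ1K n (hNK hn)) with h1 | h1
        · exact absurd (hχ1.symm.trans h1) hf.i1
        · exact hχ1.symm.trans h1
      obtain ⟨χ2, hχ2N, hχ2V⟩ : ∃ χ : IrrCharacter G, InKer N χ.1 ∧ ¬ InKer V χ.1 := by
        by_contra hcon3
        push Not at hcon3
        apply hVne
        rw [Subgroup.eq_bot_iff_forall]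
        intro v hv
        have hvN : v ∈ N := by
          rw [← QuotientGroup.eq_one_iff]
          apply eq_one_of_forall_irr
          intro χ hχ
          obtain ⟨ψ, -, hψ⟩ := infl_degree N ⟨χ, hχ⟩
          have h1 : χ ((v : G) : G ⧸ N) = ψ.1 v := (hψ _).symm
          have h2 : χ 1 = ψ.1 1 := by rw [hψ]; rfl
          rw [h1, h2]
          refine hcon3 ψ (fun n hn => ?_) v hv
          rw [hψ, hψ, (QuotientGroup.eq_one_iff n).2 hn, QuotientGroup.mk_one]
        obtain ⟨j, hj⟩ := hNq ⟨v, hvN⟩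
        obtain ⟨i, hi⟩ := hVp ⟨v, hv⟩
        have hj' : v ^ q ^ j = 1 := congrArg Subtype.val hj
        have hi' : v ^ r ^ i = 1 := congrArg Subtype.val hi
        exact orderOf_eq_one_iff.1 (Nat.eq_one_of_dvd_coprimes
          (Nat.Coprime.pow j i ((Nat.coprime_primes hq hp).2 hqr))
          (orderOf_dvd_of_pow_eq_one hj') (orderOf_dvd_of_pow_eq_one hi'))
      have h1 := hm1 χ2 hχ2N
      rw [← hm1'] at h1
      exact hrd _ (hf.dvd_of_not_inKer h.nd (by rw [hPV]; exact hχ2V)) h1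
    have hS2 : S2 G V K P r α :=
      { nd := h.nd, fs := hf, Vn := hVn, Vmin := hmin, Vne := hVne, PV := hPV, Vc := hVZ,
        pP := hPp, hα := h.hα, mv := hmv }
    exact hS2.false hs h.fc h.fi

theorem etheorem (n : ℕ) : ∀ (G : Type u) [Group G] [Finite G], Nat.card G = n →
    ∀ (α : MulAut G) (f : ℕ), EH G α f →
      ∃ m : ℕ, ∀ χ : IrrCharacter G, charDegree χ.1 = 1 ∨ charDegree χ.1 = m := by
  induction n using Nat.strong_induction_on with
  | _ n ih =>
    intro G _ _ hG α f h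
    refine ecore h ?_
    intro H _ _ hH β hβ
    exact ih _ (by rw [← hG]; exact hH) H rfl β f hβ

end H77.NDA
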