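import Cfsg.Agent.Lib.H77.NDA16
import Cfsg.Prelude.Def_DegreeGraph

/-!
# No divisibility among degrees and two components: three degrees (H77.NDA17)
-/

set_option autoImplicit false
set_option linter.style.haveILetI false
set_option linter.unusedSectionVars false
set_option maxHeartbeats 400000
open Cfsg
open scoped ComplexConjugate

namespace H77.NDA

open H18.CharBasic H18.CharOrtho H18.CharInd H18.CharQuot H77.PQuot H31.Clifford H77.ThreeA H77.ThreeB
open H77.ThreeC H77.ThreeE H77.ThreeF H77.TwoDeg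

universe u

variable {G : Type u} [Group G] [Finite G]

theorem nd_of (hnd : ∀ a ∈ Cfsg.charDegrees G, ∀ b ∈ Cfsg.charDegrees G, 1 < a → a < b → ¬ a ∣ b) :
    ND G := by
  intro χ ψ hχ hd
  have h1 : 0 < charDegree χ.1 := deg_pos χ
  have h2 : 0 < charDegree ψ.1 := deg_pos ψ
  rcases lt_or_eq_of_le (Nat.le_of_dvd h2 hd) with h3 | h3
  · exact absurd hd (hnd _ ⟨χ, rfl⟩ _ ⟨ψ, rfl⟩ (by omega) h3)
  · exact h3

theorem reach_of_dvd {a b : Cfsg.degreePrimes G} {d : ℕ} (hd : d ∈ Cfsg.charDegrees G)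
    (ha : (a : ℕ) ∣ d) (hb : (b : ℕ) ∣ d) :
    ((Cfsg.degreeGraph G).induce (Cfsg.degreePrimes G)).Reachable a b := by
  by_cases hab : a = b
  · rw [hab]
  · apply SimpleGraph.Adj.reachable
    have hne : (a : ℕ) ≠ b := fun h => hab (Subtype.ext h)
    refine ⟨hne, a.2.1, b.2.1, d, hd, ?_⟩
    exact Nat.Coprime.mul_dvd_of_dvd_of_dvd ((Nat.coprime_primes a.2.1 b.2.1).2 hne) ha hb

theorem not_conn (htwo : Nat.card ((Cfsg.degreeGraph G).induce
    (Cfsg.degreePrimes G)).ConnectedComponent = 2)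
    (h : ∀ a b : Cfsg.degreePrimes G,
      ((Cfsg.degreeGraph G).induce (Cfsg.degreePrimes G)).Reachable a b) : False := by
  haveI : Subsingleton ((Cfsg.degreeGraph G).induce (Cfsg.degreePrimes G)).ConnectedComponent := by
    refine ⟨fun x y => ?_⟩
    induction x using SimpleGraph.ConnectedComponent.ind
    induction y using SimpleGraph.ConnectedComponent.ind
    exact SimpleGraph.ConnectedComponent.sound (h _ _)
  have h1 := Finite.card_le_one_iff_subsingleton.2 this
  omega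

theorem not_two (htwo : Nat.card ((Cfsg.degreeGraph G).induce
    (Cfsg.degreePrimes G)).ConnectedComponent = 2)
    (h : ∃ m : ℕ, ∀ χ : IrrCharacter G, charDegree χ.1 = 1 ∨ charDegree χ.1 = m) : False := by
  obtain ⟨m, hm⟩ := h
  apply not_conn htwo
  have key : ∀ a : Cfsg.degreePrimes G, (a : ℕ) ∣ m ∧ m ∈ Cfsg.charDegrees G := by
    rintro ⟨a, hap, d, ⟨χ, rfl⟩, had⟩
    rcases hm χ with h1 | h1
    · rw [h1] at had
      exact absurd (Nat.dvd_one.1 had) hap.ne_one
    · exact ⟨by rw [← h1]; exact had, χ, h1⟩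
  intro a b
  exact reach_of_dvd (key a).2 (key a).1 (key b).1

theorem main (hs : Group.IsSolvable G)
    (hnd : ∀ a ∈ Cfsg.charDegrees G, ∀ b ∈ Cfsg.charDegrees G, 1 < a → a < b → ¬ a ∣ b)
    (htwo : Nat.card ((Cfsg.degreeGraph G).induce
      (Cfsg.degreePrimes G)).ConnectedComponent = 2) : Nat.card ↥(Cfsg.charDegrees G) = 3 := by
  classical
  letI := Fintype.ofFinite G
  have hND := nd_of hnd
  have hGb : ¬ commutator G ≤ ⊥ := by
    intro hb
    apply not_two htwo
    refine ⟨1, fun χ => Or.inl (deg_eq_one_of_inKer ?_)⟩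
    intro x hx
    have h1 := hb hx
    rw [Subgroup.mem_bot] at h1
    rw [h1]
  obtain ⟨K, P, r, hf⟩ := setup hs ⊥ hGb (by
    intro K q hK _ hKc hq hqK
    apply not_two htwo
    haveI := hK
    refine stepA hND hq K ?_ hKc
    intro x
    obtain ⟨x, rfl⟩ := QuotientGroup.mk_surjective x
    obtain ⟨k, hk⟩ := hqK x
    exact ⟨k, by rw [← QuotientGroup.mk_pow, QuotientGroup.eq_one_iff]; exact hk⟩)
  haveI := hf.Kn
  haveI := hf.Pn
  letI := Fintype.ofFinite P
  obtain ⟨χ1, hχ1K, hχ1⟩ := hf.exists_f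
  have hrd : ∀ n : ℕ, r ∣ n → ¬ (n = 1 ∨ n = P.index) := by
    intro n hn h1
    rcases h1 with rfl | rfl
    · exact hf.rp.one_lt.ne' (Nat.dvd_one.1 hn)
    · exact hf.ri hn
  have hdich : ∀ χ : IrrCharacter G, (charDegree χ.1 = 1 ∨ charDegree χ.1 = P.index) ∨
      r ∣ charDegree χ.1 := by
    intro χ
    by_cases hk : InKer ⁅P, P⁆ χ.1
    · exact Or.inl (hf.deg_of_inKer hND hk)
    · exact Or.inr (hf.dvd_of_not_inKer hND hk)
  -- coprimality
  have hcop : ∀ χ : IrrCharacter G, r ∣ charDegree χ.1 → P.index.Coprime (charDegree χ.1) := by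
    intro χ hχ
    by_contra hc
    obtain ⟨q, hq, hqP, hqχ⟩ := Nat.Prime.not_coprime_iff_dvd.1 hc
    apply not_conn htwo
    have hqm : q ∈ Cfsg.degreePrimes G := ⟨hq, _, ⟨χ, rfl⟩, hqχ⟩
    have hrm : r ∈ Cfsg.degreePrimes G := ⟨hf.rp, _, ⟨χ, rfl⟩, hχ⟩
    have key : ∀ a : Cfsg.degreePrimes G,
        ((Cfsg.degreeGraph G).induce (Cfsg.degreePrimes G)).Reachable a ⟨q, hqm⟩ := by
      rintro ⟨a, ham⟩
      obtain ⟨hap, d, ⟨ψ, hψ⟩, had⟩ := ham
      rw [← hψ] at had
      rcases hdich ψ with (h1 | h1) | h1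
      · rw [h1] at had
        exact absurd (Nat.dvd_one.1 had) hap.ne_one
      · exact reach_of_dvd (d := P.index) ⟨ψ, h1⟩ (by rw [← h1]; exact had) hqP
      · have h2 : ((Cfsg.degreeGraph G).induce (Cfsg.degreePrimes G)).Reachable
            ⟨a, ⟨hap, d, ⟨ψ, hψ⟩, by rw [← hψ]; exact had⟩⟩ ⟨r, hrm⟩ :=
          reach_of_dvd (d := charDegree ψ.1) ⟨ψ, rfl⟩ had h1
        exact h2.trans (reach_of_dvd (d := charDegree χ.1) ⟨χ, rfl⟩ hχ hqχ)
    intro a b
    exact (key a).trans (key b).symm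
  -- characters over nonlinear characters of `P`
  have hover : ∀ (θ : IrrCharacter P) (χ : IrrCharacter G), Over P χ θ → charDegree θ.1 ≠ 1 →
      charDegree χ.1 = charDegree θ.1 ∧ r ∣ charDegree χ.1 := by
    intro θ χ ho hθ
    obtain ⟨h1, h2⟩ := over_dvd P ho
    have h3 : r ∣ charDegree χ.1 := (hf.dvd_of_nonlinear hND θ hθ).trans h1
    have h4 := hcop χ h3
    have h5 : charDegree χ.1 / charDegree θ.1 ∣ charDegree χ.1 := Nat.div_dvd_of_dvd h1
    have h6 : charDegree χ.1 / charDegree θ.1 = 1 := Nat.eq_one_of_dvd_coprimes h4 h2 h5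
    exact ⟨by rw [Nat.eq_mul_of_div_eq_right h1 h6, mul_one], h3⟩
  have hinv : ∀ θ : IrrCharacter P, charDegree θ.1 ≠ 1 → ∀ (g : G) (u : P),
      θ.1 ⟨g * u * g⁻¹, hf.Pn.conj_mem u u.2 g⟩ = θ.1 u := by
    intro θ hθ g u
    obtain ⟨χ, hχ⟩ := over_up P θ
    have h1 := index_dvd_deg P hχ (inertia P θ.1) (fun g => mem_inertia P)
    rw [(hover θ χ hχ hθ).1] at h1
    have h2 : (inertia P θ.1).index * charDegree θ.1 ∣ 1 * charDegree θ.1 := by
      rw [one_mul]; exact h1
    have h3 := Nat.dvd_one.1 (Nat.dvd_of_mul_dvd_mul_right (deg_pos θ) h2)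
    rw [Subgroup.index_eq_one] at h3
    have h4 : g ∈ inertia P θ.1 := by rw [h3]; exact Subgroup.mem_top g
    rw [mem_inertia] at h4
    exact congrFun h4 u
  -- an element outside `P`
  obtain ⟨g, hg⟩ : ∃ g : G, g ∉ P := by
    by_contra hcon
    push Not at hcon
    apply hf.i1
    rw [Subgroup.index_eq_one, eq_top_iff]
    exact fun x _ => hcon x
  have hEH : EH P (MulAut.conjNormal g) P.index := by
    refine ⟨inferInstance, ?_, ?_, ?_, ?_, ?_⟩
    · intro θ hθ u
      have h1 : (MulAut.conjNormal g : MulAut P) u = ⟨g * u * g⁻¹, hf.Pn.conj_mem u u.2 g⟩ :=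
        Subtype.ext (MulAut.conjNormal_apply g u)
      rw [h1]
      exact hinv θ hθ g u
    · intro θ φ hθ hd
      have hφ : charDegree φ.1 ≠ 1 := by
        intro h1
        rw [h1, Nat.dvd_one] at hd
        exact hθ hd
      obtain ⟨χ, hχ⟩ := over_up P θ
      obtain ⟨ψ, hψ⟩ := over_up P φ
      rw [← (hover θ χ hχ hθ).1, ← (hover φ ψ hψ hφ).1] at hd ⊢
      exact hND χ ψ (by rw [(hover θ χ hχ hθ).1]; exact hθ) hd
    · intro θ hθ
      obtain ⟨χ, hχ⟩ := over_up P θ
      rw [← (hover θ χ hχ hθ).1]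
      exact hcop χ (hover θ χ hχ hθ).2
    · refine ⟨⟨g ^ P.index, Subgroup.pow_index_mem P g⟩, fun x => ?_⟩
      apply Subtype.ext
      rw [← map_pow, MulAut.conjNormal_apply]
      rfl
    · obtain ⟨w, hw, hwK⟩ : ∃ w ∈ P, w ∉ K := by
        by_contra hcon
        push Not at hcon
        exact hf.cK (hf.cP.trans hcon)
      refine ⟨⟨w, hw⟩, fun k => ?_⟩
      have h1 : (((itf (MulAut.conjNormal g : MulAut P))^[k] ⟨w, hw⟩ : P) : G) ∉ K := by
        induction k with
        | zero => exact hwK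
        | succ k ih =>
          intro h2
          apply ih
          obtain ⟨y, hy⟩ : ∃ y : P, y = (itf (MulAut.conjNormal g : MulAut P))^[k] ⟨w, hw⟩ :=
            ⟨_, rfl⟩
          rw [Function.iterate_succ_apply', ← hy, itf] at h2
          rw [← hy]
          apply hf.free g hg y y.2
          have h3 : (y : G)⁻¹ * (g * y * g⁻¹) ∈ K := by
            have h4 : (((y⁻¹ * (MulAut.conjNormal g : MulAut P) y : P)) : G) =
                (y : G)⁻¹ * (g * y * g⁻¹) := by
              rw [Subgroup.coe_mul, MulAut.conjNormal_apply]; rfl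
            rw [h4] at h2
            exact h2
          have h5 : g * (y : G) * g⁻¹ * (y : G)⁻¹ = y * ((y : G)⁻¹ * (g * y * g⁻¹)) * (y : G)⁻¹ := by
            group
          rw [h5]
          exact hf.Kn.conj_mem _ h3 _
      intro h2
      apply h1
      have h3 : commutator P ≤ K.subgroupOf P := by
        rw [commutator_def, Subgroup.commutator_le]
        intro a _ b _
        rw [Subgroup.mem_subgroupOf]
        exact hf.ab a a.2 b b.2
      exact h3 h2
  obtain ⟨m, hm⟩ := etheorem (Nat.card P) P rfl (MulAut.conjNormal g) P.index hEH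
  have hdeg : ∀ χ : IrrCharacter G, charDegree χ.1 = 1 ∨ charDegree χ.1 = P.index ∨
      (charDegree χ.1 = m ∧ r ∣ m) := by
    intro χ
    obtain ⟨θ, hθ⟩ := over_exists P χ
    by_cases h1 : charDegree θ.1 = 1
    · rcases hf.deg_of_over_lin hND hθ h1 with h2 | h2
      · exact Or.inl h2
      · exact Or.inr (Or.inl h2)
    · right; right
      obtain ⟨h2, h3⟩ := hover θ χ hθ h1
      have h4 : charDegree θ.1 = m := (hm θ).resolve_left h1
      rw [h2, h4] at h3
      exact ⟨h2.trans h4, h3⟩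
  obtain ⟨χ2, hχ2⟩ : ∃ χ : IrrCharacter G, charDegree χ.1 = m ∧ r ∣ m := by
    by_contra hcon
    push Not at hcon
    apply not_two htwo
    refine ⟨P.index, fun χ => ?_⟩
    rcases hdeg χ with h1 | h1 | h1
    · exact Or.inl h1
    · exact Or.inr h1
    · exact absurd h1.2 (hcon χ h1.1)
  have hm1 := hrd m hχ2.2
  rw [Nat.card_coe_set_eq, Set.ncard_eq_three]
  refine ⟨1, P.index, m, fun h => hf.i1 h.symm, fun h => hm1 (Or.inl h.symm),
    fun h => hm1 (Or.inr h.symm), ?_⟩
  ext d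
  constructor
  · rintro ⟨χ, rfl⟩
    rcases hdeg χ with h1 | h1 | h1
    · exact Or.inl h1
    · exact Or.inr (Or.inl h1)
    · exact Or.inr (Or.inr h1.1)
  · rintro (rfl | rfl | rfl)
    · exact ⟨lin 1, deg_lin 1⟩
    · exact ⟨χ1, hχ1⟩
    · exact ⟨χ2, hχ2.1⟩

end H77.NDA
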