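import Cfsg.Agent.Lib.H77.NDA1

/-!
# No divisibility among degrees: automorphisms fixing the nonlinear characters (H77.NDA2)
-/

set_option autoImplicit false
set_option linter.style.haveILetI false
set_option linter.unusedSectionVars false
set_option maxHeartbeats 400000
open Cfsg
open scoped ComplexConjugate

namespace H77.NDA

open H18.CharBasic H18.CharOrtho H18.CharInd H18.CharQuot H77.PQuot H31.Clifford H77.ThreeA H77.ThreeB
open H77.ThreeC H77.ThreeE H77.ThreeF H77.TwoDeg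

universe u

/-- linear characters -/
def lin {H : Type u} [Group H] (l : H →* ℂˣ) : IrrCharacter H :=
  ⟨fun x => (l x : ℂ), isIrrCharacter_of_hom l⟩

theorem lin_apply {H : Type u} [Group H] (l : H →* ℂˣ) (x : H) : (lin l).1 x = (l x : ℂ) := rfl

theorem deg_lin {H : Type u} [Group H] [Finite H] (l : H →* ℂˣ) : charDegree (lin l).1 = 1 := by
  apply charDegree_eq_of
  rw [lin_apply, map_one, Units.val_one, Nat.cast_one]

theorem lin_inj {H : Type u} [Group H] {l m : H →* ℂˣ} (h : (lin l).1 = (lin m).1) : l = m := by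
  ext x
  exact congrFun h x

theorem exists_lin {H : Type u} [Group H] [Finite H] {θ : IrrCharacter H} (h : charDegree θ.1 = 1) :
    ∃ l : H →* ℂˣ, θ = lin l := by
  obtain ⟨f, hf⟩ := exists_hom_of_degree_one (isCharacter_of_isIrr θ.2) (by
        rw [← cast_irr θ, h, Nat.cast_one])
  exact ⟨f, Subtype.ext hf⟩

/-- separation by linear characters -/
theorem sep {H : Type u} [Group H] [Finite H] (R : Subgroup H) [hR : R.Normal]
    (hab : commutator H ≤ R) {x : H} (hx : x ∉ R) : ∃ l : H →* ℂˣ, l x ≠ 1 ∧ ∀ y ∈ R, l y = 1 := by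
  have h1 : ((x : H) : H ⧸ R) ∉ commutator (H ⧸ R) := by
    have h2 : commutator (H ⧸ R) = ⊥ := by
      rw [eq_bot_iff, commutator_def, Subgroup.commutator_le]
      rintro a - b -
      obtain ⟨a, rfl⟩ := QuotientGroup.mk_surjective a
      obtain ⟨b, rfl⟩ := QuotientGroup.mk_surjective b
      rw [Subgroup.mem_bot]
      have h3 : a * b * a⁻¹ * b⁻¹ ∈ R := hab (by
        rw [commutator_def]
        exact Subgroup.commutator_mem_commutator (Subgroup.mem_top a) (Subgroup.mem_top b))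
      rw [← QuotientGroup.eq_one_iff] at h3
      exact h3
    rw [h2, Subgroup.mem_bot, QuotientGroup.eq_one_iff]
    exact hx
  obtain ⟨f, hf⟩ := exists_hom_ne_one h1
  refine ⟨f.comp (QuotientGroup.mk' R), hf, fun y hy => ?_⟩
  change f (y : H ⧸ R) = 1
  rw [(QuotientGroup.eq_one_iff y).2 hy, map_one]

theorem lin_comm {H : Type u} [Group H] [Finite H] (l : H →* ℂˣ) {x : H} (hx : x ∈ commutator H) :
    l x = 1 := H77.Taketa.linear_ker l hx

variable {G : Type u} [Group G] [Finite G]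

theorem cj_lin (N : Subgroup G) [N.Normal] (g : G) (l : N →* ℂˣ) :
    conjFunN N g (lin l).1 = (lin (cjh N g l)).1 := rfl

theorem cj_lin_iff (N : Subgroup G) [N.Normal] (g : G) (l : N →* ℂˣ) :
    conjFunN N g (lin l).1 = (lin l).1 ↔ cjh N g l = l := by
  rw [cj_lin]
  exact ⟨lin_inj, fun h => by rw [h]⟩

/-- the automorphism fixes the nonlinear characters -/
def AInv (α : MulAut G) : Prop :=
  ∀ ψ : IrrCharacter G, charDegree ψ.1 ≠ 1 → ∀ x, ψ.1 (α x) = ψ.1 x

theorem AInv.pow {α : MulAut G} (h : AInv α) (k : ℕ) : AInv (α ^ k) := by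
  induction k with
  | zero => intro ψ _ x; rw [pow_zero, MulAut.one_apply]
  | succ k ih =>
    intro ψ hψ x
    rw [pow_succ, MulAut.mul_apply, ih ψ hψ, h ψ hψ]

theorem comm_aut (α : MulAut G) {w : G} (hw : w ∈ commutator G) : α w ∈ commutator G := by
  have h1 : (commutator G).map α.toMonoidHom ≤ commutator G := by
    rw [commutator_def, Subgroup.map_commutator]
    exact Subgroup.commutator_mono le_top le_top
  exact h1 ⟨w, hw, rfl⟩

theorem J1 {α : MulAut G} (hα : AInv α) {x : G} (hx : x⁻¹ * α x ∉ commutator G)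
    (ψ : IrrCharacter G) (hψ : charDegree ψ.1 ≠ 1) : ψ.1 x = 0 := by
  obtain ⟨l, hl, -⟩ := sep (commutator G) le_rfl hx
  have h1 : charDegree (H77.GlPerm.mulI l ψ).1 = charDegree ψ.1 := by
    apply charDegree_eq_of
    change ((l 1 : ℂˣ) : ℂ) * ψ.1 1 = _
    rw [map_one, Units.val_one, one_mul, cast_irr]
  have h2 : ((l (α x) : ℂˣ) : ℂ) * ψ.1 (α x) = ((l x : ℂˣ) : ℂ) * ψ.1 x :=
    hα (H77.GlPerm.mulI l ψ) (by rw [h1]; exact hψ) x
  rw [hα ψ hψ x] at h2
  by_contra hne
  have h3 := mul_right_cancel₀ hne h2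
  apply hl
  rw [map_mul, map_inv, inv_mul_eq_one]
  exact (Units.ext h3).symm

theorem J1w (α : MulAut G) {x w : G} (hx : x⁻¹ * α x ∉ commutator G)
    (hw : w ∈ commutator G) : (x * w)⁻¹ * α (x * w) ∉ commutator G := by
  intro h
  apply hx
  have h1 : x⁻¹ * α x = w * ((x * w)⁻¹ * α (x * w)) * (α w)⁻¹ := by
    rw [map_mul]; group
  rw [h1]
  exact (commutator G).mul_mem ((commutator G).mul_mem hw h)
    ((commutator G).inv_mem (comm_aut α hw))

theorem J_conj {α : MulAut G} (hα : AInv α) {x w : G} (hx : x⁻¹ * α x ∉ commutator G)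
    (hw : w ∈ commutator G) : IsConj x (x * w) := by
  rw [isConj_iff_char]
  intro χ
  by_cases hχ : charDegree χ.1 = 1
  · obtain ⟨l, rfl⟩ := exists_lin hχ
    rw [lin_apply, lin_apply, map_mul, lin_comm l hw, mul_one]
  · rw [J1 hα hx χ hχ, J1 hα (J1w α hx hw) χ hχ]

/-- elements of `P = K G'` are centralized modulo `G'` -/
theorem J2 {α : MulAut G} (hα : AInv α) {K : Subgroup G} [hK : K.Normal]
    (hKc : ¬ commutator G ≤ K) {x : G} (hx : x ∈ K ⊔ commutator G) :
    x⁻¹ * α x ∈ commutator G := by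
  by_contra hcon
  rw [Subgroup.mem_sup_of_normal_left] at hx
  obtain ⟨k, hk, w, hw, rfl⟩ := hx
  have h1 : ∀ w' ∈ commutator G, IsConj (k * w) (k * w * w') := fun w' hw' => J_conj hα hcon hw'
  have h2 := h1 w⁻¹ ((commutator G).inv_mem hw)
  rw [mul_inv_cancel_right] at h2
  have hmem : ∀ a b : G, IsConj a b → b ∈ K → a ∈ K := by
    intro a b hab hb
    obtain ⟨c, hc⟩ := isConj_iff.1 hab.symm
    rw [← hc]
    exact hK.conj_mem b hb c
  have h3 : k * w ∈ K := hmem _ _ h2 hk
  apply hKc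
  intro w' hw'
  have h4 : k * w * w' ∈ K := hmem _ _ (h1 w' hw').symm h3
  exact (K.mul_mem_cancel_left h3).1 h4

/-- `p'`-elements centralizing `V` are centralized modulo `G'` -/
theorem J3 {α : MulAut G} (hα : AInv α) {x v : G} (hv : v ∈ commutator G) (hv1 : v ≠ 1)
    (hxv : x * v = v * x) (hcop : (orderOf v).Coprime (orderOf x)) :
    x⁻¹ * α x ∈ commutator G := by
  by_contra hcon
  have h1 := J_conj hα hcon hv
  obtain ⟨c, hc⟩ := isConj_iff.1 h1
  have h2 : (x * v) ^ orderOf x = 1 := by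
    rw [← hc, conj_pow, pow_orderOf_eq_one]
    group
  have h3 : (x * v) ^ orderOf x = v ^ orderOf x := by
    have hcm : Commute x v := hxv
    rw [hcm.mul_pow, pow_orderOf_eq_one, one_mul]
  rw [h3] at h2
  have h4 : orderOf v ∣ orderOf x := orderOf_dvd_of_pow_eq_one h2
  exact hv1 (orderOf_eq_one_iff.1 (Nat.Coprime.eq_one_of_dvd hcop h4))

/-- normal subgroups of `G` contained in `G'` are invariant -/
theorem inv_of_le {α : MulAut G} (hα : AInv α) (N : Subgroup G) [hN : N.Normal]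
    (hNc : N ≤ commutator G) {n : G} (hn : n ∈ N) : α n ∈ N := by
  by_contra hcon
  have h1 : ((α n : G) : G ⧸ N) ≠ 1 := fun h => hcon ((QuotientGroup.eq_one_iff _).1 h)
  apply h1
  apply eq_one_of_forall_irr
  intro χ hχ
  obtain ⟨ψ, -, hψ⟩ := infl_degree N ⟨χ, hχ⟩
  have h2 : χ ((α n : G) : G ⧸ N) = ψ.1 (α n) := (hψ _).symm
  have h3 : χ 1 = ψ.1 1 := by rw [hψ]; rfl
  rw [h2, h3]
  by_cases hd : charDegree ψ.1 = 1
  · obtain ⟨l, rfl⟩ := exists_lin hd
    rw [lin_apply, lin_apply, lin_comm l (comm_aut α (hNc hn)), map_one]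
  · rw [hα ψ hd, hψ, hψ, (QuotientGroup.eq_one_iff n).2 hn, QuotientGroup.mk_one]

theorem infl_exists (K : Subgroup G) [K.Normal] (hKc : ¬ commutator G ≤ K) :
    ∃ χ : IrrCharacter G, charDegree χ.1 ≠ 1 ∧ InKer K χ.1 := by
  by_contra hcon
  push Not at hcon
  apply hKc
  have h1 : ∀ χ : IrrCharacter (G ⧸ K), charDegree χ.1 = 1 := by
    intro χ
    obtain ⟨ψ, hψ1, hψ2⟩ := infl_degree K χ
    rw [← hψ1]
    by_contra hne
    apply hcon ψ hne
    intro x hx
    rw [hψ2, hψ2, (QuotientGroup.eq_one_iff x).2 hx, QuotientGroup.mk_one]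
  have h2 := H77.TwoDeg.comm_of_linear' h1
  rw [commutator_def, Subgroup.commutator_le]
  intro a _ b _
  rw [← QuotientGroup.eq_one_iff, commutatorElement_def, QuotientGroup.mk_mul, QuotientGroup.mk_mul,
    QuotientGroup.mk_mul, h2 (a : G ⧸ K) b, QuotientGroup.mk_inv, QuotientGroup.mk_inv]
  group

/-- `K` is invariant -/
theorem FS.K_inv {α : MulAut G} (hα : AInv α) {V K P : Subgroup G} {r : ℕ} (hf : FS G V K P r)
    {x : G} (hx : x ∈ K) : α x ∈ K := by
  haveI := hf.Kn
  obtain ⟨χ, hχ, hχK⟩ := infl_exists K hf.cK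
  have hc := isCharacter_of_isIrr χ.2
  let M : Subgroup G := kerSub χ.1 hc
  haveI hMn : M.Normal := by
    refine ⟨fun n hn g => ?_⟩
    rw [mem_kerSub] at hn ⊢
    rw [isClassFunction_of_isCharacter hc n g, hn]
  have hKM : K ≤ M := fun y hy => by rw [mem_kerSub]; exact hχK y hy
  have hMK : M = K := by
    by_contra hne
    have h1 := hf.max M hMn hKM hne
    apply hχ
    apply deg_eq_one_of_inKer
    intro y hy
    exact (mem_kerSub _).1 (h1 hy)
  rw [← hMK, mem_kerSub, hα χ hχ]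
  exact hχK x hx

theorem FS.P_inv {α : MulAut G} (hα : AInv α) {V K P : Subgroup G} {r : ℕ} (hf : FS G V K P r)
    {x : G} (hx : x ∈ P) : α x ∈ P := by
  haveI := hf.Kn
  rw [hf.Pdef, Subgroup.mem_sup_of_normal_left] at hx ⊢
  obtain ⟨k, hk, w, hw, rfl⟩ := hx
  exact ⟨α k, hf.K_inv hα hk, α w, comm_aut α hw, (map_mul α k w).symm⟩

end H77.NDA
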