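import Cfsg.Agent.Lib.H77.NDA2

/-!
# No divisibility among degrees: characters above and below the Frobenius quotient (H77.NDA3)
-/

set_option autoImplicit false
set_option linter.style.haveILetI false
set_option linter.unusedSectionVars false
set_option maxHeartbeats 400000
open Cfsg
open scoped ComplexConjugate

namespace H77.NDA

open H18.CharBasic H18.CharOrtho H18.CharInd H18.CharQuot H77.PQuot H31.Clifford H77.ThreeA H77.ThreeB
open H77.ThreeC H77.ThreeE H77.ThreeF H77.TwoDeg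

universe u

variable {G : Type u} [Group G] [Finite G]

section FS

variable {V K P : Subgroup G} {r : ℕ}

theorem FS.lfree (hf : FS G V K P r) [P.Normal] (l : P →* ℂˣ)
    (hl : ∀ x : P, x.1 ∈ K → l x = 1) {g : G} (hg : g ∉ P) (h : cjh P g l = l) : l = 1 := by
  haveI := hf.Kn
  exact lfree_of K P g (hf.free g hg) hf.ab l hl h

theorem cjh_self (P : Subgroup G) [hP : P.Normal] {g : G} (hg : g ∈ P) (l : P →* ℂˣ) :
    cjh P g l = l := by
  ext x
  rw [cjh_apply]
  have h1 : (⟨g * x * g⁻¹, hP.conj_mem x x.2 g⟩ : P) = ⟨g, hg⟩ * x * ⟨g, hg⟩⁻¹ := rfl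
  rw [h1, map_mul, map_mul, map_inv, mul_comm (l ⟨g, hg⟩), mul_inv_cancel_right]

theorem FS.exists_l0 (hf : FS G V K P r) :
    ∃ l : P →* ℂˣ, l ≠ 1 ∧ ∀ x : P, x.1 ∈ K → l x = 1 := by
  haveI := hf.Kn
  obtain ⟨w, hw, hwK⟩ : ∃ w ∈ commutator G, w ∉ K := by
    by_contra hcon
    push Not at hcon
    exact hf.cK hcon
  have hwP : w ∈ P := by
    rw [hf.Pdef]
    exact (le_sup_right : commutator G ≤ K ⊔ commutator G) hw
  have hc : commutator P ≤ K.subgroupOf P := by
    rw [commutator_def, Subgroup.commutator_le]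
    intro a _ b _
    rw [Subgroup.mem_subgroupOf]
    exact hf.ab a a.2 b b.2
  obtain ⟨l, h1, h2⟩ := sep (K.subgroupOf P) hc (x := ⟨w, hwP⟩) hwK
  exact ⟨l, fun h => h1 (by rw [h]; rfl), fun x hx => h2 x hx⟩

theorem FS.exists_f (hf : FS G V K P r) :
    ∃ χ : IrrCharacter G, InKer K χ.1 ∧ charDegree χ.1 = P.index := by
  haveI := hf.Pn
  haveI := hf.Kn
  obtain ⟨l, hl1, hlK⟩ := hf.exists_l0
  have hT : ∀ g : G, g ∈ P ↔ conjFunN P g (lin l).1 = (lin l).1 := by
    intro g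
    rw [cj_lin_iff]
    constructor
    · exact fun hg => cjh_self P hg l
    · intro h
      by_contra hg
      exact hl1 (hf.lfree l hlK hg h)
  obtain ⟨χ, h1, h2⟩ := ext_deg P (lin l) P le_rfl hT (lin l) (fun n => rfl) (lin 1) (fun _ => rfl)
  refine ⟨χ, over_inKer P h1 K hf.KP ?_, ?_⟩
  · intro w hw
    rw [lin_apply, hlK ⟨w, hf.KP hw⟩ hw, lin_apply, map_one]
  · rw [h2, deg_lin, deg_lin, mul_one, mul_one]

theorem FS.dvd_of_nonlinear (hnd : ND G) (hf : FS G V K P r) (θ : IrrCharacter P)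
    (hθ : charDegree θ.1 ≠ 1) : r ∣ charDegree θ.1 := by
  haveI := hf.Pn
  haveI := hf.Kn
  by_contra hrd
  obtain ⟨c, hc⟩ := hf.pw
  let Λ : Subgroup (P →* ℂˣ) :=
    { carrier := {l | ∀ x : P, x.1 ∈ K → l x = 1}
      mul_mem' := by
        intro a b ha hb x hx
        rw [MonoidHom.mul_apply, ha x hx, hb x hx, mul_one]
      one_mem' := fun _ _ => rfl
      inv_mem' := by
        intro a ha x hx
        rw [MonoidHom.inv_apply, ha x hx, inv_one] }
  obtain ⟨l0, hl01, hl0⟩ := hf.exists_l0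
  obtain ⟨χ, hχ⟩ := lemY2 P Λ ⟨l0, hl0, hl01⟩ (by
      intro g l hl x hx
      rw [cjh_apply]
      exact hl _ (hf.Kn.conj_mem x hx g)) (by
      intro g hg l hl h
      exact hf.lfree l hl hg h) θ (by
      intro l hl
      have h1 : l ^ (r ^ c) = 1 := by
        ext x
        rw [MonoidHom.pow_apply, ← map_pow]
        rw [hl (x ^ r ^ c) (hc x x.2)]
        rfl
      exact Nat.Coprime.coprime_dvd_left (orderOf_dvd_of_pow_eq_one h1)
        (Nat.Coprime.pow_left c ((Nat.Prime.coprime_iff_not_dvd hf.rp).2 hrd)))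
  obtain ⟨χ1, -, hχ1⟩ := hf.exists_f
  have h1 := hnd χ1 χ (by rw [hχ1]; exact hf.i1) (by rw [hχ1, hχ]; exact Dvd.intro _ rfl)
  rw [hχ1, hχ] at h1
  apply hθ
  have h2 : P.index * 1 = P.index * charDegree θ.1 := by rw [mul_one]; exact h1
  exact (Nat.eq_of_mul_eq_mul_left (Nat.pos_of_ne_zero Subgroup.index_ne_zero_of_finite) h2).symm

theorem FS.deg_of_over_lin (hnd : ND G) (hf : FS G V K P r) {χ : IrrCharacter G}
    {θ : IrrCharacter P} (h : Over P χ θ) (h1 : charDegree θ.1 = 1) :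
    charDegree χ.1 = 1 ∨ charDegree χ.1 = P.index := by
  haveI := hf.Pn
  by_cases hχ : charDegree χ.1 = 1
  · exact Or.inl hχ
  right
  have h2 := (over_dvd P h).2
  rw [h1, Nat.div_one] at h2
  obtain ⟨χ1, -, hχ1⟩ := hf.exists_f
  have h3 := hnd χ χ1 hχ (by rw [hχ1]; exact h2)
  rw [h3, hχ1]

theorem FS.deg_of_inKer (hnd : ND G) (hf : FS G V K P r) {χ : IrrCharacter G}
    (h : InKer ⁅P, P⁆ χ.1) : charDegree χ.1 = 1 ∨ charDegree χ.1 = P.index := by
  haveI := hf.Pn
  obtain ⟨θ, hθ⟩ := over_exists P χ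
  exact hf.deg_of_over_lin hnd hθ (over_linear' P hθ h)

theorem FS.dvd_of_not_inKer (hnd : ND G) (hf : FS G V K P r) {χ : IrrCharacter G}
    (h : ¬ InKer ⁅P, P⁆ χ.1) : r ∣ charDegree χ.1 := by
  haveI := hf.Pn
  obtain ⟨θ, hθ⟩ := over_exists P χ
  have h1 : charDegree θ.1 ≠ 1 := fun h1 => h (over_linear P hθ h1)
  exact (hf.dvd_of_nonlinear hnd θ h1).trans (over_dvd P hθ).1

theorem FS.cP (hf : FS G V K P r) : commutator G ≤ P := by
  rw [hf.Pdef]
  exact le_sup_right

theorem FS.cp_ri (hf : FS G V K P r) {d : ℕ} (hd : d ∣ P.index) : ¬ r ∣ d :=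
  fun h => hf.ri (h.trans hd)

end FS

/-- the restriction of an automorphism -/
def rs (α : MulAut G) (N : Subgroup G) (h : ∀ n ∈ N, α n ∈ N) : N →* N where
  toFun := fun n => ⟨α n, h n n.2⟩
  map_one' := Subtype.ext (map_one α)
  map_mul' := fun a b => Subtype.ext (map_mul α (a : G) b)

theorem rs_bij (α : MulAut G) (N : Subgroup G) (h : ∀ n ∈ N, α n ∈ N) :
    Function.Bijective (rs α N h) := by
  have h1 : Function.Injective (rs α N h) := by
    intro a b hab
    apply Subtype.ext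
    exact α.injective (congrArg Subtype.val hab)
  exact ⟨h1, Finite.surjective_of_injective h1⟩

theorem over_comp (α : MulAut G) (N : Subgroup G) (h : ∀ n ∈ N, α n ∈ N) {χ : IrrCharacter G}
    (hχ : ∀ x, χ.1 (α x) = χ.1 x) (l : N →* ℂˣ) (ho : Over N χ (lin l)) :
    Over N χ (lin (l.comp (rs α N h))) := by
  classical
  letI := Fintype.ofFinite N
  rw [over_iff] at ho ⊢
  have h1 : classInner (fun x : N => χ.1 x) (lin (l.comp (rs α N h))).1 =
      classInner (fun x : N => χ.1 x) (lin l).1 := by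
    unfold classInner
    congr 1
    rw [← (rs_bij α N h).sum_comp (fun g : N => χ.1 g * conj ((lin l).1 g))]
    refine Finset.sum_congr rfl (fun g _ => ?_)
    have h2 : χ.1 ((rs α N h g : N) : G) = χ.1 g := hχ g
    rw [h2]
    rfl
  rw [h1]
  exact ho

theorem conj_of_aut (α : MulAut G) (N : Subgroup G) [N.Normal] (h : ∀ n ∈ N, α n ∈ N)
    {χ : IrrCharacter G} (hχ : ∀ x, χ.1 (α x) = χ.1 x) (l : N →* ℂˣ) (ho : Over N χ (lin l)) :
    ∃ g : G, l.comp (rs α N h) = cjh N g l := by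
  classical
  letI := Fintype.ofFinite G
  letI := Fintype.ofFinite N
  have h1 := over_comp α N h hχ l ho
  rw [over_iff] at ho h1
  obtain ⟨g, hg⟩ := constituents_conj N χ.2 (lin l).2 (lin (l.comp (rs α N h))).2 ho h1
  exact ⟨g, lin_inj hg⟩

end H77.NDA
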