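import Cfsg.Agent.Lib.H77.NDA3
import Cfsg.Agent.Lib.H11.MinNormal
import Cfsg.Agent.Lib.H4.CenterIndex

/-!
# No divisibility among degrees: minimal normal subgroups (H77.NDA4)
-/

set_option autoImplicit false
set_option linter.style.haveILetI false
set_option linter.unusedSectionVars false
set_option maxHeartbeats 400000
open Cfsg
open scoped ComplexConjugate

namespace H77.NDA

open H18.CharBasic H18.CharOrtho H18.CharInd H18.CharQuot H77.PQuot H31.Clifford H77.ThreeA H77.ThreeB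
open H77.ThreeC H77.ThreeE H77.ThreeF H77.TwoDeg

universe u

theorem center_index {H : Type u} [Group H] [Finite H] {p : ℕ} (hp : p.Prime)
    (h : ∀ x y : H, (∀ z, (x * y * x⁻¹ * y⁻¹) * z = z * (x * y * x⁻¹ * y⁻¹)) ∧
      (x * y * x⁻¹ * y⁻¹) ^ p = 1) :
    ∃ b, (Subgroup.center H).index = p ^ b := by
  haveI := Fact.mk hp
  have h1 : IsPGroup p (H ⧸ Subgroup.center H) := by
    intro q
    obtain ⟨x, rfl⟩ := QuotientGroup.mk_surjective q
    refine ⟨1, ?_⟩
    rw [pow_one, ← QuotientGroup.mk_pow, QuotientGroup.eq_one_iff, Subgroup.mem_center_iff]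
    intro y
    obtain ⟨h2, h3⟩ := h x y
    obtain ⟨v, hv⟩ : ∃ v, v = x * y * x⁻¹ * y⁻¹ := ⟨_, rfl⟩
    rw [← hv] at h2 h3
    have hxy : x * y = v * y * x := by rw [hv]; group
    have h4 : ∀ n : ℕ, x ^ n * y = v ^ n * y * x ^ n := by
      intro n
      induction n with
      | zero => simp
      | succ n ih =>
        have hc : x * v ^ n = v ^ n * x := by
          have : Commute x v := (h2 x).symm
          exact this.pow_right n
        calc x ^ (n + 1) * y = x * (x ^ n * y) := by rw [pow_succ']; group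
          _ = (x * v ^ n) * y * x ^ n := by rw [ih]; group
          _ = v ^ n * (x * y) * x ^ n := by rw [hc]; group
          _ = v ^ (n + 1) * y * x ^ (n + 1) := by rw [hxy, pow_succ, pow_succ']; group
    rw [h4 p, h3, one_mul]
  obtain ⟨b, hb⟩ := (IsPGroup.iff_card (p := p)).1 h1
  exact ⟨b, by rw [Subgroup.index_eq_card, hb]⟩

variable {G : Type u} [Group G] [Finite G]

/-- linear characters of a minimal normal subgroup: stabilizers are centralizers -/
theorem stab_eq (V : Subgroup G) [hV : V.Normal]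
    (hmin : ∀ M : Subgroup G, M.Normal → M ≤ V → M = ⊥ ∨ M = V)
    (C : Subgroup G) (hC : ∀ g, g ∈ C ↔ ∀ v ∈ V, g * v = v * g) (hGC : commutator G ≤ C)
    (l : V →* ℂˣ) (hl : l ≠ 1) (g : G) : cjh V g l = l ↔ g ∈ C := by
  constructor
  · intro hg
    obtain ⟨M, hM⟩ : ∃ M : Subgroup G, M = (l.ker.map V.subtype).normalCore := ⟨_, rfl⟩
    have hMn : M.Normal := by rw [hM]; infer_instance
    have hMV : M ≤ V := by
      rw [hM]; exact (Subgroup.normalCore_le _).trans (Subgroup.map_subtype_le _)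
    have hMm : ∀ v, v ∈ M ↔ ∀ x : G, ∃ h : x * v * x⁻¹ ∈ V, l ⟨x * v * x⁻¹, h⟩ = 1 := by
      intro v
      rw [hM]
      constructor
      · intro h x
        obtain ⟨y, hy, hyx⟩ := h x
        have h1 : x * v * x⁻¹ ∈ V := by rw [← hyx]; exact y.2
        refine ⟨h1, ?_⟩
        have h2 : y = ⟨x * v * x⁻¹, h1⟩ := Subtype.ext hyx
        rw [← h2]; exact hy
      · intro h x
        obtain ⟨h1, h2⟩ := h x
        exact ⟨⟨_, h1⟩, h2, rfl⟩
    have hMb : M = ⊥ := by
      rcases hmin M hMn hMV with h | h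
      · exact h
      · exfalso
        apply hl
        ext v
        have h1 : (v : G) ∈ M := by rw [h]; exact v.2
        obtain ⟨h2, h3⟩ := (hMm _).1 h1 1
        have h4 : (⟨1 * (v : G) * 1⁻¹, h2⟩ : V) = v := Subtype.ext (by simp)
        rw [h4] at h3
        rw [h3]; rfl
    rw [hC]
    intro v hv
    have h1 : g * v * g⁻¹ * v⁻¹ ∈ M := by
      rw [hMm]
      intro x
      obtain ⟨u, hu⟩ : ∃ u, u = x * v * x⁻¹ := ⟨_, rfl⟩
      have huV : u ∈ V := by rw [hu]; exact hV.conj_mem v hv x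
      obtain ⟨c, hc⟩ : ∃ c, c = x * g * x⁻¹ * g⁻¹ := ⟨_, rfl⟩
      have hcC : c ∈ C := by
        apply hGC
        rw [hc, commutator_def]
        exact Subgroup.commutator_mem_commutator (Subgroup.mem_top x) (Subgroup.mem_top g)
      have hguV : g * u * g⁻¹ ∈ V := hV.conj_mem u huV g
      have h2 : x * (g * v * g⁻¹ * v⁻¹) * x⁻¹ = g * u * g⁻¹ * u⁻¹ := by
        have h3 : c * (g * u * g⁻¹) = (g * u * g⁻¹) * c := (hC c).1 hcC _ hguV
        have h4 : x * (g * v * g⁻¹ * v⁻¹) * x⁻¹ = c * (g * u * g⁻¹) * c⁻¹ * u⁻¹ := by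
          rw [hc, hu]; group
        rw [h4, h3]; group
      have h5 : g * u * g⁻¹ * u⁻¹ ∈ V := V.mul_mem hguV (V.inv_mem huV)
      rw [h2]
      refine ⟨h5, ?_⟩
      have h6 : (⟨g * u * g⁻¹ * u⁻¹, h5⟩ : V) = ⟨g * u * g⁻¹, hguV⟩ * ⟨u, huV⟩⁻¹ := rfl
      have h7 := DFunLike.congr_fun hg ⟨u, huV⟩
      rw [cjh_apply] at h7
      rw [h6, map_mul, map_inv, mul_inv_eq_one]
      exact h7
    rw [hMb, Subgroup.mem_bot, mul_inv_eq_one, mul_inv_eq_iff_eq_mul] at h1
    exact h1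
  · intro hg
    ext v
    rw [cjh_apply]
    have h1 : (⟨g * v * g⁻¹, hV.conj_mem v v.2 g⟩ : V) = v := by
      apply Subtype.ext
      change g * v * g⁻¹ = v
      rw [(hC g).1 hg v v.2, mul_inv_cancel_right]
    rw [h1]

/-- a character with `V` not in the kernel lies over a nontrivial linear character -/
theorem exists_over_lin (V : Subgroup G) [hV : V.Normal]
    (hVab : ∀ a ∈ V, ∀ b ∈ V, a * b = b * a) {χ : IrrCharacter G} (h : ¬ InKer V χ.1) :
    ∃ l : V →* ℂˣ, l ≠ 1 ∧ Over V χ (lin l) := by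
  obtain ⟨θ, hθ⟩ := over_exists V χ
  have h1 : ⁅V, V⁆ = ⊥ := by
    rw [eq_bot_iff, Subgroup.commutator_le]
    intro a ha b hb
    rw [Subgroup.mem_bot, commutatorElement_def, hVab a ha b hb]
    group
  have h2 := over_linear' V hθ (by
    intro x hx
    rw [h1, Subgroup.mem_bot] at hx
    rw [hx])
  obtain ⟨l, rfl⟩ := exists_lin h2
  refine ⟨l, ?_, hθ⟩
  rintro rfl
  exact h (over_one V hθ (fun x => rfl))

theorem cent_mem (V : Subgroup G) (g : G) : g ∈ Subgroup.centralizer (V : Set G) ↔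
    ∀ v ∈ V, g * v = v * g := by
  rw [Subgroup.mem_centralizer_iff]
  exact ⟨fun h v hv => (h v hv).symm, fun h v hv => (h v hv).symm⟩

theorem caseA (hnd : ND G) (V : Subgroup G) [hV : V.Normal]
    (hVab : ∀ a ∈ V, ∀ b ∈ V, a * b = b * a)
    (hmin : ∀ M : Subgroup G, M.Normal → M ≤ V → M = ⊥ ∨ M = V) {p : ℕ} (hp : p.Prime)
    (hVp : ∀ v ∈ V, v ^ p = 1) (hVc : commutator G ≤ V) :
    ∃ h : ℕ, ∀ χ : IrrCharacter G, charDegree χ.1 = 1 ∨ charDegree χ.1 = h := by
  obtain ⟨C, hCdef⟩ : ∃ C : Subgroup G, C = Subgroup.centralizer (V : Set G) := ⟨_, rfl⟩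
  haveI hCn : C.Normal := by rw [hCdef]; infer_instance
  have hC : ∀ g, g ∈ C ↔ ∀ v ∈ V, g * v = v * g := by
    intro g; rw [hCdef]; exact cent_mem V g
  have hVC : V ≤ C := fun v hv => by
    rw [hC]; intro w hw; exact hVab v hv w hw
  obtain ⟨b, hb⟩ : ∃ b, (Subgroup.center C).index = p ^ b := by
    apply center_index hp
    intro x y
    have h1 : (x : G) * y * (x : G)⁻¹ * (y : G)⁻¹ ∈ V := by
      apply hVc
      rw [commutator_def]
      exact Subgroup.commutator_mem_commutator (Subgroup.mem_top (x : G)) (Subgroup.mem_top (y : G))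
    constructor
    · intro z
      apply Subtype.ext
      exact ((hC z).1 z.2 _ h1).symm
    · apply Subtype.ext
      exact hVp _ h1
  have key : ∀ ψ : IrrCharacter G, charDegree ψ.1 ≠ 1 → ∃ a, charDegree ψ.1 = C.index * p ^ a := by
    intro ψ hψ
    obtain ⟨l, hl, ho⟩ := exists_over_lin V hVab (χ := ψ) (fun h => hψ (deg_eq_one_of_inKer
      (fun x hx => h x (hVc hx))))
    have h1 := index_dvd_deg V ho C (fun g => by
      rw [cj_lin_iff, stab_eq V hmin C hC (hVc.trans hVC) l hl])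
    rw [deg_lin, mul_one] at h1
    obtain ⟨k, hk⟩ := h1
    obtain ⟨θ, hθ⟩ := over_exists C ψ
    obtain ⟨h2, h3⟩ := over_dvd C hθ
    have h4 : charDegree θ.1 ∣ p ^ b := by
      rw [← hb]
      exact H4.CenterIndex.ito θ.2 (cast_irr θ).symm (Subgroup.center C) (fun a ha b _ =>
        ((Subgroup.mem_center_iff.1 ha b)).symm)
    have h5 : charDegree ψ.1 ∣ p ^ b * C.index := by
      obtain ⟨m, hm⟩ := h2
      rw [hm, Nat.mul_div_cancel_left _ (deg_pos θ)] at h3
      rw [hm]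
      exact Nat.mul_dvd_mul h4 h3
    rw [hk, mul_comm (p ^ b)] at h5
    have h6 := Nat.dvd_of_mul_dvd_mul_left
      (Nat.pos_of_ne_zero Subgroup.index_ne_zero_of_finite) h5
    obtain ⟨a, -, ha⟩ := (Nat.dvd_prime_pow hp).1 h6
    exact ⟨a, by rw [hk, ha]⟩
  by_cases hex : ∃ ψ : IrrCharacter G, charDegree ψ.1 ≠ 1
  · obtain ⟨ψ, hψ⟩ := hex
    refine ⟨charDegree ψ.1, fun χ => ?_⟩
    by_cases hχ : charDegree χ.1 = 1
    · exact Or.inl hχ
    right
    obtain ⟨a, ha⟩ := key ψ hψ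
    obtain ⟨c, hc⟩ := key χ hχ
    rcases Nat.le_total a c with h | h
    · exact (hnd ψ χ hψ (by rw [ha, hc]; exact Nat.mul_dvd_mul_left _ (pow_dvd_pow p h))).symm
    · exact hnd χ ψ hχ (by rw [ha, hc]; exact Nat.mul_dvd_mul_left _ (pow_dvd_pow p h))
  · push Not at hex
    exact ⟨1, fun χ => Or.inl (hex χ)⟩

end H77.NDA
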