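import Cfsg.Agent.Lib.H77.NDA4
import Cfsg.Agent.Lib.H28.RelSyl

/-!
# No divisibility among degrees: abelian irreducible actions, complements (H77.NDA5)
-/

set_option autoImplicit false
set_option linter.style.haveILetI false
set_option linter.unusedSectionVars false
set_option maxHeartbeats 400000
open Cfsg
open scoped ComplexConjugate

namespace H77.NDA

universe u v

/-- an abelian group acting irreducibly is cyclic modulo the kernel -/
theorem irr_cyc0 {A : Type u} {M : Type v} [Group A] [Finite A] [AddCommGroup M] [Finite M]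
    [Nontrivial M] (f : A →* AddMonoid.End M) (hcomm : ∀ a b, f a * f b = f b * f a)
    (hirr : ∀ N : AddSubgroup M, (∀ a, ∀ m ∈ N, f a m ∈ N) → N = ⊥ ∨ N = ⊤) :
    ∃ z : A, ∀ a, ∃ k : ℤ, f a = f (z ^ k) := by
  classical
  obtain ⟨S, hS⟩ : ∃ S : Set (AddMonoid.End M), S = Set.range f := ⟨_, rfl⟩
  have hSc : ∀ x ∈ S, ∀ y ∈ S, x * y = y * x := by
    rw [hS]
    rintro _ ⟨a, rfl⟩ _ ⟨b, rfl⟩
    exact hcomm a b
  letI : CommRing (Subring.closure S) := Subring.closureCommRingOfComm hSc
  have hfS : ∀ a, f a ∈ Subring.closure S := fun a => Subring.subset_closure (by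
    rw [hS]; exact ⟨a, rfl⟩)
  have hker : ∀ r : Subring.closure S, r ≠ 0 → ∀ m : M, (r : AddMonoid.End M) m = 0 → m = 0 := by
    intro r hr m hm
    have h1 := hirr (AddMonoidHom.ker (r : AddMonoid.End M)) (by
      intro a x hx
      have hx' : (r : AddMonoid.End M) x = 0 := hx
      have h2 : r * ⟨f a, hfS a⟩ = ⟨f a, hfS a⟩ * r := mul_comm _ _
      have h3 : (r : AddMonoid.End M) * f a = f a * (r : AddMonoid.End M) :=
        congrArg Subtype.val h2
      have h4 : (r : AddMonoid.End M) (f a x) = f a ((r : AddMonoid.End M) x) :=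
        DFunLike.congr_fun h3 x
      change (r : AddMonoid.End M) (f a x) = 0
      rw [h4, hx', map_zero])
    rcases h1 with h1 | h1
    · have h2 : m ∈ AddMonoidHom.ker (r : AddMonoid.End M) := hm
      rw [h1] at h2
      exact h2
    · exfalso
      apply hr
      apply Subtype.ext
      ext x
      have h2 : x ∈ AddMonoidHom.ker (r : AddMonoid.End M) := by rw [h1]; exact AddSubgroup.mem_top x
      exact h2
  haveI : NoZeroDivisors (Subring.closure S) := ⟨by
    intro a b hab
    by_contra hcon
    push Not at hcon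
    apply hcon.2
    apply Subtype.ext
    ext x
    apply hker a hcon.1
    have h1 : (a : AddMonoid.End M) * (b : AddMonoid.End M) = 0 := congrArg Subtype.val hab
    exact DFunLike.congr_fun h1 x⟩
  haveI : Nontrivial (Subring.closure S) := by
    refine ⟨0, 1, fun h => ?_⟩
    obtain ⟨m, hm⟩ := exists_ne (0 : M)
    apply hm
    have h1 : (0 : AddMonoid.End M) = 1 := congrArg Subtype.val h
    have h2 := DFunLike.congr_fun h1 m
    exact h2.symm
  haveI : IsDomain (Subring.closure S) := NoZeroDivisors.to_isDomain _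
  let g : f.toHomUnits.range →* Subring.closure S :=
    { toFun := fun b => ⟨((b : (AddMonoid.End M)ˣ) : AddMonoid.End M), by
        obtain ⟨a, ha⟩ := b.2
        rw [← ha]
        exact hfS a⟩
      map_one' := rfl
      map_mul' := fun _ _ => rfl }
  have hg : Function.Injective g := by
    intro a b hab
    apply Subtype.ext
    apply Units.ext
    exact congrArg Subtype.val hab
  haveI : Finite f.toHomUnits.range :=
    Finite.of_surjective _ f.toHomUnits.rangeRestrict_surjective
  haveI hcyc : IsCyclic f.toHomUnits.range := isCyclic_of_subgroup_isDomain g hg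
  obtain ⟨⟨_, z, rfl⟩, hz⟩ := hcyc.exists_generator
  refine ⟨z, fun a => ?_⟩
  obtain ⟨k, hk⟩ := hz ⟨f.toHomUnits a, a, rfl⟩
  refine ⟨k, ?_⟩
  have h1 : (f.toHomUnits z) ^ k = f.toHomUnits a := congrArg Subtype.val hk
  rw [← map_zpow] at h1
  have h2 := congrArg Units.val h1
  exact h2.symm

theorem irr_cyc {A : Type u} {M : Type v} [Group A] [Finite A] [Group M] [Finite M]
    (W : Subgroup M) (hWc : ∀ a ∈ W, ∀ b ∈ W, a * b = b * a)
    (hW1 : W ≠ ⊥) (ρ : A → M → M) (h1 : ∀ m, ρ 1 m = m)
    (hmul : ∀ a b m, ρ (a * b) m = ρ a (ρ b m)) (hM : ∀ a m m', ρ a (m * m') = ρ a m * ρ a m')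
    (hcomm : ∀ a b, ∀ m ∈ W, ρ a (ρ b m) = ρ b (ρ a m)) (hW : ∀ a, ∀ m ∈ W, ρ a m ∈ W)
    (hmin : ∀ N ≤ W, (∀ a, ∀ m ∈ N, ρ a m ∈ N) → N = ⊥ ∨ N = W) :
    ∃ z, ∀ a, ∃ k : ℤ, ∀ m ∈ W, ρ a m = ρ (z ^ k) m := by
  letI : CommGroup W := { (inferInstance : Group W) with
    mul_comm := fun a b => Subtype.ext (hWc a a.2 b b.2) }
  haveI : Nontrivial W := (Subgroup.nontrivial_iff_ne_bot W).2 hW1
  have hρ1 : ∀ a, ρ a 1 = 1 := by
    intro a
    have h2 := hM a 1 1
    rw [mul_one] at h2
    exact left_eq_mul.1 h2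
  let e : A → (W →* W) := fun a =>
    { toFun := fun m => ⟨ρ a m, hW a m m.2⟩
      map_one' := Subtype.ext (hρ1 a)
      map_mul' := fun m m' => Subtype.ext (hM a m m') }
  let f : A →* AddMonoid.End (Additive W) :=
    { toFun := fun a => MonoidHom.toAdditive (e a)
      map_one' := by
        refine AddMonoidHom.ext (fun m => ?_)
        have h5 : e 1 (Additive.toMul m) = Additive.toMul m := Subtype.ext (h1 _)
        exact congrArg Additive.ofMul h5
      map_mul' := by
        intro a b
        refine AddMonoidHom.ext (fun m => ?_)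
        have h5 : e (a * b) (Additive.toMul m) = e a (e b (Additive.toMul m)) :=
          Subtype.ext (hmul a b _)
        exact congrArg Additive.ofMul h5 }
  have hf : ∀ a (m : W), f a (Additive.ofMul m) = Additive.ofMul (e a m) := fun _ _ => rfl
  obtain ⟨z, hz⟩ := irr_cyc0 f (by
      intro a b
      refine AddMonoidHom.ext (fun m => ?_)
      have h5 : e a (e b (Additive.toMul m)) = e b (e a (Additive.toMul m)) :=
        Subtype.ext (hcomm a b _ (Additive.toMul m).2)
      exact congrArg Additive.ofMul h5) (by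
      intro N hN
      have h3 := hmin ((AddSubgroup.toSubgroup' N).map W.subtype) (Subgroup.map_subtype_le _) (by
        rintro a _ ⟨m, hm, rfl⟩
        exact ⟨e a m, hN a _ hm, rfl⟩)
      rcases h3 with h3 | h3
      · left
        rw [eq_bot_iff]
        intro m hm
        have h4 : ((Additive.toMul m : W) : M) ∈ (AddSubgroup.toSubgroup' N).map W.subtype :=
          ⟨_, hm, rfl⟩
        rw [h3, Subgroup.mem_bot] at h4
        have h5 : Additive.toMul m = 1 := Subtype.ext h4
        exact h5
      · right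
        rw [eq_top_iff]
        intro m _
        have h4 : ((Additive.toMul m : W) : M) ∈ (AddSubgroup.toSubgroup' N).map W.subtype := by
          rw [h3]; exact (Additive.toMul m).2
        obtain ⟨y, hy, hym⟩ := h4
        have h5 : y = Additive.toMul m := Subtype.ext hym
        rw [h5] at hy
        exact hy)
  refine ⟨z, fun a => ?_⟩
  obtain ⟨k, hk⟩ := hz a
  refine ⟨k, fun m hm => ?_⟩
  have h4 := DFunLike.congr_fun hk (Additive.ofMul (⟨m, hm⟩ : W))
  exact congrArg (fun w => ((Additive.toMul w : W) : M)) h4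

end H77.NDA
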