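import Cfsg.Agent.Lib.H77.NDA5

/-!
# No divisibility among degrees: a complement to a noncentral minimal normal subgroup (H77.NDA6)
-/

set_option autoImplicit false
set_option linter.style.haveILetI false
set_option linter.unusedSectionVars false
set_option maxHeartbeats 400000
open Cfsg H28.Cj H28.RelSyl

namespace H77.NDA

universe u

variable {G : Type u} [Group G] [Finite G]

/-- some `p'`-element of prime power order acts nontrivially -/
theorem exists_pprime (V P : Subgroup G) [hV : V.Normal] [hP : P.Normal]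
    (hmin : ∀ M : Subgroup G, M.Normal → M ≤ V → M = ⊥ ∨ M = V) (hVne : V ≠ ⊥) {p : ℕ}
    (hp : p.Prime) (hVp : IsPGroup p V) (hnc : ∃ v ∈ V, ∃ u ∈ P, v * u ≠ u * v) :
    ∃ q : ℕ, q.Prime ∧ q ≠ p ∧ ∃ x ∈ P, (∃ k : ℕ, x ^ q ^ k = 1) ∧ ∃ v ∈ V, x * v ≠ v * x := by
  classical
  haveI := Fact.mk hp
  by_contra hcon
  push Not at hcon
  obtain ⟨ρ, hρ⟩ : ∃ ρ : G →* MulAut V, ρ = MulAut.conjNormal := ⟨_, rfl⟩
  have hρ1 : ∀ g, ρ g = 1 ↔ ∀ v ∈ V, g * v = v * g := by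
    intro g
    constructor
    · intro h v hv
      have h1 : ((ρ g ⟨v, hv⟩ : V) : G) = v := by rw [h]; rfl
      rw [hρ, MulAut.conjNormal_apply] at h1
      rw [← mul_inv_eq_iff_eq_mul]; exact h1
    · intro h
      ext v
      rw [hρ, MulAut.conjNormal_apply, MulAut.one_apply, h v v.2, mul_inv_cancel_right]
  -- elements of order prime to `p` act trivially
  have h1 : ∀ x ∈ P, ¬ p ∣ orderOf x → ρ x = 1 := by
    intro x hx hpx
    by_contra hne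
    have h2 : orderOf (ρ x) ≠ 1 := fun h => hne (orderOf_eq_one_iff.1 h)
    obtain ⟨q, hq, hqd⟩ := Nat.exists_prime_and_dvd h2
    have h3 : orderOf (ρ x) ∣ orderOf x := orderOf_map_dvd ρ x
    have hqp : q ≠ p := by
      rintro rfl
      exact hpx (hqd.trans h3)
    obtain ⟨k, m, hm, hkm⟩ := Nat.exists_eq_pow_mul_and_not_dvd (orderOf_pos x).ne' q hq.ne_one
    have h4 : (x ^ m) ^ q ^ k = 1 := by
      rw [← pow_mul, mul_comm, ← hkm, pow_orderOf_eq_one]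
    have h5 : ρ (x ^ m) = 1 := (hρ1 _).2 (hcon q hq hqp _ (P.pow_mem hx m) ⟨k, h4⟩)
    rw [map_pow] at h5
    exact hm (hqd.trans (orderOf_dvd_of_pow_eq_one h5))
  have hR : IsPGroup p (P.map ρ) := by
    rintro ⟨_, x, hx, rfl⟩
    obtain ⟨k, m, hm, hkm⟩ := Nat.exists_eq_pow_mul_and_not_dvd (orderOf_pos x).ne' p hp.ne_one
    refine ⟨k, Subtype.ext ?_⟩
    change (ρ x) ^ p ^ k = 1
    rw [← map_pow]
    apply h1 _ (P.pow_mem hx _)
    rw [orderOf_pow, hkm, Nat.gcd_eq_right (Dvd.intro _ rfl), Nat.mul_div_cancel_left _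
      (pow_pos hp.pos k)]
    exact hm
  haveI : Nontrivial V := (Subgroup.nontrivial_iff_ne_bot V).2 hVne
  have hdvd : p ∣ Nat.card V := by
    obtain ⟨n, hn⟩ := (IsPGroup.iff_card (p := p)).1 hVp
    have h2 : 1 < Nat.card V := Finite.one_lt_card
    rw [hn]
    apply dvd_pow_self
    rintro rfl
    rw [hn, pow_zero] at h2
    exact lt_irrefl _ h2
  obtain ⟨b, hb, hb1⟩ := hR.exists_fixed_point_of_prime_dvd_card_of_fixed_point V hdvd
    (a := 1) (by intro r; exact map_one (r : MulAut V))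
  have hb2 : ∀ x ∈ P, x * (b : G) = b * x := by
    intro x hx
    have h2 : ρ x b = b := hb ⟨ρ x, x, hx, rfl⟩
    have h3 := congrArg Subtype.val h2
    rw [hρ, MulAut.conjNormal_apply] at h3
    rw [← mul_inv_eq_iff_eq_mul]; exact h3
  have hM : V ⊓ Subgroup.centralizer (P : Set G) = V := by
    rcases hmin (V ⊓ Subgroup.centralizer (P : Set G)) inferInstance inf_le_left with h | h
    · exfalso
      have h2 : (b : G) ∈ V ⊓ Subgroup.centralizer (P : Set G) :=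
        ⟨b.2, Subgroup.mem_centralizer_iff.2 (fun x hx => hb2 x hx)⟩
      rw [h, Subgroup.mem_bot] at h2
      exact hb1 (Subtype.ext h2.symm)
    · exact h
  obtain ⟨v, hv, u, hu, hvu⟩ := hnc
  rw [← hM] at hv
  exact hvu (Subgroup.mem_centralizer_iff.1 hv.2 u hu).symm

theorem exists_compl (V P : Subgroup G) [hV : V.Normal] [hP : P.Normal] (hVP : V ≤ P)
    (hPV : ∀ a ∈ P, ∀ b ∈ P, a * b * a⁻¹ * b⁻¹ ∈ V) (hVab : ∀ a ∈ V, ∀ b ∈ V, a * b = b * a)
    (hmin : ∀ M : Subgroup G, M.Normal → M ≤ V → M = ⊥ ∨ M = V) (hVne : V ≠ ⊥) {p : ℕ}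
    (hp : p.Prime) (hVp : IsPGroup p V) (hnc : ∃ v ∈ V, ∃ u ∈ P, v * u ≠ u * v) :
    ∃ Y : Subgroup G, (∀ x ∈ V, x ∈ Y → x = 1) ∧ ∀ g : G, ∃ v ∈ V, v⁻¹ * g ∈ Y := by
  classical
  obtain ⟨q, hq, hqp, x, hx, ⟨k, hk⟩, v0, hv0, hxv⟩ := exists_pprime V P hmin hVne hp hVp hnc
  haveI := Fact.mk hq
  have hxq : IsPGroup q (Subgroup.zpowers x) := by
    rintro ⟨_, n, rfl⟩
    refine ⟨k, Subtype.ext ?_⟩
    change (x ^ n) ^ q ^ k = 1
    rw [← zpow_natCast, ← zpow_mul, mul_comm, zpow_mul, zpow_natCast, hk, one_zpow]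
  obtain ⟨Q, hQ, hxQ⟩ := exists_isSyl_ge hxq (H := P) (by rwa [Subgroup.zpowers_le])
  rw [Subgroup.zpowers_le] at hxQ
  have hgen : ∀ g : G, ∃ v ∈ V, v⁻¹ * g ∈ Subgroup.normalizer (Q : Set G) := by
    intro g
    have h1 : IsSyl q (H28.Cj.cj g Q) P := by
      have h2 := hQ.cj g
      have h3 : H28.Cj.cj g P = P := by
        rw [← mem_normalizer_iff_cj, Subgroup.normalizer_eq_top]
        exact Subgroup.mem_top g
      rwa [h3] at h2
    obtain ⟨u, hu, hu2⟩ := hQ.exists_conj_eq h1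
    have hQV : Q ⊔ V ≤ P := sup_le hQ.le hVP
    have h4 : H28.Cj.cj u Q ≤ Q ⊔ V := by
      intro y hy
      rw [mem_cj] at hy
      have h5 : y = (u * (u⁻¹ * y * u) * u⁻¹ * (u⁻¹ * y * u)⁻¹) * (u⁻¹ * y * u) := by group
      rw [h5]
      exact (Q ⊔ V).mul_mem (Subgroup.mem_sup_right (hPV u hu _ (hQ.le hy)))
        (Subgroup.mem_sup_left hy)
    have h6 : IsSyl q Q (Q ⊔ V) := hQ.of_le_of_le le_sup_left hQV
    have h7 : IsSyl q (H28.Cj.cj g Q) (Q ⊔ V) := h1.of_le_of_le (by rw [hu2]; exact h4) hQV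
    obtain ⟨w, hw, hw2⟩ := h6.exists_conj_eq h7
    rw [Subgroup.mem_sup_of_normal_right] at hw
    obtain ⟨y, hy, v, hv, rfl⟩ := hw
    -- y * v = (y v y⁻¹) * y
    refine ⟨y * v * y⁻¹, hV.conj_mem v hv y, ?_⟩
    rw [mem_normalizer_iff_cj, ← cj_cj, hw2, cj_cj]
    have h8 : (y * v * y⁻¹)⁻¹ * (y * v) = y := by group
    rw [h8]
    exact cj_eq_self_of_mem hy
  refine ⟨Subgroup.normalizer (Q : Set G), ?_, hgen⟩
  -- the centralizer of `Q` in `V`
  obtain ⟨M, hM⟩ : ∃ M : Subgroup G, M = V ⊓ Subgroup.centralizer (Q : Set G) := ⟨_, rfl⟩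
  have hMm : ∀ w, w ∈ M ↔ w ∈ V ∧ ∀ y ∈ Q, y * w = w * y := by
    intro w; rw [hM, Subgroup.mem_inf, Subgroup.mem_centralizer_iff]; rfl
  have hMn : M.Normal := by
    refine ⟨fun w hw g => ?_⟩
    rw [hMm] at hw ⊢
    refine ⟨hV.conj_mem w hw.1 g, fun y hy => ?_⟩
    obtain ⟨v, hv, hn⟩ := hgen g
    obtain ⟨n, hndef⟩ : ∃ n, n = v⁻¹ * g := ⟨_, rfl⟩
    rw [← hndef] at hn
    have hg : g = v * n := by rw [hndef]; group
    have h1 : g * w * g⁻¹ = n * w * n⁻¹ := by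
      have h2 : n * w * n⁻¹ ∈ V := hV.conj_mem w hw.1 n
      have h3 := hVab v hv _ h2
      rw [hg]
      calc v * n * w * (v * n)⁻¹ = (v * (n * w * n⁻¹)) * v⁻¹ := by group
        _ = _ := by rw [h3]; group
    rw [h1]
    have h2 : n⁻¹ * y * n ∈ Q := by
      have h3 := (Subgroup.mem_normalizer_iff.1 (Subgroup.inv_mem _ hn) y).1 hy
      rw [inv_inv] at h3
      exact h3
    have h3 := hw.2 _ h2
    calc y * (n * w * n⁻¹) = n * ((n⁻¹ * y * n) * w) * n⁻¹ := by group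
      _ = n * (w * (n⁻¹ * y * n)) * n⁻¹ := by rw [h3]
      _ = _ := by group
  have hMb : M = ⊥ := by
    rcases hmin M hMn (by rw [hM]; exact inf_le_left) with h | h
    · exact h
    · exfalso
      rw [← h, hMm] at hv0
      exact hxv (hv0.2 x hxQ)
  intro w hwV hwN
  have h1 : w ∈ M := by
    rw [hMm]
    refine ⟨hwV, fun y hy => ?_⟩
    have h2 : w * y * w⁻¹ ∈ Q := (Subgroup.mem_normalizer_iff.1 hwN y).1 hy
    have h3 : w * y * w⁻¹ * y⁻¹ ∈ Q := Q.mul_mem h2 (Q.inv_mem hy)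
    have h4 : w * y * w⁻¹ * y⁻¹ ∈ V := by
      have h5 : w * y * w⁻¹ * y⁻¹ = w * (y * w⁻¹ * y⁻¹) := by group
      rw [h5]
      exact V.mul_mem hwV (hV.conj_mem _ (V.inv_mem hwV) y)
    obtain ⟨a, ha⟩ := hQ.isPGroup ⟨_, h3⟩
    obtain ⟨b, hb⟩ := hVp ⟨_, h4⟩
    have ha' : (w * y * w⁻¹ * y⁻¹) ^ q ^ a = 1 := congrArg Subtype.val ha
    have hb' : (w * y * w⁻¹ * y⁻¹) ^ p ^ b = 1 := congrArg Subtype.val hb
    have h6 : orderOf (w * y * w⁻¹ * y⁻¹) = 1 :=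
      Nat.eq_one_of_dvd_coprimes (Nat.Coprime.pow a b ((Nat.coprime_primes hq hp).2 hqp))
        (orderOf_dvd_of_pow_eq_one ha') (orderOf_dvd_of_pow_eq_one hb')
    have h7 := orderOf_eq_one_iff.1 h6
    rw [mul_inv_eq_one, mul_inv_eq_iff_eq_mul] at h7
    exact h7.symm
  rw [hMb, Subgroup.mem_bot] at h1
  exact h1

end H77.NDA
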