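import Cfsg.Agent.Lib.H77.NDA6

/-!
# No divisibility among degrees: the case `V` not central in `P` (H77.NDA7)
-/

set_option autoImplicit false
set_option linter.style.haveILetI false
set_option linter.unusedSectionVars false
set_option maxHeartbeats 400000
open Cfsg
open scoped ComplexConjugate

namespace H77.NDA

open H18.CharBasic H18.CharOrtho H18.CharInd H18.CharQuot H77.PQuot H31.Clifford H77.ThreeA H77.ThreeB
open H77.ThreeC H77.ThreeE H77.ThreeF H77.TwoDeg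

universe u

theorem finite_hom (H : Type u) [Group H] [Finite H] : Finite (H →* ℂˣ) := by
  apply Nat.finite_of_card_ne_zero
  rw [card_hom_eq_index]
  exact Subgroup.index_ne_zero_of_finite

variable {G : Type u} [Group G] [Finite G]

/-- the extension of an invariant linear character across a split extension -/
theorem split_ext (V : Subgroup G) [hV : V.Normal] (hVab : ∀ a ∈ V, ∀ b ∈ V, a * b = b * a)
    (Y : Subgroup G) (h1 : ∀ x ∈ V, x ∈ Y → x = 1) (h2 : ∀ g : G, ∃ v ∈ V, v⁻¹ * g ∈ Y)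
    (l : V →* ℂˣ) (T : Subgroup G) (hT : ∀ g ∈ T, cjh V g l = l) (hVT : V ≤ T) :
    ∃ m : T →* ℂˣ, ∀ v : V, m ⟨v, hVT v.2⟩ = l v := by
  choose f hf1 hf2 using h2
  have huniq : ∀ g v, v ∈ V → v⁻¹ * g ∈ Y → v = f g := by
    intro g v hv hvg
    have h3 : (f g)⁻¹ * v = 1 := by
      apply h1 _ (V.mul_mem (V.inv_mem (hf1 g)) hv)
      have h4 : (f g)⁻¹ * v = ((f g)⁻¹ * g) * (v⁻¹ * g)⁻¹ := by group
      rw [h4]
      exact Y.mul_mem (hf2 g) (Y.inv_mem hvg)
    exact (inv_mul_eq_one.1 h3).symm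
  have hmul : ∀ g h, f (g * h) = f g * (g * f h * g⁻¹) := by
    intro g h
    symm
    apply huniq
    · exact V.mul_mem (hf1 g) (hV.conj_mem _ (hf1 h) g)
    · obtain ⟨y, hy⟩ : ∃ y, y = (f g)⁻¹ * g := ⟨_, rfl⟩
      have hyY : y ∈ Y := by rw [hy]; exact hf2 g
      have hg : g = f g * y := by rw [hy]; group
      have h3 : f g * (y * f h * y⁻¹) = (y * f h * y⁻¹) * f g :=
        hVab _ (hf1 g) _ (hV.conj_mem _ (hf1 h) y)
      have h4 : g * f h * g⁻¹ = y * f h * y⁻¹ := by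
        calc g * f h * g⁻¹ = (f g * (y * f h * y⁻¹)) * (f g)⁻¹ := by
              conv_lhs => rw [hg]
              group
          _ = _ := by rw [h3]; group
      have h5 : (f g * (g * f h * g⁻¹))⁻¹ * (g * h) = y * ((f h)⁻¹ * h) := by
        rw [h4]
        calc (f g * (y * f h * y⁻¹))⁻¹ * (g * h)
            = y * (f h)⁻¹ * y⁻¹ * ((f g)⁻¹ * g) * h := by group
          _ = _ := by rw [← hy]; group
      rw [h5]
      exact Y.mul_mem hyY (hf2 h)
  refine ⟨MonoidHom.mk' (fun t : T => l ⟨f t, hf1 t⟩) ?_, ?_⟩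
  · intro a b
    have h3 : (⟨f ((a * b : T) : G), hf1 _⟩ : V) = ⟨f a, hf1 a⟩ * ⟨(a : G) * f b * (a : G)⁻¹,
        hV.conj_mem _ (hf1 b) a⟩ := Subtype.ext (hmul a b)
    have h4 := DFunLike.congr_fun (hT a a.2) ⟨f b, hf1 b⟩
    rw [cjh_apply] at h4
    change l ⟨f ((a * b : T) : G), hf1 _⟩ = _
    rw [h3, map_mul]
    exact congrArg _ h4
  · intro v
    change l ⟨f (v : G), hf1 _⟩ = l v
    congr 1
    apply Subtype.ext
    exact (huniq v v v.2 (by rw [inv_mul_cancel]; exact Y.one_mem)).symm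

/-- `P/K` is cyclic: `x⁻¹ α(x) ∈ P` -/
theorem mem_of_cyc {V K P : Subgroup G} {r : ℕ} (hf : FS G V K P r) {α : MulAut G} (hα : AInv α)
    {z : G} (hzP : z ∈ P) (hz : ∀ a ∈ P, ∃ k : ℤ, a⁻¹ * z ^ k ∈ K) (x : G) : x⁻¹ * α x ∈ P := by
  haveI := hf.Kn
  haveI := hf.Pn
  by_contra hc
  obtain ⟨π, hπdef⟩ : ∃ π : G →* G ⧸ K, π = QuotientGroup.mk' K := ⟨_, rfl⟩
  have hπ1 : ∀ x, π x = 1 ↔ x ∈ K := by
    intro x; rw [hπdef]; exact QuotientGroup.eq_one_iff x
  have hαP := hf.P_inv hα hzP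
  obtain ⟨a, ha⟩ := hz _ hαP
  obtain ⟨b, hb⟩ := hz _ (hf.Pn.conj_mem z hzP x)
  have ha1 : π (α z) = π z ^ a := by
    have h1 := (hπ1 _).2 ha
    rw [map_mul, map_inv, inv_mul_eq_one, map_zpow] at h1
    exact h1
  have hb1 : π x * π z * (π x)⁻¹ = π z ^ b := by
    have h1 := (hπ1 _).2 hb
    rw [map_mul, map_inv, inv_mul_eq_one, map_zpow, map_mul, map_mul, map_inv] at h1
    exact h1
  have h2 : π (α (x * z * x⁻¹)) = π z ^ (a * b) := by
    have h3 : π (α ((x * z * x⁻¹)⁻¹ * z ^ b)) = 1 := (hπ1 _).2 (hf.K_inv hα hb)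
    rw [map_mul, map_inv, map_mul, map_inv, inv_mul_eq_one, map_zpow, map_zpow, ha1,
      ← zpow_mul] at h3
    exact h3
  have h3 : π x * π (α z) * (π x)⁻¹ = π z ^ (a * b) := by
    rw [ha1, ← conj_zpow, hb1, ← zpow_mul, mul_comm b a]
  have h4 : α z ∈ K := by
    apply hf.free _ hc _ hαP
    rw [← hπ1]
    have h5 : π (α x) * π (α z) * (π (α x))⁻¹ = π x * π (α z) * (π x)⁻¹ := by
      rw [h3, ← h2]
      simp only [map_mul, map_inv]
    calc π (x⁻¹ * α x * α z * (x⁻¹ * α x)⁻¹ * (α z)⁻¹)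
        = (π x)⁻¹ * (π (α x) * π (α z) * (π (α x))⁻¹) * π x * (π (α z))⁻¹ := by
          simp only [map_mul, map_inv]; group
      _ = 1 := by rw [h5]; group
  have hα' : AInv α⁻¹ := by
    intro ψ hψ y
    rw [← hα ψ hψ (α⁻¹ y), MulAut.apply_inv_self]
  have h5 : z ∈ K := by
    have h6 := hf.K_inv hα' h4
    rwa [MulAut.inv_apply_self] at h6
  apply hf.cK
  refine hf.cP.trans ?_
  intro y hy
  obtain ⟨k, hk⟩ := hz y hy
  have h6 : y = z ^ k * (y⁻¹ * z ^ k)⁻¹ := by group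
  rw [h6]
  exact K.mul_mem (K.zpow_mem h5 k) (K.inv_mem hk)

theorem sub1 (hnd : ND G) {V K P : Subgroup G} {r : ℕ} [hV : V.Normal] (hf : FS G V K P r)
    (hPV : ⁅P, P⁆ = V) (hVP : V ≤ P) (hVab : ∀ a ∈ V, ∀ b ∈ V, a * b = b * a)
    (hmin : ∀ M : Subgroup G, M.Normal → M ≤ V → M = ⊥ ∨ M = V) (hVne : V ≠ ⊥) {p : ℕ}
    (hp : p.Prime) (hVp : IsPGroup p V) (hnc : ∃ v ∈ V, ∃ u ∈ P, v * u ≠ u * v)
    {α : MulAut G} (hα : AInv α) (x : G) : x⁻¹ * α x ∈ P := by
  classical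
  haveI := hf.Kn
  haveI := hf.Pn
  have hPV' : ∀ a ∈ P, ∀ b ∈ P, a * b * a⁻¹ * b⁻¹ ∈ V := by
    intro a ha b hb
    rw [← hPV]
    exact Subgroup.commutator_mem_commutator ha hb
  obtain ⟨Y, hY1, hY2⟩ := exists_compl V P hVP hPV' hVab hmin hVne hp hVp hnc
  -- the stabilizers
  have key : ∀ l : V →* ℂˣ, l ≠ 1 → ∀ g, g ∈ P → cjh V g l = l → g ∈ K := by
    intro l hl
    let T : Subgroup G :=
      { carrier := {g | cjh V g l = l}
        mul_mem' := by
          intro a b ha hb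
          change cjh V (a * b) l = l
          rw [← cjh_mul, ha, hb]
        one_mem' := cjh_one V l
        inv_mem' := by
          intro a ha
          have ha' : cjh V a l = l := ha
          change cjh V a⁻¹ l = l
          conv_lhs => rw [← ha']
          rw [cjh_mul, mul_inv_cancel, cjh_one] }
    have hVT : V ≤ T := fun v hv => cjh_self V hv l
    have hT : ∀ g : G, g ∈ T ↔ conjFunN V g (lin l).1 = (lin l).1 := by
      intro g; rw [cj_lin_iff]; exact Iff.rfl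
    obtain ⟨m, hm⟩ := split_ext V hVab Y hY1 hY2 l T (fun g hg => hg) hVT
    have hext := ext_deg V (lin l) T hVT hT (lin m) (fun n => by
      rw [lin_apply, lin_apply, hm])
    have hnk : ∀ χ : IrrCharacter G, Over V χ (lin l) → r ∣ charDegree χ.1 := by
      intro χ hχ
      apply hf.dvd_of_not_inKer hnd
      rw [hPV]
      intro hk
      apply hl
      ext v
      have h1 := over_ker V hχ v (hk v v.2)
      rw [lin_apply, lin_apply, map_one] at h1
      exact h1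
    obtain ⟨χ0, hχ0, hd0⟩ := hext (lin 1) (fun _ => rfl)
    rw [deg_lin, deg_lin, mul_one, mul_one] at hd0
    have hr0 : r ∣ T.index := by rw [← hd0]; exact hnk χ0 hχ0
    have hT1 : T.index ≠ 1 := by
      intro h
      rw [h] at hr0
      exact hf.rp.one_lt.ne' (Nat.dvd_one.1 hr0)
    have hTP : ¬ T ≤ P := by
      intro h
      obtain ⟨χ1, -, hχ1⟩ := hf.exists_f
      have h1 := hnd χ1 χ0 (by rw [hχ1]; exact hf.i1) (by
        rw [hχ1, hd0]; exact Subgroup.index_dvd_of_le h)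
      apply hf.ri
      rw [← hχ1, h1, hd0]
      exact hr0
    have hTc : commutator T ≤ V.subgroupOf T := by
      by_contra hcon
      haveI : (V.subgroupOf T).Normal := hV.subgroupOf T
      obtain ⟨β, hβ1, hβ2⟩ := infl_exists (V.subgroupOf T) hcon
      obtain ⟨χ, hχ, hd⟩ := hext β (fun n => hβ2 _ n.2)
      rw [deg_lin, mul_one] at hd
      have h1 := hnd χ0 χ (by rw [hd0]; exact hT1) (by rw [hd0, hd]; exact Dvd.intro _ rfl)
      rw [hd0, hd] at h1
      have h2 : T.index * 1 = T.index * charDegree β.1 := by rw [mul_one]; exact h1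
      exact hβ1 (Nat.eq_of_mul_eq_mul_left
        (Nat.pos_of_ne_zero Subgroup.index_ne_zero_of_finite) h2).symm
    obtain ⟨g0, hg0, hg0P⟩ := SetLike.not_le_iff_exists.1 hTP
    intro g hgP hgT
    apply hf.free g0 hg0P g hgP
    apply hf.VK
    have h1 : (⟨g0, hg0⟩ : T) * ⟨g, hgT⟩ * (⟨g0, hg0⟩ : T)⁻¹ * (⟨g, hgT⟩ : T)⁻¹ ∈ V.subgroupOf T := by
      apply hTc
      rw [commutator_def]
      exact Subgroup.commutator_mem_commutator (Subgroup.mem_top _) (Subgroup.mem_top _)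
    exact h1
  -- a minimal `P`-invariant subgroup of the dual of `V`
  haveI := finite_hom V
  obtain ⟨S, hS⟩ : ∃ S : Set (Subgroup (V →* ℂˣ)),
      S = {W | W ≠ ⊥ ∧ ∀ g ∈ P, ∀ l ∈ W, cjh V g l ∈ W} := ⟨_, rfl⟩
  have hSne : S.Nonempty := by
    refine ⟨⊤, ?_⟩
    rw [hS]
    refine ⟨?_, fun _ _ _ _ => Subgroup.mem_top _⟩
    intro h
    obtain ⟨w, hw, hw1⟩ : ∃ w ∈ V, w ≠ 1 := by
      by_contra hcon
      push Not at hcon
      exact hVne ((Subgroup.eq_bot_iff_forall V).2 hcon)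
    have hcV : commutator V ≤ (⊥ : Subgroup V) := by
      rw [commutator_def, Subgroup.commutator_le]
      intro a _ b _
      rw [Subgroup.mem_bot, commutatorElement_def]
      have h3 : a * b = b * a := Subtype.ext (hVab a a.2 b b.2)
      rw [h3]
      group
    obtain ⟨l, hl, -⟩ := sep (H := V) ⊥ hcV (x := ⟨w, hw⟩) (by
      rw [Subgroup.mem_bot]
      exact fun h => hw1 (congrArg Subtype.val h))
    apply hl
    have h2 : l ∈ (⊤ : Subgroup (V →* ℂˣ)) := Subgroup.mem_top l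
    rw [h, Subgroup.mem_bot] at h2
    rw [h2]; rfl
  obtain ⟨W, hW⟩ := (Set.toFinite S).exists_minimal hSne
  have hWm := hW.prop
  rw [hS] at hWm
  obtain ⟨hW1, hW2⟩ := hWm
  obtain ⟨l, hlW, hl1⟩ : ∃ l ∈ W, l ≠ 1 := by
    by_contra hcon
    push Not at hcon
    exact hW1 ((Subgroup.eq_bot_iff_forall W).2 hcon)
  obtain ⟨z, hz⟩ := irr_cyc (A := P) (M := V →* ℂˣ) W (fun a _ b _ => mul_comm a b) hW1
    (fun g l => cjh V ((g : G)⁻¹) l)
    (fun m => by change cjh V ((1 : G)⁻¹) m = m; rw [inv_one, cjh_one])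
    (fun a b m => by
      change cjh V (((a : G) * b)⁻¹) m = cjh V ((a : G)⁻¹) (cjh V ((b : G)⁻¹) m)
      rw [cjh_mul, mul_inv_rev])
    (fun a m m' => rfl)
    (fun a b m _ => by
      change cjh V ((a : G)⁻¹) (cjh V ((b : G)⁻¹) m) = cjh V ((b : G)⁻¹) (cjh V ((a : G)⁻¹) m)
      rw [cjh_mul, cjh_mul]
      have h1 : (b : G)⁻¹ * (a : G)⁻¹ = ((b : G)⁻¹ * (a : G)⁻¹ * (b : G)⁻¹⁻¹ * (a : G)⁻¹⁻¹) *
          ((a : G)⁻¹ * (b : G)⁻¹) := by group
      rw [h1, ← cjh_mul, cjh_self V (hPV' _ (P.inv_mem b.2) _ (P.inv_mem a.2))])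
    (fun a m hm => hW2 _ (P.inv_mem a.2) m hm)
    (by
      intro N hN hNi
      by_cases hNb : N = ⊥
      · exact Or.inl hNb
      right
      have h1 : N ∈ S := by
        rw [hS]
        refine ⟨hNb, fun g hg l hl => ?_⟩
        have h2 := hNi ⟨g⁻¹, P.inv_mem hg⟩ l hl
        change cjh V (g⁻¹)⁻¹ l ∈ N at h2
        rwa [inv_inv] at h2
      exact le_antisymm hN (hW.le_of_le h1 hN))
  refine mem_of_cyc hf hα (P.inv_mem z.2) (fun a ha => ?_) x
  obtain ⟨k, hk⟩ := hz ⟨a, ha⟩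
  refine ⟨-k, ?_⟩
  apply key l hl1 _ (P.mul_mem (P.inv_mem ha) (P.zpow_mem (P.inv_mem z.2) _))
  have h1 : cjh V a⁻¹ l = cjh V (((z : G) ^ k)⁻¹) l := hk l hlW
  rw [← cjh_mul, h1, cjh_mul, zpow_neg, inv_zpow, inv_inv, inv_mul_cancel, cjh_one]

end H77.NDA
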