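import Cfsg.Agent.Lib.H77.NDA7
import Cfsg.Agent.Lib.H1.Coprime2

/-!
# No divisibility among degrees: the case `V` central in `P`, first part (H77.NDA8)
-/

set_option autoImplicit false
set_option linter.style.haveILetI false
set_option linter.unusedSectionVars false
set_option maxHeartbeats 400000
open Cfsg
open scoped ComplexConjugate

namespace H77.NDA

open H18.CharBasic H18.CharOrtho H18.CharInd H18.CharQuot H77.PQuot H31.Clifford H77.ThreeA H77.ThreeB
open H77.ThreeC H77.ThreeE H77.ThreeF H77.TwoDeg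

universe u

variable {G : Type u} [Group G] [Finite G]

/-- extension from a normal Hall subgroup to the stabilizer -/
theorem ext_hall (N : Subgroup G) [hN : N.Normal] (θ : IrrCharacter N) (T : Subgroup G)
    (hNT : N ≤ T) (hT : ∀ g ∈ T, conjFunN N g θ.1 = θ.1) (hcop : (Nat.card N).Coprime N.index) :
    ∃ η : IrrCharacter T, ∀ n : N, η.1 ⟨n, hNT n.2⟩ = θ.1 n := by
  classical
  letI := Fintype.ofFinite G
  letI := Fintype.ofFinite N
  letI := Fintype.ofFinite T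
  have hcop' : (Nat.card (N.subgroupOf T)).Coprime (N.subgroupOf T).index := by
    have e1 : Nat.card (N.subgroupOf T) = Nat.card N :=
      Nat.card_congr (Subgroup.subgroupOfEquivOfLe hNT).toEquiv
    have e2 : (N.subgroupOf T).index ∣ N.index := Subgroup.relIndex_dvd_index_of_normal N T
    rw [e1]
    exact Nat.Coprime.coprime_dvd_right e2 hcop
  obtain ⟨η, hη, -⟩ := H77.Canon.canon_exists (N.subgroupOf T) hcop' ⟨_, irr_thT N T hNT θ.2⟩ (by
    intro x n
    have h2 := cj_thT N T x θ.1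
    rw [hT x x.2] at h2
    exact congrFun h2 n)
  exact ⟨η, fun n => hη ⟨⟨n, hNT n.2⟩, n.2⟩⟩

/-- the stabilizer of a linear character -/
def stabL (N : Subgroup G) [N.Normal] (l : N →* ℂˣ) : Subgroup G where
  carrier := {g | cjh N g l = l}
  mul_mem' := by
    intro a b ha hb
    change cjh N (a * b) l = l
    rw [← cjh_mul, ha, hb]
  one_mem' := cjh_one N l
  inv_mem' := by
    intro a ha
    have ha' : cjh N a l = l := ha
    change cjh N a⁻¹ l = l
    conv_lhs => rw [← ha']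
    rw [cjh_mul, mul_inv_cancel, cjh_one]

theorem mem_stabL (N : Subgroup G) [N.Normal] (l : N →* ℂˣ) (g : G) :
    g ∈ stabL N l ↔ cjh N g l = l := Iff.rfl

/-- `Γ/P` is cyclic -/
theorem FS.cyc {V K P : Subgroup G} {r : ℕ} (hf : FS G V K P r) :
    ∃ z : G, ∀ g : G, ∃ k : ℤ, g⁻¹ * z ^ k ∈ P := by
  haveI := hf.Kn
  haveI := hf.Pn
  obtain ⟨π, hπdef⟩ : ∃ π : G →* G ⧸ K, π = QuotientGroup.mk' K := ⟨_, rfl⟩
  have hπ : Function.Surjective π := by rw [hπdef]; exact QuotientGroup.mk'_surjective K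
  have hπ1 : ∀ x, π x = 1 ↔ x ∈ K := by
    intro x; rw [hπdef]; exact QuotientGroup.eq_one_iff x
  have hab : ∀ a ∈ P, ∀ b ∈ P, π a * π b = π b * π a := by
    intro a ha b hb
    have h1 := (hπ1 _).2 (hf.ab a ha b hb)
    rw [map_mul, map_mul, map_mul, map_inv, map_inv, mul_inv_eq_one, mul_inv_eq_iff_eq_mul] at h1
    exact h1
  have hPK : ¬ P ≤ K := fun h => hf.cK (hf.cP.trans h)
  obtain ⟨z, hz⟩ := irr_cyc (A := G) (M := G ⧸ K) (P.map π) (by
      rintro _ ⟨a, ha, rfl⟩ _ ⟨b, hb, rfl⟩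
      exact hab a ha b hb) (by
      intro h
      apply hPK
      intro x hx
      rw [← hπ1]
      have h1 : π x ∈ P.map π := ⟨x, hx, rfl⟩
      rw [h, Subgroup.mem_bot] at h1
      exact h1)
    (fun g m => π g * m * (π g)⁻¹)
    (fun m => by simp)
    (fun a b m => by simp only [map_mul]; group)
    (fun a m m' => by group)
    (by
      rintro a b _ ⟨m, hm, rfl⟩
      have h1 : a⁻¹ * b⁻¹ * a * b ∈ P := by
        apply hf.cP
        rw [commutator_def]
        have h2 := Subgroup.commutator_mem_commutator (Subgroup.mem_top a⁻¹) (Subgroup.mem_top b⁻¹)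
        rw [commutatorElement_def, inv_inv, inv_inv] at h2
        exact h2
      have h2 := hab _ h1 m hm
      calc π a * (π b * π m * (π b)⁻¹) * (π a)⁻¹
          = π b * π a * (π (a⁻¹ * b⁻¹ * a * b) * π m) * (π (a⁻¹ * b⁻¹ * a * b))⁻¹ *
            (π b * π a)⁻¹ := by simp only [map_mul, map_inv]; group
        _ = π b * (π a * π m * (π a)⁻¹) * (π b)⁻¹ := by rw [h2]; group)
    (by
      rintro a _ ⟨m, hm, rfl⟩
      exact ⟨a * m * a⁻¹, hf.Pn.conj_mem m hm a, by simp only [map_mul, map_inv]⟩)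
    (by
      intro N hN hNi
      have h1 : (N.comap π).Normal := by
        refine ⟨fun n hn g => ?_⟩
        rw [Subgroup.mem_comap] at hn ⊢
        rw [map_mul, map_mul, map_inv]
        exact hNi g _ hn
      by_cases h2 : N.comap π = K
      · left
        rw [eq_bot_iff]
        intro y hy
        obtain ⟨x, rfl⟩ := hπ y
        have h3 : x ∈ N.comap π := hy
        rw [h2] at h3
        rw [Subgroup.mem_bot]
        exact (hπ1 x).2 h3
      · right
        have h3 := hf.max _ h1 (fun x hx => by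
          rw [Subgroup.mem_comap, (hπ1 x).2 hx]; exact N.one_mem) h2
        refine le_antisymm hN ?_
        rw [Subgroup.map_le_iff_le_comap, hf.Pdef]
        refine sup_le (fun x hx => by
          rw [Subgroup.mem_comap, (hπ1 x).2 hx]; exact N.one_mem) h3)
  refine ⟨z, fun g => ?_⟩
  obtain ⟨k, hk⟩ := hz g
  refine ⟨k, ?_⟩
  by_contra hcon
  apply hPK
  intro v hv
  apply hf.free _ hcon v hv
  rw [← hπ1]
  have h1 : π g * π v * (π g)⁻¹ = π (z ^ k) * π v * (π (z ^ k))⁻¹ := hk (π v) ⟨v, hv, rfl⟩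
  calc π (g⁻¹ * z ^ k * v * (g⁻¹ * z ^ k)⁻¹ * v⁻¹)
      = (π g)⁻¹ * (π (z ^ k) * π v * (π (z ^ k))⁻¹) * π g * (π v)⁻¹ := by
        simp only [map_mul, map_inv]; group
    _ = 1 := by rw [← h1]; group

/-- the second subcase: `V ≤ Z(P)`, `P` a `p`-group -/
structure S2 (G : Type u) [Group G] [Finite G] (V K P : Subgroup G) (p : ℕ) (α : MulAut G) :
    Prop where
  nd : ND G
  fs : FS G V K P p
  Vn : V.Normal
  Vmin : ∀ M : Subgroup G, M.Normal → M ≤ V → M = ⊥ ∨ M = V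
  Vne : V ≠ ⊥
  PV : ⁅P, P⁆ = V
  Vc : ∀ v ∈ V, ∀ u ∈ P, v * u = u * v
  pP : IsPGroup p P
  hα : AInv α
  mv : ∃ x, x⁻¹ * α x ∉ P

section S2

variable {V K P : Subgroup G} {p : ℕ} {α : MulAut G}

theorem S2.VP (h : S2 G V K P p α) : V ≤ P := h.fs.VK.trans h.fs.KP

theorem S2.Vab (h : S2 G V K P p α) : ∀ a ∈ V, ∀ b ∈ V, a * b = b * a :=
  fun a ha b hb => h.Vc a ha b (h.VP hb)

theorem S2.hcop (h : S2 G V K P p α) : (Nat.card P).Coprime P.index := by
  haveI := Fact.mk h.fs.rp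
  obtain ⟨k, hk⟩ := (IsPGroup.iff_card (p := p)).1 h.pP
  rw [hk]
  exact Nat.Coprime.pow_left k ((Nat.Prime.coprime_iff_not_dvd h.fs.rp).2 h.fs.ri)

theorem S2.comm (h : S2 G V K P p α) {a b : G} (ha : a ∈ P) (hb : b ∈ P) :
    a * b * a⁻¹ * b⁻¹ ∈ V := by
  rw [← h.PV]
  exact Subgroup.commutator_mem_commutator ha hb

theorem S2.stabP (h : S2 G V K P p α) [P.Normal] (l : P →* ℂˣ) {x : G} (hx : x ∉ P)
    (hl : cjh P x l = l) (g : G) : cjh P g l = l := by
  obtain ⟨T, hT⟩ : ∃ T : Subgroup G, T = stabL P l := ⟨_, rfl⟩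
  have hTm : ∀ g, g ∈ T ↔ cjh P g l = l := by intro g; rw [hT]; exact Iff.rfl
  have hPT : P ≤ T := fun u hu => by rw [hTm]; exact cjh_self P hu l
  have hTc : ∀ g : G, g ∈ T ↔ conjFunN P g (lin l).1 = (lin l).1 := by
    intro g; rw [cj_lin_iff, hTm]
  obtain ⟨η, hη⟩ := ext_hall P (lin l) T hPT (fun g hg => (hTc g).1 hg) h.hcop
  obtain ⟨χ, hχ, hd⟩ := ext_deg P (lin l) T hPT hTc η hη (lin 1) (fun _ => rfl)
  rw [deg_lin, deg_lin, mul_one, mul_one] at hd
  rcases h.fs.deg_of_over_lin h.nd hχ (deg_lin l) with h1 | h1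
  · rw [hd, Subgroup.index_eq_one] at h1
    rw [← hTm, h1]
    exact Subgroup.mem_top g
  · exfalso
    rw [hd] at h1
    have h2 : P = T := by
      have h3 := Subgroup.relIndex_mul_index hPT
      rw [h1] at h3
      have h4 : P.relIndex T = 1 := by
        have h5 : 0 < P.index := Nat.pos_of_ne_zero Subgroup.index_ne_zero_of_finite
        exact Nat.eq_of_mul_eq_mul_right h5 (by rw [h3, one_mul])
      exact le_antisymm hPT (Subgroup.relIndex_eq_one.1 h4)
    apply hx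
    rw [h2, hTm]
    exact hl

theorem S2.P_le (h : S2 G V K P p α) : P ≤ Subgroup.centralizer (V : Set G) := by
  intro u hu
  rw [cent_mem]
  intro v hv
  exact (h.Vc v hv u hu).symm

theorem S2.stabV (h : S2 G V K P p α) [V.Normal] (l : V →* ℂˣ) (hl : l ≠ 1) (g : G) :
    cjh V g l = l ↔ g ∈ Subgroup.centralizer (V : Set G) :=
  stab_eq V h.Vmin _ (cent_mem V) (h.fs.cP.trans h.P_le) l hl g

theorem S2.exists_ne (h : S2 G V K P p α) : ∃ v ∈ V, v ≠ 1 := by
  by_contra hcon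
  push Not at hcon
  exact h.Vne ((Subgroup.eq_bot_iff_forall V).2 hcon)

theorem comm_le_bot (V : Subgroup G) (hab : ∀ a ∈ V, ∀ b ∈ V, a * b = b * a) :
    commutator V ≤ (⊥ : Subgroup V) := by
  rw [commutator_def, Subgroup.commutator_le]
  intro a _ b _
  rw [Subgroup.mem_bot, commutatorElement_def]
  have h3 : a * b = b * a := Subtype.ext (hab a a.2 b b.2)
  rw [h3]
  group

theorem S2.over_dvd (h : S2 G V K P p α) {χ : IrrCharacter G} {l : V →* ℂˣ} (hl : l ≠ 1)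
    (ho : Over V χ (lin l)) : p ∣ charDegree χ.1 := by
  apply h.fs.dvd_of_not_inKer h.nd
  rw [h.PV]
  intro hk
  apply hl
  ext v
  have h1 := over_ker V ho v (hk v v.2)
  rw [lin_apply, lin_apply, map_one] at h1
  exact h1

theorem S2.I_nle (h : S2 G V K P p α) : ¬ Subgroup.centralizer (V : Set G) ≤ P := by
  haveI := h.Vn
  intro hI
  obtain ⟨v, hv, hv1⟩ := h.exists_ne
  obtain ⟨l, hl, -⟩ := sep (H := V) ⊥ (comm_le_bot V h.Vab) (x := ⟨v, hv⟩) (by
    rw [Subgroup.mem_bot]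
    exact fun h' => hv1 (congrArg Subtype.val h'))
  have hl1 : l ≠ 1 := by
    rintro rfl
    exact hl rfl
  obtain ⟨χ, hχ⟩ := over_up V (lin l)
  have h1 := index_dvd_deg V hχ (Subgroup.centralizer (V : Set G)) (fun g => by
    rw [cj_lin_iff, h.stabV l hl1])
  rw [deg_lin, mul_one] at h1
  obtain ⟨χ1, -, hχ1⟩ := h.fs.exists_f
  have h2 := h.nd χ1 χ (by rw [hχ1]; exact h.fs.i1) (by
    rw [hχ1]; exact (Subgroup.index_dvd_of_le hI).trans h1)
  apply h.fs.ri
  rw [← hχ1, h2]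
  exact h.over_dvd hl1 hχ

/-- a generator of `I/P` of order prime to `p` -/
theorem S2.exists_x (h : S2 G V K P p α) : ∃ x ∈ Subgroup.centralizer (V : Set G),
    x ∉ P ∧ ¬ p ∣ orderOf x ∧
      ∀ y ∈ Subgroup.centralizer (V : Set G), ∃ k : ℤ, y⁻¹ * x ^ k ∈ P := by
  haveI := h.fs.Pn
  obtain ⟨z, hz⟩ := h.fs.cyc
  obtain ⟨I, hI⟩ : ∃ I : Subgroup G, I = Subgroup.centralizer (V : Set G) := ⟨_, rfl⟩
  rw [← hI]
  have hPI : P ≤ I := by rw [hI]; exact h.P_le
  -- a generator of `I/P`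
  have hcycQ : IsCyclic (G ⧸ P) := by
    refine ⟨(z : G ⧸ P), fun q => ?_⟩
    obtain ⟨g, rfl⟩ := QuotientGroup.mk_surjective q
    obtain ⟨k, hk⟩ := hz g
    refine ⟨k, ?_⟩
    change (z : G ⧸ P) ^ k = (g : G ⧸ P)
    rw [← QuotientGroup.mk_zpow]
    exact ((QuotientGroup.eq (s := P)).2 hk).symm
  haveI : IsCyclic (I.map (QuotientGroup.mk' P)) := inferInstance
  obtain ⟨⟨_, x, hxI, rfl⟩, hx⟩ := IsCyclic.exists_generator (α := I.map (QuotientGroup.mk' P))
  have hgen : ∀ y ∈ I, ∃ k : ℤ, y⁻¹ * x ^ k ∈ P := by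
    intro y hy
    obtain ⟨k, hk⟩ := hx ⟨(y : G ⧸ P), y, hy, rfl⟩
    refine ⟨k, ?_⟩
    have h1 : (x : G ⧸ P) ^ k = (y : G ⧸ P) := congrArg Subtype.val hk
    rw [← QuotientGroup.mk_zpow] at h1
    exact (QuotientGroup.eq (s := P)).1 h1.symm
  obtain ⟨e, m, hm, hem⟩ := Nat.exists_eq_pow_mul_and_not_dvd (orderOf_pos x).ne' p
    h.fs.rp.ne_one
  have hgen2 : ∀ y ∈ I, ∃ k : ℤ, y⁻¹ * (x ^ p ^ e) ^ k ∈ P := by
    intro y hy
    obtain ⟨k, hk⟩ := hgen y hy
    have hc : (p ^ e).Coprime P.index :=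
      Nat.Coprime.pow_left e ((Nat.Prime.coprime_iff_not_dvd h.fs.rp).2 h.fs.ri)
    have hb := Nat.gcd_eq_gcd_ab (p ^ e) P.index
    rw [hc] at hb
    have hxi : x ^ P.index ∈ P := Subgroup.pow_index_mem P x
    refine ⟨Nat.gcdA (p ^ e) P.index * k, ?_⟩
    have h1 : y⁻¹ * (x ^ p ^ e) ^ (Nat.gcdA (p ^ e) P.index * k) =
        (y⁻¹ * x ^ k) * (x ^ P.index) ^ (-(Nat.gcdB (p ^ e) P.index) * k) := by
      rw [← zpow_natCast x (p ^ e), ← zpow_natCast x P.index, ← zpow_mul, ← zpow_mul, mul_assoc,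
        ← zpow_add]
      congr 2
      have h2 : ((p ^ e : ℕ) : ℤ) * (p ^ e).gcdA P.index = 1 - (P.index : ℤ) *
          (p ^ e).gcdB P.index := by
        push_cast at hb ⊢
        linarith
      rw [← mul_assoc, h2]
      ring
    rw [h1]
    exact P.mul_mem hk (P.zpow_mem hxi _)
  refine ⟨x ^ p ^ e, I.pow_mem hxI _, ?_, ?_, hgen2⟩
  · intro hxP
    apply h.I_nle
    rw [← hI]
    intro y hy
    obtain ⟨k, hk⟩ := hgen2 y hy
    have h1 : y = (x ^ p ^ e) ^ k * (y⁻¹ * (x ^ p ^ e) ^ k)⁻¹ := by group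
    rw [h1]
    exact P.mul_mem (P.zpow_mem hxP k) (P.inv_mem hk)
  · rw [orderOf_pow, hem, Nat.gcd_eq_right (Dvd.intro _ rfl), Nat.mul_div_cancel_left _
      (pow_pos h.fs.rp.pos e)]
    exact hm

theorem S2.cop_of (h : S2 G V K P p α) {x v : G} (hx : ¬ p ∣ orderOf x) (hv : v ∈ P) :
    (orderOf v).Coprime (orderOf x) := by
  obtain ⟨k, hk⟩ := h.pP ⟨v, hv⟩
  have hk' : v ^ p ^ k = 1 := congrArg Subtype.val hk
  exact Nat.Coprime.coprime_dvd_left (orderOf_dvd_of_pow_eq_one hk')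
    (Nat.Coprime.pow_left k ((Nat.Prime.coprime_iff_not_dvd h.fs.rp).2 hx))

/-- `[I, α] ≤ Γ'` -/
theorem S2.I_alpha (h : S2 G V K P p α) {y : G}
    (hy : y ∈ Subgroup.centralizer (V : Set G)) : y⁻¹ * α y ∈ commutator G := by
  haveI := h.fs.Kn
  obtain ⟨x, hxI, -, hxp, hgen⟩ := h.exists_x
  obtain ⟨k, hk⟩ := hgen y hy
  obtain ⟨v, hv, hv1⟩ := h.exists_ne
  have hvc : v ∈ commutator G := by
    have h1 : V ≤ commutator G := by
      rw [← h.PV, commutator_def]
      exact Subgroup.commutator_mono le_top le_top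
    exact h1 hv
  have hx1 : x⁻¹ * α x ∈ commutator G :=
    J3 h.hα hvc hv1 ((cent_mem V x).1 hxI v hv) (h.cop_of hxp (h.VP hv))
  have hu1 : (y⁻¹ * x ^ k)⁻¹ * α (y⁻¹ * x ^ k) ∈ commutator G := by
    apply J2 h.hα h.fs.cK
    rw [← h.fs.Pdef]
    exact hk
  rw [← Abelianization.ker_of, MonoidHom.mem_ker] at hx1 hu1 ⊢
  simp only [map_mul, map_inv, map_zpow] at hx1 hu1 ⊢
  rw [inv_mul_eq_one] at hx1 hu1 ⊢
  rw [← hx1] at hu1
  have h2 := mul_right_cancel hu1
  exact inv_injective h2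

theorem S2.VZ (h : S2 G V K P p α) {v : G} (hv : v ∈ V) (hc : ∀ g, g * v = v * g) : v = 1 := by
  haveI := h.Vn
  rcases h.Vmin (V ⊓ Subgroup.center G) inferInstance inf_le_left with h1 | h1
  · have h2 : v ∈ V ⊓ Subgroup.center G := ⟨hv, Subgroup.mem_center_iff.2 hc⟩
    rw [h1, Subgroup.mem_bot] at h2
    exact h2
  · exfalso
    obtain ⟨x0, hx0⟩ := h.mv
    apply hx0
    apply h.fs.cP
    apply h.I_alpha
    rw [cent_mem]
    intro w hw
    rw [← h1] at hw
    exact Subgroup.mem_center_iff.1 hw.2 x0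

theorem S2.fixV (h : S2 G V K P p α) {x w : G} (hx : x ∈ Subgroup.centralizer (V : Set G))
    (hxp : ¬ p ∣ orderOf x) (hw : x * w * x⁻¹ * w⁻¹ ∈ V) : x * w = w * x := by
  obtain ⟨v, hvdef⟩ : ∃ v, v = x * w * x⁻¹ * w⁻¹ := ⟨_, rfl⟩
  rw [← hvdef] at hw
  have hxv : x * v = v * x := (cent_mem V x).1 hx v hw
  have h1 : ∀ n : ℕ, x ^ n * w * (x ^ n)⁻¹ = v ^ n * w := by
    intro n
    induction n with
    | zero => simp
    | succ n ih =>
      have hc : x * v ^ n = v ^ n * x := by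
        have h2 : Commute x v := hxv
        exact h2.pow_right n
      calc x ^ (n + 1) * w * (x ^ (n + 1))⁻¹ = x * (x ^ n * w * (x ^ n)⁻¹) * x⁻¹ := by
            rw [pow_succ']; group
        _ = (x * v ^ n) * w * x⁻¹ := by rw [ih]; group
        _ = v ^ n * (x * w * x⁻¹ * w⁻¹) * w := by rw [hc]; group
        _ = v ^ (n + 1) * w := by rw [← hvdef, pow_succ]
  have h2 := h1 (orderOf x)
  rw [pow_orderOf_eq_one, one_mul, inv_one, mul_one] at h2
  have h3 : v ^ orderOf x = 1 := by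
    have h4 : 1 * w = v ^ orderOf x * w := by rw [one_mul]; exact h2
    exact (mul_right_cancel h4).symm
  have h5 : v = 1 := orderOf_eq_one_iff.1 (Nat.Coprime.eq_one_of_dvd (h.cop_of hxp (h.VP hw))
    (orderOf_dvd_of_pow_eq_one h3))
  rw [hvdef, mul_inv_eq_one, mul_inv_eq_iff_eq_mul] at h5
  exact h5

end S2

end H77.NDA
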