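import Cfsg.Agent.Lib.H77.NDA8

/-!
# No divisibility among degrees: the case `V` central in `P`, second part (H77.NDA9)
-/

set_option autoImplicit false
set_option linter.style.haveILetI false
set_option linter.unusedSectionVars false
set_option maxHeartbeats 400000
open Cfsg
open scoped ComplexConjugate

namespace H77.NDA

open H18.CharBasic H18.CharOrtho H18.CharInd H18.CharQuot H77.PQuot H31.Clifford H77.ThreeA H77.ThreeB
open H77.ThreeC H77.ThreeE H77.ThreeF H77.TwoDeg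

universe u

variable {G : Type u} [Group G] [Finite G]

/-- `cjh` as a homomorphism -/
def cjHom (N : Subgroup G) [N.Normal] (g : G) : (N →* ℂˣ) →* (N →* ℂˣ) where
  toFun := cjh N g
  map_one' := rfl
  map_mul' := fun _ _ => rfl

theorem cjHom_apply (N : Subgroup G) [N.Normal] (g : G) (l : N →* ℂˣ) :
    cjHom N g l = cjh N g l := rfl

section S2

variable {V K P : Subgroup G} {p : ℕ} {α : MulAut G}

/-- averaging -/
theorem S2.avg (h : S2 G V K P p α) [P.Normal] {x w : G} (hxp : ¬ p ∣ orderOf x) (hw : w ∈ P)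
    (hwV : w ∉ V) (hxw : x * w = w * x) : ∃ l : P →* ℂˣ, cjh P x l = l ∧ l ⟨w, hw⟩ ≠ 1 := by
  have hw2 : (⟨w, hw⟩ : P) ∉ commutator P := by
    intro h1
    apply hwV
    have h2 : commutator P ≤ V.subgroupOf P := by
      rw [commutator_def, Subgroup.commutator_le]
      intro a _ b _
      rw [Subgroup.mem_subgroupOf]
      exact h.comm a.2 b.2
    exact h2 h1
  obtain ⟨l0, hl0, -⟩ := sep (commutator P) le_rfl hw2
  refine ⟨∏ i ∈ Finset.range (orderOf x), cjh P (x ^ i) l0, ?_, ?_⟩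
  · rw [← cjHom_apply, map_prod]
    have h1 : ∀ i ∈ Finset.range (orderOf x), cjHom P x (cjh P (x ^ i) l0) =
        cjh P (x ^ (i + 1)) l0 := by
      intro i _
      rw [cjHom_apply, cjh_mul, pow_succ]
    rw [Finset.prod_congr rfl h1]
    have h2 := Finset.prod_range_succ (fun i => cjh P (x ^ i) l0) (orderOf x)
    have h3 := Finset.prod_range_succ' (fun i => cjh P (x ^ i) l0) (orderOf x)
    rw [h2] at h3
    simp only [pow_orderOf_eq_one, pow_zero] at h3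
    exact (mul_right_cancel h3).symm
  · rw [MonoidHom.finset_prod_apply]
    have h1 : ∀ i ∈ Finset.range (orderOf x), cjh P (x ^ i) l0 ⟨w, hw⟩ = l0 ⟨w, hw⟩ := by
      intro i _
      rw [cjh_apply]
      congr 1
      apply Subtype.ext
      change x ^ i * w * (x ^ i)⁻¹ = w
      have h2 : Commute x w := hxw
      have h3 : x ^ i * w = w * x ^ i := h2.pow_left i
      rw [h3, mul_inv_cancel_right]
    rw [Finset.prod_congr rfl h1, Finset.prod_const, Finset.card_range]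
    intro h2
    apply hl0
    obtain ⟨k, hk⟩ := h.pP ⟨w, hw⟩
    have h3 : (l0 ⟨w, hw⟩) ^ p ^ k = 1 := by rw [← map_pow, hk, map_one]
    have h4 : orderOf (l0 ⟨w, hw⟩) = 1 := Nat.eq_one_of_dvd_coprimes
      (Nat.Coprime.pow_left k ((Nat.Prime.coprime_iff_not_dvd h.fs.rp).2 hxp))
      (orderOf_dvd_of_pow_eq_one h3) (orderOf_dvd_of_pow_eq_one h2)
    exact orderOf_eq_one_iff.1 h4

/-- `C_P(x) ≤ Z(P)` -/
theorem S2.cent (h : S2 G V K P p α) {x : G} (hxI : x ∈ Subgroup.centralizer (V : Set G))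
    (hxP : x ∉ P) (hxp : ¬ p ∣ orderOf x) {c : G} (hc : c ∈ P) (hxc : x * c = c * x) {u : G}
    (hu : u ∈ P) : c * u = u * c := by
  haveI := h.fs.Pn
  haveI := h.Vn
  -- `[c, b] ∈ V`
  have h1 : ∀ b : G, b * c * b⁻¹ * c⁻¹ ∈ V := by
    intro b
    have hbP : b * c * b⁻¹ * c⁻¹ ∈ P := P.mul_mem (h.fs.Pn.conj_mem c hc b) (P.inv_mem hc)
    by_contra hcon
    have hxw : x * (b * c * b⁻¹ * c⁻¹) = (b * c * b⁻¹ * c⁻¹) * x := by
      apply h.fixV hxI hxp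
      obtain ⟨p1, hp1⟩ : ∃ p1, p1 = b⁻¹ * x * b * x⁻¹ := ⟨_, rfl⟩
      have hp1P : p1 ∈ P := by
        apply h.fs.cP
        rw [hp1, commutator_def]
        have h2 := Subgroup.commutator_mem_commutator (Subgroup.mem_top b⁻¹) (Subgroup.mem_top x)
        rw [commutatorElement_def, inv_inv] at h2
        exact h2
      -- x b x⁻¹ = b p1
      have e1 : x * b * x⁻¹ = b * p1 := by rw [hp1]; group
      have e2 : x * c * x⁻¹ = c := by rw [hxc, mul_inv_cancel_right]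
      have e3 : x * (b * c * b⁻¹ * c⁻¹) * x⁻¹ * (b * c * b⁻¹ * c⁻¹)⁻¹ =
          b * (p1 * c * p1⁻¹ * c⁻¹) * b⁻¹ := by
        calc x * (b * c * b⁻¹ * c⁻¹) * x⁻¹ * (b * c * b⁻¹ * c⁻¹)⁻¹
            = (x * b * x⁻¹) * (x * c * x⁻¹) * (x * b * x⁻¹)⁻¹ * (x * c * x⁻¹)⁻¹ *
              (b * c * b⁻¹ * c⁻¹)⁻¹ := by group
          _ = b * (p1 * c * p1⁻¹ * c⁻¹) * b⁻¹ := by rw [e1, e2]; group
      rw [e3]
      exact h.Vn.conj_mem _ (h.comm hp1P hc) b
    obtain ⟨l, hl1, hl2⟩ := h.avg hxp hbP hcon hxw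
    apply hl2
    have h2 := DFunLike.congr_fun (h.stabP l hxP hl1 b) ⟨c, hc⟩
    rw [cjh_apply] at h2
    have h3 : (⟨b * c * b⁻¹ * c⁻¹, hbP⟩ : P) = ⟨b * c * b⁻¹, h.fs.Pn.conj_mem c hc b⟩ *
        ⟨c, hc⟩⁻¹ := rfl
    rw [h3, map_mul, map_inv, mul_inv_eq_one]
    exact h2
  -- the homomorphism `u ↦ [c, u]`
  let φ : P →* V := MonoidHom.mk' (fun u : P => ⟨c * u * c⁻¹ * (u : G)⁻¹, h.comm hc u.2⟩) (by
    intro a b
    apply Subtype.ext
    change c * (a * b) * c⁻¹ * ((a : G) * b)⁻¹ = (c * a * c⁻¹ * (a : G)⁻¹) * (c * b * c⁻¹ * (b : G)⁻¹)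
    have h2 : (c * b * c⁻¹ * (b : G)⁻¹) * a = a * (c * b * c⁻¹ * (b : G)⁻¹) :=
      h.Vc _ (h.comm hc b.2) a a.2
    calc c * (a * b) * c⁻¹ * ((a : G) * b)⁻¹
        = (c * a * c⁻¹ * (a : G)⁻¹) * (a * (c * b * c⁻¹ * (b : G)⁻¹)) * (a : G)⁻¹ := by group
      _ = _ := by rw [← h2]; group)
  have hφ : ∀ u : P, ((φ u : V) : G) = c * u * c⁻¹ * (u : G)⁻¹ := fun _ => rfl
  -- `φ` is invariant
  have h2 : ∀ (b : G) (u : P), φ ⟨b * u * b⁻¹, h.fs.Pn.conj_mem u u.2 b⟩ = φ u := by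
    intro b u
    by_contra hne
    obtain ⟨l, hl, -⟩ := sep (H := V) ⊥ (comm_le_bot V h.Vab)
      (x := φ ⟨b * u * b⁻¹, h.fs.Pn.conj_mem u u.2 b⟩ * (φ u)⁻¹) (by
        rw [Subgroup.mem_bot, mul_inv_eq_one]
        exact hne)
    apply hl
    have h3 : cjh P x (l.comp φ) = l.comp φ := by
      ext u
      rw [cjh_apply, MonoidHom.comp_apply, MonoidHom.comp_apply]
      have h4 : φ ⟨x * u * x⁻¹, h.fs.Pn.conj_mem u u.2 x⟩ = φ u := by
        apply Subtype.ext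
        rw [hφ, hφ]
        change c * (x * u * x⁻¹) * c⁻¹ * (x * u * x⁻¹)⁻¹ = c * u * c⁻¹ * (u : G)⁻¹
        have h5 : x * (c * u * c⁻¹ * (u : G)⁻¹) = (c * u * c⁻¹ * (u : G)⁻¹) * x :=
          (cent_mem V x).1 hxI _ (h.comm hc u.2)
        have h6 : c * x = x * c := hxc.symm
        have h7 : x⁻¹ * c⁻¹ = c⁻¹ * x⁻¹ := by
          rw [← mul_inv_rev, h6, mul_inv_rev]
        calc c * (x * u * x⁻¹) * c⁻¹ * (x * u * x⁻¹)⁻¹
            = (c * x) * u * (x⁻¹ * c⁻¹) * x * (u : G)⁻¹ * x⁻¹ := by group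
          _ = x * (c * u * c⁻¹ * (u : G)⁻¹) * x⁻¹ := by rw [h6, h7]; group
          _ = _ := by rw [h5, mul_inv_cancel_right]
      rw [h4]
    have h4 := DFunLike.congr_fun (h.stabP (l.comp φ) hxP h3 b) u
    rw [cjh_apply, MonoidHom.comp_apply, MonoidHom.comp_apply] at h4
    rw [map_mul, map_inv, mul_inv_eq_one]
    exact h4
  have h3 : ((φ ⟨u, hu⟩ : V) : G) = 1 := by
    apply h.VZ (φ ⟨u, hu⟩).2
    intro g
    -- φ(g u g⁻¹) = g φ(u) g⁻¹
    have h4 := congrArg Subtype.val (h2 g ⟨u, hu⟩)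
    change ((φ ⟨g * u * g⁻¹, _⟩ : V) : G) = ((φ ⟨u, hu⟩ : V) : G) at h4
    have h5 : ((φ ⟨g * u * g⁻¹, h.fs.Pn.conj_mem u hu g⟩ : V) : G) =
        g * ((φ ⟨u, hu⟩ : V) : G) * g⁻¹ := by
      rw [hφ, hφ]
      change c * (g * u * g⁻¹) * c⁻¹ * (g * u * g⁻¹)⁻¹ = g * (c * u * c⁻¹ * u⁻¹) * g⁻¹
      obtain ⟨v, hv⟩ : ∃ v, v = g⁻¹ * c * g⁻¹⁻¹ * c⁻¹ := ⟨_, rfl⟩
      have hvV : v ∈ V := by rw [hv]; exact h1 g⁻¹
      have h6 : g⁻¹ * c * g = v * c := by rw [hv]; group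
      have h7 : v * (c * u) = (c * u) * v := h.Vc v hvV _ (P.mul_mem hc hu)
      have h8 : v * u = u * v := h.Vc v hvV _ hu
      calc c * (g * u * g⁻¹) * c⁻¹ * (g * u * g⁻¹)⁻¹
          = g * ((g⁻¹ * c * g) * u * (g⁻¹ * c * g)⁻¹ * u⁻¹) * g⁻¹ := by group
        _ = g * (v * (c * u) * c⁻¹ * v⁻¹ * u⁻¹) * g⁻¹ := by rw [h6]; group
        _ = g * (c * u * (v * c⁻¹ * v⁻¹) * u⁻¹) * g⁻¹ := by rw [h7]; group
        _ = g * (c * u * c⁻¹ * u⁻¹) * g⁻¹ := by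
            have h9 : v * c⁻¹ = c⁻¹ * v := h.Vc v hvV _ (P.inv_mem hc)
            rw [h9, mul_inv_cancel_right]
    rw [h5] at h4
    rw [mul_inv_eq_iff_eq_mul] at h4
    exact h4
  rw [hφ] at h3
  change c * u * c⁻¹ * u⁻¹ = 1 at h3
  rw [mul_inv_eq_one, mul_inv_eq_iff_eq_mul] at h3
  exact h3

/-- stabilizers of linear characters of `P/Z(P)` -/
theorem S2.stabW (h : S2 G V K P p α) [P.Normal] (l : P →* ℂˣ)
    (hl : ∀ z ∈ Subgroup.center P, l z = 1) {g : G} (hg : g ∉ P) (hgl : cjh P g l = l) :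
    l = 1 := by
  obtain ⟨x, hxI, hxP, hxp, -⟩ := h.exists_x
  have h1 := h.stabP l hg hgl
  ext u
  obtain ⟨k, hk⟩ : ∃ k, Nat.card P = p ^ k := by
    haveI := Fact.mk h.fs.rp
    exact (IsPGroup.iff_card (p := p)).1 h.pP
  obtain ⟨d, hd, c, hc, hdc⟩ := H1.Coprime2.exists_mul_of_mem (Subgroup.zpowers x) P
    (by rw [Subgroup.normalizer_eq_top]; exact le_top)
    (by
      rw [Nat.card_zpowers, hk]
      exact (Nat.Coprime.pow_left k
        ((Nat.Prime.coprime_iff_not_dvd h.fs.rp).2 hxp)).symm)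
    (Or.inl inferInstance) u.2
  have h2 : ⁅P, Subgroup.zpowers x⁆ ≤ l.ker.map P.subtype := by
    rw [Subgroup.commutator_le]
    intro a ha b _
    refine ⟨⟨a, ha⟩ * ⟨b * a * b⁻¹, h.fs.Pn.conj_mem a ha b⟩⁻¹, ?_, ?_⟩
    · rw [SetLike.mem_coe, MonoidHom.mem_ker, map_mul, map_inv, mul_inv_eq_one]
      have h3 := DFunLike.congr_fun (h1 b) ⟨a, ha⟩
      rw [cjh_apply] at h3
      exact h3.symm
    · change a * (b * a * b⁻¹)⁻¹ = a * b * a⁻¹ * b⁻¹
      group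
  obtain ⟨d', hd', hdd⟩ := h2 hd
  have hcc : l ⟨c, hc.1⟩ = 1 := by
    apply hl
    rw [Subgroup.mem_center_iff]
    intro w
    apply Subtype.ext
    have h3 := Subgroup.mem_centralizer_iff.1 hc.2 x (Subgroup.mem_zpowers x)
    exact (h.cent hxI hxP hxp hc.1 h3 w.2).symm
  have h3 : u = d' * ⟨c, hc.1⟩ := by
    apply Subtype.ext
    change (u : G) = (d' : G) * c
    rw [hdc]
    congr 1
    exact hdd.symm
  rw [h3, map_mul, hcc, mul_one]
  exact congrArg Units.val hd'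

end S2

end H77.NDA
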