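import Cfsg.Agent.Lib.H5.TEg

/-!
# Numerical part: the third case
-/

set_option autoImplicit false
set_option linter.unusedSectionVars false
set_option maxHeartbeats 800000

namespace H77.QNum

open H5.TEe H5.TBc H5.TEg

variable {I : Type*} [DecidableEq I] [Fintype I]
variable {S : Finset I} {ht : I → ℕ} {q : ℕ} {c : I → ℤ} {Mz : I → I → ℤ}

theorem sq_one {a : ℤ} (ha : a * a = 1) : a = 1 ∨ a = -1 := by
  have : (a - 1) * (a + 1) = 0 := by linear_combination ha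
  rcases mul_eq_zero.1 this with h | h <;> omega

theorem sq_four {a : ℤ} (ha : a * a = 4) : a = 2 ∨ a = -2 := by
  have : (a - 2) * (a + 2) = 0 := by linear_combination ha
  rcases mul_eq_zero.1 this with h | h <;> omega

/-- excluded configuration -/
theorem excl3 {cX y1 y2 y3 y4 αX α1 α2 α3 α4 γX γ1 γ2 γ3 γ4 : ℤ} (c1 : cX + y1 + y2 = 0)
    (c2 : cX + y3 + y4 = 0) (r1 : αX + α1 + α2 = 0) (r2 : αX + α3 + α4 = 0)
    (r3 : γX + γ1 + γ2 = 0) (r4 : γX + γ3 + γ4 = 0)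
    (h1 : α1 * α1 + γ1 * γ1 = 1) (h2 : α2 * α2 + γ2 * γ2 = 1)
    (h3 : α3 * α3 + γ3 * γ3 = 1) (h4 : α4 * α4 + γ4 * γ4 = 1)
    (hs : α1 * α1 + α2 * α2 + α3 * α3 + α4 * α4 = 2)
    (hX : (αX = 0 ∧ γX = 0) ∨ (αX * αX = 1 ∧ cX = 0))
    (ho1 : α1 * y1 + α2 * y2 + α3 * y3 + α4 * y4 = 0)
    (ho3 : γ1 * y1 + γ2 * y2 + γ3 * y3 + γ4 * y4 = 0)
    (o1 : y1 % 2 = 1) (hsum : y1 * y1 + y2 * y2 + y3 * y3 + y4 * y4 = 12) : False := by
  have e1 := odd_sq o1
  have d : ∀ a g : ℤ, a * a + g * g = 1 → (a = 1 ∧ g = 0) ∨ (a = -1 ∧ g = 0) ∨ (a = 0 ∧ g * g = 1) := by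
    intro a g h
    have ha := mul_self_nonneg a
    have hg := mul_self_nonneg g
    by_cases h0 : a = 0
    · right; right; rw [h0] at h; exact ⟨h0, by omega⟩
    · have h5 : 0 < a * a := lt_of_le_of_ne ha (fun h => h0 (mul_self_eq_zero.1 h.symm))
      have hg0 : g * g = 0 := by omega
      rcases sq_one (show a * a = 1 by omega) with h6 | h6
      · left; exact ⟨h6, mul_self_eq_zero.1 hg0⟩
      · right; left; exact ⟨h6, mul_self_eq_zero.1 hg0⟩
  rcases hX with ⟨hα, hγ⟩ | ⟨hα, hc⟩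
  · have a2 : α2 = -α1 := by omega
    have a4 : α4 = -α3 := by omega
    have g2 : γ2 = -γ1 := by omega
    have g4 : γ4 = -γ3 := by omega
    subst a2 a4 g2 g4
    have hfin : y1 = y2 → y3 = y4 → False := by
      intro h5 h6
      subst h5 h6
      have : y1 = y3 := by omega
      subst this
      omega
    have hαs : α1 * α1 + α3 * α3 = 1 := by
      have : 2 * (α1 * α1 + α3 * α3) = 2 := by linear_combination hs
      omega
    rcases d _ _ hαs with ⟨k1, k2⟩ | ⟨k1, k2⟩ | ⟨k1, k2⟩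
    · subst k1 k2
      have hg1 : γ1 = 0 := mul_self_eq_zero.1 (by omega)
      have hg3 : γ3 * γ3 = 1 := by omega
      subst hg1
      rcases sq_one hg3 with h | h
      · subst h; exact hfin (by omega) (by omega)
      · subst h; exact hfin (by omega) (by omega)
    · subst k1 k2
      have hg1 : γ1 = 0 := mul_self_eq_zero.1 (by omega)
      have hg3 : γ3 * γ3 = 1 := by omega
      subst hg1
      rcases sq_one hg3 with h | h
      · subst h; exact hfin (by omega) (by omega)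
      · subst h; exact hfin (by omega) (by omega)
    · subst k1
      have hg1 : γ1 * γ1 = 1 := by omega
      have hg3 : γ3 = 0 := mul_self_eq_zero.1 (by omega)
      subst hg3
      rcases sq_one hg1 with h | h <;> rcases sq_one k2 with h' | h' <;> subst h h' <;>
        exact hfin (by omega) (by omega)
  · have y2' : y2 = -y1 := by omega
    have y4' : y4 = -y3 := by omega
    subst y2' y4'
    have hfin : y1 * y1 = y3 * y3 → False := by
      intro h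
      have : 4 * (y1 * y1) = 12 := by linear_combination hsum + 2 * h
      omega
    have key : ∀ a b : ℤ, αX + a + b = 0 → (a = 1 ∨ a = -1 ∨ a = 0) → (b = 1 ∨ b = -1 ∨ b = 0) →
        (a - b) * (a - b) = 1 := by
      intro a b hab ha hb
      rcases sq_one hα with hx | hx <;> rcases ha with rfl | rfl | rfl <;> rcases hb with rfl | rfl | rfl <;>
        first
          | (exfalso; omega)
          | norm_num
    have e : ∀ a g : ℤ, a * a + g * g = 1 → a = 1 ∨ a = -1 ∨ a = 0 := by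
      intro a g h
      rcases d a g h with h | h | h
      · exact Or.inl h.1
      · exact Or.inr (Or.inl h.1)
      · exact Or.inr (Or.inr h.1)
    have k1 := key α1 α2 r1 (e _ _ h1) (e _ _ h2)
    have k2 := key α3 α4 r2 (e _ _ h3) (e _ _ h4)
    apply hfin
    have h5 : (α1 - α2) * y1 = -((α3 - α4) * y3) := by linear_combination ho1
    have h6 : ((α1 - α2) * y1) * ((α1 - α2) * y1) = ((α3 - α4) * y3) * ((α3 - α4) * y3) := by
      rw [h5]; ring
    linear_combination h6 - (y1 * y1) * k1 + (y3 * y3) * k2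

theorem b_mod {a g : ℤ} (h : (a + g) % 2 = 1) : (a * a + g * g) % 4 = 1 := by
  rcases Int.emod_two_eq_zero_or_one a with ha | ha
  · obtain ⟨m, rfl⟩ : ∃ m, a = 2 * m := ⟨a / 2, by omega⟩
    have h1 := odd_sq (y := g) (by omega)
    have : 2 * m * (2 * m) = 4 * (m * m) := by ring
    rw [this]; omega
  · obtain ⟨m, rfl⟩ : ∃ m, g = 2 * m := ⟨g / 2, by omega⟩
    have h1 := odd_sq (y := a) (by omega)
    have : 2 * m * (2 * m) = 4 * (m * m) := by ring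
    rw [this]; omega

theorem b_even {a g : ℤ} (h : (a + g) % 2 = 0) (hle : a * a + g * g ≤ 4) (hne : a * a + g * g ≠ 0) :
    (a * a = 1 ∧ g * g = 1) ∨ (a * a = 4 ∧ g = 0) ∨ (a = 0 ∧ g * g = 4) := by
  have ha := mul_self_nonneg a
  have hg := mul_self_nonneg g
  rcases Int.emod_two_eq_zero_or_one a with h1 | h1
  · right
    by_cases h0 : a = 0
    · right
      refine ⟨h0, ?_⟩
      subst h0
      have hg0 : g ≠ 0 := by rintro rfl; exact hne (by norm_num)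
      have := even_term (c := g) (by omega) hg0
      omega
    · left
      have h2 := even_term (c := a) h1 h0
      have h3 : a * a = 4 := by omega
      refine ⟨h3, mul_self_eq_zero.1 (by omega)⟩
  · left
    have h2 := odd_term (c := a) h1
    have h3 := odd_term (c := g) (by omega)
    omega

theorem conc3 {A₁ A₃ : I → ℤ} {N : ℕ} (hN1 : 1 ≤ N) (hqN : q = 2 ^ N) (h : Num S ht q c Mz)
    (hMz : ∀ i j, Mz i j = c i * c j + 2 * q * (A₁ i * A₁ j + A₃ i * A₃ j))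
    (h11 : ∑ i ∈ S, A₁ i * A₁ i = 4) (h33 : ∑ i ∈ S, A₃ i * A₃ i = 4) (h13 : ∑ i ∈ S, A₁ i * A₃ i = 0)
    (hAc : ∀ i ∈ S, (A₁ i + A₃ i + c i) % 2 = 0) (o1 : ∑ i ∈ S, A₁ i * c i = 0) (o3 : ∑ i ∈ S, A₃ i * c i = 0)
    (hN : 2 * q + 3 ≤ S.card) {a₁ a₂ : I → ℤ} {X Y₁ Y₂ Y₃ Y₄ : I} (t : Two a₁ a₂ X Y₁ Y₂ Y₃ Y₄)
    (hO : ∀ i, (i ∈ S ∧ c i % 2 = 1) ↔ i = Y₁ ∨ i = Y₂ ∨ i = Y₃ ∨ i = Y₄) (hX : X ∈ S)
    (c1 : a₁ X * c X + a₁ Y₁ * c Y₁ + a₁ Y₂ * c Y₂ = 0) (c2 : a₁ X * c X + a₂ Y₃ * c Y₃ + a₂ Y₄ * c Y₄ = 0)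
    (r1 : a₁ X * A₁ X + a₁ Y₁ * A₁ Y₁ + a₁ Y₂ * A₁ Y₂ = 0) (r2 : a₁ X * A₁ X + a₂ Y₃ * A₁ Y₃ + a₂ Y₄ * A₁ Y₄ = 0)
    (r3 : a₁ X * A₃ X + a₁ Y₁ * A₃ Y₁ + a₁ Y₂ * A₃ Y₂ = 0) (r4 : a₁ X * A₃ X + a₂ Y₃ * A₃ Y₃ + a₂ Y₄ * A₃ Y₄ = 0) :
    S.card ≤ 2 * q + 5 ∧ (S.filter (fun i => ht i = 1)).card = 2 * q - 1 ∧
      ∀ i ∈ S, ht i = 0 ∨ ht i = 1 ∨ ht i = N + 1 := by
  have hq2 : ∃ m : ℤ, (q : ℤ) = 2 * m := by
    refine ⟨2 ^ (N - 1), ?_⟩
    rw [hqN]; push_cast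
    rw [← pow_succ']
    congr 1; omega
  obtain ⟨m, hm⟩ := hq2
  have h4 : ∀ i j, (Mz i j - c i * c j) % 4 = 0 := by
    intro i j
    rw [hMz, hm]
    have : c i * c j + 2 * (2 * m) * (A₁ i * A₁ j + A₃ i * A₃ j) - c i * c j =
        4 * (m * (A₁ i * A₁ j + A₃ i * A₃ j)) := by ring
    rw [this]; omega
  by_cases hall : ∀ i ∈ S, c i ≠ 0
  · obtain ⟨k1, k2, k3⟩ := conc1 h h4 hall (by omega)
    refine ⟨by omega, k2, fun i hi => ?_⟩
    rcases k3 i hi with h5 | h5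
    · exact Or.inl h5
    · exact Or.inr (Or.inl h5)
  push Not at hall
  obtain ⟨T, hT, hT0⟩ := hall
  obtain ⟨m1, y1⟩ := (hO Y₁).2 (Or.inl rfl)
  obtain ⟨m2, y2⟩ := (hO Y₂).2 (Or.inr (Or.inl rfl))
  obtain ⟨m3, y3⟩ := (hO Y₃).2 (Or.inr (Or.inr (Or.inl rfl)))
  obtain ⟨m4, y4⟩ := (hO Y₄).2 (Or.inr (Or.inr (Or.inr rfl)))
  have hOf : ∀ i, i ∈ S.filter (fun i => c i % 2 = 1) ↔ i = Y₁ ∨ i = Y₂ ∨ i = Y₃ ∨ i = Y₄ := by
    intro i
    rw [Finset.mem_filter]; exact hO i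
  set O := S.filter (fun i => c i % 2 = 1) with hOd
  set E := S.filter (fun i => ¬ c i % 2 = 1) with hEd
  have hsplit : ∀ f : I → ℤ, ∑ i ∈ O, f i + ∑ i ∈ E, f i = ∑ i ∈ S, f i := fun f =>
    Finset.sum_filter_add_sum_filter_not S (fun i => c i % 2 = 1) f
  have hsO : ∀ f : I → ℤ, ∑ i ∈ O, f i = f Y₁ + f Y₂ + f Y₃ + f Y₄ := fun f =>
    sum_four t.n12 t.n13 t.n14 t.n23 t.n24 t.n34 hOf
  -- the function B
  have hTE : T ∈ E := Finset.mem_filter.2 ⟨hT, by rw [hT0]; norm_num⟩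
  have zero_ne : ∀ i ∈ S, c i = 0 → ∀ j ∈ S, ht j = 0 → A₁ i * A₁ j + A₃ i * A₃ j ≠ 0 := by
    intro i hi hci j hj hj0 h0
    apply (h.val i hi j hj hj0).2
    rw [hMz, hci, h0]; simp
  have hty1 := (h.iff m1).2 y1
  have zB : ∀ i ∈ S, c i = 0 → A₁ i * A₁ i + A₃ i * A₃ i ≠ 0 := by
    intro i hi hci h0
    have ha := mul_self_nonneg (A₁ i)
    have hg := mul_self_nonneg (A₃ i)
    have h5 : A₁ i = 0 := mul_self_eq_zero.1 (by omega)
    have h6 : A₃ i = 0 := mul_self_eq_zero.1 (by omega)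
    apply zero_ne i hi hci Y₁ m1 hty1
    rw [h5, h6]; ring
  have hBnn : ∀ i, 0 ≤ A₁ i * A₁ i + A₃ i * A₃ i := fun i =>
    add_nonneg (mul_self_nonneg _) (mul_self_nonneg _)
  have hBtot : ∑ i ∈ S, (A₁ i * A₁ i + A₃ i * A₃ i) = 8 := by
    rw [Finset.sum_add_distrib, h11, h33]; norm_num
  have hBs := hsplit (fun i => A₁ i * A₁ i + A₃ i * A₃ i)
  rw [hBtot, hsO] at hBs
  beta_reduce at hBs
  have b1 := b_mod (a := A₁ Y₁) (g := A₃ Y₁) (by have := hAc _ m1; omega)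
  have b2 := b_mod (a := A₁ Y₂) (g := A₃ Y₂) (by have := hAc _ m2; omega)
  have b3 := b_mod (a := A₁ Y₃) (g := A₃ Y₃) (by have := hAc _ m3; omega)
  have b4 := b_mod (a := A₁ Y₄) (g := A₃ Y₄) (by have := hAc _ m4; omega)
  have n1 := hBnn Y₁
  have n2 := hBnn Y₂
  have n3 := hBnn Y₃
  have n4 := hBnn Y₄
  have hBT := zB T hT hT0
  have hBTle : A₁ T * A₁ T + A₃ T * A₃ T ≤ ∑ i ∈ E, (A₁ i * A₁ i + A₃ i * A₃ i) :=
    Finset.single_le_sum (f := fun i => A₁ i * A₁ i + A₃ i * A₃ i) (fun i _ => hBnn i) hTE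
  have nT := hBnn T
  have hE4 : ∑ i ∈ E, (A₁ i * A₁ i + A₃ i * A₃ i) = 4 := by omega
  have B1 : A₁ Y₁ * A₁ Y₁ + A₃ Y₁ * A₃ Y₁ = 1 := by omega
  have B2 : A₁ Y₂ * A₁ Y₂ + A₃ Y₂ * A₃ Y₂ = 1 := by omega
  have B3 : A₁ Y₃ * A₁ Y₃ + A₃ Y₃ * A₃ Y₃ = 1 := by omega
  have B4 : A₁ Y₄ * A₁ Y₄ + A₃ Y₄ * A₃ Y₄ = 1 := by omega
  have s1 := hsplit (fun i => A₁ i * A₁ i)
  have s3 := hsplit (fun i => A₃ i * A₃ i)
  rw [h11, hsO] at s1
  rw [h33, hsO] at s3
  beta_reduce at s1 s3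
  have nn : ∀ x : ℤ, 0 ≤ x * x := mul_self_nonneg
  have hT1 : A₁ T * A₁ T ≤ ∑ i ∈ E, A₁ i * A₁ i :=
    Finset.single_le_sum (f := fun i => A₁ i * A₁ i) (fun i _ => nn _) hTE
  have hT3 : A₃ T * A₃ T ≤ ∑ i ∈ E, A₃ i * A₃ i :=
    Finset.single_le_sum (f := fun i => A₃ i * A₃ i) (fun i _ => nn _) hTE
  have a11 := nn (A₁ Y₁)
  have a12 := nn (A₁ Y₂)
  have a13 := nn (A₁ Y₃)
  have a14 := nn (A₁ Y₄)
  have a31 := nn (A₃ Y₁)
  have a32 := nn (A₃ Y₂)
  have a33 := nn (A₃ Y₃)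
  have a34 := nn (A₃ Y₄)
  have evE : ∀ i ∈ E, (A₁ i + A₃ i) % 2 = 0 := by
    intro i hi
    have hi' := Finset.mem_filter.1 hi
    have h5 := hAc i hi'.1
    have h6 := hi'.2
    omega
  have hTodd : A₁ T * A₁ T = 1 ∧ A₃ T * A₃ T = 1 := by
    rcases b_even (evE T hTE) (by omega) hBT with h5 | ⟨h5, h6⟩ | ⟨h5, h6⟩
    · exact h5
    · exfalso
      apply zero_ne T hT hT0 Y₁ m1 hty1
      have h7 : A₁ Y₁ = 0 := mul_self_eq_zero.1 (by omega)
      rw [h6, h7]; ring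
    · exfalso
      apply zero_ne T hT hT0 Y₁ m1 hty1
      have h7 : A₃ Y₁ = 0 := mul_self_eq_zero.1 (by omega)
      rw [h5, h7]; ring
  -- the second point
  have hE' := Finset.add_sum_erase E (fun i => A₁ i * A₁ i + A₃ i * A₃ i) hTE
  beta_reduce at hE'
  have hE2 : ∑ i ∈ E.erase T, (A₁ i * A₁ i + A₃ i * A₃ i) = 2 := by
    have := hTodd.1; have := hTodd.2
    omega
  obtain ⟨P, hP, hPne⟩ := Finset.exists_ne_zero_of_sum_ne_zero
    (by rw [hE2]; norm_num : ∑ i ∈ E.erase T, (A₁ i * A₁ i + A₃ i * A₃ i) ≠ 0)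
  have hPle : A₁ P * A₁ P + A₃ P * A₃ P ≤ 2 := hE2 ▸
    Finset.single_le_sum (f := fun i => A₁ i * A₁ i + A₃ i * A₃ i) (fun i _ => hBnn i) hP
  have hPT : P ≠ T := Finset.ne_of_mem_erase hP
  have hPE : P ∈ E := Finset.mem_of_mem_erase hP
  have hPS : P ∈ S := (Finset.mem_filter.1 hPE).1
  have hPc : c P % 2 = 0 := by have := (Finset.mem_filter.1 hPE).2; omega
  have hPodd : A₁ P * A₁ P = 1 ∧ A₃ P * A₃ P = 1 := by
    rcases b_even (evE P hPE) (by omega) hPne with h5 | ⟨h5, h6⟩ | ⟨h5, h6⟩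
    · exact h5
    · exfalso; rw [h6] at hPle; omega
    · exfalso; rw [h5] at hPle; omega
  set F := (E.erase T).erase P with hFd
  have hF0 : ∀ i ∈ F, A₁ i = 0 ∧ A₃ i = 0 := by
    intro i hi
    have h5 := Finset.add_sum_erase (E.erase T) (fun i => A₁ i * A₁ i + A₃ i * A₃ i) hP
    rw [← hFd, hE2] at h5
    beta_reduce at h5
    have h6 : ∑ i ∈ F, (A₁ i * A₁ i + A₃ i * A₃ i) = 0 := by
      have := hPodd.1; have := hPodd.2
      omega
    have h7 := (Finset.sum_eq_zero_iff_of_nonneg (fun i _ => hBnn i)).1 h6 i hi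
    have h8 := nn (A₁ i)
    have h9 := nn (A₃ i)
    exact ⟨mul_self_eq_zero.1 (by omega), mul_self_eq_zero.1 (by omega)⟩
  have mF : ∀ i, i ∈ F ↔ i ∈ S ∧ ¬ c i % 2 = 1 ∧ i ≠ T ∧ i ≠ P := by
    intro i
    rw [hFd, Finset.mem_erase, Finset.mem_erase, hEd, Finset.mem_filter]
    tauto
  have hFc : F.card + 2 = E.card := by
    have h5 := Finset.card_erase_add_one hTE
    have h6 := Finset.card_erase_add_one hP
    rw [← hFd] at h6
    omega
  have hcard : O.card + E.card = S.card := Finset.card_filter_add_card_filter_not _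
  have hO4 : O.card = 4 := h.odd4
  -- squares of c
  have hcs := hsplit (fun i => c i * c i)
  rw [h.sum, hsO] at hcs
  beta_reduce at hcs
  have hcE := Finset.add_sum_erase E (fun i => c i * c i) hTE
  have hcE2 := Finset.add_sum_erase (E.erase T) (fun i => c i * c i) hP
  rw [← hFd] at hcE2
  beta_reduce at hcE hcE2
  have hcT : c T * c T = 0 := by rw [hT0]; norm_num
  have h2 : ∑ i ∈ F, (c i * c i - 4) = ∑ i ∈ F, c i * c i - 4 * F.card := by
    rw [Finset.sum_sub_distrib]; simp [mul_comm]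
  have nzF : ∀ i ∈ F, c i ≠ 0 := by
    intro i hi hci
    obtain ⟨h5, h6⟩ := hF0 i hi
    apply zB i ((mF i).1 hi).1 hci
    rw [h5, h6]; norm_num
  have t2 : ∀ i ∈ F, 0 ≤ c i * c i - 4 := fun i hi =>
    (even_term (by have := ((mF i).1 hi).2.1; omega) (nzF i hi)).1
  have u0 : 0 ≤ ∑ i ∈ F, (c i * c i - 4) := Finset.sum_nonneg t2
  have u2 : ∀ i ∈ F, c i * c i - 4 ≠ 0 → 12 ≤ ∑ i ∈ F, (c i * c i - 4) := by
    intro i hi hne
    exact ((even_term (by have := ((mF i).1 hi).2.1; omega) (nzF i hi)).2 hne).trans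
      (Finset.single_le_sum t2 hi)
  have v1 := odd_sq y1
  have v2 := odd_sq y2
  have v3 := odd_sq y3
  have v4 := odd_sq y4
  have w1 := nn (c Y₁)
  have w2 := nn (c Y₂)
  have w3 := nn (c Y₃)
  have w4 := nn (c Y₄)
  have eP := even_term0 hPc
  have hcardZ : (F.card : ℤ) + 6 = S.card := by
    have : F.card + 6 = S.card := by omega
    exact_mod_cast this
  have hNZ : 2 * (q : ℤ) + 3 ≤ S.card := by exact_mod_cast hN
  have hkey : (c Y₁ * c Y₁ - 1) + (c Y₂ * c Y₂ - 1) + (c Y₃ * c Y₃ - 1) + (c Y₄ * c Y₄ - 1) +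
      ∑ i ∈ F, (c i * c i - 4) + c P * c P = 8 * q + 20 - 4 * S.card := by
    rw [h2]
    have : ∑ i ∈ F, c i * c i = 8 * q - (c Y₁ * c Y₁ + c Y₂ * c Y₂ + c Y₃ * c Y₃ + c Y₄ * c Y₄) -
        c P * c P := by
      linarith
    rw [this]
    linarith
  have hFz : ∑ i ∈ F, (c i * c i - 4) = 0 := by
    refine Finset.sum_eq_zero fun i hi => ?_
    by_contra hne
    have := u2 i hi hne
    have := eP.1
    omega
  have hF4 : ∀ i ∈ F, c i * c i = 4 := by
    intro i hi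
    have := (Finset.sum_eq_zero_iff_of_nonneg t2).1 hFz i hi
    omega
  -- heights
  obtain ⟨j, hj, hj0⟩ := h.ex0
  have hcj := (h.iff hj).1 hj0
  have ht4 : ∀ i ∈ S, c i * c i = 4 → ht i = 1 := by
    intro i hi h5
    obtain ⟨v1, v2⟩ := h.val i hi j hj hj0
    apply ht_of v1 v2
    rw [hMz, hm]
    rcases sq_four h5 with h6 | h6
    · exact ⟨c j + 2 * (m * (A₁ i * A₁ j + A₃ i * A₃ j)), by omega, by rw [h6]; ring⟩
    · exact ⟨-c j + 2 * (m * (A₁ i * A₁ j + A₃ i * A₃ j)), by omega, by rw [h6]; ring⟩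
  have hAj : (A₁ j + A₃ j) % 2 = 1 := by have := hAc j hj; omega
  have odd1 : ∀ x : ℤ, x * x = 1 → x % 2 = 1 := by
    intro x hx
    rcases sq_one hx with rfl | rfl <;> norm_num
  have hts : ∀ i ∈ S, c i = 0 → A₁ i * A₁ i = 1 → A₃ i * A₃ i = 1 → ht i = N + 1 := by
    intro i hi h5 h6 h7
    obtain ⟨v1, v2⟩ := h.val i hi j hj hj0
    apply ht_of v1 v2
    rw [hMz, h5, zero_mul, zero_add, hqN]
    have h8 := odd1 _ h6
    have h9 := odd1 _ h7
    obtain ⟨a, ha⟩ : ∃ a, A₁ i = 2 * a + 1 := ⟨A₁ i / 2, by omega⟩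
    obtain ⟨b, hb⟩ : ∃ b, A₃ i = 2 * b + 1 := ⟨A₃ i / 2, by omega⟩
    refine ⟨A₁ i * A₁ j + A₃ i * A₃ j, ?_, by push_cast; ring⟩
    have : A₁ i * A₁ j + A₃ i * A₃ j = 2 * (a * A₁ j + b * A₃ j) + (A₁ j + A₃ j) := by
      rw [ha, hb]; ring
    rw [this]; omega
  have hTh := hts T hT hT0 hTodd.1 hTodd.2
  have htF : ∀ i ∈ F, ht i = 1 := fun i hi => ht4 i ((mF i).1 hi).1 (hF4 i hi)
  have htO : ∀ i ∈ S, c i % 2 = 1 → ht i = 0 := fun i hi hc => (h.iff hi).2 hc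
  rcases Classical.em (c P = 0) with hP0 | hP0
  · -- both zeros
    have hPh := hts P hPS hP0 hPodd.1 hPodd.2
    have hset : S.filter (fun i => ht i = 1) = F := by
      ext i
      rw [Finset.mem_filter]
      constructor
      · rintro ⟨hi, h5⟩
        rw [mF]
        refine ⟨hi, fun hc => by rw [htO i hi hc] at h5; omega, ?_, ?_⟩
        · rintro rfl; omega
        · rintro rfl; omega
      · intro hi
        exact ⟨((mF i).1 hi).1, htF i hi⟩
    have hcP : c P * c P = 0 := by rw [hP0]; norm_num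
    have hcases : S.card = 2 * q + 5 ∨ (c Y₁ * c Y₁ + c Y₂ * c Y₂ + c Y₃ * c Y₃ + c Y₄ * c Y₄ = 12 ∧ S.card = 2 * q + 3) := by
      omega
    have hfin : ∀ i ∈ S, ht i = 0 ∨ ht i = 1 ∨ ht i = N + 1 := by
      intro i hi
      by_cases hc : c i % 2 = 1
      · exact Or.inl (htO i hi hc)
      · by_cases hiT : i = T
        · rw [hiT]; exact Or.inr (Or.inr hTh)
        · by_cases hiP : i = P
          · rw [hiP]; exact Or.inr (Or.inr hPh)
          · exact Or.inr (Or.inl (htF i ((mF i).2 ⟨hi, hc, hiT, hiP⟩)))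
    rcases hcases with h5 | ⟨h5, h6⟩
    · refine ⟨by omega, ?_, hfin⟩
      rw [hset]; omega
    · exfalso
      -- sums over E
      have hsumE : ∀ f : I → ℤ, (∀ i ∈ F, f i = 0) → ∑ i ∈ E, f i = f T + f P := by
        intro f hf
        rw [← Finset.add_sum_erase E f hTE, ← Finset.add_sum_erase (E.erase T) f hP,
          Finset.sum_eq_zero hf, add_zero]
      have e1 := hsplit (fun i => A₁ i * c i)
      rw [hsO, o1, hsumE _ (fun i hi => by rw [(hF0 i hi).1, zero_mul])] at e1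
      have e3 := hsplit (fun i => A₃ i * c i)
      rw [hsO, o3, hsumE _ (fun i hi => by rw [(hF0 i hi).2, zero_mul])] at e3
      rw [hsumE _ (fun i hi => by rw [(hF0 i hi).1, zero_mul])] at s1
      simp only [hT0, hP0, mul_zero, add_zero] at e1 e3
      have hXE : X ∈ E := by
        rw [hEd, Finset.mem_filter]
        refine ⟨hX, fun hc => ?_⟩
        rcases (hO X).1 ⟨hX, hc⟩ with h1 | h1 | h1 | h1
        · exact t.n1 h1.symm
        · exact t.n2 h1.symm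
        · exact t.n3 h1.symm
        · exact t.n4 h1.symm
      have hXc : (A₁ X = 0 ∧ A₃ X = 0) ∨ (A₁ X * A₁ X = 1 ∧ c X = 0) := by
        by_cases hXT : X = T
        · right; rw [hXT]; exact ⟨hTodd.1, hT0⟩
        · by_cases hXP : X = P
          · right; rw [hXP]; exact ⟨hPodd.1, hP0⟩
          · left
            exact hF0 X ((mF X).2 ⟨hX, (Finset.mem_filter.1 hXE).2, hXT, hXP⟩)
      refine excl3 c1 c2 r1 r2 r3 r4 ?_ ?_ ?_ ?_ ?_ ?_ ?_ ?_ (odd_sgn t.h1 y1) ?_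
      · rw [sgn_mul_sq t.h1, sgn_mul_sq t.h1]; exact B1
      · rw [sgn_mul_sq t.h2, sgn_mul_sq t.h2]; exact B2
      · rw [sgn_mul_sq t.h3, sgn_mul_sq t.h3]; exact B3
      · rw [sgn_mul_sq t.h4, sgn_mul_sq t.h4]; exact B4
      · rw [sgn_mul_sq t.h1, sgn_mul_sq t.h2, sgn_mul_sq t.h3, sgn_mul_sq t.h4]
        have := hTodd.1; have := hPodd.1
        omega
      · rcases hXc with ⟨h7, h8⟩ | ⟨h7, h8⟩
        · left; rw [h7, h8]; simp
        · right
          rw [sgn_mul_sq t.hX, h8]; exact ⟨h7, by simp⟩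
      · rw [sgn_mul_mul t.h1, sgn_mul_mul t.h2, sgn_mul_mul t.h3, sgn_mul_mul t.h4]; exact e1
      · rw [sgn_mul_mul t.h1, sgn_mul_mul t.h2, sgn_mul_mul t.h3, sgn_mul_mul t.h4]; exact e3
      · rw [sgn_mul_sq t.h1, sgn_mul_sq t.h2, sgn_mul_sq t.h3, sgn_mul_sq t.h4]; exact h5
  · -- one zero
    have hcP : c P * c P = 4 := by
      rcases eP.2 (fun h => hP0 (mul_self_eq_zero.1 h)) with h5 | h5
      · exact h5
      · exfalso; omega
    have hPh := ht4 P hPS hcP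
    have hset : S.filter (fun i => ht i = 1) = E.erase T := by
      ext i
      rw [Finset.mem_filter, Finset.mem_erase, hEd, Finset.mem_filter]
      constructor
      · rintro ⟨hi, h5⟩
        refine ⟨?_, hi, fun hc => by rw [htO i hi hc] at h5; omega⟩
        rintro rfl; omega
      · rintro ⟨h5, h6, h7⟩
        refine ⟨h6, ?_⟩
        by_cases hiP : i = P
        · rw [hiP]; exact hPh
        · exact htF i ((mF i).2 ⟨h6, h7, h5, hiP⟩)
    have h5 : S.card = 2 * q + 4 := by omega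
    refine ⟨by omega, ?_, ?_⟩
    · rw [hset]
      have := Finset.card_erase_add_one hTE
      omega
    · intro i hi
      by_cases hc : c i % 2 = 1
      · exact Or.inl (htO i hi hc)
      · by_cases hiT : i = T
        · rw [hiT]; exact Or.inr (Or.inr hTh)
        · by_cases hiP : i = P
          · rw [hiP]; exact Or.inr (Or.inl hPh)
          · exact Or.inr (Or.inl (htF i ((mF i).2 ⟨hi, hc, hiT, hiP⟩)))

end H77.QNum
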