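import Cfsg.Agent.Lib.H77.Taketa
import Cfsg.Agent.Lib.H79.PPrime
import Cfsg.Agent.S4456
import Cfsg.Agent.Lib.H19.CharExt

/-!
# Groups with three character degrees: tools (H77.ThreeA)
-/

set_option autoImplicit false
set_option linter.style.haveILetI false
set_option linter.unusedSectionVars false
set_option maxHeartbeats 400000
open Cfsg

namespace H77.ThreeA

open H18.CharBasic H18.CharOrtho H18.CharInd H18.CharQuot H77.PQuot H31.Clifford

universe u

variable {G : Type u} [Group G] [Finite G]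

/-- `N` is contained in the kernel of `χ` -/
def InKer (N : Subgroup G) (χ : G → ℂ) : Prop := ∀ n ∈ N, χ n = χ 1

/-- `χ` lies over `θ` -/
def Over (N : Subgroup G) (χ : IrrCharacter G) (θ : IrrCharacter N) : Prop :=
  letI := Fintype.ofFinite N
  classInner (fun x : N => χ.1 x) θ.1 ≠ 0

theorem over_iff (N : Subgroup G) [Fintype N] (χ : IrrCharacter G) (θ : IrrCharacter N) :
    Over N χ θ ↔ classInner (fun x : N => χ.1 x) θ.1 ≠ 0 := by
  unfold Over
  rw [H18.CharOrtho.inner_fintype]

theorem over_exists (N : Subgroup G) (χ : IrrCharacter G) : ∃ θ, Over N χ θ := by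
  classical
  letI := Fintype.ofFinite G
  letI := Fintype.ofFinite N
  obtain ⟨θ, hθ, h⟩ := exists_constituent_restrict N χ.2
  exact ⟨⟨θ, hθ⟩, (over_iff N _ _).2 h⟩

theorem over_up (N : Subgroup G) (θ : IrrCharacter N) : ∃ χ, Over N χ θ := by
  classical
  letI := Fintype.ofFinite G
  letI := Fintype.ofFinite N
  obtain ⟨χ, hχ, h⟩ := exists_over N θ.2
  exact ⟨⟨χ, hχ⟩, (over_iff N _ _).2 h⟩

theorem deg_pos (χ : IrrCharacter G) : 0 < charDegree χ.1 := by
  obtain ⟨n, hn, h⟩ := exists_degree_pos χ.2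
  rw [charDegree_eq_of h]; exact hn

theorem over_dvd (N : Subgroup G) [N.Normal] {χ : IrrCharacter G} {θ : IrrCharacter N}
    (h : Over N χ θ) : charDegree θ.1 ∣ charDegree χ.1 ∧
      charDegree χ.1 / charDegree θ.1 ∣ N.index := by
  classical
  letI := Fintype.ofFinite G
  letI := Fintype.ofFinite N
  exact H19.CharExt.dvd_index χ.2 θ.2 ((over_iff N _ _).1 h) _ _ (cast_irr χ).symm
      (cast_irr θ).symm

theorem over_ker (N : Subgroup G) {χ : IrrCharacter G} {θ : IrrCharacter N}
    (h : Over N χ θ) (x : N) (hx : χ.1 x = χ.1 1) : θ.1 x = θ.1 1 := by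
  classical
  letI := Fintype.ofFinite N
  exact H79.PPrime.ker_constituent (isCharacter_restrict N (isCharacter_of_isIrr χ.2)) θ.2
    ((over_iff N _ _).1 h) (by exact hx)

theorem over_linear' (N : Subgroup G) {χ : IrrCharacter G} {θ : IrrCharacter N}
    (h : Over N χ θ) (hk : InKer ⁅N, N⁆ χ.1) : charDegree θ.1 = 1 := by
  classical
  letI := Fintype.ofFinite N
  have h1 := H18.Primitive.degree_one_of_commutator θ.2 (by
    intro a b
    refine over_ker N h _ (hk _ ?_)
    have := Subgroup.commutator_mem_commutator a.2 b.2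
    rw [commutatorElement_def] at this
    exact this)
  rw [← cast_irr θ] at h1
  exact_mod_cast h1

theorem over_linear (N : Subgroup G) [N.Normal] {χ : IrrCharacter G} {θ : IrrCharacter N}
    (h : Over N χ θ) (h1 : charDegree θ.1 = 1) : InKer ⁅N, N⁆ χ.1 := by
  classical
  letI := Fintype.ofFinite G
  letI := Fintype.ofFinite N
  have h2 := restrict_eq N χ.2 θ.2 ((over_iff N _ _).1 h)
  have hφ : ∀ φ ∈ orb N θ.1, ∀ x : N, (x : G) ∈ ⁅N, N⁆ → φ x = φ 1 := by
    intro φ hφ x hx
    obtain ⟨g, rfl⟩ := (mem_orb N).1 hφ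
    obtain ⟨f, hf⟩ := exists_hom_of_degree_one
      (isCharacter_of_isIrr (isIrrCharacter_conjN N g θ.2)) (by
        rw [cj_at_one, ← cast_irr θ, h1, Nat.cast_one])
    rw [hf]
    have hx' : x ∈ commutator N := by
      have h3 : ⁅N, N⁆ = (commutator N).map N.subtype := by
        rw [commutator_def, Subgroup.map_commutator, ← MonoidHom.range_eq_map,
          Subgroup.range_subtype]
      rw [h3] at hx
      obtain ⟨y, hy, hyx⟩ := hx
      have : y = x := Subtype.ext hyx
      rwa [this] at hy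
    change ((f x : ℂˣ) : ℂ) = ((f 1 : ℂˣ) : ℂ)
    rw [H77.Taketa.linear_ker f hx', map_one]
  intro x hx
  have hxN : x ∈ N := Subgroup.commutator_le_left N N hx
  have e1 := congrFun h2 ⟨x, hxN⟩
  have e2 := congrFun h2 1
  simp only [Pi.smul_apply, Finset.sum_apply] at e1 e2
  have e2' : χ.1 1 = classInner (fun h : N => χ.1 h) θ.1 • ∑ c ∈ orb N θ.1, c 1 := e2
  rw [e1, e2']
  congr 1
  exact Finset.sum_congr rfl fun φ hφ' => hφ φ hφ' ⟨x, hxN⟩ hx

theorem over_one (N : Subgroup G) [N.Normal] {χ : IrrCharacter G} {θ : IrrCharacter N}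
    (h : Over N χ θ) (h1 : ∀ x, θ.1 x = 1) : InKer N χ.1 := by
  classical
  letI := Fintype.ofFinite G
  letI := Fintype.ofFinite N
  have h2 := restrict_eq N χ.2 θ.2 ((over_iff N _ _).1 h)
  intro x hx
  have e1 := congrFun h2 ⟨x, hx⟩
  have e2 := congrFun h2 1
  simp only [Pi.smul_apply, Finset.sum_apply] at e1 e2
  have e2' : χ.1 1 = classInner (fun h : N => χ.1 h) θ.1 • ∑ c ∈ orb N θ.1, c 1 := e2
  rw [e1, e2']
  congr 1
  refine Finset.sum_congr rfl fun φ hφ => ?_
  obtain ⟨g, rfl⟩ := (mem_orb N).1 hφ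
  rw [cj_apply, cj_apply, h1, h1]

theorem deg_eq_one_of_inKer {χ : IrrCharacter G} (h : InKer (commutator G) χ.1) :
    charDegree χ.1 = 1 := by
  classical
  letI := Fintype.ofFinite G
  have h1 := H18.Primitive.degree_one_of_commutator χ.2 (by
    intro a b
    refine h _ ?_
    have := Subgroup.commutator_mem_commutator (Subgroup.mem_top a) (Subgroup.mem_top b)
    rw [commutatorElement_def, ← commutator_def] at this
    exact this)
  rw [← cast_irr χ] at h1
  exact_mod_cast h1

theorem inKer_of_deg_one {χ : IrrCharacter G} (h : charDegree χ.1 = 1) :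
    InKer (commutator G) χ.1 := by
  intro x hx
  obtain ⟨f, hf⟩ := exists_hom_of_degree_one (isCharacter_of_isIrr χ.2) (by
        rw [← cast_irr χ, h, Nat.cast_one])
  rw [hf]
  change ((f x : ℂˣ) : ℂ) = ((f 1 : ℂˣ) : ℂ)
  rw [H77.Taketa.linear_ker f hx, map_one]

theorem exists_not_inKer (N : Subgroup G) (hN : N ≠ ⊥) : ∃ χ : IrrCharacter G, ¬ InKer N χ.1 := by
  by_contra hcon
  push Not at hcon
  apply hN
  rw [eq_bot_iff]
  intro x hx
  rw [Subgroup.mem_bot]
  exact eq_one_of_forall_irr (fun χ hχ => hcon ⟨χ, hχ⟩ x hx)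

/-- two degrees -/
theorem two_deg' (m : ℕ) (hcd : ∀ χ : IrrCharacter G, charDegree χ.1 = 1 ∨ charDegree χ.1 = m) :
    derivedSeries G 2 = ⊥ := by
  by_cases hm : m ≠ 1 ∧ ∃ χ : IrrCharacter G, charDegree χ.1 = m
  · exact H77.Taketa.two_deg m hm.1 hcd hm.2
  · have h1 : ∀ χ : IrrCharacter G, charDegree χ.1 = 1 := by
      intro χ
      rcases hcd χ with h | h
      · exact h
      · by_contra hne
        exact hm ⟨fun h' => hne (h.trans h'), χ, h⟩
    have h2 := H77.TwoDeg.comm_of_linear' h1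
    have h3 : commutator G = ⊥ := by
      rw [commutator_def, Subgroup.commutator_eq_bot_iff_le_centralizer]
      intro a _
      rw [Subgroup.mem_centralizer_iff]
      intro b _
      exact h2 b a
    rw [eq_bot_iff, ← h3, ← derivedSeries_one]
    exact derivedSeries_antitone G (by norm_num)

theorem derivedSeries_le_map {L : Subgroup G} (hL : commutator G ≤ L) (n : ℕ) :
    derivedSeries G (n + 1) ≤ (derivedSeries L n).map L.subtype := by
  induction n with
  | zero =>
    rw [derivedSeries_zero, ← MonoidHom.range_eq_map, Subgroup.range_subtype, zero_add,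
      derivedSeries_one]
    exact hL
  | succ n ih =>
    rw [derivedSeries_succ G (n + 1), derivedSeries_succ L n, Subgroup.map_commutator]
    exact Subgroup.commutator_mono ih ih

theorem derived_of_sub {L : Subgroup G} (hL : commutator G ≤ L) {n : ℕ}
    (h : derivedSeries L n = ⊥) : derivedSeries G (n + 1) = ⊥ := by
  rw [eq_bot_iff]
  refine (derivedSeries_le_map hL n).trans ?_
  rw [h, Subgroup.map_bot]

theorem derived_of_quot {N : Subgroup G} [N.Normal] {n : ℕ}
    (h : derivedSeries (G ⧸ N) n = ⊥) : derivedSeries G n ≤ N := by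
  have h1 := map_derivedSeries_le_derivedSeries (QuotientGroup.mk' N) n
  rw [h, Subgroup.map_le_iff_le_comap, MonoidHom.comap_bot, QuotientGroup.ker_mk'] at h1
  exact h1

theorem cd_quot (N : Subgroup G) [N.Normal] {P : ℕ → Prop}
    (h : ∀ χ : IrrCharacter G, InKer N χ.1 → P (charDegree χ.1)) (χ : IrrCharacter (G ⧸ N)) :
    P (charDegree χ.1) := by
  obtain ⟨ψ, h1, h2⟩ := H77.TwoDeg.infl_degree N χ
  rw [← h1]
  refine h ψ (fun n hn => ?_)
  rw [h2, h2, (QuotientGroup.eq_one_iff n).2 hn, QuotientGroup.mk_one]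

/-- if all characters with `L'` not in the kernel have degree divisible by `p`, then `L` has a
normal `p`-complement -/
theorem thompson (L : Subgroup G) [hL : L.Normal] {p : ℕ} (hp : p.Prime)
    (h : ∀ χ : IrrCharacter G, ¬ InKer ⁅L, L⁆ χ.1 → p ∣ charDegree χ.1) :
    ∃ N : Subgroup G, N.Normal ∧ N ≤ L ∧ (Nat.card N).Coprime p ∧ ∃ k, N.relIndex L = p ^ k := by
  classical
  haveI := Fact.mk hp
  obtain ⟨P⟩ : Nonempty (Sylow p G) := inferInstance
  obtain ⟨H, hH⟩ : ∃ H : Subgroup G, H = (P : Subgroup G) ⊔ L := ⟨_, rfl⟩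
  letI := Fintype.ofFinite G
  letI := Fintype.ofFinite H
  have hLH : L ≤ H := by rw [hH]; exact le_sup_right
  have hPH : (P : Subgroup G) ≤ H := by rw [hH]; exact le_sup_left
  have hHidx : ¬ p ∣ H.index := fun hd =>
    P.not_dvd_index (hd.trans (Subgroup.index_dvd_of_le hPH))
  obtain ⟨LH, hLHdef⟩ : ∃ LH : Subgroup H, LH = L.subgroupOf H := ⟨_, rfl⟩
  haveI hLHn : LH.Normal := by rw [hLHdef]; exact hL.subgroupOf H
  -- index of `L` in `H`
  have hidx : ∃ k, LH.index = p ^ k := by
    have h1 : L.relIndex H = L.relIndex (P : Subgroup G) := by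
      rw [hH]; exact Subgroup.relIndex_sup_right (P : Subgroup G) L
    have h2 : LH.index = L.relIndex (P : Subgroup G) := by rw [hLHdef]; exact h1
    have h3 : L.relIndex (P : Subgroup G) ∣ Nat.card (P : Subgroup G) := Subgroup.relIndex_dvd_card _ _
    obtain ⟨n, hn⟩ := (IsPGroup.iff_card (p := p)).1 P.isPGroup'
    have hn' : Nat.card (P : Subgroup G) = p ^ n := hn
    rw [hn', Nat.dvd_prime_pow hp] at h3
    obtain ⟨k, -, hk⟩ := h3
    exact ⟨k, h2.trans hk⟩
  obtain ⟨k, hk⟩ := hidx
  have hdeg : ∀ θ : IrrCharacter H, charDegree θ.1 ≠ 1 → p ∣ charDegree θ.1 := by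
    intro θ hθ
    by_contra hnd
    apply hθ
    obtain ⟨χ, hχ, ⟨d, hd1, hd2⟩, hne⟩ := H79.PPrime.exists_over_pprime hp H hHidx θ.2 hnd
      (cast_irr θ).symm
    have hov : Over H ⟨χ, hχ⟩ θ := (over_iff H _ _).2 hne
    have hker : InKer ⁅L, L⁆ χ := by
      by_contra hcon
      have := h ⟨χ, hχ⟩ hcon
      rw [charDegree_eq_of (χ := χ) hd2] at this
      exact hd1 this
    have hker2 : InKer ⁅LH, LH⁆ θ.1 := by
      intro x hx
      refine over_ker H hov x (hker _ ?_)
      have h1 : (⁅LH, LH⁆).map H.subtype ≤ ⁅L, L⁆ := by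
        rw [Subgroup.map_commutator, hLHdef]
        exact Subgroup.commutator_mono (Subgroup.map_subgroupOf_eq_of_le hLH).le
          (Subgroup.map_subgroupOf_eq_of_le hLH).le
      exact h1 ⟨x, hx, rfl⟩
    obtain ⟨φ, hφ⟩ := over_exists LH θ
    have hφ1 := over_linear' LH hφ hker2
    obtain ⟨-, h2⟩ := over_dvd LH hφ
    rw [hφ1, Nat.div_one, hk, Nat.dvd_prime_pow hp] at h2
    obtain ⟨j, -, hj⟩ := h2
    rcases Nat.eq_zero_or_pos j with h0 | h0
    · rw [hj, h0, pow_zero]
    · exact absurd (hj ▸ dvd_pow_self p h0.ne') hnd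
  obtain ⟨N, hNn, hNc, j, hj⟩ := Cfsg.Agent.S4456.result p hp hdeg
  let N1 : Subgroup G := N.map H.subtype ⊓ L
  have hmem : ∀ x : G, x ∈ N1 ↔ x ∈ L ∧ (orderOf x).Coprime p := by
    intro x
    constructor
    · rintro ⟨⟨y, hy, rfl⟩, hx⟩
      refine ⟨hx, ?_⟩
      have h1 : orderOf (H.subtype y) = orderOf y := orderOf_injective H.subtype H.subtype_injective y
      rw [h1]
      have h2 : orderOf (⟨y, hy⟩ : N) ∣ Nat.card N := orderOf_dvd_natCard _
      rw [Subgroup.orderOf_mk] at h2
      exact Nat.Coprime.coprime_dvd_left h2 hNc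
    · rintro ⟨hx, hxo⟩
      refine ⟨⟨⟨x, hLH hx⟩, ?_, rfl⟩, hx⟩
      have h1 : orderOf (((⟨x, hLH hx⟩ : H)) : H ⧸ N) ∣ orderOf x := by
        apply orderOf_dvd_of_pow_eq_one
        rw [← QuotientGroup.mk_pow]
        have : (⟨x, hLH hx⟩ : H) ^ orderOf x = 1 := Subtype.ext (pow_orderOf_eq_one x)
        rw [this, QuotientGroup.mk_one]
      have h2 : orderOf (((⟨x, hLH hx⟩ : H)) : H ⧸ N) ∣ p ^ j := by
        have := orderOf_dvd_natCard (((⟨x, hLH hx⟩ : H)) : H ⧸ N)
        have h3 : Nat.card (H ⧸ N) = p ^ j := hj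
        rwa [h3] at this
      have h3 : orderOf (((⟨x, hLH hx⟩ : H)) : H ⧸ N) = 1 :=
        Nat.eq_one_of_dvd_coprimes (Nat.Coprime.pow_right j hxo) h1 h2
      exact (QuotientGroup.eq_one_iff _).1 (orderOf_eq_one_iff.1 h3)
  refine ⟨N1, ⟨fun x hx g => ?_⟩, inf_le_right, ?_, ?_⟩
  · rw [hmem] at hx ⊢
    refine ⟨hL.conj_mem x hx.1 g, ?_⟩
    have : orderOf (g * x * g⁻¹) = orderOf x := by
      have := orderOf_injective (MulAut.conj g).toMonoidHom (MulAut.conj g).injective x
      simpa using this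
    rw [this]; exact hx.2
  · have h1 : Nat.card N1 ∣ Nat.card (N.map H.subtype) := Subgroup.card_dvd_of_le inf_le_left
    rw [Subgroup.card_map_of_injective H.subtype_injective] at h1
    exact Nat.Coprime.coprime_dvd_left h1 hNc
  · have h1 : N1.relIndex L ∣ p ^ j := by
      have h2 : N1.relIndex L = (N.map H.subtype).relIndex L := Subgroup.inf_relIndex_right _ _
      rw [h2]
      have h3 : (N.map H.subtype).relIndex L ∣ (N.map H.subtype).relIndex H := by
        have : (N.map H.subtype).relIndex H = N.index := by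
          rw [Subgroup.relIndex, Subgroup.subgroupOf, Subgroup.comap_map_eq_self_of_injective
            H.subtype_injective]
        rw [this]
        have h4 : (N.map H.subtype).relIndex L = (N.comap (Subgroup.inclusion hLH)).index := by
          rw [Subgroup.relIndex]
          congr 1
          ext x
          constructor
          · rintro ⟨y, hy, hyx⟩
            have : y = Subgroup.inclusion hLH x := Subtype.ext hyx
            rw [this] at hy
            exact hy
          · intro hx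
            exact ⟨_, hx, rfl⟩
        rw [h4, Subgroup.index_comap]
        exact Subgroup.relIndex_dvd_index_of_normal N _
      have h5 : (N.map H.subtype).relIndex H = N.index := by
        rw [Subgroup.relIndex, Subgroup.subgroupOf, Subgroup.comap_map_eq_self_of_injective
          H.subtype_injective]
      rw [h5, hj] at h3
      exact h3
    obtain ⟨i, -, hi⟩ := (Nat.dvd_prime_pow hp).1 h1
    exact ⟨i, hi⟩

end H77.ThreeA
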