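import Cfsg.Agent.Lib.H77.ThreeA
import Cfsg.Agent.Lib.H4.Commutator

/-!
# Groups with three character degrees are solvable (H77.ThreeB)
-/

set_option autoImplicit false
set_option linter.style.haveILetI false
set_option linter.unusedSectionVars false
set_option maxHeartbeats 400000
open Cfsg
open scoped ComplexConjugate

namespace H77.ThreeB

open H18.CharBasic H18.CharOrtho H18.CharInd H18.CharQuot H77.PQuot H31.Clifford H77.ThreeA

universe u

section claimA

variable {G : Type u} [Group G] [Fintype G]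

theorem inner_mul_left (a b c : G → ℂ) :
    classInner (a * b) c = classInner b (fun g => conj (a g) * c g) := by
  simp only [classInner, Pi.mul_apply, map_mul, Complex.conj_conj]
  congr 1
  exact Finset.sum_congr rfl fun g _ => by ring

theorem decomp [Fintype (IrrCharacter G)] (m n : ℕ)
    (hcd : ∀ χ : IrrCharacter G, charDegree χ.1 = 1 ∨ charDegree χ.1 = m ∨ charDegree χ.1 = n)
    {Φ : G → ℂ} (hΦ : IsCharacter G Φ) (d : ℕ) (hd : Φ 1 = d)
    (hlin : ∀ l : IrrCharacter G, charDegree l.1 = 1 → classInner Φ l.1 = 0) :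
    ∃ a : IrrCharacter G → ℕ, (∀ ζ : IrrCharacter G, classInner Φ ζ.1 = a ζ) ∧
      (∀ g, Φ g = ∑ ζ : IrrCharacter G, (a ζ : ℂ) * ζ.1 g) ∧ ∃ x y : ℕ, d = x * m + y * n ∧
      (∀ ζ : IrrCharacter G, charDegree ζ.1 = m → a ζ ≤ x) ∧
      (m ≠ n → ∀ ζ : IrrCharacter G, charDegree ζ.1 = n → a ζ ≤ y) := by
  classical
  have hex : ∀ ζ : IrrCharacter G, ∃ a : ℕ, classInner Φ ζ.1 = a := fun ζ =>
    inner_char_natCast hΦ (isCharacter_of_isIrr ζ.2)
  choose a ha using hex
  have hexp : ∀ g, Φ g = ∑ ζ : IrrCharacter G, (a ζ : ℂ) * ζ.1 g := by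
    intro g
    have h1 := congrFun (mem_classFun_expand (isClassFunction_of_isCharacter hΦ)) g
    simp only [Finset.sum_apply, Pi.smul_apply, smul_eq_mul, ha] at h1
    exact h1
  refine ⟨a, ha, hexp, ∑ ζ : IrrCharacter G with charDegree ζ.1 = m, a ζ,
    ∑ ζ : IrrCharacter G with (charDegree ζ.1 = n ∧ charDegree ζ.1 ≠ m), a ζ, ?_, ?_, ?_⟩
  · have h1 : d = ∑ ζ : IrrCharacter G, a ζ * charDegree ζ.1 := by
      have h2 := hexp 1
      rw [hd] at h2
      have h3 : (d : ℂ) = ((∑ ζ : IrrCharacter G, a ζ * charDegree ζ.1 : ℕ) : ℂ) := by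
        rw [h2]; push_cast
        exact Finset.sum_congr rfl fun ζ _ => by rw [cast_irr]
      exact_mod_cast h3
    rw [h1, Finset.sum_mul, Finset.sum_mul, Finset.sum_filter, Finset.sum_filter,
      ← Finset.sum_add_distrib]
    refine Finset.sum_congr rfl fun ζ _ => ?_
    by_cases hm : charDegree ζ.1 = m
    · rw [if_pos hm, if_neg (fun h => h.2 hm), hm, add_zero]
    · rw [if_neg hm]
      by_cases hn : charDegree ζ.1 = n
      · rw [if_pos ⟨hn, hm⟩, hn, zero_add]
      · rw [if_neg (fun h => hn h.1)]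
        have h1 : charDegree ζ.1 = 1 := by
          rcases hcd ζ with h | h | h
          · exact h
          · exact absurd h hm
          · exact absurd h hn
        have h2 := hlin ζ h1
        rw [ha] at h2
        have h3 : a ζ = 0 := by exact_mod_cast h2
        rw [h3, zero_mul, add_zero]
  · intro ζ hζ
    exact Finset.single_le_sum (f := a) (fun _ _ => Nat.zero_le _)
      (Finset.mem_filter.2 ⟨Finset.mem_univ ζ, hζ⟩)
  · intro hmn ζ hζ
    exact Finset.single_le_sum (f := a) (fun _ _ => Nat.zero_le _)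
      (Finset.mem_filter.2 ⟨Finset.mem_univ ζ, hζ, fun h => hmn (h.symm.trans hζ)⟩)

/-- numerical argument: `d = x m + y n` with `d` a multiple of `m`, `d ≤ m n` and `m`, `n` coprime -/
theorem numer {m n x y d : ℕ} (hcop : m.Coprime n) (hm : 0 < m) (hn : 0 < n) (h : d = x * m + y * n)
    (hd : m ∣ d) (hdle : d ≤ m * n) (hy : 0 < y) : d = m * n ∧ x = 0 := by
  have h1 : m ∣ y * n := by
    rw [h] at hd
    exact (Nat.dvd_add_right (Dvd.intro_left x rfl)).1 hd
  have h2 : m ∣ y := hcop.dvd_of_dvd_mul_right h1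
  have h3 : m ≤ y := Nat.le_of_dvd hy h2
  have h4 : m * n ≤ y * n := Nat.mul_le_mul_right n h3
  have h5 : x * m = 0 := by omega
  refine ⟨by omega, ?_⟩
  rcases Nat.mul_eq_zero.1 h5 with h | h
  · exact h
  · omega

theorem claimA {m n : ℕ} (hcop : m.Coprime n) (hm1 : 1 < m) (hmn : m < n)
    (hcd : ∀ χ : IrrCharacter G, charDegree χ.1 = 1 ∨ charDegree χ.1 = m ∨ charDegree χ.1 = n)
    (M : Subgroup G) [hMn : M.Normal]
    (hMin : ∀ K : Subgroup G, K.Normal → K ≤ M → K = ⊥ ∨ K = M) (hMne : M ≠ ⊥)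
    (hMc : M ≤ commutator G) (χ χ' ψ : IrrCharacter G) (hχ : charDegree χ.1 = m)
    (hχ' : charDegree χ'.1 = m) (hψ : charDegree ψ.1 = n) (hψM : ¬ InKer M ψ.1) :
    classInner (χ.1 * ψ.1) χ'.1 = 0 := by
  classical
  haveI : Finite (IrrCharacter G) := instFiniteIrr
  letI := Fintype.ofFinite (IrrCharacter G)
  by_contra hne
  have hn0 : 0 < n := by omega
  have hm0 : 0 < m := by omega
  have hχ1 : χ.1 1 = m := by rw [← cast_irr χ, hχ]
  have hψ1 : ψ.1 1 = n := by rw [← cast_irr ψ, hψ]
  have hΦ : IsCharacter G (χ.1 * ψ.1) :=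
    isCharacter_mul (isCharacter_of_isIrr χ.2) (isCharacter_of_isIrr ψ.2)
  have hΦ1 : (χ.1 * ψ.1) 1 = ((m * n : ℕ) : ℂ) := by rw [Pi.mul_apply, hχ1, hψ1]; push_cast; ring
  -- twist by linear characters
  have htw : ∀ (η l : IrrCharacter G), charDegree l.1 = 1 →
      IsIrrCharacter G (l.1 * η.1) ∧ (l.1 * η.1) 1 = η.1 1 := by
    intro η l hl
    have hl1 : l.1 1 = 1 := by rw [← cast_irr l, hl, Nat.cast_one]
    exact ⟨isIrrCharacter_mul_linear (isCharacter_of_isIrr l.2) hl1 η.2, by
      rw [Pi.mul_apply, hl1, one_mul]⟩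
  obtain ⟨a, ha, hexp, x, y, hxy, hx, hy⟩ := decomp m n hcd hΦ (m * n) hΦ1 (by
    intro l hl
    rw [inner_mul_left]
    obtain ⟨h1, h2⟩ := htw ⟨_, isIrrCharacter_conj χ.2⟩ l hl
    have h3 : (fun g => conj (χ.1 g) * l.1 g) = l.1 * (fun g => conj (χ.1 g)) := by
      funext g; rw [Pi.mul_apply, mul_comm]
    rw [h3]
    apply inner_irr_ne ψ.2 h1
    intro h4
    have h5 := congrFun h4 1
    rw [h2, hψ1] at h5
    change (n : ℂ) = conj (χ.1 1) at h5
    rw [hχ1, Complex.conj_natCast] at h5
    have h6 : n = m := by exact_mod_cast h5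
    omega)
  have hx0 : 0 < x := by
    have h1 := hx χ' hχ'
    have h2 : a χ' ≠ 0 := by
      intro h
      apply hne
      rw [ha, h, Nat.cast_zero]
    omega
  have hy0 : y = 0 := by
    by_contra hy0
    have := numer hcop hm0 hn0 hxy (Dvd.intro n rfl) le_rfl (Nat.pos_of_ne_zero hy0)
    omega
  have hdegm : ∀ ζ : IrrCharacter G, a ζ ≠ 0 → charDegree ζ.1 = m := by
    intro ζ hζ
    rcases hcd ζ with h | h | h
    · exfalso
      obtain ⟨h1, h2⟩ := htw ⟨_, isIrrCharacter_conj χ.2⟩ ζ h
      have h3 : (fun g => conj (χ.1 g) * ζ.1 g) = ζ.1 * (fun g => conj (χ.1 g)) := by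
        funext g; rw [Pi.mul_apply, mul_comm]
      have h4 := ha ζ
      rw [inner_mul_left, h3, inner_irr_ne ψ.2 h1] at h4
      · apply hζ
        exact_mod_cast h4.symm
      · intro h4
        have h5 := congrFun h4 1
        rw [h2, hψ1] at h5
        change (n : ℂ) = conj (χ.1 1) at h5
        rw [hχ1, Complex.conj_natCast] at h5
        have h6 : n = m := by exact_mod_cast h5
        omega
    · exact h
    · have := hy (by omega) ζ h
      omega
  have hlin : ∀ ζ : IrrCharacter G, a ζ ≠ 0 → ∀ g ∈ M, ζ.1 g = χ.1 g := by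
    intro ζ hζ
    have hζm := hdegm ζ hζ
    have hζ1 : ζ.1 1 = m := by rw [← cast_irr ζ, hζm]
    have hex : ∃ l : IrrCharacter G, charDegree l.1 = 1 ∧ ζ.1 = l.1 * χ.1 := by
      by_contra hcon
      push Not at hcon
      have hΦ2 : IsCharacter G ((fun g => conj (χ.1 g)) * ζ.1) :=
        isCharacter_mul (isCharacter_conj (isCharacter_of_isIrr χ.2)) (isCharacter_of_isIrr ζ.2)
      obtain ⟨b, hb, -, x2, y2, hxy2, -, hy2⟩ := decomp m n hcd hΦ2 (m * m) (by
        rw [Pi.mul_apply, hζ1, hχ1, Complex.conj_natCast]; push_cast; ring) (by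
        intro l hl
        rw [inner_mul_left]
        obtain ⟨h1, h2⟩ := htw χ l hl
        have h3 : (fun g => conj (conj (χ.1 g)) * l.1 g) = l.1 * χ.1 := by
          funext g; rw [Pi.mul_apply, mul_comm, Complex.conj_conj]
        change classInner ζ.1 (fun g => conj ((fun g => conj (χ.1 g)) g) * l.1 g) = 0
        rw [h3]
        exact inner_irr_ne ζ.2 h1 (hcon l hl))
      have hbψ : b ψ ≠ 0 := by
        intro h0
        have h1 := hb ψ
        rw [h0, Nat.cast_zero, inner_mul_left] at h1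
        have h3 : (fun g => conj (conj (χ.1 g)) * ψ.1 g) = χ.1 * ψ.1 := by
          funext g; rw [Pi.mul_apply, Complex.conj_conj]
        change classInner ζ.1 (fun g => conj ((fun g => conj (χ.1 g)) g) * ψ.1 g) = 0 at h1
        rw [h3, ← H18.CharOrtho.inner_conj_symm, ha ζ, Complex.conj_natCast] at h1
        exact hζ (by exact_mod_cast h1)
      have h1 := hy2 (by omega) ψ hψ
      have h2 := numer hcop hm0 hn0 hxy2 (Dvd.intro m rfl)
        (Nat.mul_le_mul_left m hmn.le) (by omega)
      have h3 : m * m < m * n := Nat.mul_lt_mul_of_pos_left hmn hm0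
      omega
    obtain ⟨l, hl, hζl⟩ := hex
    intro g hg
    have hl1 : l.1 1 = 1 := by rw [← cast_irr l, hl, Nat.cast_one]
    rw [hζl, Pi.mul_apply, inKer_of_deg_one hl g (hMc hg), hl1, one_mul]
  have hval : ∀ g ∈ M, χ.1 g * ψ.1 g = n * χ.1 g := by
    have h1 : ∀ g ∈ M, χ.1 g * ψ.1 g = ((∑ ζ : IrrCharacter G, a ζ : ℕ) : ℂ) * χ.1 g := by
      intro g hg
      have h2 := hexp g
      rw [Pi.mul_apply] at h2
      rw [h2]
      push_cast
      rw [Finset.sum_mul]
      refine Finset.sum_congr rfl fun ζ _ => ?_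
      by_cases h0 : a ζ = 0
      · rw [h0, Nat.cast_zero, zero_mul, zero_mul]
      · rw [hlin ζ h0 g hg]
    have h2 := h1 1 M.one_mem
    rw [hχ1, hψ1] at h2
    have h3 : m * n = (∑ ζ : IrrCharacter G, a ζ) * m := by exact_mod_cast h2
    have h4 : n = ∑ ζ : IrrCharacter G, a ζ := by
      rw [mul_comm] at h3
      exact Nat.eq_of_mul_eq_mul_right hm0 h3
    intro g hg
    rw [h1 g hg, ← h4]
  have hK : M ⊓ kerSub ψ.1 (isCharacter_of_isIrr ψ.2) = ⊥ := by
    rcases hMin (M ⊓ kerSub ψ.1 (isCharacter_of_isIrr ψ.2)) inferInstance inf_le_left with h | h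
    · exact h
    · exfalso
      apply hψM
      intro g hg
      have h1 : g ∈ M ⊓ kerSub ψ.1 (isCharacter_of_isIrr ψ.2) := by rw [h]; exact hg
      exact h1.2
  have hvan : ∀ g ∈ M, g ≠ 1 → χ.1 g = 0 := by
    intro g hg hg1
    have h1 := hval g hg
    have h2 : χ.1 g * (ψ.1 g - n) = 0 := by rw [mul_sub, h1]; ring
    rcases mul_eq_zero.1 h2 with h | h
    · exact h
    · exfalso
      apply hg1
      have h3 : g ∈ M ⊓ kerSub ψ.1 (isCharacter_of_isIrr ψ.2) :=
        ⟨hg, show ψ.1 g = ψ.1 1 by rw [hψ1]; exact sub_eq_zero.1 h⟩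
      rw [hK] at h3
      exact Subgroup.mem_bot.1 h3
  letI := Fintype.ofFinite M
  have hov : Over M χ ⟨fun _ => 1, isIrrCharacter_one⟩ := by
    rw [over_iff]
    change classInner (fun x : M => χ.1 x) (fun _ => 1) ≠ 0
    have h1 : classInner (fun x : M => χ.1 x) (fun _ => 1) = (Nat.card M : ℂ)⁻¹ * m := by
      simp only [classInner, map_one, mul_one]
      congr 1
      rw [Finset.sum_eq_single (1 : M)]
      · exact hχ1
      · intro g _ hg
        exact hvan g g.2 (fun h => hg (Subtype.ext h))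
      · intro h; exact absurd (Finset.mem_univ _) h
    rw [h1]
    have h2 : (Nat.card M : ℂ) ≠ 0 := by exact_mod_cast Nat.card_pos.ne'
    have h3 : (m : ℂ) ≠ 0 := by exact_mod_cast hm0.ne'
    exact mul_ne_zero (inv_ne_zero h2) h3
  have hker := over_one M hov (fun _ => rfl)
  obtain ⟨g, hg1⟩ := Subgroup.ne_bot_iff_exists_ne_one.1 hMne
  have h1 := hker g g.2
  rw [hvan g g.2 (fun h => hg1 (Subtype.ext h)), hχ1] at h1
  have h2 : (m : ℂ) ≠ 0 := by exact_mod_cast hm0.ne'
  exact h2 h1.symm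

end claimA

section closure

variable {G : Type u} [Group G] [Fintype G]

theorem eq_one_of_trivial (M : Subgroup G) (θ : IrrCharacter M) (h : ∀ x, θ.1 x = θ.1 1) :
    θ.1 = fun _ => 1 := by
  have h1 : charDegree θ.1 = 1 := deg_eq_one_of_inKer (fun x _ => h x)
  have h2 : θ.1 1 = 1 := by rw [← cast_irr θ, h1, Nat.cast_one]
  funext x
  rw [h x, h2]

/-- expansion of the inner product of a product -/
theorem exists_pair {A : Type u} [Group A] [Fintype A] {α β θ : A → ℂ} (hα : IsCharacter A α)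
    (hβ : IsCharacter A β) (hθ : IsCharacter A θ) (h : classInner (α * β) θ ≠ 0) :
    ∃ φ : IrrCharacter A, classInner α φ.1 ≠ 0 ∧ classInner (φ.1 * β) θ ≠ 0 := by
  classical
  haveI : Finite (IrrCharacter A) := instFiniteIrr
  letI := Fintype.ofFinite (IrrCharacter A)
  by_contra hcon
  push Not at hcon
  apply h
  have h1 := mem_classFun_expand (isClassFunction_of_isCharacter hα)
  have h2 : α * β = ∑ φ : IrrCharacter A, classInner α φ.1 • (φ.1 * β) := by
    conv_lhs => rw [h1]
    rw [Finset.sum_mul]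
    exact Finset.sum_congr rfl fun φ _ => by rw [smul_mul_assoc]
  rw [h2, H18.CharOrtho.inner_sum_left]
  refine Finset.sum_eq_zero fun φ _ => ?_
  rw [H18.CharOrtho.inner_smul_left]
  by_cases h0 : classInner α φ.1 = 0
  · rw [h0, zero_mul]
  · rw [hcon φ h0, mul_zero]

/-- monotonicity: `φ ≤ α` and `θ` in `φ β` implies `θ` in `α β` -/
theorem inner_mul_mono {A : Type u} [Group A] [Fintype A] {α β θ φ : A → ℂ} (hα : IsCharacter A α)
    (hφ : IsIrrCharacter A φ) (hβ : IsCharacter A β) (hθ : IsCharacter A θ)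
    (h1 : classInner α φ ≠ 0) (h2 : classInner (φ * β) θ ≠ 0) : classInner (α * β) θ ≠ 0 := by
  have h3 := H77.SubChar.sub_isCharacter hα hφ h1
  have h4 : α * β = φ * β + (α - φ) * β := by ring
  rw [h4]
  exact H18.Primitive.inner_add_ne_zero_left (isCharacter_mul (isCharacter_of_isIrr hφ) hβ)
    (isCharacter_mul h3 hβ) hθ h2

theorem closure {m n : ℕ} (hcop : m.Coprime n) (hm1 : 1 < m) (hmn : m < n)
    (hcd : ∀ χ : IrrCharacter G, charDegree χ.1 = 1 ∨ charDegree χ.1 = m ∨ charDegree χ.1 = n)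
    (M : Subgroup G) [hMn : M.Normal]
    (hMin : ∀ K : Subgroup G, K.Normal → K ≤ M → K = ⊥ ∨ K = M) (hMne : M ≠ ⊥)
    (hMc : M ≤ commutator G)
    (φ θ : IrrCharacter M) (χ χ' : IrrCharacter G) (hχ : charDegree χ.1 = m)
    (hχ' : charDegree χ'.1 = m) (hov : Over M χ' φ) [Fintype M]
    (hθ : classInner (φ.1 * (fun x : M => χ.1 x)) θ.1 ≠ 0) :
    θ.1 = (fun _ => 1) ∨ ∃ χ : IrrCharacter G, charDegree χ.1 = m ∧ Over M χ θ := by
  classical
  have h1 : classInner ((fun x : M => χ'.1 x) * (fun x : M => χ.1 x)) θ.1 ≠ 0 :=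
    inner_mul_mono (isCharacter_restrict M (isCharacter_of_isIrr χ'.2)) φ.2
      (isCharacter_restrict M (isCharacter_of_isIrr χ.2)) (isCharacter_of_isIrr θ.2)
      ((over_iff M _ _).1 hov) hθ
  have hp : IsCharacter G (χ'.1 * χ.1) :=
    isCharacter_mul (isCharacter_of_isIrr χ'.2) (isCharacter_of_isIrr χ.2)
  obtain ⟨ζ, hζ, h2, h3⟩ := H77.SubChar.exists_between (MonoidHom.id G) M.subtype hp
    (isCharacter_of_isIrr θ.2) (by exact h1)
  have hov2 : Over M ⟨ζ, hζ⟩ θ := (over_iff M _ _).2 h3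
  have htriv : InKer M ζ → θ.1 = fun _ => 1 := by
    intro hk
    apply eq_one_of_trivial
    intro x
    exact over_ker M hov2 x (hk x x.2)
  rcases hcd ⟨ζ, hζ⟩ with h | h | h
  · left
    exact htriv (fun x hx => inKer_of_deg_one h x (hMc hx))
  · right
    exact ⟨⟨ζ, hζ⟩, h, hov2⟩
  · left
    by_contra hcon
    have hk : ¬ InKer M ζ := fun hk => hcon (htriv hk)
    have h4 := claimA hcop hm1 hmn hcd M hMin hMne hMc ⟨_, isIrrCharacter_conj χ.2⟩ χ' ⟨ζ, hζ⟩
      (by
        change charDegree (fun g => conj (χ.1 g)) = m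
        apply charDegree_eq_of
        rw [← cast_irr χ, hχ, Complex.conj_natCast]) hχ' h hk
    apply h2
    change classInner (χ'.1 * χ.1) ζ = 0
    rw [mul_comm, inner_mul_left, ← H18.CharOrtho.inner_conj_symm]
    have h5 : (fun g => conj (χ.1 g) * ζ g) = (fun g => conj (χ.1 g)) * ζ := rfl
    rw [h5, h4, map_zero]

/-- all characters of `G` with `M` not in the kernel have the same degree -/
theorem same_degree {m n : ℕ} (hcop : m.Coprime n) (hm1 : 1 < m) (hmn : m < n)
    (hcd : ∀ χ : IrrCharacter G, charDegree χ.1 = 1 ∨ charDegree χ.1 = m ∨ charDegree χ.1 = n)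
    (M : Subgroup G) [hMn : M.Normal]
    (hMin : ∀ K : Subgroup G, K.Normal → K ≤ M → K = ⊥ ∨ K = M) (hMne : M ≠ ⊥)
    (hMc : M ≤ commutator G) (hMM : commutator M = ⊤) :
    ∃ f : ℕ, ∀ χ : IrrCharacter G, ¬ InKer M χ.1 → charDegree χ.1 = f := by
  classical
  haveI : Finite (IrrCharacter G) := instFiniteIrr
  letI := Fintype.ofFinite (IrrCharacter G)
  letI := Fintype.ofFinite M
  have hlin : ∀ χ : IrrCharacter G, charDegree χ.1 = 1 → InKer M χ.1 := fun χ h x hx =>
    inKer_of_deg_one h x (hMc hx)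
  let A : G → ℂ := ∑ χ : IrrCharacter G with charDegree χ.1 = m, χ.1
  have hA : IsCharacter G A := isCharacter_sum _ _ (fun χ _ => isCharacter_of_isIrr χ.2)
  have hAi : ∀ χ : IrrCharacter G, charDegree χ.1 = m → classInner A χ.1 ≠ 0 := by
    intro χ hχ
    have h1 : classInner A χ.1 = 1 := by
      rw [H18.CharOrtho.inner_sum_left, Finset.sum_eq_single χ]
      · exact inner_irr_self χ.2
      · intro ψ _ hne
        exact inner_irr_ne ψ.2 χ.2 (fun h => hne (Subtype.ext h))
      · intro h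
        exact absurd (Finset.mem_filter.2 ⟨Finset.mem_univ χ, hχ⟩) h
    rw [h1]; exact one_ne_zero
  rcases hMin (M ⊓ kerSub A hA) inferInstance inf_le_left with hK | hK
  swap
  · refine ⟨n, fun χ hχ => ?_⟩
    rcases hcd χ with h | h | h
    · exact absurd (hlin χ h) hχ
    · exfalso
      apply hχ
      intro x hx
      have h1 : x ∈ M ⊓ kerSub A hA := by rw [hK]; exact hx
      exact H79.PPrime.ker_constituent hA χ.2 (hAi χ h) h1.2
    · exact h
  · refine ⟨m, fun χ hχ => ?_⟩
    rcases hcd χ with h | h | h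
    · exact absurd (hlin χ h) hχ
    · exact h
    · exfalso
      -- every character of `M` is trivial or under `Irr_m`
      have hα : IsCharacter M (fun x : M => A x) := isCharacter_restrict M hA
      obtain ⟨d, ρ, hρ⟩ := hα
      have hρinj : Function.Injective ρ := by
        rw [injective_iff_map_eq_one]
        intro x hx
        have h1 : ρ.character x = ρ.character 1 := (rep_eq_one_iff ρ x).2 hx
        rw [hρ] at h1
        have h2 : (x : G) ∈ M ⊓ kerSub A hA := ⟨x.2, h1⟩
        rw [hK] at h2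
        exact Subtype.ext (Subgroup.mem_bot.1 h2)
      have hpow : ∀ i : ℕ, ∀ θ : IrrCharacter M, classInner ((fun x : M => A x) ^ i) θ.1 ≠ 0 →
          θ.1 = (fun _ => 1) ∨ ∃ χ : IrrCharacter G, charDegree χ.1 = m ∧ Over M χ θ := by
        intro i
        induction i with
        | zero =>
          intro θ hθ
          left
          by_contra hne
          apply hθ
          rw [pow_zero]
          exact inner_irr_ne isIrrCharacter_one θ.2 (fun h => hne h.symm)
        | succ i ih =>
          intro θ hθ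
          rw [pow_succ] at hθ
          have hA' : IsCharacter M (fun x : M => A x) := isCharacter_restrict M hA
          obtain ⟨φ, hφ1, hφ2⟩ := exists_pair (isCharacter_pow hA' i) hA' (isCharacter_of_isIrr θ.2) hθ
          -- pick the constituent of the second factor
          have h5 : ∃ χ : IrrCharacter G, charDegree χ.1 = m ∧
              classInner (φ.1 * (fun x : M => χ.1 x)) θ.1 ≠ 0 := by
            by_contra hcon
            push Not at hcon
            apply hφ2
            have h6 : φ.1 * (fun x : M => A x) =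
                ∑ χ : IrrCharacter G with charDegree χ.1 = m, φ.1 * (fun x : M => χ.1 x) := by
              funext x
              simp only [Pi.mul_apply, Finset.sum_apply, A, Finset.mul_sum]
            rw [h6, H18.CharOrtho.inner_sum_left]
            exact Finset.sum_eq_zero fun χ hχ => hcon χ (Finset.mem_filter.1 hχ).2
          obtain ⟨χ1, hχ1, h6⟩ := h5
          rcases ih φ hφ1 with h7 | ⟨χ2, hχ2, hov⟩
          · right
            refine ⟨χ1, hχ1, (over_iff M _ _).2 ?_⟩
            rw [h7] at h6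
            have h8 : ((fun _ => 1 : M → ℂ) * fun x : M => χ1.1 x) = fun x : M => χ1.1 x := by
              funext x; rw [Pi.mul_apply, one_mul]
            rwa [h8] at h6
          · exact closure hcop hm1 hmn hcd M hMin hMne hMc φ θ χ1 χ2 hχ1 hχ2 hov h6
      obtain ⟨θ, hθ⟩ := over_exists M χ
      have hθ1 : θ.1 ≠ fun _ => 1 := by
        intro h1
        exact hχ (over_one M hθ (fun x => congrFun h1 x))
      obtain ⟨i, -, hi⟩ := H4.Commutator.burnside_brauer ρ hρinj θ.1 θ.2
      have hi' : classInner ((fun x : M => A x) ^ i) θ.1 ≠ 0 := by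
        rw [hρ] at hi
        exact hi
      rcases hpow i θ hi' with h1 | ⟨χ', hχ', hov⟩
      · exact hθ1 h1
      · have h1 := (over_dvd M hov).1
        have h2 := (over_dvd M hθ).1
        rw [hχ'] at h1
        rw [h] at h2
        have h3 : charDegree θ.1 = 1 := Nat.eq_one_of_dvd_coprimes hcop h1 h2
        apply hθ1
        apply eq_one_of_trivial
        intro x
        exact inKer_of_deg_one h3 x (by rw [hMM]; exact Subgroup.mem_top x)

end closure

end H77.ThreeB
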