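import Cfsg.Agent.Lib.H77.ThreeB

/-!
# Groups with three character degrees are solvable, main (H77.ThreeC)
-/

set_option autoImplicit false
set_option linter.style.haveILetI false
set_option linter.unusedSectionVars false
set_option maxHeartbeats 400000
open Cfsg
open scoped ComplexConjugate

namespace H77.ThreeC

open H18.CharBasic H18.CharOrtho H18.CharInd H18.CharQuot H77.PQuot H31.Clifford H77.ThreeA H77.ThreeB

universe u

variable {G : Type u} [Group G] [Finite G]

theorem deg_dvd_card (χ : IrrCharacter G) : charDegree χ.1 ∣ Nat.card G := by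
  letI := Fintype.ofFinite G
  exact H77.Degree.degree_dvd_card χ.2 (cast_irr χ).symm

/-- degrees of characters of a normal `p`-complement -/
theorem deg_compl {p : ℕ} (hp : p.Prime) (N : Subgroup G) [N.Normal] (hN : (Nat.card N).Coprime p)
    {k : ℕ} (hk : N.index = p ^ k) {χ : IrrCharacter G} {θ : IrrCharacter N} (h : Over N χ θ) :
    charDegree θ.1 = ordCompl[p] (charDegree χ.1) := by
  obtain ⟨⟨t, ht⟩, h2⟩ := over_dvd N h
  have h0 := deg_pos θ
  rw [ht, Nat.mul_div_cancel_left _ h0, hk, Nat.dvd_prime_pow hp] at h2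
  obtain ⟨j, -, hj⟩ := h2
  have h3 : ¬ p ∣ charDegree θ.1 := by
    intro h
    have h4 := h.trans (deg_dvd_card θ)
    have h5 : p ∣ Nat.gcd (Nat.card N) p := Nat.dvd_gcd h4 dvd_rfl
    rw [hN] at h5
    exact hp.one_lt.ne' (Nat.dvd_one.1 h5)
  rw [ht, hj, mul_comm, Nat.ordCompl_pow_mul_of_not_dvd j hp h3]

theorem solvable_of_two (a : ℕ) (h : ∀ χ : IrrCharacter G, charDegree χ.1 = 1 ∨ charDegree χ.1 = a) :
    Group.IsSolvable G := ⟨⟨2, two_deg' a h⟩⟩

theorem solvable_ext (N : Subgroup G) [N.Normal] (h1 : Group.IsSolvable N)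
    (h2 : Group.IsSolvable (G ⧸ N)) : Group.IsSolvable G := by
  apply Group.isSolvable_of_ker_le_range N.subtype (QuotientGroup.mk' N)
  rw [QuotientGroup.ker_mk', Subgroup.range_subtype]

theorem core {m n : ℕ} (hm1 : 1 < m) (hmn : m < n)
    (ih : ∀ (H : Type u) [Group H] [Finite H], Nat.card H < Nat.card G → ∀ a b : ℕ,
      (∀ χ : IrrCharacter H, charDegree χ.1 = 1 ∨ charDegree χ.1 = a ∨ charDegree χ.1 = b) →
        Group.IsSolvable H)
    (hcd : ∀ χ : IrrCharacter G, charDegree χ.1 = 1 ∨ charDegree χ.1 = m ∨ charDegree χ.1 = n)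
    (hm : ∃ χ : IrrCharacter G, charDegree χ.1 = m) : Group.IsSolvable G := by
  classical
  letI := Fintype.ofFinite G
  by_cases hcop : m.Coprime n
  swap
  · -- a common prime divisor
    obtain ⟨p, hp, hpm, hpn⟩ := Nat.Prime.not_coprime_iff_dvd.1 hcop
    haveI := Fact.mk hp
    obtain ⟨N, hNn, hNc, k, hk⟩ := Cfsg.Agent.S4456.result (G := G) p hp (by
      intro χ hχ
      rcases hcd χ with h | h | h
      · exact absurd h hχ
      · rw [h]; exact hpm
      · rw [h]; exact hpn)
    have h1 : Nat.card N < Nat.card G := by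
      refine lt_of_le_of_ne (Subgroup.card_le_card_group N) (fun h => ?_)
      obtain ⟨χ, hχ⟩ := hm
      have h2 := deg_dvd_card χ
      rw [hχ, ← h] at h2
      have h5 : p ∣ Nat.gcd (Nat.card N) p := Nat.dvd_gcd (hpm.trans h2) dvd_rfl
      rw [hNc] at h5
      exact hp.one_lt.ne' (Nat.dvd_one.1 h5)
    have h2 : Group.IsSolvable N := ih N h1 (ordCompl[p] m) (ordCompl[p] n) (by
      intro θ
      obtain ⟨χ, hχ⟩ := over_up N θ
      rw [deg_compl hp N hNc hk hχ]
      rcases hcd χ with h | h | h
      · left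
        rw [h]
        have := Nat.ordCompl_self_pow (k := 0) hp
        rwa [pow_zero] at this
      · right; left; rw [h]
      · right; right; rw [h])
    have h3 : Group.IsSolvable (G ⧸ N) := by
      have h4 : IsPGroup p (G ⧸ N) := IsPGroup.of_card hk
      haveI := h4.isNilpotent
      infer_instance
    exact solvable_ext N h2 h3
  · by_contra hns
    haveI hnt : Nontrivial G := by
      rw [← not_subsingleton_iff_nontrivial]
      intro hs
      exact hns inferInstance
    have hfin : Set.Finite {K : Subgroup G | K.Normal ∧ K ≠ ⊥} := Set.toFinite _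
    obtain ⟨M, hM⟩ := hfin.exists_minimal ⟨⊤, inferInstance, top_ne_bot⟩
    obtain ⟨hMn, hMne⟩ := hM.prop
    have hMin : ∀ K : Subgroup G, K.Normal → K ≤ M → K = ⊥ ∨ K = M := by
      intro K hK hKM
      by_cases h : K = ⊥
      · exact Or.inl h
      · exact Or.inr (le_antisymm hKM (hM.le_of_le ⟨hK, h⟩ hKM))
    have hcardq : Nat.card (G ⧸ M) < Nat.card G := by
      have h1 := Subgroup.card_mul_index M
      have h2 : 1 < Nat.card M := by
        haveI : Nontrivial M := (Subgroup.nontrivial_iff_ne_bot M).mpr hMne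
        exact Finite.one_lt_card
      have h3 : Nat.card (G ⧸ M) = M.index := rfl
      have h4 : 0 < M.index := Nat.pos_of_ne_zero Subgroup.index_ne_zero_of_finite
      rw [h3, ← h1]; nlinarith
    have hq : Group.IsSolvable (G ⧸ M) := ih (G ⧸ M) hcardq m n
      (cd_quot M (P := fun d => d = 1 ∨ d = m ∨ d = n) (fun χ _ => hcd χ))
    have hMns : ¬ Group.IsSolvable M := fun h => hns (solvable_ext M h hq)
    have hMM : commutator M = ⊤ := by
      rcases hMin ⁅M, M⁆ inferInstance (Subgroup.commutator_le_left M M) with h | h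
      · exfalso
        apply hMns
        apply Group.isSolvable_of_comm
        intro a b
        rw [Subgroup.commutator_eq_bot_iff_le_centralizer] at h
        exact Subtype.ext (Subgroup.mem_centralizer_iff.1 (h b.2) a a.2)
      · apply Subgroup.map_injective M.subtype_injective
        rw [commutator_def, Subgroup.map_commutator, ← MonoidHom.range_eq_map,
          Subgroup.range_subtype]
        exact h
    have hMMG : ⁅M, M⁆ = M := by
      have h1 : (commutator M).map M.subtype = ⁅M, M⁆ := by
        rw [commutator_def, Subgroup.map_commutator, ← MonoidHom.range_eq_map,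
          Subgroup.range_subtype]
      rw [← h1, hMM, ← MonoidHom.range_eq_map, Subgroup.range_subtype]
    have hMc : M ≤ commutator G := by
      rw [← hMMG, commutator_def]
      exact Subgroup.commutator_mono le_top le_top
    obtain ⟨f, hf⟩ := same_degree hcop hm1 hmn hcd M hMin hMne hMc hMM
    obtain ⟨χ, hχ⟩ := exists_not_inKer M hMne
    obtain ⟨θ, hθ⟩ := over_exists M χ
    have hθ1 : charDegree θ.1 ≠ 1 := by
      intro h1
      apply hχ
      rw [← hMMG]
      exact over_linear M hθ h1
    obtain ⟨p, hp, hpd⟩ := Nat.exists_prime_and_dvd hθ1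
    haveI := Fact.mk hp
    have hpf : p ∣ f := by
      rw [← hf χ hχ]
      exact hpd.trans (over_dvd M hθ).1
    obtain ⟨N, hNn, hNM, hNc, k, hk⟩ := thompson M hp (fun ψ hψ => by
      rw [hMMG] at hψ
      rw [hf ψ hψ]; exact hpf)
    rcases hMin N hNn hNM with h | h
    · rw [h, Subgroup.relIndex_bot_left] at hk
      apply hMns
      have h4 : IsPGroup p M := IsPGroup.of_card hk
      haveI := h4.isNilpotent
      infer_instance
    · rw [h] at hNc
      have h4 := hpd.trans (deg_dvd_card θ)
      have h5 : p ∣ Nat.gcd (Nat.card M) p := Nat.dvd_gcd h4 dvd_rfl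
      rw [hNc] at h5
      exact hp.one_lt.ne' (Nat.dvd_one.1 h5)

theorem solvable (k : ℕ) : ∀ (G : Type u) [Group G] [Finite G], Nat.card G = k → ∀ a b : ℕ,
    (∀ χ : IrrCharacter G, charDegree χ.1 = 1 ∨ charDegree χ.1 = a ∨ charDegree χ.1 = b) →
      Group.IsSolvable G := by
  induction k using Nat.strong_induction_on with
  | _ k ih =>
  intro G _ _ hk a b hcd
  have ih' : ∀ (H : Type u) [Group H] [Finite H], Nat.card H < Nat.card G → ∀ a b : ℕ,
      (∀ χ : IrrCharacter H, charDegree χ.1 = 1 ∨ charDegree χ.1 = a ∨ charDegree χ.1 = b) →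
        Group.IsSolvable H := by
    intro H _ _ hH
    exact ih (Nat.card H) (hk ▸ hH) H rfl
  by_cases h1 : ∀ χ : IrrCharacter G, charDegree χ.1 = 1 ∨ charDegree χ.1 = a
  · exact solvable_of_two a h1
  by_cases h2 : ∀ χ : IrrCharacter G, charDegree χ.1 = 1 ∨ charDegree χ.1 = b
  · exact solvable_of_two b h2
  push Not at h1 h2
  obtain ⟨χ, hχ1, hχa⟩ := h1
  obtain ⟨ψ, hψ1, hψb⟩ := h2
  have hχb : charDegree χ.1 = b := by
    rcases hcd χ with h | h | h
    · exact absurd h hχ1
    · exact absurd h hχa
    · exact h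
  have hψa : charDegree ψ.1 = a := by
    rcases hcd ψ with h | h | h
    · exact absurd h hψ1
    · exact h
    · exact absurd h hψb
  have hb := deg_pos χ
  have ha := deg_pos ψ
  rcases lt_trichotomy a b with h | h | h
  · exact core (by omega) h ih' hcd ⟨ψ, hψa⟩
  · exact absurd (hχb.trans h.symm) hχa
  · exact core (by omega) h ih' (fun χ => by
      rcases hcd χ with h | h | h
      · exact Or.inl h
      · exact Or.inr (Or.inr h)
      · exact Or.inr (Or.inl h)) ⟨χ, hχb⟩

end H77.ThreeC
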