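import Cfsg.Agent.Lib.H77.ThreeC
import Cfsg.Agent.Lib.H4.Monomial

/-!
# Groups with three character degrees: M-groups, the nonabelian p-quotient case (H77.ThreeD)
-/

set_option autoImplicit false
set_option linter.style.haveILetI false
set_option linter.unusedSectionVars false
set_option maxHeartbeats 400000
open Cfsg
open scoped ComplexConjugate

namespace H77.ThreeD

open H18.CharBasic H18.CharOrtho H18.CharInd H18.CharQuot H77.PQuot H31.Clifford H77.ThreeA H77.ThreeB
open H77.ThreeC H77.NilLen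

universe u

/-- abelian-by-nilpotent -/
def AbNil (G : Type u) [Group G] : Prop :=
  ∃ A : Subgroup G, A.Normal ∧ (∀ a ∈ A, ∀ b ∈ A, a * b = b * a) ∧
    ∃ n, (⊤ : Subgroup G).lowerCentralSeries n ≤ A

theorem abNil_sub (G : Type u) [Group G] (H : Subgroup G) (h : AbNil G) : AbNil H := by
  obtain ⟨A, hA, hab, n, hn⟩ := h
  refine ⟨A.subgroupOf H, hA.subgroupOf H, ?_, n, ?_⟩
  · intro a ha b hb
    exact Subtype.ext (hab a ha b hb)
  · change _ ≤ A.comap H.subtype
    rw [← Subgroup.map_le_iff_le_comap, Subgroup.top_subtype_lowerCentralSeries]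
    exact (Subgroup.lowerCentralSeries_mono n le_top).trans hn

theorem abNil_quot (G : Type u) [Group G] (N : Subgroup G) [N.Normal] (h : AbNil G) :
    AbNil (G ⧸ N) := by
  obtain ⟨A, hA, hab, n, hn⟩ := h
  refine ⟨A.map (QuotientGroup.mk' N), hA.map _ (QuotientGroup.mk'_surjective N), ?_, n, ?_⟩
  · rintro _ ⟨a, ha, rfl⟩ _ ⟨b, hb, rfl⟩
    rw [← map_mul, ← map_mul, hab a ha b hb]
  · rw [← Subgroup.map_top_of_surjective (QuotientGroup.mk' N) (QuotientGroup.mk'_surjective N),
      ← Subgroup.map_lowerCentralSeries]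
    exact Subgroup.map_mono hn

theorem abNil_alt (G : Type u) [Group G] [Finite G] (h : AbNil G) : (∀ a b : G, a * b = b * a) ∨
      ∃ A : Subgroup G, A.Normal ∧ (∀ a ∈ A, ∀ b ∈ A, a * b = b * a) ∧
        ¬ A ≤ Subgroup.center G := by
  obtain ⟨A, hA, hab, n, hn⟩ := h
  by_cases hc : A ≤ Subgroup.center G
  · have h1 := Subgroup.lowerCentralSeries_succ_eq_bot ⊤ (hn.trans hc)
    have h2 : Group.IsNilpotent G := Subgroup.nilpotent_iff_lowerCentralSeries.2 ⟨_, h1⟩
    exact H4.Monomial.exists_noncentral_of_nilpotent G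
  · exact Or.inr ⟨A, hA, hab, hc⟩

variable {G : Type u} [Group G] [Finite G]

theorem mgroup (A : Subgroup G) [hA : A.Normal] (hab : ∀ a ∈ A, ∀ b ∈ A, a * b = b * a)
    (hn : Group.IsNilpotent (G ⧸ A)) [Fintype G] : H77.Taketa.MGroup G := by
  have h : AbNil G := by
    obtain ⟨n, hn⟩ := Subgroup.nilpotent_iff_lowerCentralSeries.1 hn
    refine ⟨A, hA, hab, n, ?_⟩
    rw [← Subgroup.map_top_of_surjective (QuotientGroup.mk' A) (QuotientGroup.mk'_surjective A),
      ← Subgroup.map_lowerCentralSeries, ← le_bot_iff, Subgroup.map_le_iff_le_comap,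
      MonoidHom.comap_bot, QuotientGroup.ker_mk'] at hn
    exact hn
  intro χ hχ
  exact H4.Monomial.isMon_of_class (fun G _ => AbNil G) (fun G _ H h => abNil_sub G H h)
    (fun G _ N _ h => abNil_quot G N h) (fun G _ _ h => abNil_alt G h) (Nat.card G) G rfl h χ hχ

theorem caseI {m n p : ℕ} (hp : p.Prime)
    (hcd : ∀ χ : IrrCharacter G, charDegree χ.1 = 1 ∨ charDegree χ.1 = m ∨ charDegree χ.1 = n)
    (K : Subgroup G) [hK : K.Normal] (hpG : IsPGroup p (G ⧸ K)) (hKc : ¬ commutator G ≤ K) :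
    derivedSeries G 3 = ⊥ := by
  classical
  haveI := Fact.mk hp
  letI := Fintype.ofFinite G
  -- a nonlinear character of `p`-power degree with `K` in the kernel
  obtain ⟨χ1, hχ1K, a, ha0, hχ1⟩ : ∃ χ : IrrCharacter G, InKer K χ.1 ∧ ∃ a : ℕ, a ≠ 0 ∧
      charDegree χ.1 = p ^ a := by
    have h1 : ∃ χ : IrrCharacter (G ⧸ K), charDegree χ.1 ≠ 1 := by
      by_contra hcon
      push Not at hcon
      apply hKc
      have h2 := H77.TwoDeg.comm_of_linear' hcon
      rw [commutator_def, Subgroup.commutator_le]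
      intro a _ b _
      rw [← QuotientGroup.eq_one_iff, commutatorElement_def, QuotientGroup.mk_mul, QuotientGroup.mk_mul,
        QuotientGroup.mk_mul, h2 (a : G ⧸ K) b, QuotientGroup.mk_inv, QuotientGroup.mk_inv]
      group
    obtain ⟨χ, hχ⟩ := h1
    obtain ⟨j, hj⟩ := (IsPGroup.iff_card (p := p)).1 hpG
    have h2 := deg_dvd_card χ
    rw [hj, Nat.dvd_prime_pow hp] at h2
    obtain ⟨a, -, ha⟩ := h2
    obtain ⟨ψ, hψ1, hψ2⟩ := H77.TwoDeg.infl_degree K χ
    refine ⟨ψ, ?_, a, ?_, hψ1.trans ha⟩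
    · intro x hx
      rw [hψ2, hψ2, (QuotientGroup.eq_one_iff x).2 hx, QuotientGroup.mk_one]
    · rintro rfl
      exact hχ (by rw [ha, pow_zero])
  have hres : pResidual p G ≤ K := H2.Residual.residual_le_of_isPGroup_quotient K hpG
  have hp1 : 1 < p ^ a := Nat.one_lt_pow ha0 hp.one_lt
  have hdeg : ∀ ψ : IrrCharacter G, charDegree ψ.1 ≠ 1 → p ∣ charDegree ψ.1 := by
    intro ψ hψ
    by_contra hnd
    have h1 := restrict_irr hres ψ hnd
    have h2 := H83.Gallagher.isIrr_mul ψ.2 K h1 χ1.2 (fun n hn => hχ1K n hn)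
    have h3 : charDegree (fun g => χ1.1 g * ψ.1 g) = p ^ a * charDegree ψ.1 := by
      apply charDegree_eq_of
      rw [← cast_irr χ1, ← cast_irr ψ, hχ1]; push_cast; ring
    have h4 := hcd ⟨_, h2⟩
    have h4' : p ^ a * charDegree ψ.1 = 1 ∨ p ^ a * charDegree ψ.1 = m ∨
      p ^ a * charDegree ψ.1 = n := by rw [← h3]; exact h4
    have h5 := hcd χ1
    rw [hχ1] at h5
    have h6 := hcd ψ
    have h7 : charDegree ψ.1 ≠ p ^ a := fun h => hnd (h ▸ dvd_pow_self p ha0)
    have h8 : 0 < charDegree ψ.1 := deg_pos ψ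
    have h9 : p ^ a < p ^ a * charDegree ψ.1 := by
      have : 1 < charDegree ψ.1 := by omega
      nlinarith
    have h10 : charDegree ψ.1 < p ^ a * charDegree ψ.1 := by nlinarith
    omega
  obtain ⟨M, hMn, hMc, k, hk⟩ := Cfsg.Agent.S4456.result p hp hdeg
  -- the other degree
  obtain ⟨h, hcd'⟩ : ∃ h : ℕ, ∀ χ : IrrCharacter G, charDegree χ.1 = 1 ∨ charDegree χ.1 = p ^ a ∨
      charDegree χ.1 = h := by
    have h5 := hcd χ1
    rw [hχ1] at h5
    rcases h5 with h5 | h5 | h5
    · omega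
    · exact ⟨n, fun χ => by rw [h5]; exact hcd χ⟩
    · refine ⟨m, fun χ => ?_⟩
      rw [h5]
      rcases hcd χ with h | h | h
      · exact Or.inl h
      · exact Or.inr (Or.inr h)
      · exact Or.inr (Or.inl h)
  have hone : ordCompl[p] 1 = 1 := by
    have := Nat.ordCompl_self_pow (k := 0) hp
    rwa [pow_zero] at this
  have hcdM : ∀ θ : IrrCharacter M, charDegree θ.1 = 1 ∨ charDegree θ.1 = ordCompl[p] h := by
    intro θ
    obtain ⟨χ, hχ⟩ := over_up M θ
    rw [deg_compl hp M hMc hk hχ]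
    rcases hcd' χ with h | h | h
    · left; rw [h, hone]
    · left; rw [h, Nat.ordCompl_self_pow hp]
    · right; rw [h]
  by_cases hg : ordCompl[p] h = 1
  · -- `M` is abelian
    have hlin : ∀ θ : IrrCharacter M, charDegree θ.1 = 1 := by
      intro θ
      rcases hcdM θ with h1 | h1
      · exact h1
      · rw [h1, hg]
    have hab := H77.TwoDeg.comm_of_linear' hlin
    have hnil : Group.IsNilpotent (G ⧸ M) := by
      have h4 : IsPGroup p (G ⧸ M) := IsPGroup.of_card hk
      exact h4.isNilpotent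
    have h1 := H77.Taketa.taketa (mgroup M (fun a ha b hb =>
      congrArg Subtype.val (hab ⟨a, ha⟩ ⟨b, hb⟩)) hnil)
    rw [eq_bot_iff, ← h1]
    apply derivedSeries_antitone G
    have h2 : cdSet G ⊆ ({1, m, n} : Set ℕ) := by
      rintro d ⟨χ, rfl⟩
      rcases hcd χ with h | h | h
      · rw [h]; simp
      · rw [h]; simp
      · rw [h]; simp
    refine (Set.ncard_le_ncard h2 (Set.toFinite _)).trans ?_
    have h3 := Set.ncard_insert_le 1 ({m, n} : Set ℕ)
    have h4 := Set.ncard_insert_le m ({n} : Set ℕ)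
    rw [Set.ncard_singleton] at h4
    omega
  · have h1 : derivedSeries (G ⧸ ⁅M, M⁆) 2 = ⊥ := by
      refine two_deg' (p ^ a) (cd_quot ⁅M, M⁆ (P := fun d => d = 1 ∨ d = p ^ a) (fun χ hχ => ?_))
      obtain ⟨θ, hθ⟩ := over_exists M χ
      have h2 := over_linear' M hθ hχ
      have h3 := (over_dvd M hθ).2
      rw [h2, Nat.div_one, hk, Nat.dvd_prime_pow hp] at h3
      obtain ⟨j, -, hj⟩ := h3
      rcases hcd' χ with h4 | h4 | h4
      · exact Or.inl h4
      · exact Or.inr h4
      · exfalso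
        apply hg
        rw [← h4, hj, Nat.ordCompl_self_pow hp]
    have h2 := derived_of_quot h1
    have h3 : derivedSeries M 2 = ⊥ := two_deg' _ hcdM
    have h4 : ⁅M, M⁆ = (derivedSeries M 1).map M.subtype := by
      rw [derivedSeries_one, commutator_def, Subgroup.map_commutator, ← MonoidHom.range_eq_map,
        Subgroup.range_subtype]
    rw [eq_bot_iff, derivedSeries_succ]
    refine (Subgroup.commutator_mono h2 h2).trans ?_
    rw [h4, ← Subgroup.map_commutator, ← derivedSeries_succ, h3, Subgroup.map_bot]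

end H77.ThreeD
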