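import Cfsg.Agent.Lib.H77.ThreeD

/-!
# Groups with three character degrees: structure when the derived subgroup is the unique minimal
normal subgroup (H77.ThreeE)
-/

set_option autoImplicit false
set_option linter.style.haveILetI false
set_option linter.unusedSectionVars false
set_option maxHeartbeats 400000
open Cfsg
open scoped ComplexConjugate

namespace H77.ThreeE

open H18.CharBasic H18.CharOrtho H18.CharInd H18.CharQuot H77.PQuot H31.Clifford H77.ThreeA H77.ThreeB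
open H77.ThreeC H77.NilLen H77.TwoDeg H77.GlPerm

universe u

variable {G : Type u} [Group G] [Finite G]

/-- a nontrivial abelian normal subgroup contained in all nontrivial normal subgroups is a
`q`-group -/
theorem exists_prime_of_min (V : Subgroup G) [hV : V.Normal] (hne : V ≠ ⊥)
    (hab : ∀ a ∈ V, ∀ b ∈ V, a * b = b * a)
    (hmin : ∀ N : Subgroup G, N.Normal → N ≠ ⊥ → V ≤ N) : ∃ q : ℕ, q.Prime ∧ IsPGroup q V := by
  have h1 : Nat.card V ≠ 1 := fun h => hne (Subgroup.card_eq_one.1 h)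
  obtain ⟨q, hq, hqd⟩ := Nat.exists_prime_and_dvd h1
  haveI := Fact.mk hq
  refine ⟨q, hq, ?_⟩
  let R : Subgroup G :=
    { carrier := {x | x ∈ V ∧ ∃ k : ℕ, x ^ q ^ k = 1}
      one_mem' := ⟨V.one_mem, 0, one_pow _⟩
      mul_mem' := by
        rintro x y ⟨hx, k, hk⟩ ⟨hy, j, hj⟩
        refine ⟨V.mul_mem hx hy, k + j, ?_⟩
        rw [(show Commute x y from hab x hx y hy).mul_pow, pow_add, pow_mul, hk, one_pow, one_mul,
          mul_comm, pow_mul, hj, one_pow]
      inv_mem' := by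
        rintro x ⟨hx, k, hk⟩
        exact ⟨V.inv_mem hx, k, by rw [inv_pow, hk, inv_one]⟩ }
  have hR : R.Normal := by
    refine ⟨fun x hx g => ⟨hV.conj_mem x hx.1 g, ?_⟩⟩
    obtain ⟨-, k, hk⟩ := hx
    exact ⟨k, by rw [conj_pow, hk, mul_one, mul_inv_cancel]⟩
  have hRne : R ≠ ⊥ := by
    obtain ⟨x, hx⟩ := exists_prime_orderOf_dvd_card' (G := V) q hqd
    intro h
    have h2 : (x : G) ∈ R := ⟨x.2, 1, by
      rw [pow_one, ← Subgroup.coe_pow, ← hx, pow_orderOf_eq_one, Subgroup.coe_one]⟩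
    rw [h, Subgroup.mem_bot] at h2
    have h3 : x = 1 := Subtype.ext h2
    rw [h3, orderOf_one] at hx
    exact hq.one_lt.ne hx
  have hle := hmin R hR hRne
  intro x
  obtain ⟨-, k, hk⟩ := hle x.2
  exact ⟨k, Subtype.ext hk⟩

/-- the structure theorem -/
theorem structure_thm (hs : Group.IsSolvable G) (hne : commutator G ≠ ⊥)
    (hmin : ∀ N : Subgroup G, N.Normal → N ≠ ⊥ → commutator G ≤ N)
    (hnp : ∀ p : ℕ, p.Prime → ¬ IsPGroup p G) :
    (∀ a ∈ commutator G, ∀ b ∈ commutator G, a * b = b * a) ∧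
    ∃ r : ℕ, r.Prime ∧ IsPGroup r (commutator G) ∧ ¬ r ∣ (commutator G).index ∧
      ∀ g : G, g ∉ commutator G → ∀ v ∈ commutator G, g * v = v * g → v = 1 := by
  classical
  obtain ⟨V, hVdef⟩ : ∃ V : Subgroup G, V = commutator G := ⟨_, rfl⟩
  haveI hVn : V.Normal := by rw [hVdef]; infer_instance
  rw [← hVdef] at hne hmin ⊢
  have hab : ∀ a ∈ V, ∀ b ∈ V, a * b = b * a := by
    have h1 : ⁅V, V⁆ = ⊥ := by
      by_contra hcon
      have h2 := hmin ⁅V, V⁆ inferInstance hcon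
      exact (Group.IsSolvable.commutator_lt_of_ne_bot hne).not_ge h2
    intro a ha b hb
    rw [Subgroup.commutator_eq_bot_iff_le_centralizer] at h1
    exact Subgroup.mem_centralizer_iff.1 (h1 hb) a ha
  refine ⟨hab, ?_⟩
  obtain ⟨r, hr, hVr⟩ := exists_prime_of_min V hne hab hmin
  haveI := Fact.mk hr
  -- another prime
  obtain ⟨s, hs', hsd, hsr⟩ : ∃ s : ℕ, s.Prime ∧ s ∣ Nat.card G ∧ s ≠ r := by
    by_contra hcon
    push Not at hcon
    apply hnp r hr
    rw [IsPGroup.iff_card]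
    exact ⟨_, Nat.eq_prime_pow_of_unique_prime_dvd Nat.card_pos.ne' (fun hd hdd => hcon _ hd hdd)⟩
  haveI := Fact.mk hs'
  obtain ⟨Q⟩ : Nonempty (Sylow s G) := inferInstance
  have hQne : (Q : Subgroup G) ≠ ⊥ := by
    intro h
    have h1 : s ∣ Nat.card (Q : Subgroup G) := Sylow.dvd_card_of_dvd_card Q hsd
    rw [h, Subgroup.card_bot] at h1
    exact hs'.one_lt.ne' (Nat.dvd_one.1 h1)
  have hVQn : (V ⊔ (Q : Subgroup G)).Normal := by
    refine ⟨fun x hx g => ?_⟩
    have h1 : g * x * g⁻¹ * x⁻¹ ∈ V := by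
      rw [hVdef, ← commutatorElement_def, commutator_def]
      exact Subgroup.commutator_mem_commutator (Subgroup.mem_top g) (Subgroup.mem_top x)
    have h2 := (V ⊔ (Q : Subgroup G)).mul_mem (Subgroup.mem_sup_left h1) hx
    rwa [inv_mul_cancel_right] at h2
  obtain ⟨H, hH⟩ : ∃ H : Subgroup G, H = Subgroup.normalizer (Q : Set G) := ⟨_, rfl⟩
  have hfr : H ⊔ V = ⊤ := by
    have h1 := Sylow.normalizer_sup_eq_top' Q (le_sup_right : (Q : Subgroup G) ≤ V ⊔ (Q : Subgroup G))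
    have h2 : (Q : Subgroup G) ≤ H := by rw [hH]; exact Subgroup.le_normalizer
    rw [eq_top_iff, ← h1]
    refine sup_le ?_ (sup_le le_sup_right (h2.trans le_sup_left))
    rw [hH]; exact le_sup_left
  have hdec : ∀ g : G, ∃ v ∈ V, ∃ h ∈ H, g = v * h := by
    intro g
    have h1 : g ∈ V ⊔ H := by rw [sup_comm, hfr]; exact Subgroup.mem_top g
    obtain ⟨v, hv, h, hh, he⟩ := Subgroup.mem_sup_of_normal_left.1 h1
    exact ⟨v, hv, h, hh, he.symm⟩
  have hD : V ⊓ H = ⊥ := by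
    by_contra hcon
    have hDn : (V ⊓ H).Normal := by
      refine ⟨fun x hx g => ?_⟩
      obtain ⟨v, hv, h, hh, rfl⟩ := hdec g
      have h1 : h * x * h⁻¹ ∈ V ⊓ H := ⟨hVn.conj_mem x hx.1 h,
        H.mul_mem (H.mul_mem hh hx.2) (H.inv_mem hh)⟩
      have h2 : v * h * x * (v * h)⁻¹ = h * x * h⁻¹ := by
        calc v * h * x * (v * h)⁻¹ = (v * (h * x * h⁻¹)) * v⁻¹ := by group
          _ = h * x * h⁻¹ := by rw [hab v hv _ h1.1]; group
      rw [h2]; exact h1
    have h1 : V ≤ H := (hmin _ hDn hcon).trans inf_le_right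
    have h2 : H = ⊤ := by rw [← hfr]; exact (sup_eq_left.2 h1).symm
    rw [hH] at h2
    have h2' : (Q : Subgroup G).Normal := Subgroup.normalizer_eq_top_iff.1 h2
    have h3 := hmin _ h2' hQne
    have h4 := IsPGroup.disjoint_of_ne r s hsr.symm V (Q : Subgroup G) hVr Q.isPGroup'
    exact hne (h4.eq_bot_of_le h3)
  have hHab : ∀ a ∈ H, ∀ b ∈ H, a * b = b * a := by
    intro a ha b hb
    have h1 : a * b * a⁻¹ * b⁻¹ ∈ V ⊓ H := by
      refine ⟨?_, H.mul_mem (H.mul_mem (H.mul_mem ha hb) (H.inv_mem ha)) (H.inv_mem hb)⟩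
      rw [hVdef, ← commutatorElement_def, commutator_def]
      exact Subgroup.commutator_mem_commutator (Subgroup.mem_top a) (Subgroup.mem_top b)
    rw [hD, Subgroup.mem_bot] at h1
    calc a * b = (a * b * a⁻¹ * b⁻¹) * (b * a) := by group
      _ = b * a := by rw [h1, one_mul]
  have hfree : ∀ g : G, g ∉ V → ∀ v ∈ V, g * v = v * g → v = 1 := by
    intro g hg v hv hgv
    obtain ⟨w, hw, h, hh, rfl⟩ := hdec g
    have hh1 : h ≠ 1 := by
      rintro rfl
      exact hg (by rw [mul_one]; exact hw)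
    have hhv : h * v = v * h := by
      have h1 : w * (h * v) = w * (v * h) := by
        calc w * (h * v) = (w * h) * v := by group
          _ = v * (w * h) := hgv
          _ = (v * w) * h := by group
          _ = w * (v * h) := by rw [hab v hv w hw]; group
      exact mul_left_cancel h1
    by_contra hv1
    let E : Subgroup G := V ⊓ Subgroup.centralizer ({h} : Set G)
    have hE : ∀ x, x ∈ E ↔ x ∈ V ∧ h * x = x * h := by
      intro x
      refine ⟨fun hx => ⟨hx.1, Subgroup.mem_centralizer_iff.1 hx.2 h rfl⟩, fun hx => ⟨hx.1,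
        Subgroup.mem_centralizer_iff.2 ?_⟩⟩
      rintro _ rfl
      exact hx.2
    have hEn : E.Normal := by
      refine ⟨fun x hx g => ?_⟩
      obtain ⟨v', hv', h', hh', rfl⟩ := hdec g
      obtain ⟨hx1, hx2⟩ := (hE x).1 hx
      have h1 : h' * x * h'⁻¹ ∈ E := by
        rw [hE]
        refine ⟨hVn.conj_mem x hx1 h', ?_⟩
        calc h * (h' * x * h'⁻¹) = (h * h') * x * h'⁻¹ := by group
          _ = h' * (h * x) * h'⁻¹ := by rw [hHab h hh h' hh']; group
          _ = h' * x * (h * h'⁻¹) := by rw [hx2]; group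
          _ = h' * x * (h'⁻¹ * h) := by rw [hHab h hh h'⁻¹ (H.inv_mem hh')]
          _ = h' * x * h'⁻¹ * h := by group
      have h2 : v' * h' * x * (v' * h')⁻¹ = h' * x * h'⁻¹ := by
        calc v' * h' * x * (v' * h')⁻¹ = (v' * (h' * x * h'⁻¹)) * v'⁻¹ := by group
          _ = h' * x * h'⁻¹ := by rw [hab v' hv' _ ((hE _).1 h1).1]; group
      rw [h2]; exact h1
    have hEne : E ≠ ⊥ := by
      intro h0
      have : v ∈ E := (hE v).2 ⟨hv, hhv⟩
      rw [h0, Subgroup.mem_bot] at this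
      exact hv1 this
    have h1 := hmin E hEn hEne
    have hZ : h ∈ Subgroup.center G := by
      rw [Subgroup.mem_center_iff]
      intro g
      obtain ⟨v', hv', h', hh', rfl⟩ := hdec g
      have h2 := ((hE v').1 (h1 hv')).2
      calc v' * h' * h = v' * (h' * h) := by group
        _ = v' * h * h' := by rw [hHab h' hh' h hh]; group
        _ = h * (v' * h') := by rw [← h2]; group
    have hzn : (Subgroup.zpowers h).Normal := by
      refine ⟨fun y hy g => ?_⟩
      have hy' : y ∈ Subgroup.center G := (Subgroup.zpowers_le.mpr hZ) hy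
      have := Subgroup.mem_center_iff.mp hy' g
      rw [this]; simpa using hy
    have h2 := hmin _ hzn (by
      rw [Ne, Subgroup.zpowers_eq_bot]; exact hh1)
    have h3 : V ≤ V ⊓ H := le_inf le_rfl (h2.trans (Subgroup.zpowers_le.2 hh))
    rw [hD] at h3
    exact hne (le_bot_iff.1 h3)
  refine ⟨r, hr, hVr, ?_, hfree⟩
  intro hrd
  have hHcard : Nat.card H = V.index := by
    have h1 := Subgroup.relIndex_sup_right H V
    rw [hfr, Subgroup.relIndex_top_right] at h1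
    rw [h1, ← Subgroup.inf_relIndex_right, hD, Subgroup.relIndex_bot_left]
  rw [← hHcard] at hrd
  obtain ⟨x, hx⟩ := exists_prime_orderOf_dvd_card' (G := H) r hrd
  have hxV : (x : G) ∉ V := by
    intro h
    have h1 : (x : G) ∈ V ⊓ H := ⟨h, x.2⟩
    rw [hD, Subgroup.mem_bot] at h1
    have h2 : x = 1 := Subtype.ext h1
    rw [h2, orderOf_one] at hx
    exact hr.one_lt.ne hx
  have hxp : IsPGroup r (Subgroup.zpowers (x : G)) := by
    apply IsPGroup.of_card (n := 1)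
    rw [Nat.card_zpowers, pow_one, Subgroup.orderOf_coe, hx]
  letI act : MulAction (Subgroup.zpowers (x : G)) V :=
    MulAction.compHom V ((MulAut.conjNormal : G →* MulAut V).comp (Subgroup.zpowers (x : G)).subtype)
  have hact : ∀ (y : Subgroup.zpowers (x : G)) (v : V), ((y • v : V) : G) = y * v * (y : G)⁻¹ := by
    intro y v
    exact MulAut.conjNormal_apply (y : G) v
  have hcV : r ∣ Nat.card V := by
    obtain ⟨n, hn⟩ := (IsPGroup.iff_card (p := r)).1 hVr
    rw [hn]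
    apply dvd_pow_self
    rintro rfl
    rw [pow_zero] at hn
    exact hne (Subgroup.card_eq_one.1 hn)
  obtain ⟨b, hb, hb1⟩ := hxp.exists_fixed_point_of_prime_dvd_card_of_fixed_point V hcV (a := 1)
    (by
      intro y
      apply Subtype.ext
      rw [hact]; simp)
  apply hb1
  symm
  apply Subtype.ext
  refine hfree x hxV b b.2 ?_
  have h1 := congrArg Subtype.val (hb ⟨x, Subgroup.mem_zpowers _⟩)
  rw [hact] at h1
  change (x : G) * b * (x : G)⁻¹ = b at h1
  rw [mul_inv_eq_iff_eq_mul] at h1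
  exact h1

/-- dual of the free action -/
theorem dual_free (V : Subgroup G) [hVn : V.Normal] (hab : ∀ a ∈ V, ∀ b ∈ V, a * b = b * a) (g : G)
    (hg : ∀ v ∈ V, g * v = v * g → v = 1) (l : V →* ℂˣ) (hl : cjh V g l = l) : l = 1 := by
  let T : V → V := fun v => v⁻¹ * ⟨g * v * g⁻¹, hVn.conj_mem v v.2 g⟩
  have hT : Function.Injective T := by
    intro a b h
    have h1 : (a : G)⁻¹ * (g * a * g⁻¹) = (b : G)⁻¹ * (g * b * g⁻¹) := congrArg Subtype.val h
    -- `c = a b⁻¹` commutes with `g`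
    have h2 : g * ((a : G) * (b : G)⁻¹) * g⁻¹ = (a : G) * (b : G)⁻¹ := by
      have e1 : g * (a : G) * g⁻¹ = a * ((b : G)⁻¹ * (g * b * g⁻¹)) := by rw [← h1]; group
      calc g * ((a : G) * (b : G)⁻¹) * g⁻¹ = (g * a * g⁻¹) * (g * b * g⁻¹)⁻¹ := by group
        _ = (a * ((b : G)⁻¹ * (g * b * g⁻¹))) * (g * b * g⁻¹)⁻¹ := by rw [e1]
        _ = _ := by group
    have h3 := hg _ (V.mul_mem a.2 (V.inv_mem b.2)) (by
      rw [mul_inv_eq_iff_eq_mul] at h2; exact h2)
    exact Subtype.ext (mul_inv_eq_one.1 h3)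
  have hTs := Finite.surjective_of_injective hT
  ext v
  obtain ⟨w, rfl⟩ := hTs v
  have h1 : l (T w) = (l w)⁻¹ * cjh V g l w := by
    rw [cjh_apply]
    change l (w⁻¹ * _) = _
    rw [map_mul, map_inv]
  rw [h1, hl, inv_mul_cancel, MonoidHom.one_apply]

/-- general version of `lemY` -/
theorem lemY2 (N : Subgroup G) [hN : N.Normal]
    (L : Subgroup (N →* ℂˣ)) (hL1 : ∃ l ∈ L, l ≠ 1)
    (hLst : ∀ g : G, ∀ l ∈ L, cjh N g l ∈ L)
    (hfix : ∀ g : G, g ∉ N → ∀ l ∈ L, cjh N g l = l → l = 1) (ψ : IrrCharacter N)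
    (hLcop : ∀ l ∈ L, (orderOf l).Coprime (charDegree ψ.1)) :
    ∃ χ : IrrCharacter G, charDegree χ.1 = N.index * charDegree ψ.1 := by
  classical
  letI := Fintype.ofFinite G
  letI := Fintype.ofFinite N
  haveI hfinHom : Finite (N →* ℂˣ) := by
    apply Nat.finite_of_card_ne_zero
    rw [card_hom_eq_index]
    exact Subgroup.index_ne_zero_of_finite
  -- it is enough to find `l` with `lψ` having trivial stabilizer
  by_cases hex : ∃ l ∈ L, ∀ g : G, conjFunN N g (mulI l ψ).1 = (mulI l ψ).1 → g ∈ N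
  · obtain ⟨l, hl, hst⟩ := hex
    have hT : ∀ g : G, g ∈ N ↔ conjFunN N g (mulI l ψ).1 = (mulI l ψ).1 := fun g =>
      ⟨fun hg => cj_mem N (isClassFunction_of_isIrr (mulI l ψ).2) hg, hst g⟩
    have h1 : resH (le_refl N) (mulI l ψ).1 = (mulI l ψ).1 := rfl
    have h2 := corr_irr N N (le_refl N) (mulI l ψ).2 hT (mulI l ψ).2 (by
      rw [h1, inner_irr_self (mulI l ψ).2]; exact one_ne_zero)
    refine ⟨⟨_, h2.1⟩, ?_⟩
    apply charDegree_eq_of
    change indFun N (mulI l ψ).1 1 = _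
    rw [indFun_one]
    have h5 : (mulI l ψ).1 1 = ψ.1 1 := by
      change ((l 1 : ℂˣ) : ℂ) * ψ.1 1 = ψ.1 1
      rw [map_one, Units.val_one, one_mul]
    rw [h5, ← cast_irr ψ]
    push_cast; ring
  · exfalso
    push Not at hex
    choose F hF using hex
    -- the map L → G/N minus 1
    let Φ : L → {q : G ⧸ N // q ≠ 1} := fun l => ⟨(F l.1 l.2 : G ⧸ N), fun h =>
      (hF l.1 l.2).2 ((QuotientGroup.eq_one_iff _).1 h)⟩
    have hΦ : Function.Injective Φ := by
      intro l l' h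
      have h1 : ((F l.1 l.2 : G) : G ⧸ N) = (F l'.1 l'.2 : G) := congrArg Subtype.val h
      rw [QuotientGroup.eq] at h1
      have h2 : conjFunN N (F l.1 l.2) (mulI l'.1 ψ).1 = (mulI l'.1 ψ).1 := by
        have h3 := (hF l'.1 l'.2).1
        have h4 : F l'.1 l'.2 = F l.1 l.2 * ((F l.1 l.2)⁻¹ * F l'.1 l'.2) := by group
        rw [h4, ← cj_mul] at h3
        have h5 : IsClassFunction N (conjFunN N (F l.1 l.2) (mulI l'.1 ψ).1) :=
          isClassFunction_of_isIrr (isIrrCharacter_conjN N _ (mulI l'.1 ψ).2)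
        rw [cj_mem N h5 h1] at h3
        exact h3
      have h3 := (hF l.1 l.2).1
      set g := F l.1 l.2 with hg
      let ν : N →* ℂˣ := l.1 * l'.1⁻¹
      have h6 : ∀ n : N, (((cjh N g ν)⁻¹ * ν) n : ℂ) * ψ.1 n = ψ.1 n := by
        intro n
        have e1 := congrFun h3 n
        have e2 := congrFun h2 n
        have e1' : ((cjh N g l.1 n : ℂˣ) : ℂ) * conjFunN N g ψ.1 n = ((l.1 n : ℂˣ) : ℂ) * ψ.1 n := e1
        have e2' : ((cjh N g l'.1 n : ℂˣ) : ℂ) * conjFunN N g ψ.1 n = ((l'.1 n : ℂˣ) : ℂ) * ψ.1 n := e2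
        have hν : (((cjh N g ν)⁻¹ * ν) n : ℂˣ) =
            (cjh N g l'.1 n * (cjh N g l.1 n)⁻¹) * (l.1 n * (l'.1 n)⁻¹) := by
          change ((cjh N g l.1 n) * (cjh N g l'.1 n)⁻¹)⁻¹ * (l.1 n * (l'.1 n)⁻¹) = _
          rw [mul_inv, inv_inv, mul_comm ((cjh N g l.1 n)⁻¹)]
        rw [hν]
        push_cast
        have n1 : ((cjh N g l.1 n : ℂˣ) : ℂ) ≠ 0 := (cjh N g l.1 n).ne_zero
        have n2 : ((cjh N g l'.1 n : ℂˣ) : ℂ) ≠ 0 := (cjh N g l'.1 n).ne_zero
        have n3 : ((l.1 n : ℂˣ) : ℂ) ≠ 0 := (l.1 n).ne_zero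
        have n4 : ((l'.1 n : ℂˣ) : ℂ) ≠ 0 := (l'.1 n).ne_zero
        have e3 : conjFunN N g ψ.1 n = ((cjh N g l'.1 n : ℂˣ) : ℂ)⁻¹ * (((l'.1 n : ℂˣ) : ℂ) * ψ.1 n) := by
          rw [← e2', inv_mul_cancel_left₀ n2]
        rw [e3] at e1'
        have e4 : ((l.1 n : ℂˣ) : ℂ) * ψ.1 n =
            ((cjh N g l.1 n : ℂˣ) : ℂ) * (((cjh N g l'.1 n : ℂˣ) : ℂ)⁻¹ * (((l'.1 n : ℂˣ) : ℂ) * ψ.1 n)) :=
          e1'.symm
        calc ((cjh N g l'.1 n : ℂˣ) : ℂ) * ((cjh N g l.1 n : ℂˣ) : ℂ)⁻¹ *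
              (((l.1 n : ℂˣ) : ℂ) * ((l'.1 n : ℂˣ) : ℂ)⁻¹) * ψ.1 n
            = ((cjh N g l'.1 n : ℂˣ) : ℂ) * ((cjh N g l.1 n : ℂˣ) : ℂ)⁻¹ * ((l'.1 n : ℂˣ) : ℂ)⁻¹ *
              (((l.1 n : ℂˣ) : ℂ) * ψ.1 n) := by ring
          _ = ψ.1 n := by
              rw [e4]
              field_simp
      have h7 := pow_of_mul_eq ((cjh N g ν)⁻¹ * ν) ψ h6
      have hνL : ν ∈ L := L.mul_mem l.2 (L.inv_mem l'.2)
      have h8 : (cjh N g ν)⁻¹ * ν ∈ L := L.mul_mem (L.inv_mem (hLst g ν hνL)) hνL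
      have h9 : (cjh N g ν)⁻¹ * ν = 1 := by
        have h10 := hLcop _ h8
        have h11 : orderOf ((cjh N g ν)⁻¹ * ν) ∣ charDegree ψ.1 := orderOf_dvd_of_pow_eq_one h7
        have h12 : orderOf ((cjh N g ν)⁻¹ * ν) = 1 := Nat.Coprime.eq_one_of_dvd h10 h11
        exact orderOf_eq_one_iff.1 h12
      have h10 : cjh N g ν = ν := by
        ext n
        have h13 : ((cjh N g ν) n)⁻¹ * ν n = 1 := DFunLike.congr_fun h9 n
        rw [inv_mul_eq_one] at h13
        rw [h13]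
      have h11 : ν = 1 := hfix g (hF l.1 l.2).2 ν hνL h10
      apply Subtype.ext
      exact mul_inv_eq_one.1 h11
    -- the map G/N → L
    obtain ⟨l0, hl0, hl01⟩ := hL1
    let Ψ : G ⧸ N → L := fun q => ⟨cjh N q.out l0, hLst _ _ hl0⟩
    have hΨ : Function.Injective Ψ := by
      intro q q' h
      have h1 : cjh N q.out l0 = cjh N q'.out l0 := congrArg Subtype.val h
      have h2 : cjh N (q.out * q'.out⁻¹) l0 = l0 := by
        rw [← cjh_mul, h1, cjh_mul, mul_inv_cancel, cjh_one]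
      have h3 : q.out * q'.out⁻¹ ∈ N := by
        by_contra hcon
        exact hl01 (hfix _ hcon l0 hl0 h2)
      have h4 : (q.out : G ⧸ N) = (q'.out : G ⧸ N) := by
        have h5 : ((q.out * q'.out⁻¹ : G) : G ⧸ N) = 1 := (QuotientGroup.eq_one_iff _).2 h3
        rw [QuotientGroup.mk_mul, QuotientGroup.mk_inv, mul_inv_eq_one] at h5
        exact h5
      rwa [QuotientGroup.out_eq', QuotientGroup.out_eq'] at h4
    have h1 : Nat.card (G ⧸ N) ≤ Nat.card L := Nat.card_le_card_of_injective Ψ hΨ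
    have h2 : Nat.card L ≤ Nat.card {q : G ⧸ N // q ≠ 1} := Nat.card_le_card_of_injective Φ hΦ
    have h3 : Nat.card {q : G ⧸ N // q ≠ 1} < Nat.card (G ⧸ N) := by
      letI := Fintype.ofFinite (G ⧸ N)
      rw [Nat.card_eq_fintype_card, Nat.card_eq_fintype_card]
      exact Fintype.card_subtype_lt (x := (1 : G ⧸ N)) (fun h => h rfl)
    omega

end H77.ThreeE
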