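import Cfsg.Agent.Lib.H77.ThreeE
import Cfsg.Agent.Lib.H19.Ito2

/-!
# Groups with three character degrees: derived length (H77.ThreeF)
-/

set_option autoImplicit false
set_option linter.style.haveILetI false
set_option linter.unusedSectionVars false
set_option maxHeartbeats 400000
open Cfsg
open scoped ComplexConjugate

namespace H77.ThreeF

open H18.CharBasic H18.CharOrtho H18.CharInd H18.CharQuot H77.PQuot H31.Clifford H77.ThreeA H77.ThreeB
open H77.ThreeC H77.ThreeE H77.TwoDeg

universe u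

variable {G : Type u} [Group G] [Finite G]

theorem over_inKer (D : Subgroup G) [D.Normal] {χ : IrrCharacter G} {θ : IrrCharacter D}
    (h : Over D χ θ) (W : Subgroup G) [hW : W.Normal] (hWD : W ≤ D)
    (h1 : ∀ (w : G) (hw : w ∈ W), θ.1 ⟨w, hWD hw⟩ = θ.1 1) : InKer W χ.1 := by
  classical
  letI := Fintype.ofFinite G
  letI := Fintype.ofFinite D
  have h2 := restrict_eq D χ.2 θ.2 ((over_iff D _ _).1 h)
  intro x hx
  have e1 := congrFun h2 ⟨x, hWD hx⟩
  have e2 := congrFun h2 1
  simp only [Pi.smul_apply, Finset.sum_apply] at e1 e2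
  have e2' : χ.1 1 = classInner (fun h : D => χ.1 h) θ.1 • ∑ c ∈ orb D θ.1, c 1 := e2
  rw [e1, e2']
  congr 1
  refine Finset.sum_congr rfl fun φ hφ => ?_
  obtain ⟨g, rfl⟩ := (mem_orb D).1 hφ
  rw [cj_apply, cj_at_one]
  exact h1 _ (hW.conj_mem x hx g)

theorem central_derived (θ : IrrCharacter G) (w : G) (hwc : ∀ x, x * w = w * x)
    (hw' : w ∈ commutator G) (hcop : (orderOf w).Coprime (charDegree θ.1)) : θ.1 w = θ.1 1 := by
  classical
  letI := Fintype.ofFinite G
  obtain ⟨n, ρ, hρ, hρχ⟩ := θ.2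
  obtain ⟨c, hc⟩ := H4.CenterIndex.exists_scalar_of_center ρ hρ (Subgroup.mem_center_iff.2 hwc)
  have hn : n = charDegree θ.1 := by
    have h1 : θ.1 1 = n := by
      rw [← hρχ, Representation.char_one, Module.finrank_fin_fun]
    rw [← cast_irr θ] at h1
    exact_mod_cast h1.symm
  obtain ⟨f, hf⟩ := H18.DetChar.exists_detHom (isCharacter_of_isIrr θ.2)
  have h1 : f w = 1 := H77.Taketa.linear_ker f hw'
  have h2 : c ^ n = 1 := by
    have h3 := congrFun hf w
    rw [h1, ← hρχ, H18.DetChar.detChar_rep, hc, Units.val_one] at h3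
    have h4 : LinearMap.det (c • (LinearMap.id : (Fin n → ℂ) →ₗ[ℂ] (Fin n → ℂ))) = c ^ n := by
      rw [LinearMap.det_smul, LinearMap.det_id, mul_one, Module.finrank_fin_fun]
    rw [← h4]
    exact h3
  have h3 : c ^ orderOf w = 1 := by
    have h5 : ρ (w ^ orderOf w) = c ^ orderOf w • (LinearMap.id : (Fin n → ℂ) →ₗ[ℂ] (Fin n → ℂ)) := by
      rw [map_pow, hc]
      change (c • (1 : Module.End ℂ (Fin n → ℂ))) ^ _ = c ^ _ • (1 : Module.End ℂ (Fin n → ℂ))
      rw [smul_pow, one_pow]
    rw [pow_orderOf_eq_one, map_one] at h5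
    have hn0 : 0 < n := by rw [hn]; exact deg_pos θ
    have h6 := congrFun (LinearMap.congr_fun h5 (fun _ => 1)) ⟨0, hn0⟩
    simpa using h6.symm
  have h4 : c = 1 := by
    have h5 : orderOf c ∣ n := orderOf_dvd_of_pow_eq_one h2
    have h6 : orderOf c ∣ orderOf w := orderOf_dvd_of_pow_eq_one h3
    rw [hn] at h5
    exact orderOf_eq_one_iff.1 (Nat.eq_one_of_dvd_coprimes hcop h6 h5)
  rw [h4, one_smul] at hc
  rw [← hρχ, Representation.character, Representation.character, hc, map_one]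
  rfl

theorem fix_of_small {h : ℕ} (D : Subgroup G)
    (hD : ∀ χ : IrrCharacter G, ¬ InKer D χ.1 → charDegree χ.1 = h) (T : Subgroup G)
    (hT : T.index ≤ h) : D ≤ T := by
  classical
  letI := Fintype.ofFinite G
  letI := Fintype.ofFinite T
  have hTpos : 0 < T.index := Nat.pos_of_ne_zero Subgroup.index_ne_zero_of_finite
  have hone : IsCharacter T (fun _ => (1 : ℂ)) := isCharacter_of_isIrr isIrrCharacter_one
  have hπ : IsCharacter G (indFun T (fun _ => (1 : ℂ))) := isCharacter_ind T hone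
  have h1G : classInner (indFun T (fun _ => (1 : ℂ))) (fun _ => (1 : ℂ)) = 1 := by
    rw [frobenius T _ (isClassFunction_of_isIrr isIrrCharacter_one)]
    exact inner_irr_self isIrrCharacter_one
  have hsub := H77.SubChar.sub_isCharacter hπ (isIrrCharacter_one (G := G))
    (by rw [h1G]; exact one_ne_zero)
  intro x hx
  have key : indFun T (fun _ => (1 : ℂ)) x = indFun T (fun _ => (1 : ℂ)) 1 := by
    apply H19.Ito.ker_of_constituents hπ
    intro ψ hψ hne
    by_cases hψ1 : ψ = fun _ => 1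
    · rw [hψ1]
    · have h2 : classInner (indFun T (fun _ => (1 : ℂ)) - fun _ => (1 : ℂ)) ψ ≠ 0 := by
        rw [H18.CharOrtho.inner_sub_left,
          inner_irr_ne (isIrrCharacter_one (G := G)) hψ (fun h => hψ1 h.symm), sub_zero]
        exact hne
      have h3 := H77.SubChar.degree_le hsub hψ h2 (a := T.index - 1) (b := charDegree ψ)
        (by rw [Pi.sub_apply, indFun_one, mul_one, Nat.cast_sub hTpos, Nat.cast_one])
        (cast_irr' hψ).symm
      by_contra hcon
      have h4 : ¬ InKer D ψ := fun hk => hcon (hk x hx)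
      have h5 := hD ⟨ψ, hψ⟩ h4
      have h6 : charDegree ψ = h := h5
      omega
  have h1 := H77.Taketa.ind_one_core T (x := x) (by rw [key, indFun_one, mul_one]) 1
  simpa using h1

theorem coprime_of_pGroup {q : ℕ} (hq : q.Prime) {W : Subgroup G} (hW : IsPGroup q W) {w : G}
    (hw : w ∈ W) {n : ℕ} (hn : ¬ q ∣ n) : (orderOf w).Coprime n := by
  haveI := Fact.mk hq
  obtain ⟨k, hk⟩ := IsPGroup.iff_orderOf.1 hW ⟨w, hw⟩
  rw [Subgroup.orderOf_mk] at hk
  rw [hk]
  exact Nat.Coprime.pow_left k ((hq.coprime_iff_not_dvd).2 hn)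

theorem caseII {f h r q : ℕ} (hr : r.Prime) (hq : q.Prime)
    (hcd : ∀ χ : IrrCharacter G, charDegree χ.1 = 1 ∨ charDegree χ.1 = f ∨ charDegree χ.1 = h)
    (L : Subgroup G) [hLn : L.Normal] (hLf : L.index = f) (hcL : commutator G ≤ L)
    (hrf : ¬ r ∣ f) (hrL : r ∣ Nat.card L)
    (Λ : Subgroup (L →* ℂˣ)) (hΛ1 : ∃ l ∈ Λ, l ≠ 1) (hΛst : ∀ g : G, ∀ l ∈ Λ, cjh L g l ∈ Λ)
    (hΛfix : ∀ g : G, g ∉ L → ∀ l ∈ Λ, cjh L g l = l → l = 1)
    (hΛr : ∀ l ∈ Λ, ∃ k : ℕ, orderOf l ∣ r ^ k)
    (hW : derivedSeries G 3 ≠ ⊥)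
    (hmin : ∀ N : Subgroup G, N.Normal → N ≠ ⊥ → derivedSeries G 3 ≤ N)
    (hWab : ∀ a ∈ derivedSeries G 3, ∀ b ∈ derivedSeries G 3, a * b = b * a)
    (hWq : IsPGroup q (derivedSeries G 3)) : False := by
  classical
  haveI := Fact.mk hq
  haveI := Fact.mk hr
  letI := Fintype.ofFinite G
  letI := Fintype.ofFinite L
  have hf0 : 0 < f := by rw [← hLf]; exact Nat.pos_of_ne_zero Subgroup.index_ne_zero_of_finite
  have hLfin : ∀ d : ℕ, (∀ ψ : IrrCharacter L, charDegree ψ.1 = 1 ∨ charDegree ψ.1 = d) → False :=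
    fun d hd => hW (derived_of_sub hcL (two_deg' d hd))
  have hind : ∀ ψ : IrrCharacter L, ¬ r ∣ charDegree ψ.1 →
      ∃ χ : IrrCharacter G, charDegree χ.1 = f * charDegree ψ.1 := by
    intro ψ hψ
    rw [← hLf]
    refine lemY2 L Λ hΛ1 hΛst hΛfix ψ (fun l hl => ?_)
    obtain ⟨k, hk⟩ := hΛr l hl
    obtain ⟨j, -, hj⟩ := (Nat.dvd_prime_pow hr).1 hk
    rw [hj]
    exact Nat.Coprime.pow_left j ((hr.coprime_iff_not_dvd).2 hψ)
  by_cases hII1 : ∃ ψ : IrrCharacter L, charDegree ψ.1 ≠ 1 ∧ ¬ r ∣ charDegree ψ.1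
  · obtain ⟨ψ0, hψ01, hψ0r⟩ := hII1
    obtain ⟨χ0, hχ0⟩ := hind ψ0 hψ0r
    have hψ0pos := deg_pos ψ0
    have hh : h = f * charDegree ψ0.1 := by
      have h1 : 1 < charDegree ψ0.1 := by omega
      have h2 : f < f * charDegree ψ0.1 := by nlinarith
      have h3 := hcd χ0
      rw [hχ0] at h3
      omega
    have hrh : ¬ r ∣ h := by
      rw [hh]
      intro hd
      rcases (hr.dvd_mul).1 hd with h1 | h1
      · exact hrf h1
      · exact hψ0r h1
    apply hLfin (charDegree ψ0.1)
    intro ψ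
    have hψr : ¬ r ∣ charDegree ψ.1 := by
      intro hd
      obtain ⟨χ, hχ⟩ := over_up L ψ
      have h1 := hd.trans (over_dvd L hχ).1
      rcases hcd χ with h2 | h2 | h2
      · rw [h2] at h1; exact hr.one_lt.ne' (Nat.dvd_one.1 h1)
      · rw [h2] at h1; exact hrf h1
      · rw [h2] at h1; exact hrh h1
    obtain ⟨χ, hχ⟩ := hind ψ hψr
    have hψpos := deg_pos ψ
    rcases hcd χ with h2 | h2 | h2
    · left
      rw [hχ] at h2
      exact Nat.eq_one_of_mul_eq_one_left h2
    · left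
      rw [hχ] at h2
      exact Nat.eq_of_mul_eq_mul_left hf0 (by rw [h2, mul_one])
    · right
      rw [hχ, hh] at h2
      exact Nat.eq_of_mul_eq_mul_left hf0 h2
  · push Not at hII1
    have hA : ∀ χ : IrrCharacter G, ¬ InKer ⁅L, L⁆ χ.1 → charDegree χ.1 = h ∧ r ∣ h := by
      intro χ hχ
      obtain ⟨ψ, hψ⟩ := over_exists L χ
      have h1 : charDegree ψ.1 ≠ 1 := fun h1 => hχ (over_linear L hψ h1)
      have h2 := (hII1 ψ h1).trans (over_dvd L hψ).1
      rcases hcd χ with h3 | h3 | h3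
      · rw [h3] at h2; exact absurd (Nat.dvd_one.1 h2) hr.one_lt.ne'
      · rw [h3] at h2; exact absurd h2 hrf
      · rw [h3] at h2; exact ⟨h3, h2⟩
    have hLL : derivedSeries G 2 ≤ ⁅L, L⁆ := by
      rw [derivedSeries_succ, derivedSeries_one]
      exact Subgroup.commutator_mono hcL hcL
    have hB : derivedSeries G 3 ≤ ⁅⁅L, L⁆, ⁅L, L⁆⁆ := by
      rw [derivedSeries_succ]
      exact Subgroup.commutator_mono hLL hLL
    have hB' : derivedSeries G 3 ≤ ⁅L, L⁆ := hB.trans (Subgroup.commutator_le_left _ _)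
    obtain ⟨χ0, hχ0⟩ := exists_not_inKer _ hW
    have hχ0' : ¬ InKer ⁅L, L⁆ χ0.1 := fun h => hχ0 (fun x hx => h x (hB' hx))
    obtain ⟨hχ0h, hrh⟩ := hA χ0 hχ0'
    by_cases hqh : q ∣ h
    · -- `L` is a `q`-group
      obtain ⟨N, hNn, hNL, hNc, k, hk⟩ := thompson L hq (fun χ hχ => by
        rw [(hA χ hχ).1]; exact hqh)
      have hN : N = ⊥ := by
        by_contra hcon
        have h1 := hmin N hNn hcon
        have h2 : q ∣ Nat.card (derivedSeries G 3) := by
          obtain ⟨n, hn⟩ := (IsPGroup.iff_card (p := q)).1 hWq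
          rw [hn]
          apply dvd_pow_self
          rintro rfl
          rw [pow_zero] at hn
          exact hW (Subgroup.card_eq_one.1 hn)
        have h3 := h2.trans (Subgroup.card_dvd_of_le h1)
        have h5 : q ∣ Nat.gcd (Nat.card N) q := Nat.dvd_gcd h3 dvd_rfl
        rw [hNc] at h5
        exact hq.one_lt.ne' (Nat.dvd_one.1 h5)
      rw [hN, Subgroup.relIndex_bot_left] at hk
      have hrq : r = q := by
        rw [hk] at hrL
        exact (Nat.prime_dvd_prime_iff_eq hr hq).1 (hr.dvd_of_dvd_pow hrL)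
      apply hLfin (ordProj[q] h)
      intro ψ
      by_cases h1 : charDegree ψ.1 = 1
      · exact Or.inl h1
      · right
        obtain ⟨χ, hχ⟩ := over_up L ψ
        have hχh : charDegree χ.1 = h :=
          (hA χ (fun hk => h1 (over_linear' L hχ hk))).1
        obtain ⟨⟨t, ht⟩, h2⟩ := over_dvd L hχ
        rw [ht, Nat.mul_div_cancel_left _ (deg_pos ψ), hLf] at h2
        have h3 : ¬ q ∣ t := fun hd => hrf (by rw [hrq]; exact hd.trans h2)
        have h4 := deg_dvd_card ψ
        rw [hk, Nat.dvd_prime_pow hq] at h4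
        obtain ⟨j, -, hj⟩ := h4
        have h5 : ordCompl[q] h = t := by
          rw [← hχh, ht, hj, Nat.ordCompl_pow_mul_of_not_dvd j hq h3]
        have h6 := Nat.ordProj_mul_ordCompl_eq_self h q
        rw [h5] at h6
        have ht0 : 0 < t := by
          rcases Nat.eq_zero_or_pos t with h0 | h0
          · rw [h0] at h3; exact absurd (dvd_zero q) h3
          · exact h0
        have h7 : charDegree ψ.1 * t = ordProj[q] h * t := by rw [h6, ← ht, hχh]
        exact Nat.eq_of_mul_eq_mul_right ht0 h7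
    · -- `⁅L, L⁆` centralizes `W`
      obtain ⟨D, hD⟩ : ∃ D : Subgroup G, D = ⁅L, L⁆ := ⟨_, rfl⟩
      obtain ⟨W, hWdef⟩ : ∃ W : Subgroup G, W = derivedSeries G 3 := ⟨_, rfl⟩
      haveI hDn : D.Normal := by rw [hD]; infer_instance
      haveI hWn : W.Normal := by rw [hWdef]; infer_instance
      rw [← hD] at hA hB' hB hχ0'
      rw [← hWdef] at hB' hB hW hWab hWq hχ0
      letI := Fintype.ofFinite W
      letI := Fintype.ofFinite D
      have hDfix : ∀ y : IrrCharacter W, D ≤ inertia W y.1 := by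
        intro y
        by_cases hy : ∀ x, y.1 x = y.1 1
        · intro g _
          rw [mem_inertia_iff]
          intro x
          rw [hy, hy x]
        · obtain ⟨χ, hχ⟩ := over_up W y
          have h1 : ¬ InKer W χ.1 := fun hk => hy (fun x => over_ker W hχ x (hk x x.2))
          have h2 : charDegree χ.1 = h := (hA χ (fun hk => h1 (fun x hx => hk x (hB' hx)))).1
          apply fix_of_small D (fun χ hχ => (hA χ hχ).1)
          have h3 := degree_eq W χ.2 y.2 ((over_iff W _ _).1 hχ)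
          obtain ⟨e, he⟩ := inner_char_natCast (isCharacter_restrict W (isCharacter_of_isIrr χ.2))
            (isCharacter_of_isIrr y.2)
          rw [he, ← cast_irr χ, ← cast_irr y, h2] at h3
          have h4 : h = e * (inertia W y.1).index * charDegree y.1 := by exact_mod_cast h3
          have he0 : 0 < e := by
            rcases Nat.eq_zero_or_pos e with h0 | h0
            · exfalso
              rw [h0, Nat.cast_zero] at he
              exact (over_iff W _ _).1 hχ he
            · exact h0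
          have hy0 := deg_pos y
          calc (inertia W y.1).index = 1 * (inertia W y.1).index * 1 := by ring
            _ ≤ e * (inertia W y.1).index * charDegree y.1 :=
                Nat.mul_le_mul (Nat.mul_le_mul_right _ he0) hy0
            _ = h := h4.symm
      have hcent : ∀ x ∈ D, ∀ w ∈ W, x * w = w * x := by
        intro x hx w hw
        have h1 : IsConj (⟨x * w * x⁻¹, hWn.conj_mem w hw x⟩ : W) ⟨w, hw⟩ := by
          rw [isConj_iff_char]
          intro y
          exact (mem_inertia_iff W).1 (hDfix y hx) ⟨w, hw⟩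
        obtain ⟨c, hc⟩ := isConj_iff.1 h1
        have h2 : (c : G) * (x * w * x⁻¹) * (c : G)⁻¹ = w := congrArg Subtype.val hc
        rw [hWab c c.2 _ (hWn.conj_mem w hw x), mul_inv_cancel_right, mul_inv_eq_iff_eq_mul] at h2
        exact h2
      obtain ⟨θ, hθ⟩ := over_exists D χ0
      apply hχ0
      refine over_inKer D hθ W hB' (fun w hw => ?_)
      have hqθ : ¬ q ∣ charDegree θ.1 := fun hd =>
        hqh (by rw [← hχ0h]; exact hd.trans (over_dvd D hθ).1)
      refine central_derived θ ⟨w, hB' hw⟩ (fun x => Subtype.ext (hcent x x.2 w hw)) ?_ ?_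
      · have h1 : ⁅D, D⁆ = (commutator D).map D.subtype := by
          rw [commutator_def, Subgroup.map_commutator, ← MonoidHom.range_eq_map,
            Subgroup.range_subtype]
        have h2 := hB hw
        rw [h1] at h2
        obtain ⟨y, hy, hyw⟩ := h2
        have : y = ⟨w, hB' hw⟩ := Subtype.ext hyw
        rwa [this] at hy
      · rw [Subgroup.orderOf_mk]
        exact coprime_of_pGroup hq hWq hw hqθ

theorem main (k : ℕ) : ∀ (G : Type u) [Group G] [Finite G], Nat.card G = k → ∀ a b : ℕ,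
    (∀ χ : IrrCharacter G, charDegree χ.1 = 1 ∨ charDegree χ.1 = a ∨ charDegree χ.1 = b) →
      derivedSeries G 3 = ⊥ := by
  induction k using Nat.strong_induction_on with
  | _ k ih =>
  intro G _ _ hk a b hcd
  classical
  letI := Fintype.ofFinite G
  by_contra hW
  haveI hs : Group.IsSolvable G := H77.ThreeC.solvable (Nat.card G) G rfl a b hcd
  have hmin : ∀ N : Subgroup G, N.Normal → N ≠ ⊥ → derivedSeries G 3 ≤ N := by
    intro N hN hNne
    have hcardq : Nat.card (G ⧸ N) < Nat.card G := by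
      have h1 := Subgroup.card_mul_index N
      have h2 : 1 < Nat.card N := by
        haveI : Nontrivial N := (Subgroup.nontrivial_iff_ne_bot N).mpr hNne
        exact Finite.one_lt_card
      have h3 : Nat.card (G ⧸ N) = N.index := rfl
      have h4 : 0 < N.index := Nat.pos_of_ne_zero Subgroup.index_ne_zero_of_finite
      rw [h3, ← h1]; nlinarith
    exact derived_of_quot (ih _ (hk ▸ hcardq) (G ⧸ N) rfl a b
      (cd_quot N (P := fun d => d = 1 ∨ d = a ∨ d = b) (fun χ _ => hcd χ)))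
  have hWab : ∀ x ∈ derivedSeries G 3, ∀ y ∈ derivedSeries G 3, x * y = y * x := by
    have h1 : ⁅derivedSeries G 3, derivedSeries G 3⁆ = ⊥ := by
      by_contra hcon
      have h2 := hmin _ inferInstance hcon
      exact (Group.IsSolvable.commutator_lt_of_ne_bot hW).not_ge h2
    intro x hx y hy
    rw [Subgroup.commutator_eq_bot_iff_le_centralizer] at h1
    exact Subgroup.mem_centralizer_iff.1 (h1 hy) x hx
  obtain ⟨q, hq, hWq⟩ := exists_prime_of_min _ hW hWab hmin
  have hcne : commutator G ≠ ⊥ := by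
    intro h
    apply hW
    rw [eq_bot_iff, ← h, ← derivedSeries_one]
    exact derivedSeries_antitone G (by norm_num)
  let S : Set (Subgroup G) := {K | K.Normal ∧ ¬ commutator G ≤ K}
  have hS : S.Nonempty := ⟨⊥, inferInstance, fun h => hcne (le_bot_iff.1 h)⟩
  obtain ⟨K, hK⟩ := (Set.toFinite S).exists_maximal hS
  haveI hKn := hK.prop.1
  have hKc := hK.prop.2
  by_cases hpq : ∃ p : ℕ, p.Prime ∧ IsPGroup p (G ⧸ K)
  · obtain ⟨p, hp, hpG⟩ := hpq
    exact hW (H77.ThreeD.caseI hp hcd K hpG hKc)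
  push Not at hpq
  obtain ⟨π, hπdef⟩ : ∃ π : G →* G ⧸ K, π = QuotientGroup.mk' K := ⟨_, rfl⟩
  have hπ : Function.Surjective π := by rw [hπdef]; exact QuotientGroup.mk'_surjective K
  have hπ1 : ∀ x, π x = 1 ↔ x ∈ K := by
    intro x; rw [hπdef]; exact QuotientGroup.eq_one_iff x
  obtain ⟨V, hVdef⟩ : ∃ V : Subgroup (G ⧸ K), V = commutator (G ⧸ K) := ⟨_, rfl⟩
  haveI hVn : V.Normal := by rw [hVdef]; infer_instance
  have hmapc : (commutator G).map π = V := by
    rw [hVdef, commutator_def, commutator_def, Subgroup.map_commutator,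
      Subgroup.map_top_of_surjective π hπ]
  have hVne : V ≠ ⊥ := by
    rw [← hmapc]
    intro h
    apply hKc
    intro x hx
    rw [← hπ1]
    have h1 : π x ∈ (commutator G).map π := ⟨x, hx, rfl⟩
    rw [h, Subgroup.mem_bot] at h1
    exact h1
  have hVmin : ∀ M : Subgroup (G ⧸ K), M.Normal → M ≠ ⊥ → V ≤ M := by
    intro M hM hMne
    rw [← hmapc, Subgroup.map_le_iff_le_comap]
    by_contra hcon
    have h1 : M.comap π ∈ S := ⟨hM.comap π, hcon⟩
    have h2 : K ≤ M.comap π := by
      intro x hx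
      rw [Subgroup.mem_comap, (hπ1 x).2 hx]
      exact M.one_mem
    have h3 := hK.le_of_ge h1 h2
    apply hMne
    rw [eq_bot_iff]
    intro y hy
    obtain ⟨x, rfl⟩ := hπ y
    rw [Subgroup.mem_bot]
    exact (hπ1 x).2 (h3 hy)
  obtain ⟨hVab, r, hr, hVr, hri, hfree⟩ := structure_thm (G := G ⧸ K) inferInstance
    (by rw [← hVdef]; exact hVne) (by rw [← hVdef]; exact hVmin) hpq
  rw [← hVdef] at hVab hVr hri hfree
  haveI := Fact.mk hr
  obtain ⟨L, hLdef⟩ : ∃ L : Subgroup G, L = V.comap π := ⟨_, rfl⟩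
  haveI hLn : L.Normal := by rw [hLdef]; exact hVn.comap π
  have hLidx : L.index = V.index := by rw [hLdef]; exact Subgroup.index_comap_of_surjective V hπ
  have hcL : commutator G ≤ L := by
    rw [hLdef, ← Subgroup.map_le_iff_le_comap, hmapc]
  have hLV : ∀ x : G, x ∈ L ↔ π x ∈ V := by intro x; rw [hLdef]; exact Iff.rfl
  let ρ : L →* V :=
    { toFun := fun x => ⟨π x, (hLV x).1 x.2⟩
      map_one' := Subtype.ext (map_one π)
      map_mul' := fun x y => Subtype.ext (map_mul π (x : G) (y : G)) }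
  have hρ : Function.Surjective ρ := by
    rintro ⟨y, hy⟩
    obtain ⟨x, rfl⟩ := hπ y
    exact ⟨⟨x, (hLV x).2 hy⟩, rfl⟩
  let Φ : (V →* ℂˣ) →* (L →* ℂˣ) := MonoidHom.compHom' ρ
  have hΦ : ∀ (l : V →* ℂˣ) (x : L), Φ l x = l (ρ x) := fun l x => rfl
  have hΦinj : Function.Injective Φ := by
    intro l l' h
    ext y
    obtain ⟨x, rfl⟩ := hρ y
    have := DFunLike.congr_fun h x
    rw [hΦ, hΦ] at this
    rw [this]
  have hconj : ∀ (g : G) (l : V →* ℂˣ), cjh L g (Φ l) = Φ (cjh V (π g) l) := by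
    intro g l
    ext x
    rw [cjh_apply, hΦ, hΦ, cjh_apply]
    congr 2
    apply Subtype.ext
    change π (g * x * g⁻¹) = π g * π x * (π g)⁻¹
    rw [map_mul, map_mul, map_inv]
  have hcardV : ∃ c : ℕ, Nat.card V = r ^ c := (IsPGroup.iff_card (p := r)).1 hVr
  obtain ⟨c, hc⟩ := hcardV
  have hc0 : c ≠ 0 := by
    rintro rfl
    rw [pow_zero] at hc
    exact hVne (Subgroup.card_eq_one.1 hc)
  have hrL : r ∣ Nat.card L := by
    have h1 : Nat.card V ∣ Nat.card L := Subgroup.card_dvd_of_surjective ρ hρ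
    rw [hc] at h1
    exact (dvd_pow_self r hc0).trans h1
  -- properties of the group of linear characters
  have hΛ1 : ∃ l ∈ Φ.range, l ≠ 1 := by
    obtain ⟨x, hx1⟩ := Subgroup.ne_bot_iff_exists_ne_one.1 hVne
    have h1 : commutator V = ⊥ := by
      rw [commutator_eq_bot_iff_center_eq_top, Subgroup.eq_top_iff']
      intro y
      rw [Subgroup.mem_center_iff]
      intro z
      exact Subtype.ext (hVab z z.2 y y.2)
    obtain ⟨l, hl⟩ := exists_hom_ne_one (g := x) (by rw [h1, Subgroup.mem_bot]; exact hx1)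
    refine ⟨Φ l, ⟨l, rfl⟩, ?_⟩
    intro h
    apply hl
    obtain ⟨y, rfl⟩ := hρ x
    have := DFunLike.congr_fun h y
    rw [hΦ] at this
    exact this
  have hΛst : ∀ g : G, ∀ l ∈ Φ.range, cjh L g l ∈ Φ.range := by
    rintro g _ ⟨l, rfl⟩
    exact ⟨cjh V (π g) l, (hconj g l).symm⟩
  have hΛfix : ∀ g : G, g ∉ L → ∀ l ∈ Φ.range, cjh L g l = l → l = 1 := by
    rintro g hg _ ⟨l, rfl⟩ h
    rw [hconj] at h
    have h1 := dual_free V hVab (π g) (hfree (π g) (fun h => hg ((hLV g).2 h))) l (hΦinj h)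
    rw [h1, map_one]
  have hΛr : ∀ l ∈ Φ.range, ∃ k : ℕ, orderOf l ∣ r ^ k := by
    rintro _ ⟨l, rfl⟩
    refine ⟨c, ?_⟩
    apply orderOf_dvd_of_pow_eq_one
    rw [← map_pow]
    have : l ^ r ^ c = 1 := by
      ext y
      rw [MonoidHom.pow_apply, ← map_pow, ← hc, pow_card_eq_one', map_one]
      rfl
    rw [this, map_one]
  have hLi1 : L.index ≠ 1 := by
    rw [hLidx]
    intro h
    rw [Subgroup.index_eq_one] at h
    haveI : Nontrivial (G ⧸ K) := by
      rw [← not_subsingleton_iff_nontrivial]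
      intro hs
      exact hVne (Subsingleton.elim _ _)
    have h1 := Group.IsSolvable.commutator_lt_top_of_nontrivial (G ⧸ K)
    rw [← hVdef, h] at h1
    exact lt_irrefl _ h1
  -- `L.index` is a character degree
  have hfdeg : ∃ χ : IrrCharacter G, charDegree χ.1 = L.index := by
    obtain ⟨χ, hχ⟩ := lemY2 L Φ.range hΛ1 hΛst hΛfix ⟨_, isIrrCharacter_one⟩ (fun l _ => by
      have h1 : charDegree (fun _ : L => (1 : ℂ)) = 1 := charDegree_eq_of (by simp)
      change (orderOf l).Coprime (charDegree (fun _ : L => (1 : ℂ)))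
      rw [h1]; exact Nat.coprime_one_right _)
    refine ⟨χ, ?_⟩
    rw [hχ]
    have h1 : charDegree (fun _ : L => (1 : ℂ)) = 1 := charDegree_eq_of (by simp)
    change L.index * charDegree (fun _ : L => (1 : ℂ)) = _
    rw [h1, mul_one]
  obtain ⟨χf, hχf⟩ := hfdeg
  have hrf : ¬ r ∣ L.index := by rw [hLidx]; exact hri
  rcases hcd χf with h1 | h1 | h1
  · exact hLi1 (hχf.symm.trans h1)
  · exact caseII hr hq (f := L.index) (h := b) (by rw [← hχf, h1]; exact hcd) L rfl hcL hrf hrL Φ.range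
      hΛ1 hΛst hΛfix hΛr hW hmin hWab hWq
  · exact caseII hr hq (f := L.index) (h := a) (by
      rw [← hχf, h1]
      intro χ
      rcases hcd χ with h | h | h
      · exact Or.inl h
      · exact Or.inr (Or.inr h)
      · exact Or.inr (Or.inl h)) L rfl hcL hrf hrL Φ.range
      hΛ1 hΛst hΛfix hΛr hW hmin hWab hWq

end H77.ThreeF
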